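import Mathlib
import Cfsg.Prelude.Def_Classical

set_option autoImplicit false
set_option linter.style.haveILetI false
set_option linter.unusedSectionVars false

/-!
Foundation for S2460: four-dimensional symplectic spaces, tame Lagrangians, frames, and the
concrete group `Sp4 F = Matrix.symplecticGroup (Fin 2) F`.
-/

namespace Cfsg.Agent.Lib.Helper49.Sp4T

section abstract

variable {F : Type*} [Field F] {V : Type*} [AddCommGroup V] [Module F V]

/-- a nondegenerate alternating form on a four-dimensional space -/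
structure Symp (ω : LinearMap.BilinForm F V) : Prop where
  alt : ∀ x, ω x x = 0
  nondeg : ∀ x, (∀ y, ω x y = 0) → x = 0
  dim : Module.finrank F V = 4

/-- `g` preserves `ω` -/
def Isom (ω : LinearMap.BilinForm F V) (g : V ≃ₗ[F] V) : Prop :=
  ∀ x y, ω (g x) (g y) = ω x y

/-- the map `v ↦ g v + g⁻¹ v` -/
def hh (g : V ≃ₗ[F] V) (v : V) : V := g v + g.symm v

/-- a Lagrangian plane `⟨v1, v2⟩` with `(g - ε) ⟨v1, v2⟩` totally isotropic and `g = ε` on
`⟨v1, v2⟩ ∩ g⁻¹ ⟨v1, v2⟩` -/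
def TameE (ω : LinearMap.BilinForm F V) (g : V ≃ₗ[F] V) (ε : F) : Prop :=
  ∃ v1 v2 : V, LinearIndependent F ![v1, v2] ∧ ω v1 v2 = 0 ∧
    ω (g v1) v2 + ω v1 (g v2) = 0 ∧
    ∀ a b : F, g (a • v1 + b • v2) ∈ Submodule.span F {v1, v2} →
      g (a • v1 + b • v2) = ε • (a • v1 + b • v2)

/-- a symplectic frame: `ω(w_i, v_j) = δ_ij`, `⟨v1, v2⟩` and `⟨w1, w2⟩` totally isotropic -/
def Frame (ω : LinearMap.BilinForm F V) (v1 v2 w1 w2 : V) : Prop :=
  ω v1 v2 = 0 ∧ ω w1 w2 = 0 ∧ ω w1 v1 = 1 ∧ ω w2 v2 = 1 ∧ ω w1 v2 = 0 ∧ ω w2 v1 = 0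

theorem Symp.swap {ω : LinearMap.BilinForm F V} (hω : Symp ω) (x y : V) :
    ω x y = -ω y x := by
  have h := hω.alt (x + y)
  simp only [map_add, LinearMap.add_apply, hω.alt x, hω.alt y] at h
  linear_combination h

theorem Isom.symm_left {ω : LinearMap.BilinForm F V} {g : V ≃ₗ[F] V} (hg : Isom ω g) (x y : V) :
    ω (g.symm x) y = ω x (g y) := by
  have h := hg (g.symm x) y
  rw [LinearEquiv.apply_symm_apply] at h
  exact h.symm

theorem Isom.symm_right {ω : LinearMap.BilinForm F V} {g : V ≃ₗ[F] V} (hg : Isom ω g) (x y : V) :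
    ω x (g.symm y) = ω (g x) y := by
  have h := hg x (g.symm y)
  rw [LinearEquiv.apply_symm_apply] at h
  exact h.symm

/-- `ω(h x, y) = ω(g x, y) + ω(x, g y)` -/
theorem Isom.hh_left {ω : LinearMap.BilinForm F V} {g : V ≃ₗ[F] V} (hg : Isom ω g) (x y : V) :
    ω (hh g x) y = ω (g x) y + ω x (g y) := by
  unfold hh
  rw [map_add, LinearMap.add_apply, hg.symm_left]

/-- `h` is self-adjoint -/
theorem Isom.hh_adj {ω : LinearMap.BilinForm F V} {g : V ≃ₗ[F] V} (hg : Isom ω g) (x y : V) :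
    ω (hh g x) y = ω x (hh g y) := by
  unfold hh
  rw [map_add, LinearMap.add_apply, map_add, hg.symm_left, hg.symm_right]
  ring

/-- `ω(h x, x) = 0` (also in characteristic two) -/
theorem Isom.hh_alt {ω : LinearMap.BilinForm F V} {g : V ≃ₗ[F] V} (hω : Symp ω) (hg : Isom ω g)
    (x : V) : ω (hh g x) x = 0 := by
  rw [hg.hh_left, hω.swap (g x) x]
  ring

theorem hh_comm (g : V ≃ₗ[F] V) (v : V) : hh g (g v) = g (hh g v) := by
  unfold hh
  rw [map_add, LinearEquiv.symm_apply_apply, LinearEquiv.apply_symm_apply]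

theorem hh_add (g : V ≃ₗ[F] V) (v w : V) : hh g (v + w) = hh g v + hh g w := by
  unfold hh
  rw [map_add, map_add]
  abel

theorem hh_smul (g : V ≃ₗ[F] V) (c : F) (v : V) : hh g (c • v) = c • hh g v := by
  unfold hh
  rw [map_smul, map_smul, smul_add]

end abstract

section concrete

open Matrix

variable {F : Type*} [Field F]

/-- the vector space `F^4` -/
abbrev V4 (F : Type*) : Type _ := Fin 2 ⊕ Fin 2 → F

/-- `2 × 2` matrices -/
abbrev M2 (F : Type*) : Type _ := Matrix (Fin 2) (Fin 2) F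

/-- `4 × 4` matrices in block form -/
abbrev M4 (F : Type*) : Type _ := Matrix (Fin 2 ⊕ Fin 2) (Fin 2 ⊕ Fin 2) F

/-- the symplectic group -/
abbrev Sp4 (F : Type*) [Field F] : Type _ := Matrix.symplecticGroup (Fin 2) F

/-- the standard alternating form `Om x y = x ⬝ᵥ J *ᵥ y` -/
noncomputable def Om (F : Type*) [Field F] : LinearMap.BilinForm F (V4 F) :=
  Matrix.toBilin' (Matrix.J (Fin 2) F)

theorem Om_apply (x y : V4 F) : Om F x y = x ⬝ᵥ (Matrix.J (Fin 2) F) *ᵥ y := by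
  unfold Om
  rw [Matrix.toBilin'_apply']

theorem Om_apply' (x y : V4 F) :
    Om F x y = -(x (Sum.inl 0) * y (Sum.inr 0)) - x (Sum.inl 1) * y (Sum.inr 1)
      + x (Sum.inr 0) * y (Sum.inl 0) + x (Sum.inr 1) * y (Sum.inl 1) := by
  rw [Om_apply]
  simp [dotProduct, Matrix.mulVec, Matrix.J, Fintype.sum_sum_type, Fin.sum_univ_two,
    Matrix.fromBlocks, Matrix.one_apply]
  ring

theorem symp_Om : Symp (Om F) where
  alt := by
    intro x
    rw [Om_apply']
    ring
  nondeg := by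
    intro x hx
    have h1 := hx (Pi.single (Sum.inr 0) 1)
    have h2 := hx (Pi.single (Sum.inr 1) 1)
    have h3 := hx (Pi.single (Sum.inl 0) 1)
    have h4 := hx (Pi.single (Sum.inl 1) 1)
    rw [Om_apply'] at h1 h2 h3 h4
    simp at h1 h2 h3 h4
    funext i
    rcases i with i | i <;> fin_cases i <;> simp_all
  dim := by
    simp

/-- the linear equivalence of a symplectic matrix -/
noncomputable def lin (G : Sp4 F) : V4 F ≃ₗ[F] V4 F :=
  LinearEquiv.ofLinearMap (Matrix.mulVecLin (G : M4 F)) (Matrix.mulVecLin ((G⁻¹ : Sp4 F) : M4 F))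
    (by
      apply LinearMap.ext
      intro v
      have h : (G : M4 F) * ((G⁻¹ : Sp4 F) : M4 F) = 1 := by
        have := congrArg (fun z : Sp4 F => (z : M4 F)) (mul_inv_cancel G)
        exact this
      simp [Matrix.mulVec_mulVec, h])
    (by
      apply LinearMap.ext
      intro v
      have h : ((G⁻¹ : Sp4 F) : M4 F) * (G : M4 F) = 1 := by
        have := congrArg (fun z : Sp4 F => (z : M4 F)) (inv_mul_cancel G)
        exact this
      simp [Matrix.mulVec_mulVec, h])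

theorem lin_apply (G : Sp4 F) (v : V4 F) : lin G v = (G : M4 F) *ᵥ v := rfl

theorem lin_symm_apply (G : Sp4 F) (v : V4 F) :
    (lin G).symm v = ((G⁻¹ : Sp4 F) : M4 F) *ᵥ v := rfl

theorem isom_lin (G : Sp4 F) : Isom (Om F) (lin G) := by
  intro x y
  have h : (G : M4 F)ᵀ * Matrix.J (Fin 2) F * (G : M4 F) = Matrix.J (Fin 2) F :=
    SymplecticGroup.mem_iff'.mp G.2
  rw [lin_apply, lin_apply, Om_apply, Om_apply, Matrix.mulVec_mulVec, Matrix.dotProduct_mulVec,
    Matrix.vecMul_mulVec, ← Matrix.dotProduct_mulVec, ← Matrix.mul_assoc, h]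

/-- the block-diagonal matrix `diag(A, A⁻ᵀ)` -/
noncomputable def sMat (A : M2 F) : M4 F := Matrix.fromBlocks A 0 0 (A⁻¹)ᵀ

/-- the companion matrix of `X² - s X + n` -/
def comp (s n : F) : M2 F := !![0, -n; 1, s]

/-- the involution `diag(-1, 1 | -1, 1)` -/
def tMat (F : Type*) [Field F] : M4 F :=
  Matrix.fromBlocks (Matrix.diagonal ![-1, 1]) 0 0 (Matrix.diagonal ![-1, 1])

/-- hypotheses on the Levi block `A` -/
def Good (A : M2 F) : Prop :=
  IsUnit A.det ∧ (∀ W : M2 F, Wᵀ = W → Aᵀ * W * A = W → W = 0) ∧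
    (∀ W : M2 F, Wᵀ = W → A * W * Aᵀ = W → W = 0) ∧
    ∃ B : M2 F, IsUnit B.det ∧ B * A = Aᵀ * B

/-- the central element `-1` -/
def negOne (F : Type*) [Field F] : Sp4 F := ⟨-1, SymplecticGroup.neg_mem (one_mem _)⟩

end concrete

end Cfsg.Agent.Lib.Helper49.Sp4T
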