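import Mathlib
import Cfsg.Agent.Lib.Helper18.LSDefs

/-!
# Project LS (helper18, S2333), piece CONJ
-/

set_option autoImplicit false

namespace Cfsg.Agent.Lib.Helper18.LS

open Matrix

universe u

variable {F : Type u} [Field F] {n : ℕ}

theorem conj_isSymm (A : Matrix (Fin n) (Fin n) F) {S : Matrix (Fin n) (Fin n) F}
    (hS : S.IsSymm) : (A * S * Aᵀ).IsSymm := by
  unfold Matrix.IsSymm
  rw [transpose_mul, transpose_mul, transpose_transpose, hS.eq, Matrix.mul_assoc]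

theorem dG_mul_uS (g : GL (Fin n) F) {S : Matrix (Fin n) (Fin n) F} (hS : S.IsSymm) :
    dG g * uS S =
      uS ((g : Matrix (Fin n) (Fin n) F) * S * (g : Matrix (Fin n) (Fin n) F)ᵀ) * dG g := by
  apply Subtype.ext
  have h1 : ((dG g * uS S : symplecticGroup (Fin n) F) :
      Matrix (Fin n ⊕ Fin n) (Fin n ⊕ Fin n) F) =
      ((dG g : symplecticGroup (Fin n) F) : Matrix (Fin n ⊕ Fin n) (Fin n ⊕ Fin n) F) *
        ((uS S : symplecticGroup (Fin n) F) : Matrix (Fin n ⊕ Fin n) (Fin n ⊕ Fin n) F) := rfl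
  have h2 : ((uS ((g : Matrix (Fin n) (Fin n) F) * S * (g : Matrix (Fin n) (Fin n) F)ᵀ) * dG g :
      symplecticGroup (Fin n) F) : Matrix (Fin n ⊕ Fin n) (Fin n ⊕ Fin n) F) =
      ((uS ((g : Matrix (Fin n) (Fin n) F) * S * (g : Matrix (Fin n) (Fin n) F)ᵀ) :
        symplecticGroup (Fin n) F) : Matrix (Fin n ⊕ Fin n) (Fin n ⊕ Fin n) F) *
        ((dG g : symplecticGroup (Fin n) F) : Matrix (Fin n ⊕ Fin n) (Fin n ⊕ Fin n) F) := rfl
  rw [h1, h2, dG_coe, uS_coe hS, uS_coe (conj_isSymm _ hS), fromBlocks_multiply,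
    fromBlocks_multiply]
  have e : (g : Matrix (Fin n) (Fin n) F) * S * (g : Matrix (Fin n) (Fin n) F)ᵀ *
      ((g⁻¹ : GL (Fin n) F) : Matrix (Fin n) (Fin n) F)ᵀ = (g : Matrix (Fin n) (Fin n) F) * S := by
    rw [Matrix.mul_assoc, ← transpose_mul]
    have : ((g⁻¹ : GL (Fin n) F) : Matrix (Fin n) (Fin n) F) * (g : Matrix (Fin n) (Fin n) F) = 1 := by
      rw [← Matrix.GeneralLinearGroup.coe_mul, inv_mul_cancel]
      rfl
    rw [this, transpose_one, Matrix.mul_one]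
  simp only [Matrix.mul_one, Matrix.mul_zero, Matrix.zero_mul, Matrix.one_mul, add_zero, zero_add, e]

end Cfsg.Agent.Lib.Helper18.LS
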