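import Mathlib
import Cfsg.Agent.Lib.Helper18.LSDefs

/-!
# Project LS (helper18, S2333), piece EXPAND
-/

set_option autoImplicit false

namespace Cfsg.Agent.Lib.Helper18.LS

open Matrix

universe u

variable {F : Type u} [Field F] {n : ℕ}

theorem expand [CharP F 2] (M : Matrix (Fin n) (Fin n) F) (u₀ v₀ : Fin n → F)
    (h : bl M u₀ v₀ = 1) (w w' : Fin n → F) (hw : w ∈ Wperp M u₀ v₀)
    (hw' : w' ∈ Wperp M u₀ v₀) (a c a' c' : F) :
    qf M (a • u₀ + c • v₀ + w) = f2 (qf M u₀) (qf M v₀) (a, c) + qf M w ∧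
      bl M (a • u₀ + c • v₀ + w) (a' • u₀ + c' • v₀ + w') = a * c' + a' * c + bl M w w' := by
  have hw1 : bl M w u₀ = 0 := hw.1
  have hw2 : bl M w v₀ = 0 := hw.2
  have hw1' : bl M w' u₀ = 0 := hw'.1
  have hw2' : bl M w' v₀ = 0 := hw'.2
  have h' : bl M v₀ u₀ = 1 := by
    rw [bl_comm]
    exact h
  have e1 : bl M u₀ w = 0 := by
    rw [bl_comm]
    exact hw1
  have e2 : bl M v₀ w = 0 := by
    rw [bl_comm]
    exact hw2
  have e1' : bl M u₀ w' = 0 := by
    rw [bl_comm]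
    exact hw1'
  have e2' : bl M v₀ w' = 0 := by
    rw [bl_comm]
    exact hw2'
  have s1 : bl M u₀ u₀ = 0 := bl_self M u₀
  have s2 : bl M v₀ v₀ = 0 := bl_self M v₀
  constructor
  · rw [qf_add, qf_add, qf_smul, qf_smul]
    simp only [bl_add_left, bl_smul_left, bl_smul_right, e1, e2, h]
    unfold f2
    ring
  · simp only [bl_add_left, bl_add_right, bl_smul_left, bl_smul_right, s1, s2, h, h',
      e1', e2', hw1, hw2]
    ring

end Cfsg.Agent.Lib.Helper18.LS
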