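import Mathlib
import Cfsg.Prelude.Def_Classical
import Cfsg.Agent.Lib.Helper18.UEDefs
import Cfsg.Agent.Lib.Helper18.UODefs

/-!
# S2334 (project UO of helper18), piece MEMX: the Heisenberg elements lie in the model group
-/

set_option autoImplicit false
set_option linter.unusedSimpArgs false

namespace Cfsg.Agent.Lib.Helper18.UE

open Matrix

universe u

variable {F : Type u} [Field F] {m : ℕ}

-- piece MEMX
theorem xB3_mem (σ : F →+* F) (hσ : ∀ x, σ (σ x) = x) (β η : F) (hβ : σ β = -β)
    (hη : η + σ η = 1) (a : Fin m → F) : xB3 σ β η a ∈ GJg σ (J3 m β) := by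
  rw [mem_GJg]
  constructor
  · ext i j
    rcases i with (i | i) | i <;> rcases j with (j | j) | j
    · simp [Matrix.mul_apply, Fintype.sum_sum_type, xB3, J3, uB, Jb, colA, rowA, outer,
        Matrix.one_apply]
    · simp [Matrix.mul_apply, Fintype.sum_sum_type, xB3, J3, uB, Jb, colA, rowA, outer,
        Matrix.one_apply]
    · simp [Matrix.mul_apply, Fintype.sum_sum_type, xB3, J3, uB, Jb, colA, rowA, outer,
        Matrix.one_apply]
    · simp [Matrix.mul_apply, Fintype.sum_sum_type, xB3, J3, uB, Jb, colA, rowA, outer,
        Matrix.one_apply]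
    · simp [Matrix.mul_apply, Fintype.sum_sum_type, xB3, J3, uB, Jb, colA, rowA, outer,
        Matrix.one_apply]
      have h1 : σ η = 1 - η := by linear_combination hη
      rw [hσ, hβ, h1]
      ring
    · have hj : j = 0 := Subsingleton.elim _ _
      subst hj
      simp [Matrix.mul_apply, Fintype.sum_sum_type, xB3, J3, uB, Jb, colA, rowA, outer,
        Matrix.one_apply]
    · simp [Matrix.mul_apply, Fintype.sum_sum_type, xB3, J3, uB, Jb, colA, rowA, outer,
        Matrix.one_apply]
    · have hi : i = 0 := Subsingleton.elim _ _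
      subst hi
      simp [Matrix.mul_apply, Fintype.sum_sum_type, xB3, J3, uB, Jb, colA, rowA, outer,
        Matrix.one_apply]
      rw [hσ, hβ]
      ring
    · have hi : i = 0 := Subsingleton.elim _ _
      have hj : j = 0 := Subsingleton.elim _ _
      subst hi
      subst hj
      simp [Matrix.mul_apply, Fintype.sum_sum_type, xB3, J3, uB, Jb, colA, rowA, outer,
        Matrix.one_apply]
  · unfold xB3
    have hinv : Invertible (1 : Matrix (Fin 1) (Fin 1) F) := invertibleOne
    rw [Matrix.det_fromBlocks₂₂, det_one, one_mul, invOf_one, Matrix.mul_one]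
    have h : uB ((η * β) • outer σ a a) - colA a * rowA σ β a =
        fromBlocks 1 ((η * β) • outer σ a a - β • outer σ a a) 0 1 := by
      ext i j
      rcases i with i | i <;> rcases j with j | j
      · simp [Matrix.mul_apply, uB, colA, rowA, outer]
      · simp [Matrix.mul_apply, uB, colA, rowA, outer]
        ring
      · simp [Matrix.mul_apply, uB, colA, rowA, outer]
      · simp [Matrix.mul_apply, uB, colA, rowA, outer]
    rw [h, Matrix.det_fromBlocks_zero₂₁, det_one, one_mul]

end Cfsg.Agent.Lib.Helper18.UE
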