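import Mathlib

set_option autoImplicit false

namespace Cfsg.Agent.Lib.Helper49

open Equiv

/-- The largest product of a family of positive integers with given sum. -/
def maxProd : ℕ → ℕ
  | 0 => 1
  | 1 => 1
  | 2 => 2
  | 3 => 3
  | 4 => 4
  | (n + 5) => 3 * maxProd (n + 2)

theorem maxProd_add_three (n : ℕ) (hn : 2 ≤ n) : maxProd (n + 3) = 3 * maxProd n := by
  obtain ⟨m, rfl⟩ := Nat.exists_eq_add_of_le hn
  rw [show 2 + m + 3 = m + 5 by ring, show 2 + m = m + 2 by ring, maxProd]

theorem maxProd_pos (n : ℕ) : 0 < maxProd n := by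
  induction n using maxProd.induct with
  | case1 => decide
  | case2 => decide
  | case3 => decide
  | case4 => decide
  | case5 => decide
  | case6 n ih => rw [maxProd]; omega

theorem maxProd_mono_succ (n : ℕ) : maxProd n ≤ maxProd (n + 1) := by
  induction n using maxProd.induct with
  | case1 => decide
  | case2 => decide
  | case3 => decide
  | case4 => decide
  | case5 => decide
  | case6 n ih =>
    rw [show n + 5 + 1 = (n + 1) + 5 by ring, maxProd, maxProd]
    rw [show n + 1 + 2 = n + 2 + 1 by ring]
    omega

theorem two_mul_maxProd_le (n : ℕ) : 2 * maxProd n ≤ maxProd (n + 2) := by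
  induction n using maxProd.induct with
  | case1 => decide
  | case2 => decide
  | case3 => decide
  | case4 => decide
  | case5 => decide
  | case6 n ih =>
    rw [show n + 5 + 2 = (n + 2) + 5 by ring, maxProd, maxProd]
    omega

theorem three_mul_maxProd_le (n : ℕ) : 3 * maxProd n ≤ maxProd (n + 3) := by
  rcases Nat.lt_or_ge n 2 with h | h
  · interval_cases n <;> decide
  · rw [maxProd_add_three n h]

theorem mul_maxProd_le (a b : ℕ) (ha : 1 ≤ a) : a * maxProd b ≤ maxProd (a + b) := by
  induction a using Nat.strong_induction_on generalizing b with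
  | _ a ih =>
    rcases Nat.lt_or_ge a 5 with h5 | h5
    · interval_cases a
      · rw [one_mul, add_comm]; exact maxProd_mono_succ b
      · rw [add_comm]; exact two_mul_maxProd_le b
      · rw [add_comm]; exact three_mul_maxProd_le b
      · have h1 := two_mul_maxProd_le b
        have h2 := two_mul_maxProd_le (b + 2)
        rw [show 4 + b = b + 2 + 2 by ring]
        omega
    · have h1 := ih (a - 3) (by omega) b (by omega)
      have h2 := three_mul_maxProd_le (a - 3 + b)
      rw [show a + b = a - 3 + b + 3 by omega]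
      have h3 : a * maxProd b ≤ 3 * ((a - 3) * maxProd b) := by
        rw [← mul_assoc]
        exact Nat.mul_le_mul_right _ (by omega)
      omega

theorem prod_le_maxProd {ι : Type*} (s : Finset ι) (f : ι → ℕ) (hf : ∀ i ∈ s, 1 ≤ f i) :
    ∏ i ∈ s, f i ≤ maxProd (∑ i ∈ s, f i) := by
  classical
  induction s using Finset.induction_on with
  | empty => simp [maxProd]
  | insert a s ha ih =>
    rw [Finset.prod_insert ha, Finset.sum_insert ha]
    have h1 := ih (fun i hi => hf i (Finset.mem_insert_of_mem hi))
    have h2 := mul_maxProd_le (f a) (∑ i ∈ s, f i) (hf a (Finset.mem_insert_self a s))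
    exact le_trans (Nat.mul_le_mul_left _ h1) h2

theorem maxProd_three_mul (k : ℕ) : maxProd (3 * k) = 3 ^ k := by
  induction k with
  | zero => rfl
  | succ k ih =>
    rcases Nat.eq_zero_or_pos k with h | h
    · subst h; rfl
    · rw [show 3 * (k + 1) = 3 * k + 3 by ring, maxProd_add_three _ (by omega), ih, pow_succ]
      ring

theorem maxProd_three_mul_add_one (k : ℕ) : maxProd (3 * (k + 1) + 1) = 4 * 3 ^ k := by
  induction k with
  | zero => rfl
  | succ k ih =>
    rw [show 3 * (k + 1 + 1) + 1 = 3 * (k + 1) + 1 + 3 by ring, maxProd_add_three _ (by omega), ih,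
      pow_succ]
    ring

theorem maxProd_three_mul_add_two (k : ℕ) : maxProd (3 * k + 2) = 2 * 3 ^ k := by
  induction k with
  | zero => rfl
  | succ k ih =>
    rw [show 3 * (k + 1) + 2 = 3 * k + 2 + 3 by ring, maxProd_add_three _ (by omega), ih,
      pow_succ]
    ring

section orbits

variable {α : Type*} [Fintype α] [DecidableEq α]

omit [Fintype α] [DecidableEq α] in
/-- An abelian permutation group is determined by its action on orbit representatives. -/
theorem abel_orbit_map_injective (A : Subgroup (Perm α)) [hA : IsMulCommutative A] :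
    Function.Injective (fun (a : A) (ω : MulAction.orbitRel.Quotient A α) =>
      (⟨a • ω.out, MulAction.mem_orbit _ _⟩ : MulAction.orbit A ω.out)) := by
  intro a b hab
  apply Subtype.ext
  apply Equiv.ext
  intro y
  have h1 : ∀ ω : MulAction.orbitRel.Quotient A α, a • ω.out = b • ω.out := by
    intro ω
    have := congrFun hab ω
    exact congrArg Subtype.val this
  let ω : MulAction.orbitRel.Quotient A α := Quotient.mk'' y
  have h2 : y ∈ MulAction.orbit A ω.out := by
    have : (MulAction.orbitRel A α).r ω.out y := Quotient.exact' (Quotient.out_eq' ω)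
    rw [MulAction.orbitRel_apply] at this
    exact MulAction.mem_orbit_symm.mp this
  obtain ⟨c, hc⟩ := h2
  have hc' : (c : Perm α) ω.out = y := hc
  have ha : (a : Perm α) ω.out = (b : Perm α) ω.out := h1 ω
  have hac : (a : Perm α) * (c : Perm α) = (c : Perm α) * (a : Perm α) := setLike_mul_comm a.2 c.2
  have hbc : (b : Perm α) * (c : Perm α) = (c : Perm α) * (b : Perm α) := setLike_mul_comm b.2 c.2
  rw [← hc']
  calc (a : Perm α) ((c : Perm α) ω.out) = ((a : Perm α) * (c : Perm α)) ω.out := rfl
    _ = ((c : Perm α) * (a : Perm α)) ω.out := by rw [hac]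
    _ = (c : Perm α) ((a : Perm α) ω.out) := rfl
    _ = (c : Perm α) ((b : Perm α) ω.out) := by rw [ha]
    _ = ((c : Perm α) * (b : Perm α)) ω.out := rfl
    _ = ((b : Perm α) * (c : Perm α)) ω.out := by rw [hbc]
    _ = (b : Perm α) ((c : Perm α) ω.out) := rfl

omit [DecidableEq α] in
theorem abel_card_le_prod_orbits (A : Subgroup (Perm α)) [hA : IsMulCommutative A]
    [Fintype (MulAction.orbitRel.Quotient A α)] :
    Nat.card A ≤ ∏ ω : MulAction.orbitRel.Quotient A α, Nat.card (MulAction.orbit A ω.out) := by
  rw [← Nat.card_pi]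
  exact Nat.card_le_card_of_injective _ (abel_orbit_map_injective A)

omit [DecidableEq α] in
theorem sum_card_orbits (A : Subgroup (Perm α)) [Fintype (MulAction.orbitRel.Quotient A α)] :
    ∑ ω : MulAction.orbitRel.Quotient A α, Nat.card (MulAction.orbit A ω.out) = Fintype.card α := by
  rw [← Nat.card_sigma, ← Nat.card_eq_fintype_card]
  exact (Nat.card_congr (MulAction.selfEquivSigmaOrbits A α)).symm

omit [DecidableEq α] in
theorem abel_card_le_maxProd (A : Subgroup (Perm α)) [hA : IsMulCommutative A] :
    Nat.card A ≤ maxProd (Fintype.card α) := by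
  classical
  letI : Fintype (MulAction.orbitRel.Quotient A α) := Fintype.ofFinite _
  have h1 := abel_card_le_prod_orbits A
  have h2 := sum_card_orbits A
  have h3 := prod_le_maxProd (Finset.univ : Finset (MulAction.orbitRel.Quotient A α))
    (fun ω => Nat.card (MulAction.orbit A ω.out)) (fun ω _ => by
      have : Nonempty (MulAction.orbit A ω.out) := ⟨⟨ω.out, MulAction.mem_orbit_self _⟩⟩
      exact Nat.card_pos)
  rw [h2] at h3
  exact le_trans h1 h3

end orbits

/-- An abelian group of permutations of `Fin n` with prescribed orbit sizes, of order their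
product. -/
theorem exists_abel_of_parts (r : ℕ) (m : Fin r → ℕ) (hm : ∀ i, 0 < m i) (n : ℕ)
    (hn : ∑ i, m i = n) :
    ∃ (f : (∀ i, Multiplicative (ZMod (m i))) →* Perm (Fin n)), Function.Injective f ∧
      Nat.card (∀ i, Multiplicative (ZMod (m i))) = ∏ i, m i := by
  classical
  have hne : ∀ i, NeZero (m i) := fun i => ⟨(hm i).ne'⟩
  let Mi : Fin r → Type := fun i => Multiplicative (ZMod (m i))
  have hMi : ∀ i, Nat.card (Mi i) = m i := by
    intro i
    show Nat.card (Multiplicative (ZMod (m i))) = m i
    rw [Nat.card_congr Multiplicative.toAdd, Nat.card_zmod]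
  have hfin : ∀ i, Finite (Mi i) := fun i =>
    Nat.finite_of_card_ne_zero (by rw [hMi i]; exact (hm i).ne')
  letI : ∀ i, Fintype (Mi i) := fun i => Fintype.ofFinite _
  let g : (∀ i, Mi i) →* (∀ i, Perm (Mi i)) :=
    MonoidHom.pi (fun i => (MulAction.toPermHom (Mi i) (Mi i)).comp (Pi.evalMonoidHom Mi i))
  have hg : Function.Injective g := by
    intro c c' h
    funext i
    have h1 : MulAction.toPermHom (Mi i) (Mi i) (c i) = MulAction.toPermHom (Mi i) (Mi i) (c' i) :=
      congrFun h i
    have h2 := congrArg (fun σ : Perm (Mi i) => σ 1) h1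
    simpa using h2
  have hcard : Fintype.card (Σ i, Mi i) = n := by
    rw [← Nat.card_eq_fintype_card, Nat.card_sigma, ← hn]
    exact Finset.sum_congr rfl (fun i _ => hMi i)
  let e : (Σ i, Mi i) ≃ Fin n := Fintype.equivFinOfCardEq hcard
  refine ⟨(e.permCongrHom.toMonoidHom).comp ((Perm.sigmaCongrRightHom Mi).comp g), ?_, ?_⟩
  · intro x y hxy
    apply hg
    apply Perm.sigmaCongrRightHom_injective
    exact e.permCongrHom.injective hxy
  · rw [Nat.card_pi]
    exact Finset.prod_congr rfl (fun i _ => hMi i)

theorem exists_abel_subgroup_of_parts (r : ℕ) (m : Fin r → ℕ) (hm : ∀ i, 0 < m i) (n : ℕ)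
    (hn : ∑ i, m i = n) :
    ∃ A : Subgroup (Perm (Fin n)), IsMulCommutative A ∧ Nat.card A = ∏ i, m i := by
  obtain ⟨f, hf, hcard⟩ := exists_abel_of_parts r m hm n hn
  refine ⟨f.range, inferInstance, ?_⟩
  rw [← hcard]
  exact (Nat.card_congr (MonoidHom.ofInjective hf).toEquiv).symm

end Cfsg.Agent.Lib.Helper49
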