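import Mathlib
import Cfsg.Agent.Lib.Helper49.AbelPerm
import Cfsg.Agent.S2504

set_option autoImplicit false

namespace Cfsg.Agent.Lib.Helper49

open Equiv

/-! ### Partitions with large product -/

theorem sq_lt_two_pow (m : ℕ) (h : 5 ≤ m) : m ^ 2 < 2 ^ m := by
  induction m, h using Nat.le_induction with
  | base => decide
  | succ m hm ih =>
    rw [pow_succ 2 m]
    nlinarith

theorem two_four_of_le (a : ℕ) (h1 : 1 ≤ a) (h3 : a ≠ 3) (h : 2 ^ a ≤ a ^ 2) :
    a = 2 ∨ a = 4 := by
  rcases Nat.lt_or_ge a 5 with h5 | h5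
  · interval_cases a <;> simp_all
  · exact absurd h (not_le.mpr (sq_lt_two_pow a h5))

theorem parts_two_four (s : Multiset ℕ) (hs : ∀ a ∈ s, 1 ≤ a ∧ a ≠ 3)
    (h : 2 ^ s.sum ≤ s.prod ^ 2) : ∀ a ∈ s, a = 2 ∨ a = 4 := by
  induction s using Multiset.induction_on with
  | empty => simp
  | cons a t ih =>
    rw [Multiset.prod_cons, Multiset.sum_cons, mul_pow, pow_add] at h
    have ha := hs a (Multiset.mem_cons_self a t)
    have ht : ∀ b ∈ t, 1 ≤ b ∧ b ≠ 3 := fun b hb => hs b (Multiset.mem_cons_of_mem hb)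
    have h1 := Cfsg.Agent.S2504.sq_le_two_pow a ha.1 ha.2
    have h2 := Cfsg.Agent.S2504.prod_sq_le t ht
    have hpos : 0 < 2 ^ t.sum := by positivity
    have hpos' : 0 < 2 ^ a := by positivity
    have ha2 : 2 ^ a ≤ a ^ 2 := by
      by_contra hcon
      push Not at hcon
      have : a ^ 2 * t.prod ^ 2 < 2 ^ a * 2 ^ t.sum := by
        calc a ^ 2 * t.prod ^ 2 ≤ a ^ 2 * 2 ^ t.sum := Nat.mul_le_mul_left _ h2
          _ < 2 ^ a * 2 ^ t.sum := Nat.mul_lt_mul_of_pos_right hcon hpos
      omega
    have ht2 : 2 ^ t.sum ≤ t.prod ^ 2 := by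
      have : 2 ^ a * 2 ^ t.sum ≤ 2 ^ a * t.prod ^ 2 := le_trans h (Nat.mul_le_mul_right _ h1)
      exact Nat.le_of_mul_le_mul_left this hpos'
    intro b hb
    rcases Multiset.mem_cons.mp hb with rfl | hb
    · exact two_four_of_le b ha.1 ha.2 ha2
    · exact ih ht ht2 b hb

theorem two_four_sum_four (s : Multiset ℕ) (hs : ∀ a ∈ s, a = 2 ∨ a = 4) (hsum : s.sum = 4) :
    s = {4} ∨ s = {2, 2} := by
  by_cases h4 : 4 ∈ s
  · left
    obtain ⟨t, rfl⟩ := Multiset.exists_cons_of_mem h4
    rw [Multiset.sum_cons] at hsum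
    have ht : t = 0 := by
      apply Multiset.eq_zero_of_forall_notMem
      intro a ha
      have h1 := hs a (Multiset.mem_cons_of_mem ha)
      have h2 := Multiset.le_sum_of_mem ha
      omega
    rw [ht]
    rfl
  · right
    have h2 : ∀ a ∈ s, a = 2 := fun a ha => (hs a ha).resolve_right (fun h => h4 (h ▸ ha))
    have hrep : s = Multiset.replicate (Multiset.card s) 2 := Multiset.eq_replicate_card.mpr h2
    rw [hrep, Multiset.sum_replicate, smul_eq_mul] at hsum
    have hc : Multiset.card s = 2 := by omega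
    rw [hrep, hc]
    rfl

theorem two_four_sum_eight (s : Multiset ℕ) (hs : ∀ a ∈ s, a = 2 ∨ a = 4) (hsum : s.sum = 8) :
    s = {4, 4} ∨ s = {4, 2, 2} ∨ s = {2, 2, 2, 2} := by
  by_cases h4 : 4 ∈ s
  · obtain ⟨t, rfl⟩ := Multiset.exists_cons_of_mem h4
    rw [Multiset.sum_cons] at hsum
    rcases two_four_sum_four t (fun a ha => hs a (Multiset.mem_cons_of_mem ha)) (by omega)
      with h | h
    · left
      rw [h]
      rfl
    · right
      left
      rw [h]
      rfl
  · right
    right
    have h2 : ∀ a ∈ s, a = 2 := fun a ha => (hs a ha).resolve_right (fun h => h4 (h ▸ ha))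
    have hrep : s = Multiset.replicate (Multiset.card s) 2 := Multiset.eq_replicate_card.mpr h2
    rw [hrep, Multiset.sum_replicate, smul_eq_mul] at hsum
    have hc : Multiset.card s = 4 := by omega
    rw [hrep, hc]
    rfl

/-- Parts summing to `3k` with product at least `3^k`. -/
theorem parts_case0 (k : ℕ) : ∀ s : Multiset ℕ, (∀ a ∈ s, 1 ≤ a) → s.sum = 3 * k →
    3 ^ k ≤ s.prod → s = Multiset.replicate k 3 := by
  induction k with
  | zero =>
    intro s hs hsum _
    have : s = 0 := by
      apply Multiset.eq_zero_of_forall_notMem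
      intro a ha
      have h1 := hs a ha
      have h2 := Multiset.le_sum_of_mem ha
      omega
    rw [this]
    rfl
  | succ k ih =>
    intro s hs hsum hprod
    by_cases h3 : 3 ∈ s
    · obtain ⟨t, rfl⟩ := Multiset.exists_cons_of_mem h3
      rw [Multiset.sum_cons] at hsum
      rw [Multiset.prod_cons, pow_succ] at hprod
      rw [ih t (fun a ha => hs a (Multiset.mem_cons_of_mem ha)) (by omega) (by omega),
        Multiset.replicate_succ]
    · exfalso
      have h1 := Cfsg.Agent.S2504.prod_sq_le s (fun a ha => ⟨hs a ha, fun h => h3 (h ▸ ha)⟩)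
      rw [hsum] at h1
      have h2 : (3 ^ (k + 1)) ^ 2 ≤ s.prod ^ 2 := Nat.pow_le_pow_left hprod 2
      have e1 : 2 ^ (3 * (k + 1)) = 8 ^ (k + 1) := by rw [pow_mul]; norm_num
      have e2 : (3 ^ (k + 1)) ^ 2 = 9 ^ (k + 1) := by
        rw [← pow_mul, mul_comm, pow_mul]; norm_num
      have h3' : 8 ^ (k + 1) < 9 ^ (k + 1) := Nat.pow_lt_pow_left (by norm_num) (by omega)
      omega

/-- Parts summing to `3k+4` with product at least `4·3^k`. -/
theorem parts_case1 (k : ℕ) : ∀ s : Multiset ℕ, (∀ a ∈ s, 1 ≤ a) → s.sum = 3 * k + 4 →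
    4 * 3 ^ k ≤ s.prod →
    ∃ t : Multiset ℕ, s = t + Multiset.replicate k 3 ∧ (t = {4} ∨ t = {2, 2}) := by
  induction k with
  | zero =>
    intro s hs hsum hprod
    refine ⟨s, by simp, ?_⟩
    by_cases h3 : 3 ∈ s
    · exfalso
      obtain ⟨t, rfl⟩ := Multiset.exists_cons_of_mem h3
      rw [Multiset.sum_cons] at hsum
      rw [Multiset.prod_cons] at hprod
      have h3t : 3 ∉ t := by
        intro h
        have := Multiset.le_sum_of_mem h
        omega
      have h1 := Cfsg.Agent.S2504.prod_sq_le t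
        (fun a ha => ⟨hs a (Multiset.mem_cons_of_mem ha), fun h => h3t (h ▸ ha)⟩)
      have hs1 : t.sum = 1 := by omega
      rw [hs1] at h1
      have h2 : 2 ≤ t.prod := by omega
      nlinarith
    · have hs' : ∀ a ∈ s, 1 ≤ a ∧ a ≠ 3 := fun a ha => ⟨hs a ha, fun h => h3 (h ▸ ha)⟩
      have hp : 4 ≤ s.prod := by
        norm_num at hprod
        exact hprod
      have h2 : 2 ^ s.sum ≤ s.prod ^ 2 := by
        calc 2 ^ s.sum = 16 := by rw [hsum]; norm_num
          _ ≤ s.prod ^ 2 := by nlinarith
      exact two_four_sum_four s (parts_two_four s hs' h2) (by omega)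
  | succ k ih =>
    intro s hs hsum hprod
    by_cases h3 : 3 ∈ s
    · obtain ⟨t, rfl⟩ := Multiset.exists_cons_of_mem h3
      rw [Multiset.sum_cons] at hsum
      rw [Multiset.prod_cons, pow_succ] at hprod
      obtain ⟨u, hu, hu'⟩ := ih t (fun a ha => hs a (Multiset.mem_cons_of_mem ha)) (by omega)
        (by omega)
      refine ⟨u, ?_, hu'⟩
      rw [hu, Multiset.replicate_succ, Multiset.add_cons]
    · exfalso
      have h1 := Cfsg.Agent.S2504.prod_sq_le s (fun a ha => ⟨hs a ha, fun h => h3 (h ▸ ha)⟩)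
      rw [hsum] at h1
      have h2 : (4 * 3 ^ (k + 1)) ^ 2 ≤ s.prod ^ 2 := Nat.pow_le_pow_left hprod 2
      have e1 : 2 ^ (3 * (k + 1) + 4) = 128 * 8 ^ k := by
        rw [show 3 * (k + 1) + 4 = 3 * k + 7 by ring, pow_add, pow_mul]; norm_num; ring
      have e2 : (4 * 3 ^ (k + 1)) ^ 2 = 144 * 9 ^ k := by
        rw [mul_pow, ← pow_mul, show (k + 1) * 2 = 2 * k + 2 by ring, pow_add, pow_mul]
        norm_num
        ring
      have h3' : 8 ^ k ≤ 9 ^ k := Nat.pow_le_pow_left (by norm_num) k
      have hpos : 0 < 9 ^ k := by positivity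
      omega

/-- Parts summing to `3k+8` with product at least `16·3^k`. -/
theorem parts_case2 (k : ℕ) : ∀ s : Multiset ℕ, (∀ a ∈ s, 1 ≤ a) → s.sum = 3 * k + 8 →
    16 * 3 ^ k ≤ s.prod →
    s = 2 ::ₘ Multiset.replicate (k + 2) 3 ∨
    ∃ t : Multiset ℕ, s = t + Multiset.replicate k 3 ∧
      (t = {4, 4} ∨ t = {4, 2, 2} ∨ t = {2, 2, 2, 2}) := by
  induction k with
  | zero =>
    intro s hs hsum hprod
    by_cases h3 : 3 ∈ s
    · left
      obtain ⟨t, rfl⟩ := Multiset.exists_cons_of_mem h3
      rw [Multiset.sum_cons] at hsum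
      rw [Multiset.prod_cons] at hprod
      have ht : ∀ a ∈ t, 1 ≤ a := fun a ha => hs a (Multiset.mem_cons_of_mem ha)
      by_cases h3t : 3 ∈ t
      · obtain ⟨u, rfl⟩ := Multiset.exists_cons_of_mem h3t
        rw [Multiset.sum_cons] at hsum
        rw [Multiset.prod_cons] at hprod
        rcases Cfsg.Agent.S2504.sum_two_case u
          (fun a ha => ht a (Multiset.mem_cons_of_mem ha)) (by omega) with h | h
        · omega
        · rw [h]
          decide
      · exfalso
        have h1 := Cfsg.Agent.S2504.prod_sq_le t (fun a ha => ⟨ht a ha, fun h => h3t (h ▸ ha)⟩)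
        have hs5 : t.sum = 5 := by omega
        rw [hs5] at h1
        have h2 : 6 ≤ t.prod := by omega
        nlinarith
    · right
      refine ⟨s, by simp, ?_⟩
      have hs' : ∀ a ∈ s, 1 ≤ a ∧ a ≠ 3 := fun a ha => ⟨hs a ha, fun h => h3 (h ▸ ha)⟩
      have hp : 16 ≤ s.prod := by
        norm_num at hprod
        exact hprod
      have h2 : 2 ^ s.sum ≤ s.prod ^ 2 := by
        calc 2 ^ s.sum = 256 := by rw [hsum]; norm_num
          _ ≤ s.prod ^ 2 := by nlinarith
      exact two_four_sum_eight s (parts_two_four s hs' h2) (by omega)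
  | succ k ih =>
    intro s hs hsum hprod
    by_cases h3 : 3 ∈ s
    · obtain ⟨t, rfl⟩ := Multiset.exists_cons_of_mem h3
      rw [Multiset.sum_cons] at hsum
      rw [Multiset.prod_cons, pow_succ] at hprod
      rcases ih t (fun a ha => hs a (Multiset.mem_cons_of_mem ha)) (by omega) (by omega)
        with h | ⟨u, hu, hu'⟩
      · left
        rw [h, Multiset.cons_swap, ← Multiset.replicate_succ]
      · right
        refine ⟨u, ?_, hu'⟩
        rw [hu, Multiset.replicate_succ, Multiset.add_cons]
    · exfalso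
      have h1 := Cfsg.Agent.S2504.prod_sq_le s (fun a ha => ⟨hs a ha, fun h => h3 (h ▸ ha)⟩)
      rw [hsum] at h1
      have h2 : (16 * 3 ^ (k + 1)) ^ 2 ≤ s.prod ^ 2 := Nat.pow_le_pow_left hprod 2
      have e1 : 2 ^ (3 * (k + 1) + 8) = 2048 * 8 ^ k := by
        rw [show 3 * (k + 1) + 8 = 3 * k + 11 by ring, pow_add, pow_mul]; norm_num; ring
      have e2 : (16 * 3 ^ (k + 1)) ^ 2 = 2304 * 9 ^ k := by
        rw [mul_pow, ← pow_mul, show (k + 1) * 2 = 2 * k + 2 by ring, pow_add, pow_mul]
        norm_num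
        ring
      have h3' : 8 ^ k ≤ 9 ^ k := Nat.pow_le_pow_left (by norm_num) k
      have hpos : 0 < 9 ^ k := by positivity
      omega

/-! ### Abelian permutation groups -/

theorem perm_comm3 : ∀ σ τ : Perm (Fin 3), (σ = 1 ∨ ∀ x, σ x ≠ x) → (τ = 1 ∨ ∀ x, τ x ≠ x) →
    σ * τ = τ * σ := by
  decide

theorem perm_comm4 : ∀ σ τ : Perm (Fin 4), Perm.sign σ = 1 → Perm.sign τ = 1 →
    (σ = 1 ∨ ∀ x, σ x ≠ x) → (τ = 1 ∨ ∀ x, τ x ≠ x) → σ * τ = τ * σ := by
  decide

section abel

variable {α : Type*} [Fintype α] [DecidableEq α]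

omit [Fintype α] [DecidableEq α] in
theorem abel_fix (A : Subgroup (Perm α)) [IsMulCommutative A] {a : Perm α} (ha : a ∈ A)
    {x y : α} (hx : a x = x) (hy : y ∈ MulAction.orbit A x) : a y = y := by
  obtain ⟨c, rfl⟩ := hy
  have hc : a * (c : Perm α) = (c : Perm α) * a := setLike_mul_comm ha c.2
  show a ((c : Perm α) x) = (c : Perm α) x
  calc a ((c : Perm α) x) = (a * (c : Perm α)) x := rfl
    _ = ((c : Perm α) * a) x := by rw [hc]
    _ = (c : Perm α) x := by rw [Perm.mul_apply, hx]

omit [Fintype α] [DecidableEq α] in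
theorem abel_eq_on (A : Subgroup (Perm α)) [IsMulCommutative A] {a b : Perm α} (ha : a ∈ A)
    (hb : b ∈ A) {x y : α} (hx : a x = b x) (hy : y ∈ MulAction.orbit A x) : a y = b y := by
  have h1 : (b⁻¹ * a) x = x := by simp [Perm.mul_apply, hx]
  have h2 := abel_fix A (A.mul_mem (A.inv_mem hb) ha) h1 hy
  rw [Perm.mul_apply, Perm.inv_eq_iff_eq] at h2
  exact h2

omit [Fintype α] [DecidableEq α] in
theorem mem_orbit_out (A : Subgroup (Perm α)) (y : α) :
    y ∈ MulAction.orbit A (Quotient.mk'' y : MulAction.orbitRel.Quotient A α).out := by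
  have : (MulAction.orbitRel A α).r (Quotient.mk'' y : MulAction.orbitRel.Quotient A α).out y :=
    Quotient.exact' (Quotient.out_eq' _)
  rw [MulAction.orbitRel_apply] at this
  exact MulAction.mem_orbit_symm.mp this

/-- The group contains, for every orbit, elements acting on it in any way permitted by
regularity and trivially elsewhere. -/
def IsFull (A : Subgroup (Perm α)) : Prop :=
  ∀ x y : α, y ∈ MulAction.orbit A x →
    ∃ a ∈ A, a x = y ∧ ∀ z, z ∉ MulAction.orbit A x → a z = z

omit [DecidableEq α] in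
theorem isFull_of_card (A : Subgroup (Perm α)) [IsMulCommutative A]
    (h : Nat.card (∀ ω : MulAction.orbitRel.Quotient A α, MulAction.orbit A ω.out) ≤ Nat.card A) :
    IsFull A := by
  classical
  have hbij := (abel_orbit_map_injective A).bijective_of_nat_card_le h
  intro x y hy
  set ω₀ : MulAction.orbitRel.Quotient A α := Quotient.mk'' x with hω₀
  obtain ⟨d, hd⟩ := hy
  let T : ∀ ω : MulAction.orbitRel.Quotient A α, MulAction.orbit A ω.out := fun ω =>
    if ω = ω₀ then ⟨d • ω.out, MulAction.mem_orbit _ _⟩ else ⟨ω.out, MulAction.mem_orbit_self _⟩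
  obtain ⟨a, ha⟩ := hbij.2 T
  have ha0' : a • ω₀.out = d • ω₀.out := by
    have := congrArg Subtype.val (congrFun ha ω₀)
    simpa [T] using this
  have ha0 : (a : Perm α) ω₀.out = (d : Perm α) ω₀.out := ha0'
  have haω' : ∀ ω, ω ≠ ω₀ → a • ω.out = ω.out := by
    intro ω hω
    have := congrArg Subtype.val (congrFun ha ω)
    simpa [T, hω] using this
  have haω : ∀ ω, ω ≠ ω₀ → (a : Perm α) ω.out = ω.out := haω'
  refine ⟨a, a.2, ?_, ?_⟩
  · have hdx : (d : Perm α) x = y := hd
    have e1 := abel_eq_on A a.2 d.2 ha0 (mem_orbit_out A x)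
    rw [e1, hdx]
  · intro z hz
    have hω : (Quotient.mk'' z : MulAction.orbitRel.Quotient A α) ≠ ω₀ := by
      intro h
      apply hz
      have : (MulAction.orbitRel A α).r z x := Quotient.exact' h
      rw [MulAction.orbitRel_apply] at this
      exact this
    exact abel_fix A a.2 (haω _ hω) (mem_orbit_out A z)

theorem no_orbit_two (A : Subgroup (Perm α)) (hfull : IsFull A)
    (hev : A ≤ alternatingGroup α) (x : α) : Nat.card (MulAction.orbit A x) ≠ 2 := by
  classical
  intro h2
  obtain ⟨⟨y, hy⟩, hne⟩ : ∃ y : MulAction.orbit A x, y ≠ ⟨x, MulAction.mem_orbit_self x⟩ := by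
    by_contra hcon
    push Not at hcon
    have hsub : Subsingleton (MulAction.orbit A x) := ⟨fun u v => by rw [hcon u, hcon v]⟩
    have := Finite.card_le_one_iff_subsingleton.mpr hsub
    omega
  have hyx : y ≠ x := fun h => hne (Subtype.ext h)
  obtain ⟨a, ha, hax, hfix⟩ := hfull x y hy
  have hne1 : a ≠ 1 := by
    intro h1
    rw [h1] at hax
    exact hyx hax.symm
  have hsupp : a.support ⊆ (MulAction.orbit A x).toFinset := by
    intro z hz
    rw [Set.mem_toFinset]
    by_contra hcon
    exact (Perm.mem_support.mp hz) (hfix z hcon)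
  have hcard2 : a.support.card = 2 := by
    apply le_antisymm
    · calc a.support.card ≤ (MulAction.orbit A x).toFinset.card := Finset.card_le_card hsupp
        _ = 2 := by
          rw [Set.toFinset_card, ← Nat.card_eq_fintype_card]
          exact h2
    · exact Perm.two_le_card_support_of_ne_one hne1
  have hswap := Perm.card_support_eq_two.mp hcard2
  have hsign := hswap.sign_eq
  have := Perm.mem_alternatingGroup.mp (hev ha)
  rw [this] at hsign
  exact absurd hsign (by decide)

/-- Two even permutations supported on a set of three or four points, each acting on it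
trivially or without fixed points, commute. -/
theorem local_commute (O : Set α) (hO : Nat.card O = 3 ∨ Nat.card O = 4) (σ τ : Perm α)
    (hσs : Perm.sign σ = 1) (hτs : Perm.sign τ = 1)
    (hσ : ∀ z, z ∉ O → σ z = z) (hτ : ∀ z, z ∉ O → τ z = z)
    (hσr : (∀ z ∈ O, σ z = z) ∨ (∀ z ∈ O, σ z ≠ z))
    (hτr : (∀ z ∈ O, τ z = z) ∨ (∀ z ∈ O, τ z ≠ z)) :
    σ * τ = τ * σ := by
  classical
  have key : ∀ ρ : Perm α, (∀ z, z ∉ O → ρ z = z) → ∀ z, ρ z ∈ O ↔ z ∈ O := by
    intro ρ hρ z
    constructor
    · intro h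
      by_contra hz
      rw [hρ z hz] at h
      exact hz h
    · intro h
      by_contra hz
      have h' : ρ z = z := ρ.injective (hρ (ρ z) hz)
      rw [h'] at hz
      exact hz h
  have h₁σ := key σ hσ
  have h₁τ := key τ hτ
  have h₂σ : ∀ z, σ z ≠ z → z ∈ O := fun z hz => by
    by_contra h
    exact hz (hσ z h)
  have h₂τ : ∀ z, τ z ≠ z → z ∈ O := fun z hz => by
    by_contra h
    exact hz (hτ z h)
  have hss : Perm.sign (σ.subtypePerm h₁σ) = 1 := by
    rw [Perm.sign_subtypePerm σ h₁σ h₂σ, hσs]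
  have hts : Perm.sign (τ.subtypePerm h₁τ) = 1 := by
    rw [Perm.sign_subtypePerm τ h₁τ h₂τ, hτs]
  have hreg : ∀ (ρ : Perm α) (h₁ : ∀ z, ρ z ∈ O ↔ z ∈ O),
      ((∀ z ∈ O, ρ z = z) ∨ (∀ z ∈ O, ρ z ≠ z)) →
      (ρ.subtypePerm h₁ = 1 ∨ ∀ z, ρ.subtypePerm h₁ z ≠ z) := by
    intro ρ h₁ h
    rcases h with h | h
    · left
      ext z
      simp [h z.1 z.2]
    · right
      intro z hz
      apply h z.1 z.2
      have := congrArg Subtype.val hz
      simpa using this
  have hsr := hreg σ h₁σ hσr
  have htr := hreg τ h₁τ hτr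
  have hcomm : σ.subtypePerm h₁σ * τ.subtypePerm h₁τ = τ.subtypePerm h₁τ * σ.subtypePerm h₁σ := by
    have tr : ∀ (m : ℕ) (e : O ≃ Fin m) (ρ : Perm O), (ρ = 1 ∨ ∀ z, ρ z ≠ z) →
        (e.permCongrHom ρ = 1 ∨ ∀ i, e.permCongrHom ρ i ≠ i) := by
      intro m e ρ h
      rcases h with h | h
      · left
        rw [h, map_one]
      · right
        intro i hi
        apply h (e.symm i)
        have : e (ρ (e.symm i)) = i := hi
        exact (e.symm_apply_eq.mpr this.symm).symm
    rcases hO with h3 | h4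
    · have e : O ≃ Fin 3 := Finite.equivFinOfCardEq h3
      apply e.permCongrHom.injective
      rw [map_mul, map_mul]
      exact perm_comm3 _ _ (tr 3 e _ hsr) (tr 3 e _ htr)
    · have e : O ≃ Fin 4 := Finite.equivFinOfCardEq h4
      apply e.permCongrHom.injective
      rw [map_mul, map_mul]
      refine perm_comm4 _ _ ?_ ?_ (tr 4 e _ hsr) (tr 4 e _ htr)
      · exact (Perm.sign_permCongr e _).trans hss
      · exact (Perm.sign_permCongr e _).trans hts
  rw [← Perm.ofSubtype_subtypePerm h₁σ h₂σ, ← Perm.ofSubtype_subtypePerm h₁τ h₂τ, ← map_mul,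
    ← map_mul, hcomm]

end abel

theorem exists_equiv_of_fibers {α β X Y : Type*} [Finite α] [Finite β] (qA : α → X) (qB : β → Y)
    (φ : X ≃ Y) (h : ∀ ω, Nat.card {x // qA x = ω} = Nat.card {y // qB y = φ ω}) :
    ∃ g : α ≃ β, ∀ x, qB (g x) = φ (qA x) := by
  have e : ∀ ω, {x // qA x = ω} ≃ {y // qB y = φ ω} := fun ω => (Finite.card_eq.mp (h ω)).some
  refine ⟨(Equiv.sigmaFiberEquiv qA).symm.trans
    ((Equiv.sigmaCongr φ e).trans (Equiv.sigmaFiberEquiv qB)), ?_⟩
  intro x
  exact ((e (qA x)) ⟨x, rfl⟩).2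

theorem card_fiber_eq_count {X : Type*} [Fintype X] (f : X → ℕ) (m : ℕ) :
    Nat.card {x // f x = m} = Multiset.count m (Finset.univ.val.map f) := by
  classical
  rw [Multiset.count_map, Nat.card_eq_fintype_card, Fintype.card_subtype, Finset.card_def,
    Finset.filter_val]
  congr 1
  apply Multiset.filter_congr
  intro x _
  exact eq_comm

section abel2

variable {α : Type*} [Fintype α] [DecidableEq α]

/-- Two maximal abelian groups of even permutations with the same orbits, all of size three or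
four, coincide. -/
theorem same_orbits_eq (X Y : Subgroup (Perm α)) [IsMulCommutative X] [IsMulCommutative Y]
    (hXev : X ≤ alternatingGroup α) (hYev : Y ≤ alternatingGroup α)
    (hXf : IsFull X) (hYf : IsFull Y)
    (horb : ∀ x : α, MulAction.orbit X x = MulAction.orbit Y x)
    (hsz : ∀ x : α, Nat.card (MulAction.orbit X x) = 3 ∨ Nat.card (MulAction.orbit X x) = 4)
    (hmax : ∀ C : Subgroup (Perm α), IsMulCommutative C → C ≤ alternatingGroup α →
      Nat.card C ≤ Nat.card X)
    (hcard : Nat.card Y = Nat.card X) : X = Y := by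
  have hcomm : ∀ σ ∈ X, ∀ τ ∈ Y, σ * τ = τ * σ := by
    intro σ hσ τ hτ
    ext x
    have hσx : σ x ∈ MulAction.orbit X x := ⟨(⟨σ, hσ⟩ : X), rfl⟩
    have hτx : τ x ∈ MulAction.orbit Y x := ⟨(⟨τ, hτ⟩ : Y), rfl⟩
    obtain ⟨σ', hσ', hσ'x, hσ'fix⟩ := hXf x (σ x) hσx
    obtain ⟨τ', hτ', hτ'x, hτ'fix⟩ := hYf x (τ x) hτx
    rw [← horb x] at hτ'fix
    have hregσ : (∀ z ∈ MulAction.orbit X x, σ' z = z) ∨ (∀ z ∈ MulAction.orbit X x, σ' z ≠ z) := by
      by_cases h : ∃ z ∈ MulAction.orbit X x, σ' z = z
      · left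
        obtain ⟨z, hz, hzfix⟩ := h
        intro w hw
        apply abel_fix X hσ' hzfix
        rw [MulAction.orbit_eq_iff.mpr hz]
        exact hw
      · right
        push Not at h
        exact h
    have hregτ : (∀ z ∈ MulAction.orbit X x, τ' z = z) ∨ (∀ z ∈ MulAction.orbit X x, τ' z ≠ z) := by
      by_cases h : ∃ z ∈ MulAction.orbit X x, τ' z = z
      · left
        obtain ⟨z, hz, hzfix⟩ := h
        intro w hw
        apply abel_fix Y hτ' hzfix
        rw [horb x] at hz hw
        rw [MulAction.orbit_eq_iff.mpr hz]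
        exact hw
      · right
        push Not at h
        exact h
    have hc := local_commute (MulAction.orbit X x) (hsz x) σ' τ'
      (Perm.mem_alternatingGroup.mp (hXev hσ')) (Perm.mem_alternatingGroup.mp (hYev hτ'))
      hσ'fix hτ'fix hregσ hregτ
    have e1 : σ (τ x) = σ' (τ' x) := by
      rw [hτ'x]
      exact (abel_eq_on X hσ' hσ hσ'x (by rw [horb x]; exact hτx)).symm
    have e2 : τ (σ x) = τ' (σ' x) := by
      rw [hσ'x]
      exact (abel_eq_on Y hτ' hτ hτ'x (by rw [← horb x]; exact hσx)).symm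
    rw [Perm.mul_apply, Perm.mul_apply, e1, e2, ← Perm.mul_apply, ← Perm.mul_apply, hc]
  have hC : IsMulCommutative (Subgroup.closure ((X : Set (Perm α)) ∪ (Y : Set (Perm α)))) := by
    apply Subgroup.isMulCommutative_closure
    intro a ha b hb
    rcases ha with ha | ha <;> rcases hb with hb | hb
    · exact setLike_mul_comm ha hb
    · exact hcomm a ha b hb
    · exact (hcomm b hb a ha).symm
    · exact setLike_mul_comm ha hb
  have hCev : Subgroup.closure ((X : Set (Perm α)) ∪ (Y : Set (Perm α))) ≤ alternatingGroup α := by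
    rw [Subgroup.closure_le]
    intro a ha
    rcases ha with ha | ha
    · exact hXev ha
    · exact hYev ha
  have hXC : X ≤ Subgroup.closure ((X : Set (Perm α)) ∪ (Y : Set (Perm α))) := fun a ha =>
    Subgroup.subset_closure (Or.inl ha)
  have hYC : Y ≤ Subgroup.closure ((X : Set (Perm α)) ∪ (Y : Set (Perm α))) := fun a ha =>
    Subgroup.subset_closure (Or.inr ha)
  have hXeq := Subgroup.eq_of_le_of_card_ge hXC (hmax _ hC hCev)
  rw [← hXeq] at hYC
  exact (Subgroup.eq_of_le_of_card_ge hYC (le_of_eq hcard.symm)).symm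

omit [Fintype α] [DecidableEq α] in
theorem mem_orbit_conj (A : Subgroup (Perm α)) (g : Perm α) (x y : α) :
    y ∈ MulAction.orbit (A.map (MulAut.conj g).toMonoidHom) x ↔
      g.symm y ∈ MulAction.orbit A (g.symm x) := by
  constructor
  · rintro ⟨⟨σ, hσ⟩, rfl⟩
    obtain ⟨a, ha, rfl⟩ := Subgroup.mem_map.mp hσ
    refine ⟨(⟨a, ha⟩ : A), ?_⟩
    show a (g.symm x) = g.symm (g (a (g.symm x)))
    rw [Equiv.symm_apply_apply]
  · rintro ⟨⟨a, ha⟩, h⟩
    refine ⟨(⟨g * a * g⁻¹, Subgroup.mem_map.mpr ⟨a, ha, rfl⟩⟩ :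
      A.map (MulAut.conj g).toMonoidHom), ?_⟩
    have h' : a (g.symm x) = g.symm y := h
    show g (a (g.symm x)) = y
    rw [h', Equiv.apply_symm_apply]

omit [Fintype α] [DecidableEq α] in
theorem isFull_conj (A : Subgroup (Perm α)) (hA : IsFull A) (g : Perm α) :
    IsFull (A.map (MulAut.conj g).toMonoidHom) := by
  intro x y hy
  rw [mem_orbit_conj] at hy
  obtain ⟨a, ha, hax, hfix⟩ := hA _ _ hy
  refine ⟨g * a * g⁻¹, Subgroup.mem_map.mpr ⟨a, ha, rfl⟩, ?_, ?_⟩
  · show g (a (g.symm x)) = y
    rw [hax, Equiv.apply_symm_apply]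
  · intro z hz
    rw [mem_orbit_conj] at hz
    show g (a (g.symm z)) = z
    rw [hfix _ hz, Equiv.apply_symm_apply]

theorem conj_le_alternating (A : Subgroup (Perm α)) (hA : A ≤ alternatingGroup α) (g : Perm α) :
    A.map (MulAut.conj g).toMonoidHom ≤ alternatingGroup α := by
  rintro σ hσ
  obtain ⟨a, ha, rfl⟩ := Subgroup.mem_map.mp hσ
  rw [Perm.mem_alternatingGroup]
  have h := Perm.mem_alternatingGroup.mp (hA ha)
  show Perm.sign (g * a * g⁻¹) = 1
  simp [h]

end abel2

section abel3

variable {α : Type*} [Fintype α] [DecidableEq α]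

/-- The multiset of orbit sizes. -/
noncomputable def orbitSizes (X : Subgroup (Perm α)) : Multiset ℕ :=
  letI : Fintype (MulAction.orbitRel.Quotient X α) := Fintype.ofFinite _
  Finset.univ.val.map
    (fun ω : MulAction.orbitRel.Quotient X α => Nat.card (MulAction.orbit X ω.out))

theorem no_two_threes (X : Subgroup (Perm α)) [hX : IsMulCommutative X]
    (hle : X ≤ alternatingGroup α) (k : ℕ)
    (h : orbitSizes X = 2 ::ₘ Multiset.replicate k 3) : False := by
  classical
  letI : Fintype (MulAction.orbitRel.Quotient X α) := Fintype.ofFinite _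
  set f : MulAction.orbitRel.Quotient X α → ℕ :=
    fun ω => Nat.card (MulAction.orbit X ω.out) with hf
  have hs : orbitSizes X = Finset.univ.val.map f := rfl
  rw [hs] at h
  have h2mem : 2 ∈ Finset.univ.val.map f := by
    rw [h]
    exact Multiset.mem_cons_self _ _
  obtain ⟨ω0, -, hω0⟩ := Multiset.mem_map.mp h2mem
  have hothers : ∀ ω, ω ≠ ω0 → f ω = 3 := by
    intro ω hω
    have hsplit : Finset.univ.val.map f = f ω0 ::ₘ (Finset.univ.val.erase ω0).map f := by
      rw [← Multiset.map_cons, Multiset.cons_erase (Finset.mem_univ ω0)]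
    rw [hsplit, hω0] at h
    have h' := (Multiset.cons_inj_right 2).mp h
    have hmem : f ω ∈ (Finset.univ.val.erase ω0).map f :=
      Multiset.mem_map_of_mem f ((Multiset.mem_erase_of_ne hω).mpr (Finset.mem_univ ω))
    rw [h'] at hmem
    exact Multiset.eq_of_mem_replicate hmem
  have hdvd : 2 ∣ Nat.card X := by
    have hidx : (MulAction.stabilizer X ω0.out).index = 2 := by
      rw [MulAction.index_stabilizer, ← Nat.card_coe_set_eq]
      exact hω0
    rw [← hidx]
    exact Subgroup.index_dvd_card _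
  haveI : Fact (Nat.Prime 2) := ⟨Nat.prime_two⟩
  obtain ⟨σ, hσ⟩ := exists_prime_orderOf_dvd_card' (G := X) 2 hdvd
  have hσ2 : σ ^ 2 = 1 := by
    rw [← hσ]
    exact pow_orderOf_eq_one σ
  have hfix : ∀ y : α, y ∉ MulAction.orbit X ω0.out → (σ : Perm _) y = y := by
    intro y hy
    let ω : MulAction.orbitRel.Quotient X α := Quotient.mk'' y
    have hyω : y ∈ MulAction.orbit X ω.out := mem_orbit_out X y
    have hω : ω ≠ ω0 := by
      intro hEq
      apply hy
      rw [← hEq]
      exact hyω
    have h3 : f ω = 3 := hothers ω hω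
    have horb : MulAction.orbit X y = MulAction.orbit X ω.out := MulAction.orbit_eq_iff.mpr hyω
    have hidx : (MulAction.stabilizer X y).index = 3 := by
      rw [MulAction.index_stabilizer, horb, ← Nat.card_coe_set_eq]
      exact h3
    have hmem : σ ^ 3 ∈ MulAction.stabilizer X y := by
      have := Subgroup.pow_index_mem (MulAction.stabilizer X y) σ
      rwa [hidx] at this
    have hσ3 : σ ^ 3 = σ := by
      rw [pow_succ, hσ2, one_mul]
    rw [hσ3] at hmem
    exact MulAction.mem_stabilizer_iff.mp hmem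
  have hne : (σ : Perm α) ≠ 1 := by
    intro h1
    have : σ = 1 := Subtype.ext h1
    rw [this, orderOf_one] at hσ
    omega
  have hsupp : (σ : Perm α).support ⊆ (MulAction.orbit X ω0.out).toFinset := by
    intro y hy
    rw [Set.mem_toFinset]
    by_contra hcon
    exact (Perm.mem_support.mp hy) (hfix y hcon)
  have hcard2 : (σ : Perm α).support.card = 2 := by
    apply le_antisymm
    · calc (σ : Perm α).support.card
          ≤ (MulAction.orbit X ω0.out).toFinset.card := Finset.card_le_card hsupp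
        _ = 2 := by
          rw [Set.toFinset_card, ← Nat.card_eq_fintype_card]
          exact hω0
    · exact Perm.two_le_card_support_of_ne_one hne
  have hswap := Perm.card_support_eq_two.mp hcard2
  have hsign := hswap.sign_eq
  have := Perm.mem_alternatingGroup.mp (hle σ.2)
  rw [this] at hsign
  exact absurd hsign (by decide)

/-- The structure of an abelian group of even permutations of large order. -/
theorem abel_structure (X : Subgroup (Perm α)) [IsMulCommutative X]
    (hev : X ≤ alternatingGroup α) (k c : ℕ)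
    (hcase : (c = 0 ∧ Fintype.card α = 3 * k ∧ 3 ^ k ≤ Nat.card X) ∨
      (c = 1 ∧ Fintype.card α = 3 * k + 4 ∧ 4 * 3 ^ k ≤ Nat.card X) ∨
      (c = 2 ∧ Fintype.card α = 3 * k + 8 ∧ 16 * 3 ^ k ≤ Nat.card X)) :
    IsFull X ∧ orbitSizes X = Multiset.replicate c 4 + Multiset.replicate k 3 := by
  classical
  letI : Fintype (MulAction.orbitRel.Quotient X α) := Fintype.ofFinite _
  set f : MulAction.orbitRel.Quotient X α → ℕ :=
    fun ω => Nat.card (MulAction.orbit X ω.out) with hf
  have hs : orbitSizes X = Finset.univ.val.map f := rfl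
  have h1 : Nat.card X ≤ (orbitSizes X).prod := abel_card_le_prod_orbits X
  have h2 : (orbitSizes X).sum = Fintype.card α := sum_card_orbits X
  have hs1 : ∀ a ∈ orbitSizes X, 1 ≤ a := by
    intro a ha
    rw [hs] at ha
    obtain ⟨ω, -, rfl⟩ := Multiset.mem_map.mp ha
    have : Nonempty (MulAction.orbit X ω.out) := ⟨⟨ω.out, MulAction.mem_orbit_self _⟩⟩
    exact Nat.card_pos
  have hfull : (orbitSizes X).prod ≤ Nat.card X → IsFull X := by
    intro h
    apply isFull_of_card
    rw [Nat.card_pi]
    exact h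
  have hno2 : IsFull X → 2 ∉ orbitSizes X := by
    intro hF h2
    rw [hs] at h2
    obtain ⟨ω, -, hω⟩ := Multiset.mem_map.mp h2
    exact no_orbit_two X hF hev ω.out hω
  rcases hcase with ⟨rfl, hn, hthr⟩ | ⟨rfl, hn, hthr⟩ | ⟨rfl, hn, hthr⟩
  · have hS := parts_case0 k (orbitSizes X) hs1 (h2.trans hn) (le_trans hthr h1)
    refine ⟨hfull ?_, by simpa using hS⟩
    rw [hS, Multiset.prod_replicate]
    exact hthr
  · obtain ⟨t, hS, ht⟩ := parts_case1 k (orbitSizes X) hs1 (h2.trans hn) (le_trans hthr h1)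
    have hprod : (orbitSizes X).prod = 4 * 3 ^ k := by
      rw [hS, Multiset.prod_add, Multiset.prod_replicate]
      rcases ht with rfl | rfl <;> rfl
    have hF := hfull (by rw [hprod]; exact hthr)
    refine ⟨hF, ?_⟩
    rcases ht with rfl | rfl
    · rw [hS]
      rfl
    · exfalso
      apply hno2 hF
      rw [hS]
      simp
  · rcases parts_case2 k (orbitSizes X) hs1 (h2.trans hn) (le_trans hthr h1)
      with hS | ⟨t, hS, ht⟩
    · exact (no_two_threes X hev (k + 2) hS).elim
    · have hprod : (orbitSizes X).prod = 16 * 3 ^ k := by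
        rw [hS, Multiset.prod_add, Multiset.prod_replicate]
        rcases ht with rfl | rfl | rfl <;> rfl
      have hF := hfull (by rw [hprod]; exact hthr)
      refine ⟨hF, ?_⟩
      rcases ht with rfl | rfl | rfl
      · rw [hS]
        rfl
      · exfalso
        apply hno2 hF
        rw [hS]
        simp
      · exfalso
        apply hno2 hF
        rw [hS]
        simp

end abel3

section abel4

variable {α : Type*} [Fintype α] [DecidableEq α]

omit [DecidableEq α] in
theorem orbit_card_of_sizes (X : Subgroup (Perm α)) (c k : ℕ)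
    (h : orbitSizes X = Multiset.replicate c 4 + Multiset.replicate k 3) (x : α) :
    Nat.card (MulAction.orbit X x) = 3 ∨ Nat.card (MulAction.orbit X x) = 4 := by
  classical
  letI : Fintype (MulAction.orbitRel.Quotient X α) := Fintype.ofFinite _
  have horb : MulAction.orbit X x =
      MulAction.orbit X (Quotient.mk'' x : MulAction.orbitRel.Quotient X α).out :=
    MulAction.orbit_eq_iff.mpr (mem_orbit_out X x)
  have hmem : Nat.card (MulAction.orbit X
      (Quotient.mk'' x : MulAction.orbitRel.Quotient X α).out) ∈ orbitSizes X :=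
    Multiset.mem_map_of_mem _ (Finset.mem_univ _)
  rw [h, Multiset.mem_add] at hmem
  rw [horb]
  rcases hmem with hm | hm
  · right
    exact Multiset.eq_of_mem_replicate hm
  · left
    exact Multiset.eq_of_mem_replicate hm

omit [Fintype α] [DecidableEq α] in
theorem card_fiber_orbit (X : Subgroup (Perm α)) (ω : MulAction.orbitRel.Quotient X α) :
    Nat.card {x : α // (Quotient.mk'' x : MulAction.orbitRel.Quotient X α) = ω} =
      Nat.card (MulAction.orbit X ω.out) := by
  apply Nat.card_congr
  apply Equiv.subtypeEquivRight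
  intro x
  constructor
  · intro h
    rw [← h]
    exact mem_orbit_out X x
  · intro h
    have h1 : (Quotient.mk'' x : MulAction.orbitRel.Quotient X α) = Quotient.mk'' ω.out :=
      Quotient.sound' ((MulAction.orbitRel_apply).mpr h)
    rw [h1, Quotient.out_eq']

omit [Fintype α] [DecidableEq α] in
theorem mem_orbit_iff_mk (X : Subgroup (Perm α)) (x y : α) :
    y ∈ MulAction.orbit X x ↔
      (Quotient.mk'' y : MulAction.orbitRel.Quotient X α) = Quotient.mk'' x := by
  rw [Quotient.eq'', MulAction.orbitRel_apply]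

/-- Two abelian groups of even permutations of the largest possible order are conjugate under
an even permutation (in the three families of degrees `3k`, `3k+4`, `3k+8`). -/
theorem abel_conj (A B : Subgroup (Perm α)) [IsMulCommutative A] [IsMulCommutative B]
    (hAev : A ≤ alternatingGroup α) (hBev : B ≤ alternatingGroup α) (k c : ℕ)
    (hcase : (c = 0 ∧ Fintype.card α = 3 * k ∧ 3 ^ k ≤ Nat.card A) ∨
      (c = 1 ∧ Fintype.card α = 3 * k + 4 ∧ 4 * 3 ^ k ≤ Nat.card A) ∨
      (c = 2 ∧ Fintype.card α = 3 * k + 8 ∧ 16 * 3 ^ k ≤ Nat.card A))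
    (hAB : Nat.card B = Nat.card A)
    (hmax : ∀ C : Subgroup (Perm α), IsMulCommutative C → C ≤ alternatingGroup α →
      Nat.card C ≤ Nat.card A) :
    ∃ g : Perm α, Perm.sign g = 1 ∧ B = A.map (MulAut.conj g).toMonoidHom := by
  classical
  letI : Fintype (MulAction.orbitRel.Quotient A α) := Fintype.ofFinite _
  letI : Fintype (MulAction.orbitRel.Quotient B α) := Fintype.ofFinite _
  obtain ⟨hAf, hAs⟩ := abel_structure A hAev k c hcase
  obtain ⟨hBf, hBs⟩ := abel_structure B hBev k c (by rw [hAB]; exact hcase)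
  have hcount : ∀ m : ℕ,
      Nat.card {ω : MulAction.orbitRel.Quotient A α //
        Nat.card (MulAction.orbit A ω.out) = m} =
      Nat.card {ω : MulAction.orbitRel.Quotient B α //
        Nat.card (MulAction.orbit B ω.out) = m} := by
    intro m
    rw [card_fiber_eq_count, card_fiber_eq_count]
    show Multiset.count m (orbitSizes A) = Multiset.count m (orbitSizes B)
    rw [hAs, hBs]
  obtain ⟨φ, hφ⟩ := exists_equiv_of_fibers
    (fun ω : MulAction.orbitRel.Quotient A α => Nat.card (MulAction.orbit A ω.out))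
    (fun ω : MulAction.orbitRel.Quotient B α => Nat.card (MulAction.orbit B ω.out))
    (Equiv.refl ℕ) (fun m => hcount m)
  obtain ⟨g, hg⟩ := exists_equiv_of_fibers
    (Quotient.mk'' : α → MulAction.orbitRel.Quotient A α)
    (Quotient.mk'' : α → MulAction.orbitRel.Quotient B α) φ
    (fun ω => by
      rw [card_fiber_orbit, card_fiber_orbit]
      exact (hφ ω).symm)
  have hsame : ∀ x : α, MulAction.orbit B x =
      MulAction.orbit (A.map (MulAut.conj g).toMonoidHom) x := by
    intro x
    ext y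
    rw [mem_orbit_conj, mem_orbit_iff_mk, mem_orbit_iff_mk]
    have h1 := hg (g.symm y)
    have h2 := hg (g.symm x)
    rw [Equiv.apply_symm_apply] at h1 h2
    rw [h1, h2]
    exact φ.injective.eq_iff
  have hA'card : Nat.card (A.map (MulAut.conj g).toMonoidHom) = Nat.card B := by
    rw [Subgroup.card_map_of_injective (MulAut.conj g).injective, hAB]
  have hBA' := same_orbits_eq B (A.map (MulAut.conj g).toMonoidHom) hBev
    (conj_le_alternating A hAev g) hBf (isFull_conj A hAf g) hsame
    (orbit_card_of_sizes B c k hBs) (fun C hC hCev => by rw [hAB]; exact hmax C hC hCev) hA'card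
  rcases Int.units_eq_one_or (Perm.sign g) with hs | hs
  · exact ⟨g, hs, hBA'⟩
  · have hne : g ≠ 1 := by
      rintro rfl
      simp at hs
    obtain ⟨x, hx⟩ : ∃ x, g x ≠ x := by
      by_contra hcon
      push Not at hcon
      exact hne (Equiv.ext hcon)
    obtain ⟨⟨y, hy⟩, hyne⟩ : ∃ y : MulAction.orbit A x, y ≠ ⟨x, MulAction.mem_orbit_self x⟩ := by
      by_contra hcon
      push Not at hcon
      have hsub : Subsingleton (MulAction.orbit A x) := ⟨fun u v => by rw [hcon u, hcon v]⟩
      have := Finite.card_le_one_iff_subsingleton.mpr hsub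
      rcases orbit_card_of_sizes A c k hAs x with h | h <;> omega
    have hyx : y ≠ x := fun h => hyne (Subtype.ext h)
    have htorb : ∀ z : α, (Equiv.swap x y).symm z ∈ MulAction.orbit A z := by
      intro z
      rw [Equiv.symm_swap]
      by_cases hzx : z = x
      · rw [hzx, Equiv.swap_apply_left]
        exact hy
      · by_cases hzy : z = y
        · rw [hzy, Equiv.swap_apply_right]
          exact MulAction.mem_orbit_symm.mp hy
        · rw [Equiv.swap_apply_of_ne_of_ne hzx hzy]
          exact MulAction.mem_orbit_self z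
    have hsameA : ∀ z : α, MulAction.orbit A z =
        MulAction.orbit (A.map (MulAut.conj (Equiv.swap x y)).toMonoidHom) z := by
      intro z
      ext w
      rw [mem_orbit_conj, MulAction.orbit_eq_iff.mpr (htorb z)]
      constructor
      · intro h
        rw [← MulAction.orbit_eq_iff] at h ⊢
        rw [MulAction.orbit_eq_iff.mpr (htorb w)]
        exact h
      · intro h
        rw [← MulAction.orbit_eq_iff] at h ⊢
        rw [← MulAction.orbit_eq_iff.mpr (htorb w)]
        exact h
    have hAA' := same_orbits_eq A (A.map (MulAut.conj (Equiv.swap x y)).toMonoidHom) hAev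
      (conj_le_alternating A hAev _) hAf (isFull_conj A hAf _) hsameA
      (orbit_card_of_sizes A c k hAs) hmax
      (Subgroup.card_map_of_injective (MulAut.conj (Equiv.swap x y)).injective)
    refine ⟨g * Equiv.swap x y, ?_, ?_⟩
    · rw [map_mul, hs, Perm.sign_swap hyx.symm]
      decide
    · rw [hBA']
      conv_lhs => rw [hAA']
      rw [Subgroup.map_map]
      congr 1

end abel4

end Cfsg.Agent.Lib.Helper49
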