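import Mathlib
import Cfsg.Agent.Lib.Helper78.JcDefs

/-!
# S2946 (project JC of helper78), piece FG: a 2-group normalising a four-group
-/

set_option autoImplicit false
set_option linter.style.haveILetI false

namespace Cfsg.Agent.Lib.Helper49.Jc

variable {G : Type*} [Group G]

theorem fg_comm (W : Subgroup G) (hW2 : ∀ w ∈ W, w * w = 1) :
    ∀ x ∈ W, ∀ y ∈ W, x * y = y * x := by
  intro x hx y hy
  have e1 : (x * y)⁻¹ = x * y := inv_eq_of_mul_eq_one_left (hW2 (x * y) (W.mul_mem hx hy))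
  have e2 : x⁻¹ = x := inv_eq_of_mul_eq_one_left (hW2 x hx)
  have e3 : y⁻¹ = y := inv_eq_of_mul_eq_one_left (hW2 y hy)
  calc x * y = (x * y)⁻¹ := e1.symm
    _ = y⁻¹ * x⁻¹ := mul_inv_rev x y
    _ = y * x := by rw [e2, e3]

theorem fg_four (W : Subgroup G) (hW4 : Nat.card W = 4) (hW2 : ∀ w ∈ W, w * w = 1) (w₀ : G)
    (hw₀ : w₀ ∈ W) (hw₀1 : w₀ ≠ 1) :
    ∀ x ∈ W, ∀ y ∈ W, x ≠ 1 → x ≠ w₀ → y ≠ 1 → y ≠ w₀ → x * y = 1 ∨ x * y = w₀ := by
  intro x hx y hy hx1 hx0 hy1 hy0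
  haveI : Fact (Nat.Prime 2) := ⟨Nat.prime_two⟩
  have hg2 : (⟨w₀, hw₀⟩ : ↥W) ^ 2 = 1 := by
    apply Subtype.ext
    show w₀ ^ 2 = 1
    rw [pow_two]
    exact hW2 w₀ hw₀
  have hord : orderOf (⟨w₀, hw₀⟩ : ↥W) = 2 := by
    apply orderOf_eq_prime hg2
    intro h
    exact hw₀1 (congrArg Subtype.val h)
  have hcardD : Nat.card (Subgroup.zpowers (⟨w₀, hw₀⟩ : ↥W)) = 2 := by
    rw [Nat.card_zpowers, hord]
  have hidx : (Subgroup.zpowers (⟨w₀, hw₀⟩ : ↥W)).index = 2 := by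
    have h := Subgroup.card_mul_index (Subgroup.zpowers (⟨w₀, hw₀⟩ : ↥W))
    rw [hcardD, hW4] at h
    omega
  have hmemD : ∀ z : ↥W, z ∈ Subgroup.zpowers (⟨w₀, hw₀⟩ : ↥W) → z.1 = 1 ∨ z.1 = w₀ := by
    intro z hz
    obtain ⟨k, rfl⟩ := Subgroup.mem_zpowers_iff.mp hz
    have hg2' : (⟨w₀, hw₀⟩ : ↥W) ^ (2 : ℤ) = 1 := by
      rw [show ((2 : ℤ)) = ((2 : ℕ) : ℤ) from rfl, zpow_natCast]
      exact hg2
    rcases Int.even_or_odd' k with ⟨m, rfl | rfl⟩
    · left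
      rw [zpow_mul, hg2', one_zpow]
      rfl
    · right
      rw [zpow_add, zpow_mul, hg2', one_zpow, one_mul, zpow_one]
  have hx' : (⟨x, hx⟩ : ↥W) ∉ Subgroup.zpowers (⟨w₀, hw₀⟩ : ↥W) := by
    intro h
    rcases hmemD _ h with h | h
    · exact hx1 h
    · exact hx0 h
  have hy' : (⟨y, hy⟩ : ↥W) ∉ Subgroup.zpowers (⟨w₀, hw₀⟩ : ↥W) := by
    intro h
    rcases hmemD _ h with h | h
    · exact hy1 h
    · exact hy0 h
  have hxy : (⟨x, hx⟩ : ↥W) * ⟨y, hy⟩ ∈ Subgroup.zpowers (⟨w₀, hw₀⟩ : ↥W) := by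
    rw [Subgroup.mul_mem_iff_of_index_two hidx]
    exact ⟨fun h => absurd h hx', fun h => absurd h hy'⟩
  exact hmemD _ hxy

theorem fg_fixed [Finite G] (W S : Subgroup G) (hW4 : Nat.card W = 4) (hS2 : IsPGroup 2 ↥S)
    (hSW : S ≤ Subgroup.normalizer (W : Set G)) :
    ∃ w₀ ∈ W, w₀ ≠ 1 ∧ ∀ s ∈ S, s * w₀ = w₀ * s := by
  haveI : Fact (Nat.Prime 2) := ⟨Nat.prime_two⟩
  letI act : MulAction ↥S ↥W :=
    { smul := fun s w => ⟨s.1 * w.1 * s.1⁻¹,
        (Subgroup.mem_normalizer_iff.mp (hSW s.2) w.1).mp w.2⟩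
      one_smul := fun w => Subtype.ext (by
        show (1 : G) * w.1 * (1 : G)⁻¹ = w.1
        group)
      mul_smul := fun s t w => Subtype.ext (by
        show (s.1 * t.1) * w.1 * (s.1 * t.1)⁻¹ = s.1 * (t.1 * w.1 * t.1⁻¹) * s.1⁻¹
        group) }
  have hsmul : ∀ (s : ↥S) (w : ↥W), ((s • w : ↥W) : G) = s.1 * w.1 * s.1⁻¹ := fun _ _ => rfl
  have h := hS2.card_modEq_card_fixedPoints ↥W
  rw [hW4] at h
  by_contra hcon
  push Not at hcon
  have hsub : Subsingleton ↥(MulAction.fixedPoints ↥S ↥W) := by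
    constructor
    intro a b
    have key : ∀ c : ↥(MulAction.fixedPoints ↥S ↥W), (c.1 : G) = 1 := by
      intro c
      by_contra hc
      obtain ⟨s, hs, hne⟩ := hcon c.1.1 c.1.2 hc
      apply hne
      have h1 := c.2 ⟨s, hs⟩
      have h2 : s * c.1.1 * s⁻¹ = c.1.1 := by
        have h3 := congrArg (fun w : ↥W => (w : G)) h1
        exact h3
      calc s * c.1.1 = s * c.1.1 * s⁻¹ * s := by group
        _ = c.1.1 * s := by rw [h2]
    apply Subtype.ext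
    apply Subtype.ext
    rw [key a, key b]
  have hne : Nonempty ↥(MulAction.fixedPoints ↥S ↥W) := by
    refine ⟨⟨1, ?_⟩⟩
    intro s
    apply Subtype.ext
    rw [hsmul]
    show s.1 * 1 * s.1⁻¹ = 1
    group
  have hc1 : Nat.card ↥(MulAction.fixedPoints ↥S ↥W) = 1 :=
    Nat.card_eq_one_iff_unique.mpr ⟨hsub, hne⟩
  rw [hc1] at h
  exact absurd h (by decide)

theorem fg [Finite G] (W S : Subgroup G) (hW4 : Nat.card W = 4) (hW2 : ∀ w ∈ W, w * w = 1)
    (hS2 : IsPGroup 2 ↥S) (hSW : S ≤ Subgroup.normalizer (W : Set G)) :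
    ∃ w₀ ∈ W, w₀ ≠ 1 ∧ (∀ s ∈ S, s * w₀ = w₀ * s) ∧
      (∀ s ∈ S, (∀ w ∈ W, s * w = w * s) ∨ (∀ w ∈ W, s * w = w * s → w = 1 ∨ w = w₀)) ∧
      (∀ s ∈ S, ∀ s' ∈ S, (¬ ∀ w ∈ W, s * w = w * s) → (¬ ∀ w ∈ W, s' * w = w * s') →
        ∀ w ∈ W, (s * s') * w = w * (s * s')) := by
  obtain ⟨w₀, hw₀, hw₀1, hfix⟩ := fg_fixed W S hW4 hS2 hSW
  have hfour := fg_four W hW4 hW2 w₀ hw₀ hw₀1
  have key : ∀ s : G, s * w₀ = w₀ * s → ∀ w₁ ∈ W, w₁ ≠ 1 → w₁ ≠ w₀ → s * w₁ = w₁ * s →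
      ∀ w ∈ W, s * w = w * s := by
    intro s hs0 w₁ hw₁ h11 h10 hs1 w hw
    by_cases hw1 : w = 1
    · rw [hw1, mul_one, one_mul]
    by_cases hw0 : w = w₀
    · rw [hw0]
      exact hs0
    rcases hfour w₁ hw₁ w hw h11 h10 hw1 hw0 with h | h
    · have e : w = w₁ := mul_left_cancel (h.trans (hW2 w₁ hw₁).symm)
      rw [e]
      exact hs1
    · have e : w = w₁ * w₀ := by
        calc w = (w₁ * w₁) * w := by rw [hW2 w₁ hw₁, one_mul]
          _ = w₁ * (w₁ * w) := mul_assoc _ _ _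
          _ = w₁ * w₀ := by rw [h]
      rw [e]
      calc s * (w₁ * w₀) = (s * w₁) * w₀ := (mul_assoc _ _ _).symm
        _ = (w₁ * s) * w₀ := by rw [hs1]
        _ = w₁ * (s * w₀) := mul_assoc _ _ _
        _ = w₁ * (w₀ * s) := by rw [hs0]
        _ = w₁ * w₀ * s := (mul_assoc _ _ _).symm
  refine ⟨w₀, hw₀, hw₀1, hfix, ?_, ?_⟩
  · intro s hs
    by_cases hc : ∀ w ∈ W, s * w = w * s
    · exact Or.inl hc
    · right
      intro w hw hsw
      by_contra hne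
      push Not at hne
      exact hc (key s (hfix s hs) w hw hne.1 hne.2 hsw)
  · intro s hs s' hs' hns hns'
    push Not at hns
    obtain ⟨a, ha, hsa⟩ := hns
    have ha1 : a ≠ 1 := by
      rintro rfl
      exact hsa (by rw [mul_one, one_mul])
    have ha0 : a ≠ w₀ := by
      rintro rfl
      exact hsa (hfix s hs)
    have hs'a : s' * a ≠ a * s' := fun h => hns' (key s' (hfix s' hs') a ha ha1 ha0 h)
    have conj : ∀ t ∈ S, t * a ≠ a * t → t * a * t⁻¹ = a * w₀ := by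
      intro t ht hta
      have hmem : t * a * t⁻¹ ∈ W := (Subgroup.mem_normalizer_iff.mp (hSW ht) a).mp ha
      have hback : a = t⁻¹ * (t * a * t⁻¹) * t := by group
      have h1 : t * a * t⁻¹ ≠ 1 := by
        intro h
        apply ha1
        rw [hback, h]
        group
      have h0 : t * a * t⁻¹ ≠ w₀ := by
        intro h
        apply ha0
        rw [hback, h, mul_assoc, ← hfix t ht, ← mul_assoc, inv_mul_cancel, one_mul]
      rcases hfour a ha _ hmem ha1 ha0 h1 h0 with h | h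
      · exfalso
        apply hta
        have e : t * a * t⁻¹ = a := mul_left_cancel (h.trans (hW2 a ha).symm)
        calc t * a = t * a * t⁻¹ * t := by group
          _ = a * t := by rw [e]
      · calc t * a * t⁻¹ = (a * a) * (t * a * t⁻¹) := by rw [hW2 a ha, one_mul]
          _ = a * (a * (t * a * t⁻¹)) := mul_assoc _ _ _
          _ = a * w₀ := by rw [h]
    have c1 := conj s hs hsa
    have c2 := conj s' hs' hs'a
    have hsw : s * w₀ * s⁻¹ = w₀ := by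
      rw [hfix s hs]
      group
    have hss : (s * s') * a = a * (s * s') := by
      have e : (s * s') * a * (s * s')⁻¹ = a := by
        calc (s * s') * a * (s * s')⁻¹ = s * (s' * a * s'⁻¹) * s⁻¹ := by group
          _ = s * (a * w₀) * s⁻¹ := by rw [c2]
          _ = (s * a * s⁻¹) * (s * w₀ * s⁻¹) := by group
          _ = (a * w₀) * w₀ := by rw [c1, hsw]
          _ = a := by rw [mul_assoc, hW2 w₀ hw₀, mul_one]
      calc (s * s') * a = (s * s') * a * (s * s')⁻¹ * (s * s') := by group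
        _ = a * (s * s') := by rw [e]
    exact key (s * s') (hfix (s * s') (S.mul_mem hs hs')) a ha ha1 ha0 hss

end Cfsg.Agent.Lib.Helper49.Jc
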