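import Mathlib

/-!
# S2522 (Lev: a non-scalar matrix of determinant one is a product of two regular unipotents):
definitions of project LEV (helper49)

`V` is a finite-dimensional vector space over `K`, `g : Module.End K V`.
* `RegUnip u`: `(u-1)^n = 0` and `(u-1)^(n-1) ≠ 0`, `n = dim V`;
* `Good g c r`: `g = u1 * u2` with `u1`, `u2` regular unipotent, `c ∉ range (u1 - 1)` and
  `r` does not vanish on some fixed vector of `u2`;
* `Adm g`: `det g = 1` and, if `dim V ≥ 2`, `g` is not scalar and `rank (g - 1) ≥ 2`;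
* `schur g v φ h2`: the Schur complement of `g` on `ker φ`: `x ↦ g x - φ (g x) • g v`
  (`φ (g v) = 1`);
* `proj v φ h1 : V → ker φ`, `x ↦ x - φ x • v` (`φ v = 1`);
* `lift v φ h1 u a ρ : V → V`, `x ↦ φ x • a + u (proj x) + ρ (proj x) • v`.
-/

set_option autoImplicit false

namespace Cfsg.Agent.Lib.Helper49.Lev

open Module

variable {K : Type*} [Field K] {V : Type*} [AddCommGroup V] [Module K V]

/-- regular unipotent endomorphism -/
def RegUnip (u : Module.End K V) : Prop :=
  (u - 1) ^ (finrank K V) = 0 ∧ (u - 1) ^ (finrank K V - 1) ≠ 0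

/-- `g` is a product of two regular unipotents in good position with respect to `c`, `r` -/
def Good (g : Module.End K V) (c : V) (r : Module.Dual K V) : Prop :=
  ∃ u1 u2 : Module.End K V, g = u1 * u2 ∧ RegUnip u1 ∧ RegUnip u2 ∧
    c ∉ LinearMap.range (u1 - 1) ∧ ∃ w, u2 w = w ∧ r w ≠ 0

/-- admissible endomorphisms -/
def Adm (g : Module.End K V) : Prop :=
  LinearMap.det g = 1 ∧ (2 ≤ finrank K V →
    (¬ ∃ a : K, g = a • (1 : Module.End K V)) ∧ 2 ≤ finrank K (LinearMap.range (g - 1)))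

/-- the Schur complement of `g` on `ker φ` along `v` -/
def schur (g : Module.End K V) (v : V) (φ : Module.Dual K V) (h2 : φ (g v) = 1) :
    Module.End K (LinearMap.ker φ) :=
  LinearMap.codRestrict (LinearMap.ker φ)
    ((g - (LinearMap.toSpanSingleton K V (g v)).comp (φ.comp g)).comp (LinearMap.ker φ).subtype)
    (by
      intro x
      rw [LinearMap.mem_ker]
      simp [LinearMap.toSpanSingleton_apply, h2])

theorem schur_apply (g : Module.End K V) (v : V) (φ : Module.Dual K V) (h2 : φ (g v) = 1)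
    (x : LinearMap.ker φ) :
    ((schur g v φ h2 x : LinearMap.ker φ) : V) = g (x : V) - φ (g (x : V)) • g v := by
  simp [schur, LinearMap.toSpanSingleton_apply]

/-- the restriction of `φ ∘ g` to `ker φ` -/
def rres (g : Module.End K V) (φ : Module.Dual K V) : Module.Dual K (LinearMap.ker φ) :=
  (φ.comp g).comp (LinearMap.ker φ).subtype

theorem rres_apply (g : Module.End K V) (φ : Module.Dual K V) (x : LinearMap.ker φ) :
    rres g φ x = φ (g (x : V)) := rfl

/-- the projection onto `ker φ` along `v` -/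
def proj (v : V) (φ : Module.Dual K V) (h1 : φ v = 1) : V →ₗ[K] LinearMap.ker φ :=
  LinearMap.codRestrict (LinearMap.ker φ)
    (LinearMap.id - (LinearMap.toSpanSingleton K V v).comp φ)
    (by
      intro x
      rw [LinearMap.mem_ker]
      simp [LinearMap.toSpanSingleton_apply, h1])

theorem proj_apply (v : V) (φ : Module.Dual K V) (h1 : φ v = 1) (x : V) :
    ((proj v φ h1 x : LinearMap.ker φ) : V) = x - φ x • v := by
  simp [proj, LinearMap.toSpanSingleton_apply]

/-- `x ↦ φ x • a + u (proj x) + ρ (proj x) • v` -/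
def lift (v : V) (φ : Module.Dual K V) (h1 : φ v = 1) (u : Module.End K (LinearMap.ker φ))
    (a : V) (ρ : Module.Dual K (LinearMap.ker φ)) : Module.End K V :=
  (LinearMap.toSpanSingleton K V a).comp φ + (LinearMap.ker φ).subtype.comp (u.comp (proj v φ h1))
    + (LinearMap.toSpanSingleton K V v).comp (ρ.comp (proj v φ h1))

theorem lift_apply (v : V) (φ : Module.Dual K V) (h1 : φ v = 1)
    (u : Module.End K (LinearMap.ker φ)) (a : V) (ρ : Module.Dual K (LinearMap.ker φ)) (x : V) :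
    lift v φ h1 u a ρ x = φ x • a + (u (proj v φ h1 x) : V) + ρ (proj v φ h1 x) • v := by
  simp [lift, LinearMap.toSpanSingleton_apply]

/-- the conclusion of the existence lemma -/
def StepData (g : Module.End K V) (c : V) (r : Module.Dual K V) (v : V) (φ : Module.Dual K V) :
    Prop :=
  φ v = 1 ∧ ∃ h2 : φ (g v) = 1, r v ≠ 0 ∧ φ c ≠ 0 ∧ g v ≠ v ∧ rres g φ ≠ 0 ∧ Adm (schur g v φ h2)

/-- witnesses for the existence lemma (`f = g⁻¹`, `ψ = φ ∘ g`) -/
def Wit (g f : Module.End K V) (c : V) (r : Module.Dual K V) (v : V) (ψ : Module.Dual K V) :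
    Prop :=
  ψ v = 1 ∧ ψ (f v) = 1 ∧ r v ≠ 0 ∧ ψ (f c) ≠ 0 ∧ g v ≠ v ∧ (∃ w, ψ ((g - 1) w) ≠ 0) ∧
  (∃ x x', ψ x = 0 ∧ ψ x' = 0 ∧
    ¬ ∃ ζ a a' : K, g x - ζ • x = a • v ∧ g x' - ζ • x' = a' • v) ∧
  (∃ x1 x2, ψ x1 = 0 ∧ ψ x2 = 0 ∧ LinearIndependent K ![v, (g - 1) x1, (g - 1) x2])

end Cfsg.Agent.Lib.Helper49.Lev
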