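import Mathlib
import Cfsg.Agent.Lib.Helper49.LevDefs

/-!
# S2522 project LEV (helper49), piece NILBASIS

PLACEHOLDER: replace the `sorry` (keep the statement and the namespace exactly; auxiliary lemmas
with fresh names prefixed `levnilbasis_` are fine).  Paper proof: see the job note.
-/

set_option autoImplicit false

namespace Cfsg.Agent.Lib.Helper49.Lev

open Module

variable {K : Type*} [Field K] {V : Type*} [AddCommGroup V] [Module K V]

theorem levnilbasis_aux (N : Module.End K V) (n : ℕ) (w : V) (h0 : (N ^ n) w = 0)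
    (h1 : (N ^ (n - 1)) w ≠ 0) :
    LinearIndependent K (fun i : Fin n => (N ^ (i : ℕ)) w) := by
  rw [Fintype.linearIndependent_iff]
  intro c hc
  have key : ∀ (m : ℕ) (hm : m < n), c ⟨m, hm⟩ = 0 := by
    intro m
    induction m using Nat.strong_induction_on with
    | _ m ih =>
    intro hm
    have h2 := congrArg (fun v => (N ^ (n - 1 - m)) v) hc
    simp only [map_sum, map_smul, map_zero] at h2
    rw [Finset.sum_eq_single ⟨m, hm⟩] at h2
    · have h3 : (N ^ (n - 1 - m)) ((N ^ m) w) = (N ^ (n - 1)) w := by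
        rw [← Module.End.mul_apply, ← pow_add]
        congr 2
        omega
      rw [h3] at h2
      exact (smul_eq_zero.mp h2).resolve_right h1
    · intro j _ hj
      rcases lt_or_gt_of_ne (fun h => hj (Fin.ext h) : (j : ℕ) ≠ m) with hlt | hgt
      · rw [show j = ⟨(j : ℕ), j.2⟩ from rfl, ih j hlt j.2, zero_smul]
      · have h3 : (N ^ (n - 1 - m)) ((N ^ (j : ℕ)) w) = 0 := by
          rw [← Module.End.mul_apply, ← pow_add]
          have : n - 1 - m + (j : ℕ) = ((j : ℕ) - m - 1) + n := by omega
          rw [this, pow_add, Module.End.mul_apply, h0, map_zero]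
        rw [h3, smul_zero]
    · intro h; exact absurd (Finset.mem_univ _) h
  intro i
  exact key i i.2

theorem nil_basis [FiniteDimensional K V] (N : Module.End K V) (h0 : N ^ (finrank K V) = 0)
    (h1 : N ^ (finrank K V - 1) ≠ 0) :
    ∃ w : V, (N ^ (finrank K V - 1)) w ≠ 0 ∧
      LinearIndependent K (fun i : Fin (finrank K V) => (N ^ (i : ℕ)) w) := by
  have hex : ∃ w : V, (N ^ (finrank K V - 1)) w ≠ 0 := by
    by_contra hcon
    push Not at hcon
    exact h1 (LinearMap.ext (fun w => by simpa using hcon w))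
  obtain ⟨w, hw⟩ := hex
  exact ⟨w, hw, levnilbasis_aux N _ w (by rw [h0]; rfl) hw⟩

end Cfsg.Agent.Lib.Helper49.Lev
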