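import Mathlib
import Cfsg.Agent.Lib.Helper49.LevDefs
import Cfsg.Agent.Lib.Helper49.LevXNILBASIS

set_option autoImplicit false

namespace Cfsg.Agent.Lib.Helper49.Lev

open Module Matrix

variable {K : Type*} [Field K]

theorem jordan_mine (n : ℕ) (J : Matrix (Fin n) (Fin n) K)
    (hJ : ∀ i j : Fin n, J i j = if i = j then 1 else if j.val = i.val + 1 then 1 else 0)
    (u : Matrix (Fin n) (Fin n) K) (h0 : (u - 1) ^ n = 0) (h1 : (u - 1) ^ (n - 1) ≠ 0) :
    ∃ x : GL (Fin n) K, u = (x : Matrix (Fin n) (Fin n) K) * J *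
      ((x⁻¹ : GL (Fin n) K) : Matrix (Fin n) (Fin n) K) := by
  classical
  obtain ⟨N, hN⟩ : ∃ N : Matrix (Fin n) (Fin n) K, N = u - 1 := ⟨_, rfl⟩
  rw [← hN] at h0 h1
  have hu : u = 1 + N := by rw [hN]; abel
  obtain ⟨w, hw⟩ : ∃ w : Fin n → K, (N ^ (n - 1)) *ᵥ w ≠ 0 := by
    by_contra hcon
    push Not at hcon
    apply h1
    apply Matrix.toLin'.injective
    apply LinearMap.ext
    intro w
    rw [Matrix.toLin'_apply, hcon w]
    simp
  have hli : LinearIndependent K (fun i : Fin n => (N ^ (i : ℕ)) *ᵥ w) := by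
    have h := levnilbasis_aux (Matrix.toLin' N) n w
      (by rw [← Matrix.toLin'_pow, h0]; simp)
      (by rw [← Matrix.toLin'_pow, Matrix.toLin'_apply]; exact hw)
    have e : (fun i : Fin n => ((Matrix.toLin' N) ^ (i : ℕ)) w) =
        (fun i : Fin n => (N ^ (i : ℕ)) *ᵥ w) := by
      funext i
      rw [← Matrix.toLin'_pow, Matrix.toLin'_apply]
    rw [e] at h
    exact h
  obtain ⟨x, hx⟩ : ∃ x : Matrix (Fin n) (Fin n) K,
      ∀ i j, x i j = ((N ^ (n - 1 - (j : ℕ))) *ᵥ w) i :=
    ⟨Matrix.of (fun i j => ((N ^ (n - 1 - (j : ℕ))) *ᵥ w) i), fun i j => rfl⟩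
  have hxu : IsUnit x := by
    rw [← Matrix.linearIndependent_cols_iff_isUnit]
    have e : x.col = (fun i : Fin n => (N ^ (i : ℕ)) *ᵥ w) ∘ Fin.rev := by
      funext j
      funext i
      show x i j = _
      rw [hx]
      simp only [Function.comp_apply, Fin.val_rev]
      have e' : n - 1 - (j : ℕ) = n - ((j : ℕ) + 1) := by omega
      rw [e']
    rw [e]
    exact hli.comp _ Fin.rev_injective
  have hNx : ∀ i j, (N * x) i j = ((N ^ (n - (j : ℕ))) *ᵥ w) i := by
    intro i j
    have e1 : (N * x) i j = (N *ᵥ ((N ^ (n - 1 - (j : ℕ))) *ᵥ w)) i := by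
      rw [Matrix.mul_apply]
      simp only [Matrix.mulVec, dotProduct]
      apply Finset.sum_congr rfl
      intro k _
      rw [hx]
      rfl
    rw [e1, Matrix.mulVec_mulVec, ← pow_succ']
    congr 3
    have := j.2
    omega
  have hxJ : ∀ i j, (x * J) i j =
      x i j + (if h : 0 < (j : ℕ) then ((N ^ (n - (j : ℕ))) *ᵥ w) i else 0) := by
    intro i j
    rw [Matrix.mul_apply]
    by_cases hj : 0 < (j : ℕ)
    · rw [dif_pos hj]
      have hlt : (j : ℕ) - 1 < n := by have := j.2; omega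
      have hne : j ≠ (⟨(j : ℕ) - 1, hlt⟩ : Fin n) := by
        intro h
        have := congrArg Fin.val h
        simp at this
        omega
      rw [Finset.sum_eq_add j ⟨(j : ℕ) - 1, hlt⟩ hne]
      · rw [hJ, if_pos rfl, mul_one, hJ, if_neg hne.symm, if_pos (by simp; omega), mul_one, hx _ ⟨_, hlt⟩]
        have e' : n - 1 - ((⟨(j : ℕ) - 1, hlt⟩ : Fin n) : ℕ) = n - (j : ℕ) := by
          show n - 1 - ((j : ℕ) - 1) = n - (j : ℕ)
          have := j.2
          omega
        rw [e']
      · intro k _ hk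
        rw [hJ, if_neg hk.1, if_neg, mul_zero]
        intro h
        apply hk.2
        apply Fin.ext
        simp only
        omega
      · intro h
        exact absurd (Finset.mem_univ _) h
      · intro h
        exact absurd (Finset.mem_univ _) h
    · rw [dif_neg hj, add_zero, Finset.sum_eq_single j]
      · rw [hJ, if_pos rfl, mul_one]
      · intro k _ hk
        rw [hJ, if_neg hk, if_neg (by omega), mul_zero]
      · intro h
        exact absurd (Finset.mem_univ _) h
  have hkey : u * x = x * J := by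
    ext i j
    rw [hxJ, hu, Matrix.add_mul, Matrix.one_mul, Matrix.add_apply, hNx]
    congr 1
    by_cases hj : 0 < (j : ℕ)
    · rw [dif_pos hj]
    · rw [dif_neg hj]
      have hj0 : (j : ℕ) = 0 := by omega
      rw [hj0, Nat.sub_zero, h0]
      simp
  refine ⟨hxu.unit, ?_⟩
  have hx' : ((hxu.unit : GL (Fin n) K) : Matrix (Fin n) (Fin n) K) = x := rfl
  have hinv : x * ((hxu.unit⁻¹ : GL (Fin n) K) : Matrix (Fin n) (Fin n) K) = 1 := by
    have := Units.mul_inv hxu.unit
    rw [hx'] at this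
    exact this
  rw [hx', ← hkey, Matrix.mul_assoc, hinv, Matrix.mul_one]

end Cfsg.Agent.Lib.Helper49.Lev
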