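import Mathlib
import Cfsg.Agent.Lib.Helper49.LevDefs

/-!
# S2522 project LEV (helper49), piece KER (proved by helper29)

Rank-nullity for a functional taking the value `1`.
-/

set_option autoImplicit false

namespace Cfsg.Agent.Lib.Helper49.Lev

open Module

variable {K : Type*} [Field K] {V : Type*} [AddCommGroup V] [Module K V]

theorem finrank_ker_add_one [FiniteDimensional K V] (v : V) (φ : Module.Dual K V) (h1 : φ v = 1) :
    finrank K (LinearMap.ker φ) + 1 = finrank K V := by
  have hsurj : Function.Surjective φ := by
    intro c
    exact ⟨c • v, by rw [map_smul, h1, smul_eq_mul, mul_one]⟩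
  have hr : LinearMap.range φ = ⊤ := LinearMap.range_eq_top.mpr hsurj
  have h := LinearMap.finrank_range_add_finrank_ker φ
  rw [hr, finrank_top, Module.finrank_self] at h
  omega

end Cfsg.Agent.Lib.Helper49.Lev
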