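import Mathlib
import Cfsg.Agent.Lib.Helper49.LevDefs
import Cfsg.Agent.Lib.Helper49.LevXNILBASIS

/-!
# S2522 project LEV (helper49), piece NILB

The kernel of a regular nilpotent endomorphism is a line.
-/

set_option autoImplicit false

namespace Cfsg.Agent.Lib.Helper49.Lev

open Module

variable {K : Type*} [Field K] {V : Type*} [AddCommGroup V] [Module K V]

/-- the shift `i ↦ i + 1` from `Fin (n - 1)` to `Fin n` -/
def levnilb_sh (n : ℕ) (i : Fin (n - 1)) : Fin n := ⟨(i : ℕ) + 1, by have := i.2; omega⟩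

theorem levnilb_inj (n : ℕ) : Function.Injective (levnilb_sh n) := by
  intro i j hij
  have h2 := congrArg Fin.val hij
  simp only [levnilb_sh, add_left_inj] at h2
  exact Fin.ext h2

theorem levnilb_rank [FiniteDimensional K V] (N : Module.End K V) (w0 : V)
    (hli : LinearIndependent K (fun i : Fin (finrank K V) => (N ^ (i : ℕ)) w0)) :
    finrank K V - 1 ≤ finrank K ↥(LinearMap.range N) := by
  have hli2 : LinearIndependent K
      ((fun i : Fin (finrank K V) => (N ^ (i : ℕ)) w0) ∘ levnilb_sh (finrank K V)) :=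
    hli.comp _ (levnilb_inj (finrank K V))
  have hmem : ∀ i : Fin (finrank K V - 1),
      (N ^ ((levnilb_sh (finrank K V) i : Fin (finrank K V)) : ℕ)) w0 ∈ LinearMap.range N := by
    intro i
    refine ⟨(N ^ (i : ℕ)) w0, ?_⟩
    show N ((N ^ (i : ℕ)) w0) = (N ^ ((i : ℕ) + 1)) w0
    rw [pow_succ', Module.End.mul_apply]
  have hf : LinearIndependent K
      (fun i : Fin (finrank K V - 1) =>
        (⟨(N ^ ((levnilb_sh (finrank K V) i : Fin (finrank K V)) : ℕ)) w0, hmem i⟩ :
          ↥(LinearMap.range N))) := by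
    apply LinearIndependent.of_comp (LinearMap.range N).subtype
    exact hli2
  have h3 := hf.fintype_card_le_finrank
  rw [Fintype.card_fin] at h3
  exact h3

theorem nil_ker_line [FiniteDimensional K V] (N : Module.End K V) (h0 : N ^ (finrank K V) = 0)
    (h1 : N ^ (finrank K V - 1) ≠ 0) (w w' : V) (hw : N w = 0) (hw0 : w ≠ 0) (hw' : N w' = 0) :
    ∃ a : K, w' = a • w := by
  obtain ⟨w0, -, hli⟩ := nil_basis N h0 h1
  have hrk := levnilb_rank N w0 hli
  have hrn := LinearMap.finrank_range_add_finrank_ker N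
  have hker : finrank K ↥(LinearMap.ker N) ≤ 1 := by omega
  obtain ⟨v, hv⟩ := finrank_le_one_iff.1 hker
  obtain ⟨c, hc⟩ := hv ⟨w, LinearMap.mem_ker.2 hw⟩
  obtain ⟨c', hc'⟩ := hv ⟨w', LinearMap.mem_ker.2 hw'⟩
  have e1 : w = c • (v : V) := by
    have h4 := congrArg Subtype.val hc
    simpa using h4.symm
  have e2 : w' = c' • (v : V) := by
    have h4 := congrArg Subtype.val hc'
    simpa using h4.symm
  have hc0 : c ≠ 0 := by
    rintro rfl
    apply hw0
    rw [e1, zero_smul]
  refine ⟨c' / c, ?_⟩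
  rw [e1, e2, smul_smul, div_mul_cancel₀ _ hc0]

end Cfsg.Agent.Lib.Helper49.Lev
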