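import Mathlib
import Cfsg.Agent.Lib.Helper49.LevDefs
import Cfsg.Agent.Lib.Helper49.LevXNILB
import Cfsg.Agent.Lib.Helper49.LevXKER

set_option autoImplicit false

namespace Cfsg.Agent.Lib.Helper49.Lev

open Module

variable {K : Type*} [Field K] {V : Type*} [AddCommGroup V] [Module K V]

theorem liftU_mine [FiniteDimensional K V] (v : V) (φ : Module.Dual K V) (h1 : φ v = 1)
    (u : Module.End K (LinearMap.ker φ)) (hu : RegUnip u) (ρ : Module.Dual K (LinearMap.ker φ))
    (w : LinearMap.ker φ) (hw : u w = w) (hρ : ρ w ≠ 0) :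
    RegUnip (lift v φ h1 u v ρ) ∧ lift v φ h1 u v ρ v = v := by
  obtain ⟨U, hU⟩ : ∃ U : Module.End K V, U = lift v φ h1 u v ρ := ⟨_, rfl⟩
  rw [← hU]
  have hv0 : v ≠ 0 := by
    rintro rfl
    simp at h1
  have hpv : proj v φ h1 v = 0 := by
    apply Subtype.ext
    rw [proj_apply, h1, one_smul, sub_self]
    rfl
  have hpz : ∀ z : LinearMap.ker φ, proj v φ h1 (z : V) = z := by
    intro z
    apply Subtype.ext
    rw [proj_apply, LinearMap.mem_ker.mp z.2, zero_smul, sub_zero]
  have hUv : U v = v := by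
    rw [hU, lift_apply, hpv, h1, one_smul, map_zero, map_zero, zero_smul, add_zero]
    simp
  have hU1v : (U - 1) v = 0 := by
    rw [LinearMap.sub_apply, hUv]
    simp
  have hU1z : ∀ z : LinearMap.ker φ, (U - 1) (z : V) = (((u - 1) z : LinearMap.ker φ) : V) + ρ z • v := by
    intro z
    rw [LinearMap.sub_apply, hU, lift_apply, hpz, LinearMap.mem_ker.mp z.2, zero_smul, zero_add]
    simp only [Module.End.one_apply, LinearMap.sub_apply, Submodule.coe_sub]
    abel
  have hpowv : ∀ k : ℕ, ((U - 1) ^ (k + 1)) v = 0 := by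
    intro k
    rw [pow_succ, Module.End.mul_apply, hU1v, map_zero]
  have hpowz : ∀ (k : ℕ) (z : LinearMap.ker φ), ((U - 1) ^ (k + 1)) (z : V) =
      ((((u - 1) ^ (k + 1)) z : LinearMap.ker φ) : V) + ρ (((u - 1) ^ k) z) • v := by
    intro k
    induction k with
    | zero =>
      intro z
      simp only [zero_add, pow_one, pow_zero, Module.End.one_apply]
      exact hU1z z
    | succ k ih =>
      intro z
      rw [pow_succ', Module.End.mul_apply, ih z, map_add, map_smul, hU1v, smul_zero, add_zero,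
        hU1z, pow_succ' (u - 1) (k + 1), Module.End.mul_apply]
  have hdec : ∀ x : V, x = φ x • v + ((proj v φ h1 x : LinearMap.ker φ) : V) := by
    intro x
    rw [proj_apply]
    abel
  have hn := finrank_ker_add_one v φ h1
  obtain ⟨hu0, hu1⟩ := hu
  obtain ⟨m, hm⟩ : ∃ m, finrank K (LinearMap.ker φ) = m := ⟨_, rfl⟩
  rw [hm] at hu0 hu1 hn
  have hw0 : w ≠ 0 := by
    rintro rfl
    simp at hρ
  have hm1 : 1 ≤ m := by
    by_contra hcon
    have hm0 : finrank K (LinearMap.ker φ) = 0 := by omega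
    have := (Submodule.finrank_eq_zero (S := LinearMap.ker φ)).mp hm0
    apply hw0
    apply Subtype.ext
    exact (Submodule.eq_bot_iff _).mp this (w : V) w.2
  refine ⟨⟨?_, ?_⟩, hUv⟩
  · rw [← hn]
    apply LinearMap.ext
    intro x
    rw [hdec x, map_add, map_smul, hpowv, smul_zero, zero_add, hpowz, pow_succ, hu0, zero_mul]
    simp
  · rw [← hn, Nat.add_sub_cancel]
    obtain ⟨m', rfl⟩ : ∃ m', m = m' + 1 := ⟨m - 1, by omega⟩
    rw [Nat.add_sub_cancel] at hu1
    obtain ⟨z, hz⟩ : ∃ z, ((u - 1) ^ m') z ≠ 0 := by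
      by_contra hcon
      push Not at hcon
      exact hu1 (LinearMap.ext hcon)
    intro h0
    have h := congrArg (fun t : Module.End K V => t (z : V)) h0
    simp only [LinearMap.zero_apply] at h
    rw [hpowz, hu0] at h
    have hy : (u - 1) (((u - 1) ^ m') z) = 0 := by
      rw [← Module.End.mul_apply, ← pow_succ', hu0]
      rfl
    have hw' : (u - 1) w = 0 := by
      rw [LinearMap.sub_apply, hw]
      simp
    obtain ⟨a, ha⟩ := nil_ker_line (u - 1) (by rw [hm]; exact hu0)
      (by rw [hm, Nat.add_sub_cancel]; exact hu1) w (((u - 1) ^ m') z) hw' hw0 hy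
    have ha0 : a ≠ 0 := by
      rintro rfl
      rw [zero_smul] at ha
      exact hz ha
    rw [ha, map_smul] at h
    simp only [LinearMap.zero_apply, ZeroMemClass.coe_zero, zero_add] at h
    rcases smul_eq_zero.mp h with h' | h'
    · rw [smul_eq_mul] at h'
      rcases mul_eq_zero.mp h' with h'' | h''
      · exact ha0 h''
      · exact hρ h''
    · exact hv0 h'

end Cfsg.Agent.Lib.Helper49.Lev
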