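import Mathlib
import Cfsg.Agent.Lib.Helper49.LevDefs

/-!
# S2522 project LEV (helper49), piece COVER (proved by helper29)

A vector space over a field with at least four elements is not the union of four proper
subspaces (general statement for a finite set of proper subspaces of size at most `|K|`).
-/

set_option autoImplicit false

namespace Cfsg.Agent.Lib.Helper49.Lev

open Module

variable {K : Type*} [Field K] {V : Type*} [AddCommGroup V] [Module K V]

/-- a vector space is not the union of a finite set of proper subspaces of size at most `|K|` -/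
theorem levcover_aux [DecidableEq (Submodule K V)] (s : Finset (Submodule K V)) :
    (∀ W ∈ s, W ≠ ⊤) → (Finite K → s.card ≤ Nat.card K) → ∃ x : V, ∀ W ∈ s, x ∉ W := by
  induction s using Finset.induction_on with
  | empty =>
    intro _ _
    exact ⟨0, fun W hW => absurd hW (Finset.notMem_empty W)⟩
  | insert W₀ s hW₀ ih =>
    intro hne hcard
    have hcard' : Finite K → s.card ≤ Nat.card K := by
      intro hfin
      have h6 := hcard hfin
      rw [Finset.card_insert_of_notMem hW₀] at h6
      omega
    obtain ⟨x, hx⟩ := ih (fun W hW => hne W (Finset.mem_insert_of_mem hW)) hcard'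
    by_cases hxW : x ∈ W₀
    · have hW₀ne : W₀ ≠ ⊤ := hne W₀ (Finset.mem_insert_self W₀ s)
      obtain ⟨y, hy⟩ : ∃ y, y ∉ W₀ := by
        by_contra hcon
        apply hW₀ne
        rw [Submodule.eq_top_iff']
        intro y
        by_contra hy
        exact hcon ⟨y, hy⟩
      have hex : ∃ t : K, ∀ W ∈ s, y + t • x ∉ W := by
        by_contra hcon
        have hall : ∀ t : K, ∃ W : s, y + t • x ∈ (W : Submodule K V) := by
          intro t
          by_contra h
          apply hcon
          exact ⟨t, fun W hW hmem => h ⟨⟨W, hW⟩, hmem⟩⟩
        choose g hg using hall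
        have hinj : Function.Injective g := by
          intro t t' htt
          by_contra hne'
          have h1 := hg t
          have h2 := hg t'
          rw [htt] at h1
          have h3 : (t - t') • x ∈ (g t' : Submodule K V) := by
            have h7 := Submodule.sub_mem _ h1 h2
            have e : y + t • x - (y + t' • x) = (t - t') • x := by
              rw [sub_smul]
              abel
            rwa [e] at h7
          have h4 : x ∈ (g t' : Submodule K V) := by
            have h7 := Submodule.smul_mem _ (t - t')⁻¹ h3
            rwa [smul_smul, inv_mul_cancel₀ (sub_ne_zero.mpr hne'), one_smul] at h7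
          exact hx _ (g t').2 h4
        have hfin : Finite K := Finite.of_injective g hinj
        have h5 := Nat.card_le_card_of_injective g hinj
        rw [show Nat.card ↥s = s.card from (Nat.card_eq_fintype_card).trans (Fintype.card_coe s)] at h5
        have h6 := hcard hfin
        rw [Finset.card_insert_of_notMem hW₀] at h6
        omega
      obtain ⟨t, ht⟩ := hex
      refine ⟨y + t • x, fun W hW => ?_⟩
      rcases Finset.mem_insert.mp hW with hW' | hW'
      · rw [hW']
        intro hmem
        apply hy
        have h7 := Submodule.sub_mem _ hmem (Submodule.smul_mem _ t hxW)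
        rwa [add_sub_cancel_right] at h7
      · exact ht W hW'
    · refine ⟨x, fun W hW => ?_⟩
      rcases Finset.mem_insert.mp hW with hW' | hW'
      · rw [hW']
        exact hxW
      · exact hx W hW'

theorem cover4 (U1 U2 U3 U4 : Submodule K V) (h1 : U1 ≠ ⊤) (h2 : U2 ≠ ⊤) (h3 : U3 ≠ ⊤)
    (h4 : U4 ≠ ⊤) (hK : 4 ≤ Cardinal.mk K) : ∃ x : V, x ∉ U1 ∧ x ∉ U2 ∧ x ∉ U3 ∧ x ∉ U4 := by
  classical
  have hcard : Finite K → ({U1, U2, U3, U4} : Finset (Submodule K V)).card ≤ Nat.card K := by
    intro hfin
    have h5 : ((4 : ℕ) : Cardinal) ≤ (Nat.card K : Cardinal) := by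
      rw [Nat.cast_card]
      exact_mod_cast hK
    have h6 : 4 ≤ Nat.card K := by exact_mod_cast h5
    exact le_trans Finset.card_le_four h6
  obtain ⟨x, hx⟩ := levcover_aux ({U1, U2, U3, U4} : Finset (Submodule K V)) (by
    intro W hW
    simp only [Finset.mem_insert, Finset.mem_singleton] at hW
    rcases hW with rfl | rfl | rfl | rfl <;> assumption) hcard
  exact ⟨x, hx U1 (by simp), hx U2 (by simp), hx U3 (by simp), hx U4 (by simp)⟩

end Cfsg.Agent.Lib.Helper49.Lev
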