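import Mathlib
import Cfsg.Agent.Lib.Helper49.LevDefs
import Cfsg.Agent.Lib.Helper49.LevXCOVER

/-!
# S2522 project LEV (helper49), piece VEX

Proved by helper47 (job LEV-VEX).
-/

set_option autoImplicit false

namespace Cfsg.Agent.Lib.Helper49.Lev

open Module

variable {K : Type*} [Field K] {V : Type*} [AddCommGroup V] [Module K V]

omit [AddCommGroup V] [Module K V] in
theorem levvex_three (hK : 4 ≤ Cardinal.mk K) :
    ∃ a b c : K, a ≠ 0 ∧ b ≠ 0 ∧ c ≠ 0 ∧ a ≠ b ∧ a ≠ c ∧ b ≠ c := by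
  classical
  have hemb : Nonempty (Fin 4 ↪ K) := by
    rw [← Cardinal.lift_mk_le']
    simpa using hK
  obtain ⟨e⟩ := hemb
  have hS : ((Finset.univ : Finset (Fin 4)).map e).card = 4 := by simp
  have h3 : 2 < (((Finset.univ : Finset (Fin 4)).map e).erase 0).card := by
    have := Finset.pred_card_le_card_erase (s := (Finset.univ : Finset (Fin 4)).map e) (a := (0 : K))
    omega
  obtain ⟨a, ha, b, hb, c, hc, hab, hac, hbc⟩ := Finset.two_lt_card.1 h3
  exact ⟨a, b, c, (Finset.mem_erase.1 ha).1, (Finset.mem_erase.1 hb).1,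
    (Finset.mem_erase.1 hc).1, hab, hac, hbc⟩

theorem vex (h : Module.End K V) (hh : ¬ ∃ a : K, h = a • (1 : Module.End K V))
    (U1 U2 : Submodule K V) (h1 : U1 ≠ ⊤) (h2 : U2 ≠ ⊤) (hK : 4 ≤ Cardinal.mk K) :
    ∃ v : V, v ∉ U1 ∧ v ∉ U2 ∧ ¬ ∃ a : K, h v = a • v := by
  classical
  by_contra hcon
  have hcon' : ∀ v : V, v ∉ U1 → v ∉ U2 → ∃ a : K, h v = a • v := by
    intro v hv1 hv2
    by_contra hne
    exact hcon ⟨v, hv1, hv2, hne⟩
  obtain ⟨v1, hv11, hv12, -, -⟩ := cover4 U1 U2 U1 U2 h1 h2 h1 h2 hK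
  obtain ⟨l, hl⟩ := hcon' v1 hv11 hv12
  have hE : LinearMap.ker (h - l • (1 : Module.End K V)) ≠ ⊤ := by
    intro htop
    apply hh
    refine ⟨l, ?_⟩
    have h0 : h - l • (1 : Module.End K V) = 0 := LinearMap.ker_eq_top.1 htop
    exact sub_eq_zero.1 h0
  obtain ⟨v2, hv21, hv22, hv2E, -⟩ := cover4 U1 U2 _ _ h1 h2 hE hE hK
  obtain ⟨l2, hl2⟩ := hcon' v2 hv21 hv22
  have hne : l ≠ l2 := by
    rintro rfl
    apply hv2E
    rw [LinearMap.mem_ker, LinearMap.sub_apply, LinearMap.smul_apply, Module.End.one_apply, hl2,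
      sub_self]
  have hv1ne : v1 ≠ 0 := by
    rintro rfl
    exact hv11 (Submodule.zero_mem _)
  have hv2ne : v2 ≠ 0 := by
    rintro rfl
    exact hv21 (Submodule.zero_mem _)
  have hw : ∀ t : K, t ≠ 0 → v1 + t • v2 ∈ U1 ∨ v1 + t • v2 ∈ U2 := by
    intro t ht
    by_contra hnot
    have hn1 : v1 + t • v2 ∉ U1 := fun hm => hnot (Or.inl hm)
    have hn2 : v1 + t • v2 ∉ U2 := fun hm => hnot (Or.inr hm)
    obtain ⟨c, hc⟩ := hcon' _ hn1 hn2
    rw [map_add, map_smul, hl, hl2, smul_add] at hc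
    have key : (l - c) • v1 = (t * (c - l2)) • v2 := by
      calc (l - c) • v1 = l • v1 - c • v1 := sub_smul _ _ _
        _ = (l • v1 + t • l2 • v2) - t • l2 • v2 - c • v1 := by abel
        _ = (c • v1 + c • t • v2) - t • l2 • v2 - c • v1 := by rw [hc]
        _ = c • t • v2 - t • l2 • v2 := by abel
        _ = (t * (c - l2)) • v2 := by
          rw [smul_smul, smul_smul, ← sub_smul]
          congr 1
          ring
    by_cases hcl : c = l
    · rw [hcl, sub_self, zero_smul] at key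
      rcases smul_eq_zero.1 key.symm with h0 | h0
      · rcases mul_eq_zero.1 h0 with h0 | h0
        · exact ht h0
        · exact hne (sub_eq_zero.1 h0)
      · exact hv2ne h0
    · have hlc : l - c ≠ 0 := sub_ne_zero.2 (Ne.symm hcl)
      have hs : v1 = ((l - c)⁻¹ * (t * (c - l2))) • v2 := by
        rw [mul_smul, ← key, smul_smul, inv_mul_cancel₀ hlc, one_smul]
      have hh1 : h v1 = l2 • v1 := by
        have e1 : h (((l - c)⁻¹ * (t * (c - l2))) • v2)
            = l2 • (((l - c)⁻¹ * (t * (c - l2))) • v2) := by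
          rw [map_smul, hl2, smul_comm]
        rw [← hs] at e1
        exact e1
      rw [hl] at hh1
      have h0 : (l - l2) • v1 = 0 := by rw [sub_smul, hh1, sub_self]
      rcases smul_eq_zero.1 h0 with h0 | h0
      · exact hne (sub_eq_zero.1 h0)
      · exact hv1ne h0
  obtain ⟨a, b, c, ha, hb, hc, hab, hac, hbc⟩ := levvex_three hK
  have hsame : ∀ (U : Submodule K V) (s t : K), s ≠ t → v1 + s • v2 ∈ U → v1 + t • v2 ∈ U →
      v2 ∈ U := by
    intro U s t hst hs ht
    have hd : (s - t) • v2 ∈ U := by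
      have hsub := U.sub_mem hs ht
      have e : (v1 + s • v2) - (v1 + t • v2) = (s - t) • v2 := by
        rw [sub_smul]
        abel
      rwa [e] at hsub
    have hm := U.smul_mem (s - t)⁻¹ hd
    rwa [smul_smul, inv_mul_cancel₀ (sub_ne_zero.2 hst), one_smul] at hm
  rcases hw a ha with h_a | h_a <;> rcases hw b hb with h_b | h_b <;>
    rcases hw c hc with h_c | h_c
  · exact hv21 (hsame U1 a b hab h_a h_b)
  · exact hv21 (hsame U1 a b hab h_a h_b)
  · exact hv21 (hsame U1 a c hac h_a h_c)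
  · exact hv22 (hsame U2 b c hbc h_b h_c)
  · exact hv21 (hsame U1 b c hbc h_b h_c)
  · exact hv22 (hsame U2 a c hac h_a h_c)
  · exact hv22 (hsame U2 a b hab h_a h_b)
  · exact hv22 (hsame U2 a b hab h_a h_b)

end Cfsg.Agent.Lib.Helper49.Lev
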