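import Mathlib
import Cfsg.Agent.Lib.Helper49.LevDefs
import Cfsg.Agent.Lib.Helper49.LevXVEX

/-!
# S2522 project LEV (helper49), piece AV

Filled in by helper20.  `h := g + f` is not scalar; `(g + f) v = 2 v + (g-1)^2 (f v)`.
If `rank (g-1) ≠ 2`: `vex` for `h`, `ker r`, `comap (g-1) (span {c})`.  If `rank (g-1) = 2`:
`cover4` for `ker r`, `comap (g-1) (span {c})`, `range (g-1)`, `ker ((g-1)^2)`.
-/

set_option autoImplicit false

namespace Cfsg.Agent.Lib.Helper49.Lev

open Module

variable {K : Type*} [Field K] {V : Type*} [AddCommGroup V] [Module K V]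

theorem aV [FiniteDimensional K V] (g f : Module.End K V) (hfg : f * g = 1) (hgf : g * f = 1)
    (hV : 3 ≤ finrank K V) (hg : Adm g) (hh : ¬ ∃ τ : K, g + f = τ • (1 : Module.End K V))
    (c : V) (hc : c ≠ 0) (r : Module.Dual K V) (hr : r ≠ 0) (hK : 4 ≤ Cardinal.mk K) :
    ∃ v : V, r v ≠ 0 ∧ (¬ ∃ a : K, (g - 1) v = a • c) ∧ (¬ ∃ a : K, (g + f) v = a • v) ∧
      (finrank K (LinearMap.range (g - 1)) = 2 → v ∉ LinearMap.range (g - 1)) := by
  have hgfv : ∀ x : V, g (f x) = x := by
    intro x
    have h1 := congrArg (fun T : Module.End K V => T x) hgf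
    exact h1
  have hfgv : ∀ x : V, f (g x) = x := by
    intro x
    have h1 := congrArg (fun T : Module.End K V => T x) hfg
    exact h1
  -- the basic identity
  have hid : ∀ v : V, (g + f) v = (2 : K) • v + (g - 1) ((g - 1) (f v)) := by
    intro v
    simp only [LinearMap.add_apply, LinearMap.sub_apply, Module.End.one_apply, map_sub, hgfv]
    rw [two_smul]
    abel
  have hcommM : ∀ v : V, (g - 1) ((g - 1) (f v)) = f ((g - 1) ((g - 1) v)) := by
    intro v
    simp only [LinearMap.sub_apply, Module.End.one_apply, map_sub, hgfv, hfgv]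
  -- the proper subspaces
  have hU1 : LinearMap.ker r ≠ ⊤ := by
    intro h
    exact hr (LinearMap.ker_eq_top.1 h)
  have hrank : 2 ≤ finrank K (LinearMap.range (g - 1)) := (hg.2 (by omega)).2
  have hU2 : Submodule.comap (g - 1) (Submodule.span K {c}) ≠ ⊤ := by
    intro h
    have h1 : LinearMap.range (g - 1) ≤ Submodule.span K {c} := by
      rintro _ ⟨x, rfl⟩
      have hx : x ∈ Submodule.comap (g - 1) (Submodule.span K {c}) := by
        rw [h]
        exact Submodule.mem_top
      exact hx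
    have h2 := Submodule.finrank_mono h1
    rw [finrank_span_singleton hc] at h2
    omega
  have hmem1 : ∀ v : V, v ∉ LinearMap.ker r → r v ≠ 0 := by
    intro v hv h
    exact hv (LinearMap.mem_ker.2 h)
  have hmem2 : ∀ v : V, v ∉ Submodule.comap (g - 1) (Submodule.span K {c}) →
      ¬ ∃ a : K, (g - 1) v = a • c := by
    rintro v hv ⟨a, ha⟩
    apply hv
    rw [Submodule.mem_comap, ha]
    exact Submodule.smul_mem _ a (Submodule.mem_span_singleton_self c)
  by_cases hr2 : finrank K (LinearMap.range (g - 1)) = 2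
  · -- rank two
    have hU3 : LinearMap.range (g - 1) ≠ ⊤ := by
      intro h
      rw [h, finrank_top] at hr2
      omega
    have hU4 : LinearMap.ker ((g - 1) * (g - 1)) ≠ ⊤ := by
      intro h
      have h0 : (g - 1) * (g - 1) = 0 := LinearMap.ker_eq_top.1 h
      apply hh
      refine ⟨2, ?_⟩
      apply LinearMap.ext
      intro v
      have h1 : (g - 1) ((g - 1) (f v)) = 0 := by
        have h2 := congrArg (fun T : Module.End K V => T (f v)) h0
        exact h2
      rw [hid v, h1, add_zero]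
      rfl
    obtain ⟨v, hv1, hv2, hv3, hv4⟩ := cover4 _ _ _ _ hU1 hU2 hU3 hU4 hK
    refine ⟨v, hmem1 v hv1, hmem2 v hv2, ?_, fun _ => hv3⟩
    rintro ⟨a, ha⟩
    rw [hid v] at ha
    by_cases ha2 : a = 2
    · -- `(g-1)^2 (f v) = 0`
      have h1 : (g - 1) ((g - 1) (f v)) = 0 := by
        rw [ha2] at ha
        exact add_eq_left.1 ha
      rw [hcommM v] at h1
      have h2 : (g - 1) ((g - 1) v) = 0 := by
        have h3 := congrArg g h1
        rw [hgfv, map_zero] at h3
        exact h3
      apply hv4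
      rw [LinearMap.mem_ker]
      exact h2
    · -- `v ∈ range (g - 1)`
      have h1 : (g - 1) ((g - 1) (f v)) = (a - 2) • v := by
        rw [sub_smul]
        exact eq_sub_of_add_eq' ha
      have ha0 : a - 2 ≠ 0 := sub_ne_zero.2 ha2
      apply hv3
      refine ⟨(a - 2)⁻¹ • (g - 1) (f v), ?_⟩
      rw [map_smul, h1, smul_smul, inv_mul_cancel₀ ha0, one_smul]
  · -- rank at least three
    obtain ⟨v, hv1, hv2, hv3⟩ := vex (g + f) hh _ _ hU1 hU2 hK
    exact ⟨v, hmem1 v hv1, hmem2 v hv2, hv3, fun h => absurd h hr2⟩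

end Cfsg.Agent.Lib.Helper49.Lev
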