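import Mathlib
import Cfsg.Agent.Lib.Helper49.LevDefs
import Cfsg.Agent.Lib.Helper49.LevXCOVER

/-!
# S2522 project LEV (helper49), piece FUNC (proof by helper54)

A functional vanishing on `T`, equal to `1` at `a` and non-zero at `b` and `d`: in the dual
annihilator of `T` the conditions `ψ a = 0`, `ψ b = 0`, `ψ d = 0` define proper subspaces, and
`cover4` gives a functional outside all of them.
-/

set_option autoImplicit false

namespace Cfsg.Agent.Lib.Helper49.Lev

open Module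

variable {K : Type*} [Field K] {V : Type*} [AddCommGroup V] [Module K V]

/-- the functionals of the annihilator of `T` vanishing at `a` -/
def levfunc_U (T : Submodule K V) (a : V) : Submodule K ↥(T.dualAnnihilator) :=
  LinearMap.ker ((Module.Dual.eval K V a).comp (T.dualAnnihilator).subtype)

theorem levfunc_mem (T : Submodule K V) (a : V) (ψ : ↥(T.dualAnnihilator)) :
    ψ ∈ levfunc_U T a ↔ (ψ : Module.Dual K V) a = 0 := by
  unfold levfunc_U
  rw [LinearMap.mem_ker]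
  rfl

theorem levfunc_ne_top (T : Submodule K V) (a : V) (ha : a ∉ T) : levfunc_U T a ≠ ⊤ := by
  intro h
  obtain ⟨f, hfa, hTf⟩ := Submodule.exists_le_ker_of_notMem ha
  have hf : f ∈ T.dualAnnihilator :=
    (Submodule.mem_dualAnnihilator f).mpr (fun w hw => LinearMap.mem_ker.mp (hTf hw))
  have h1 : (⟨f, hf⟩ : ↥(T.dualAnnihilator)) ∈ levfunc_U T a := by
    rw [h]
    exact Submodule.mem_top
  exact hfa ((levfunc_mem T a ⟨f, hf⟩).mp h1)

theorem func [FiniteDimensional K V] (T : Submodule K V) (a b d : V) (ha : a ∉ T) (hb : b ∉ T)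
    (hd : d ∉ T) (hK : 4 ≤ Cardinal.mk K) :
    ∃ ψ : Module.Dual K V, (∀ x ∈ T, ψ x = 0) ∧ ψ a = 1 ∧ ψ b ≠ 0 ∧ ψ d ≠ 0 := by
  obtain ⟨ψ0, h1, h2, h3, -⟩ := cover4 (K := K) (V := ↥(T.dualAnnihilator)) (levfunc_U T a)
    (levfunc_U T b) (levfunc_U T d) (levfunc_U T d) (levfunc_ne_top T a ha)
    (levfunc_ne_top T b hb) (levfunc_ne_top T d hd) (levfunc_ne_top T d hd) hK
  have ha0 : (ψ0 : Module.Dual K V) a ≠ 0 := fun h => h1 ((levfunc_mem T a ψ0).mpr h)
  have hb0 : (ψ0 : Module.Dual K V) b ≠ 0 := fun h => h2 ((levfunc_mem T b ψ0).mpr h)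
  have hd0 : (ψ0 : Module.Dual K V) d ≠ 0 := fun h => h3 ((levfunc_mem T d ψ0).mpr h)
  refine ⟨((ψ0 : Module.Dual K V) a)⁻¹ • (ψ0 : Module.Dual K V), ?_, ?_, ?_, ?_⟩
  · intro x hx
    rw [LinearMap.smul_apply, (Submodule.mem_dualAnnihilator _).mp ψ0.2 x hx, smul_zero]
  · rw [LinearMap.smul_apply, smul_eq_mul, inv_mul_cancel₀ ha0]
  · rw [LinearMap.smul_apply, smul_eq_mul]
    exact mul_ne_zero (inv_ne_zero ha0) hb0
  · rw [LinearMap.smul_apply, smul_eq_mul]
    exact mul_ne_zero (inv_ne_zero ha0) hd0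

end Cfsg.Agent.Lib.Helper49.Lev
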