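import Mathlib
import Cfsg.Agent.Lib.Helper49.LevDefs
import Cfsg.Agent.Lib.Helper49.LevXFUNC

/-!
# S2522 project LEV (helper49), piece AW

Filled in by helper85 (job 3533).  Paper proof: see the job note 2218, section AW.
-/

set_option autoImplicit false

namespace Cfsg.Agent.Lib.Helper49.Lev

open Module

variable {K : Type*} [Field K] {V : Type*} [AddCommGroup V] [Module K V]

theorem aW [FiniteDimensional K V] (g f : Module.End K V) (hfg : f * g = 1) (hgf : g * f = 1)
    (hV : 3 ≤ finrank K V) (hg : Adm g) (c : V) (hc : c ≠ 0) (r : Module.Dual K V) (v x2 : V)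
    (hv0 : r v ≠ 0) (hv1 : ¬ ∃ a : K, (g - 1) v = a • c)
    (hv2 : ¬ ∃ a : K, (g + f) v = a • v)
    (ha : x2 ∉ Submodule.span K ({v, v - f v} : Set V))
    (hb : x2 ∉ Submodule.span K ({v - f v, f c} : Set V))
    (hc' : (g - 1) x2 ∉ Submodule.span K ({v, (g - 1) (v - f v)} : Set V))
    (hd : finrank K (LinearMap.range (g - 1)) = 2 → x2 ∉ LinearMap.range (g - 1))
    (he : ¬ ∃ ζ a a' : K, g (v - f v) - ζ • (v - f v) = a • v ∧ g x2 - ζ • x2 = a' • v)
    (hK : 4 ≤ Cardinal.mk K) :
    ∃ ψ : Module.Dual K V, Wit g f c r v ψ := by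
  classical
  obtain ⟨x0, hx0⟩ : ∃ x0, x0 = v - f v := ⟨_, rfl⟩
  rw [← hx0] at ha hb hc' he
  have hM : ∀ y, (g - 1) y = g y - y := fun y => rfl
  have hgfv : ∀ y, g (f y) = y := fun y => by
    have := congrArg (fun h : Module.End K V => h y) hgf
    simpa using this
  have hfgv : ∀ y, f (g y) = y := fun y => by
    have := congrArg (fun h : Module.End K V => h y) hfg
    simpa using this
  have hv_ne : v ≠ 0 := by
    intro h; apply hv0; rw [h, map_zero]
  have F1 : g x0 = g v - v := by rw [hx0, map_sub, hgfv]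
  have F2 : (g - 1) x0 = (g + f) v - (2 : K) • v := by
    rw [hM, F1, hx0, LinearMap.add_apply, two_smul]
    abel
  have F3 : v ∉ Submodule.span K ({x0, x2} : Set V) := by
    intro hv
    obtain ⟨α, β, hαβ⟩ := Submodule.mem_span_pair.mp hv
    by_cases hβ : β = 0
    · rw [hβ, zero_smul, add_zero] at hαβ
      have hα : α ≠ 0 := by
        intro h0; rw [h0, zero_smul] at hαβ; exact hv_ne hαβ.symm
      have e1 : f v = (1 - α⁻¹) • v := by
        have : x0 = α⁻¹ • v := by rw [← hαβ, smul_smul, inv_mul_cancel₀ hα, one_smul]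
        rw [hx0] at this
        rw [sub_smul, one_smul, ← this]; abel
      have e2 : v = (1 - α⁻¹) • g v := by
        have := congrArg g e1
        rw [hgfv, map_smul] at this
        exact this
      have hμ : (1 - α⁻¹) ≠ 0 := by
        intro h0; rw [h0, zero_smul] at e2; exact hv_ne e2
      have e3 : g v = (1 - α⁻¹)⁻¹ • v := by
        rw [eq_inv_smul_iff₀ hμ]; exact e2.symm
      apply hv2
      refine ⟨(1 - α⁻¹)⁻¹ + (1 - α⁻¹), ?_⟩
      rw [LinearMap.add_apply, add_smul, ← e1, ← e3]
    · apply ha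
      have : x2 = β⁻¹ • v + (-(β⁻¹ * α)) • x0 := by
        rw [← hαβ, smul_add, smul_smul, smul_smul, inv_mul_cancel₀ hβ, one_smul, neg_smul]
        abel
      rw [this]
      exact Submodule.add_mem _ (Submodule.smul_mem _ _ (Submodule.subset_span (by simp)))
        (Submodule.smul_mem _ _ (Submodule.subset_span (by simp)))
  have F4 : f c ∉ Submodule.span K ({x0, x2} : Set V) := by
    intro hv
    obtain ⟨α, β, hαβ⟩ := Submodule.mem_span_pair.mp hv
    by_cases hβ : β = 0
    · rw [hβ, zero_smul, add_zero] at hαβ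
      have e1 : α • (g v - v) = c := by
        have := congrArg g hαβ
        rw [map_smul, F1, hgfv] at this
        exact this
      have hα : α ≠ 0 := by
        intro h0; rw [h0, zero_smul] at e1; exact hc e1.symm
      apply hv1
      refine ⟨α⁻¹, ?_⟩
      rw [hM, ← e1, smul_smul, inv_mul_cancel₀ hα, one_smul]
    · apply hb
      have : x2 = β⁻¹ • f c + (-(β⁻¹ * α)) • x0 := by
        rw [← hαβ, smul_add, smul_smul, smul_smul, inv_mul_cancel₀ hβ, one_smul, neg_smul]
        abel
      rw [this]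
      exact Submodule.add_mem _ (Submodule.smul_mem _ _ (Submodule.subset_span (by simp)))
        (Submodule.smul_mem _ _ (Submodule.subset_span (by simp)))
  have F5 : ∃ w, (g - 1) w ∉ Submodule.span K ({x0, x2} : Set V) := by
    by_contra hcon
    have hle : LinearMap.range (g - 1) ≤ Submodule.span K ({x0, x2} : Set V) := by
      rintro _ ⟨w, rfl⟩
      by_contra h
      exact hcon ⟨w, h⟩
    have hT2 : finrank K (Submodule.span K ({x0, x2} : Set V)) ≤ 2 := by
      have h1 := finrank_span_finset_le_card (R := K) ({x0, x2} : Finset V)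
      rw [Finset.coe_pair] at h1
      exact h1.trans Finset.card_le_two
    have h2 : 2 ≤ finrank K (LinearMap.range (g - 1)) := (hg.2 (by omega)).2
    have hle2 : finrank K (LinearMap.range (g - 1)) ≤
        finrank K (Submodule.span K ({x0, x2} : Set V)) := Submodule.finrank_mono hle
    have heq : LinearMap.range (g - 1) = Submodule.span K ({x0, x2} : Set V) :=
      Submodule.eq_of_le_of_finrank_le hle (by omega)
    have hr2 : finrank K (LinearMap.range (g - 1)) = 2 := by omega
    apply hd hr2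
    rw [heq]
    exact Submodule.subset_span (by simp)
  obtain ⟨w0, hw0⟩ := F5
  obtain ⟨ψ, hψT, hψv, hψc, hψw⟩ :=
    func (Submodule.span K ({x0, x2} : Set V)) v (f c) ((g - 1) w0) F3 F4 hw0 hK
  have hψx0 : ψ x0 = 0 := hψT _ (Submodule.subset_span (by simp))
  have hψx2 : ψ x2 = 0 := hψT _ (Submodule.subset_span (by simp))
  refine ⟨ψ, ?_⟩
  unfold Wit
  refine ⟨hψv, ?_, hv0, hψc, ?_, ⟨w0, hψw⟩, ⟨x0, x2, hψx0, hψx2, he⟩,
    ⟨x0, x2, hψx0, hψx2, ?_⟩⟩
  · have h1 := hψx0
    rw [hx0, map_sub, hψv] at h1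
    exact (sub_eq_zero.mp h1).symm
  · intro hgv
    apply hv2
    refine ⟨2, ?_⟩
    have : f v = v := by
      have := hfgv v
      rw [hgv] at this
      exact this
    rw [LinearMap.add_apply, hgv, this, two_smul]
  · rw [Fintype.linearIndependent_iff]
    intro cf hsum i
    have hsum' : cf 0 • v + cf 1 • (g - 1) x0 + cf 2 • (g - 1) x2 = 0 := by
      rw [Fin.sum_univ_three] at hsum
      exact hsum
    have h2 : cf 2 = 0 := by
      by_contra h
      apply hc'
      have e : cf 2 • (g - 1) x2 = -(cf 0 • v + cf 1 • (g - 1) x0) :=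
        eq_neg_of_add_eq_zero_right hsum'
      have : (g - 1) x2 = (cf 2)⁻¹ • (-(cf 0 • v + cf 1 • (g - 1) x0)) := by
        rw [← e, smul_smul, inv_mul_cancel₀ h, one_smul]
      rw [this]
      exact Submodule.smul_mem _ _ (Submodule.neg_mem _ (Submodule.add_mem _
        (Submodule.smul_mem _ _ (Submodule.subset_span (by simp)))
        (Submodule.smul_mem _ _ (Submodule.subset_span (by simp)))))
    have h1 : cf 1 = 0 := by
      by_contra h
      rw [h2, zero_smul, add_zero] at hsum'
      apply hv2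
      have e : cf 1 • (g - 1) x0 = -(cf 0 • v) := eq_neg_of_add_eq_zero_right hsum'
      have e' : (g - 1) x0 = (cf 1)⁻¹ • (-(cf 0 • v)) := by
        rw [← e, smul_smul, inv_mul_cancel₀ h, one_smul]
      refine ⟨-((cf 1)⁻¹ * cf 0) + 2, ?_⟩
      have : (g + f) v = (g - 1) x0 + (2 : K) • v := by rw [F2]; abel
      rw [this, e', add_smul, smul_neg, smul_smul, neg_smul]
    have h0 : cf 0 = 0 := by
      rw [h2, h1, zero_smul, zero_smul, add_zero, add_zero] at hsum'
      exact (smul_eq_zero.mp hsum').resolve_right hv_ne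
    fin_cases i
    exacts [h0, h1, h2]

end Cfsg.Agent.Lib.Helper49.Lev
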