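import Mathlib
import Cfsg.Agent.Lib.Helper49.LevDefs
import Cfsg.Agent.Lib.Helper49.LevXCOVER

/-!
# S2522 project LEV (helper49), piece AX

PLACEHOLDER: replace the `sorry` (keep the statement and the namespace exactly; auxiliary lemmas
with fresh names prefixed `levax_` are fine).  Paper proof: see the job note.
-/

set_option autoImplicit false

namespace Cfsg.Agent.Lib.Helper49.Lev

open Module

variable {K : Type*} [Field K] {V : Type*} [AddCommGroup V] [Module K V]

theorem aX [FiniteDimensional K V] (g f : Module.End K V) (hfg : f * g = 1) (hgf : g * f = 1)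
    (hV : 3 ≤ finrank K V) (hg : Adm g) (c v : V)
    (hv2 : ¬ ∃ a : K, (g + f) v = a • v)
    (hv3 : finrank K (LinearMap.range (g - 1)) = 2 → v ∉ LinearMap.range (g - 1))
    (hK : 4 ≤ Cardinal.mk K) :
    ∃ x2 : V, x2 ∉ Submodule.span K ({v, v - f v} : Set V) ∧
      x2 ∉ Submodule.span K ({v - f v, f c} : Set V) ∧
      (g - 1) x2 ∉ Submodule.span K ({v, (g - 1) (v - f v)} : Set V) ∧
      (finrank K (LinearMap.range (g - 1)) = 2 → x2 ∉ LinearMap.range (g - 1)) ∧
      ¬ ∃ ζ a a' : K, g (v - f v) - ζ • (v - f v) = a • v ∧ g x2 - ζ • x2 = a' • v := by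
  have hfg' : ∀ x, f (g x) = x := fun x => by
    have := congrArg (fun h : Module.End K V => h x) hfg
    simpa using this
  have hgf' : ∀ x, g (f x) = x := fun x => by
    have := congrArg (fun h : Module.End K V => h x) hgf
    simpa using this
  have hv0 : v ≠ 0 := by
    rintro rfl
    exact hv2 ⟨0, by simp⟩
  obtain ⟨x0, hx0⟩ : ∃ x0 : V, x0 = v - f v := ⟨_, rfl⟩
  rw [← hx0]
  have hgx0 : g x0 = g v - v := by rw [hx0, map_sub, hgf']
  have hg1x0 : (g - 1) x0 = (g + f) v - (2 : K) • v := by
    simp only [LinearMap.sub_apply, LinearMap.add_apply, Module.End.one_apply, hgx0, two_smul]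
    rw [hx0]
    abel
  have hnoeig : ∀ l : K, g v ≠ l • v := by
    intro l hl
    have hl0 : l ≠ 0 := by
      rintro rfl
      apply hv0
      have := hfg' v
      rw [hl, zero_smul, map_zero] at this
      exact this.symm
    have hfv : f v = l⁻¹ • v := by
      have := hfg' v
      rw [hl, map_smul] at this
      calc f v = l⁻¹ • (l • f v) := by rw [smul_smul, inv_mul_cancel₀ hl0, one_smul]
        _ = l⁻¹ • v := by rw [this]
    exact hv2 ⟨l + l⁻¹, by rw [LinearMap.add_apply, hl, hfv, add_smul]⟩
  have hx0v : ∀ t : K, x0 ≠ t • v := by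
    intro t ht
    have hfv : f v = (1 - t) • v := by
      have : f v = v - x0 := by rw [hx0]; abel
      rw [this, ht, sub_smul, one_smul]
    have h1 : (1 - t) • g v = v := by
      have := hgf' v
      rw [hfv, map_smul] at this
      exact this
    have ht0 : (1 - t) ≠ 0 := by
      intro h0
      rw [h0, zero_smul] at h1
      exact hv0 h1.symm
    apply hnoeig (1 - t)⁻¹
    calc g v = (1 - t)⁻¹ • ((1 - t) • g v) := by rw [smul_smul, inv_mul_cancel₀ ht0, one_smul]
      _ = (1 - t)⁻¹ • v := by rw [h1]
  have hind : ∀ a : K, (g - 1) x0 ≠ a • v := by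
    intro a ha
    rw [hg1x0] at ha
    exact hv2 ⟨a + 2, by rw [add_smul, ← ha]; exact (sub_add_cancel _ _).symm⟩
  have hfin2' : ∀ a b : V, finrank K (Submodule.span K ({a, b} : Set V)) ≤ 2 := by
    intro a b
    classical
    have h1 : finrank K (Submodule.span K (({a, b} : Finset V) : Set V)) ≤ 2 :=
      (finrank_span_finset_le_card _).trans Finset.card_le_two
    rw [Finset.coe_pair] at h1
    exact h1
  have hfin2 : ∀ a b : V, Submodule.span K ({a, b} : Set V) ≠ ⊤ := by
    intro a b h
    have h1 := hfin2' a b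
    rw [h, finrank_top] at h1
    omega
  obtain ⟨W, hW⟩ : ∃ W : Submodule K V, W = Submodule.span K ({v, (g - 1) x0} : Set V) :=
    ⟨_, rfl⟩
  rw [← hW]
  have hvW : v ∈ W := by rw [hW]; exact Submodule.subset_span (by simp)
  have hx0W : (g - 1) x0 ∈ W := by rw [hW]; exact Submodule.subset_span (by simp)
  have hUc : Submodule.comap (g - 1) W ≠ ⊤ := by
    intro h
    have hle : LinearMap.range (g - 1) ≤ W := by
      rintro _ ⟨x, rfl⟩
      have : x ∈ Submodule.comap (g - 1) W := by rw [h]; trivial
      exact this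
    have h2 : 2 ≤ finrank K (LinearMap.range (g - 1)) := (hg.2 (by omega)).2
    have hW2 : finrank K W ≤ 2 := by rw [hW]; exact hfin2' _ _
    have heq : LinearMap.range (g - 1) = W :=
      Submodule.eq_of_le_of_finrank_le hle (hW2.trans h2)
    have hr2 : finrank K (LinearMap.range (g - 1)) = 2 := by
      apply le_antisymm _ h2
      rw [heq]; exact hW2
    apply hv3 hr2
    rw [heq]
    exact hvW
  obtain ⟨Ud, hUd, hUd'⟩ : ∃ Ud : Submodule K V, Ud ≠ ⊤ ∧ ∀ x, x ∉ Ud →
      (finrank K (LinearMap.range (g - 1)) = 2 → x ∉ LinearMap.range (g - 1)) := by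
    by_cases hr : finrank K (LinearMap.range (g - 1)) = 2
    · refine ⟨LinearMap.range (g - 1), ?_, fun x hx _ => hx⟩
      intro h
      rw [h, finrank_top] at hr
      omega
    · exact ⟨_, hfin2 v x0, fun x _ h => absurd h hr⟩
  by_cases hII : ∃ ζ a : K, g x0 - ζ • x0 = a • v
  · obtain ⟨z0, a0, h0⟩ := hII
    have hz1 : z0 ≠ 1 := by
      rintro rfl
      apply hind a0
      rw [← h0, one_smul]
      rfl
    have hUe : Submodule.comap (g - z0 • (1 : Module.End K V))
        (Submodule.span K ({v} : Set V)) ≠ ⊤ := by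
      intro h
      have : v ∈ Submodule.comap (g - z0 • (1 : Module.End K V))
          (Submodule.span K ({v} : Set V)) := by rw [h]; trivial
      rw [Submodule.mem_comap, Submodule.mem_span_singleton] at this
      obtain ⟨t, ht⟩ := this
      apply hnoeig (t + z0)
      simp only [LinearMap.sub_apply, LinearMap.smul_apply, Module.End.one_apply] at ht
      rw [add_smul, ht]; abel
    obtain ⟨x2, hb, hc, hd, he⟩ := cover4 (Submodule.span K ({x0, f c} : Set V))
      (Submodule.comap (g - 1) W) Ud
      (Submodule.comap (g - z0 • (1 : Module.End K V)) (Submodule.span K ({v} : Set V)))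
      (hfin2 _ _) hUc hUd hUe hK
    refine ⟨x2, ?_, hb, hc, hUd' x2 hd, ?_⟩
    · intro hx
      apply hc
      have hle : Submodule.span K ({v, x0} : Set V) ≤ Submodule.comap (g - 1) W := by
        rw [Submodule.span_le]
        have hx0W' : x0 ∈ W := by
          have h3 : x0 = (z0 - 1)⁻¹ • ((g - 1) x0 - a0 • v) := by
            rw [← h0]
            simp only [LinearMap.sub_apply, Module.End.one_apply]
            have h4 : g x0 - x0 - (g x0 - z0 • x0) = (z0 - 1) • x0 := by
              rw [sub_smul, one_smul]; abel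
            rw [h4, smul_smul, inv_mul_cancel₀ (sub_ne_zero.2 hz1), one_smul]
          rw [h3]
          exact W.smul_mem _ (W.sub_mem hx0W (W.smul_mem _ hvW))
        have hvc : (g - 1) v ∈ W := by
          have h5 : (g - 1) v = z0 • x0 + a0 • v := by
            rw [← h0, hgx0]
            simp only [LinearMap.sub_apply, Module.End.one_apply]
            abel
          rw [h5]
          exact W.add_mem (W.smul_mem _ hx0W') (W.smul_mem _ hvW)
        intro y hy
        rcases hy with hy | hy
        · rw [hy]; exact hvc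
        · rw [Set.mem_singleton_iff] at hy
          rw [hy]; exact hx0W
      exact hle hx
    · rintro ⟨ζ, a, a', h1, h2⟩
      have hζ : ζ = z0 := by
        by_contra hne
        have hne' : z0 - ζ ≠ 0 := sub_ne_zero.2 (Ne.symm hne)
        apply hx0v ((z0 - ζ)⁻¹ * (a - a0))
        have h6 : (z0 - ζ) • x0 = (a - a0) • v := by
          rw [sub_smul, sub_smul, ← h1, ← h0]; abel
        rw [← smul_smul, ← h6, smul_smul, inv_mul_cancel₀ hne', one_smul]
      subst hζ
      apply he
      rw [Submodule.mem_comap, Submodule.mem_span_singleton]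
      refine ⟨a', ?_⟩
      rw [← h2]
      simp only [LinearMap.sub_apply, LinearMap.smul_apply, Module.End.one_apply]
  · obtain ⟨x2, ha, hb, hc, hd⟩ := cover4 (Submodule.span K ({v, x0} : Set V))
      (Submodule.span K ({x0, f c} : Set V)) (Submodule.comap (g - 1) W) Ud
      (hfin2 _ _) (hfin2 _ _) hUc hUd hK
    refine ⟨x2, ha, hb, hc, hUd' x2 hd, ?_⟩
    rintro ⟨ζ, a, a', h1, -⟩
    exact hII ⟨ζ, a, h1⟩

end Cfsg.Agent.Lib.Helper49.Lev
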