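import Mathlib
import Cfsg.Agent.Lib.Helper49.LevDefs

/-!
# S2522 project LEV (helper49), piece BASE1

Proved by helper87: in dimension one `g = 1 = 1 * 1`.
-/

set_option autoImplicit false

namespace Cfsg.Agent.Lib.Helper49.Lev

open Module

variable {K : Type*} [Field K] {V : Type*} [AddCommGroup V] [Module K V]

theorem base1 [FiniteDimensional K V] (g : Module.End K V) (h1 : finrank K V = 1)
    (hdet : LinearMap.det g = 1) (c : V) (hc : c ≠ 0) (r : Module.Dual K V) (hr : r ≠ 0) :
    Good g c r := by
  obtain ⟨v, hv, hspan⟩ := finrank_eq_one_iff'.mp h1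
  obtain ⟨a, ha⟩ := hspan (g v)
  have hg : g = a • (1 : Module.End K V) := by
    apply LinearMap.ext
    intro w
    obtain ⟨t, rfl⟩ := hspan w
    rw [map_smul, ← ha, LinearMap.smul_apply, Module.End.one_apply, smul_comm]
  have ha1 : a = 1 := by
    rw [hg, LinearMap.det_smul, h1, pow_one] at hdet
    have hd1 : LinearMap.det (1 : Module.End K V) = 1 := map_one _
    rw [hd1, mul_one] at hdet
    exact hdet
  have hg1 : g = 1 := by rw [hg, ha1, one_smul]
  have hone : (1 : Module.End K V) ≠ 0 := by
    intro h
    apply hv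
    have h' := congrArg (fun f : Module.End K V => f v) h
    simpa using h'
  have hreg : RegUnip (1 : Module.End K V) := by
    refine ⟨?_, ?_⟩
    · rw [h1, sub_self, pow_one]
    · rw [h1, sub_self, Nat.sub_self, pow_zero]
      exact hone
  obtain ⟨w, hw⟩ : ∃ w, r w ≠ 0 := by
    by_contra hcon
    push Not at hcon
    exact hr (LinearMap.ext (fun w => by simpa using hcon w))
  refine ⟨1, 1, by rw [hg1, mul_one], hreg, hreg, ?_, w, rfl, hw⟩
  rw [sub_self, LinearMap.range_zero, Submodule.mem_bot]
  exact hc

end Cfsg.Agent.Lib.Helper49.Lev
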