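import Mathlib
import Cfsg.Agent.Lib.Helper49.LevDefs

/-!
# S2522 project LEV (helper49), piece COMP

Piece COMP, proved by helper3 (statement and namespace kept exactly).
-/

set_option autoImplicit false

namespace Cfsg.Agent.Lib.Helper49.Lev

open Module

variable {K : Type*} [Field K] {V : Type*} [AddCommGroup V] [Module K V]

theorem lift_comp (g : Module.End K V) (v : V) (φ : Module.Dual K V) (h1 : φ v = 1)
    (h2 : φ (g v) = 1) (u1 u2 : Module.End K (LinearMap.ker φ)) (h : schur g v φ h2 = u1 * u2) :
    g = lift v φ h1 u1 (g v) 0 * lift v φ h1 u2 v (rres g φ) := by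
  apply LinearMap.ext
  intro x
  rw [Module.End.mul_apply, lift_apply, lift_apply]
  set U : V := φ x • v + (u2 (proj v φ h1 x) : V) + (rres g φ) (proj v φ h1 x) • v with hU
  have hker : φ ((u2 (proj v φ h1 x) : LinearMap.ker φ) : V) = 0 :=
    LinearMap.mem_ker.mp (u2 (proj v φ h1 x)).2
  have hφU : φ U = φ x + rres g φ (proj v φ h1 x) := by
    rw [hU, map_add, map_add, map_smul, map_smul, h1, hker]
    simp
  have hprojU : proj v φ h1 U = u2 (proj v φ h1 x) := by
    apply Subtype.ext
    rw [proj_apply, hφU, hU]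
    module
  rw [hprojU, hφU]
  have hs : ((u1 (u2 (proj v φ h1 x)) : LinearMap.ker φ) : V)
      = g (proj v φ h1 x : V) - φ (g (proj v φ h1 x : V)) • g v := by
    rw [← schur_apply g v φ h2, h]
    rfl
  rw [hs, rres_apply, LinearMap.zero_apply, zero_smul, add_zero, proj_apply, map_sub, map_smul]
  module

end Cfsg.Agent.Lib.Helper49.Lev
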