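import Mathlib
import Cfsg.Agent.Lib.Helper49.LevDefs

/-!
# S2522 project LEV (helper49), piece CRITNS

Proved by helper93 (statement and namespace unchanged).
-/

set_option autoImplicit false

namespace Cfsg.Agent.Lib.Helper49.Lev

open Module

variable {K : Type*} [Field K] {V : Type*} [AddCommGroup V] [Module K V]

theorem crit_ns (g : Module.End K V) (v : V) (φ : Module.Dual K V) (h1 : φ v = 1)
    (h2 : φ (g v) = 1) (x x' : V) (hx : φ (g x) = 0) (hx' : φ (g x') = 0)
    (hns : ¬ ∃ ζ a a' : K, g x - ζ • x = a • v ∧ g x' - ζ • x' = a' • v) :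
    ¬ ∃ a : K, schur g v φ h2 = a • (1 : Module.End K (LinearMap.ker φ)) := by
  rintro ⟨z, hz⟩
  apply hns
  have key : ∀ t : V, φ (g t) = 0 → g t - z • t = (-(z * φ t)) • v := by
    intro t ht
    have hmem : t - φ t • v ∈ LinearMap.ker φ := by
      rw [LinearMap.mem_ker, map_sub, map_smul, h1, smul_eq_mul, mul_one, sub_self]
    have h3 := schur_apply g v φ h2 ⟨t - φ t • v, hmem⟩
    rw [hz] at h3
    have h4 : (((z • (1 : Module.End K (LinearMap.ker φ))) ⟨t - φ t • v, hmem⟩ :
        LinearMap.ker φ) : V) = z • (t - φ t • v) := rfl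
    rw [h4] at h3
    have h5 : g (t - φ t • v) - φ (g (t - φ t • v)) • g v = g t := by
      rw [map_sub, map_smul, map_sub, map_smul, ht, h2, smul_eq_mul, mul_one, zero_sub,
        neg_smul]
      abel
    rw [h5] at h3
    rw [← h3, smul_sub, smul_smul, neg_smul]
    abel
  exact ⟨z, -(z * φ x), -(z * φ x'), key x hx, key x' hx'⟩

end Cfsg.Agent.Lib.Helper49.Lev
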