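import Mathlib
import Cfsg.Agent.Lib.Helper49.LevDefs

/-!
# S2522 project LEV (helper49), piece CRITRK (proved by helper92)

`crit_rk`: criterion for `rank (schur - 1) ≥ 2` (two independent vectors in the range).
-/

set_option autoImplicit false

namespace Cfsg.Agent.Lib.Helper49.Lev

open Module

variable {K : Type*} [Field K] {V : Type*} [AddCommGroup V] [Module K V]

/-- the value of `schur - 1` at `x - φ x • v` -/
theorem levcritrk_key (g : Module.End K V) (v : V) (φ : Module.Dual K V)
    (h2 : φ (g v) = 1) (x : V) (y : LinearMap.ker φ) (hx : φ (g x) = 0)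
    (hyx : (y : V) = x - φ x • v) :
    (((schur g v φ h2 - 1) y : LinearMap.ker φ) : V) = (g - 1) x + φ x • v := by
  rw [LinearMap.sub_apply, Submodule.coe_sub, schur_apply, Module.End.one_apply, hyx]
  simp only [map_sub, map_smul, hx, h2, smul_eq_mul, mul_one, zero_sub, LinearMap.sub_apply,
    Module.End.one_apply, neg_smul]
  abel

/-- independence of the two shifted vectors -/
theorem levcritrk_li (g : Module.End K V) (v : V) (φ : Module.Dual K V) (x1 x2 : V)
    (hli : LinearIndependent K ![v, (g - 1) x1, (g - 1) x2]) :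
    LinearIndependent K ![(g - 1) x1 + φ x1 • v, (g - 1) x2 + φ x2 • v] := by
  rw [LinearIndependent.pair_iff]
  intro s t hst
  have hsum : ∑ i : Fin 3, (![s * φ x1 + t * φ x2, s, t] : Fin 3 → K) i •
      (![v, (g - 1) x1, (g - 1) x2] : Fin 3 → V) i = 0 := by
    rw [Fin.sum_univ_three]
    have e : (s * φ x1 + t * φ x2) • v + s • (g - 1) x1 + t • (g - 1) x2 =
        s • ((g - 1) x1 + φ x1 • v) + t • ((g - 1) x2 + φ x2 • v) := by
      simp only [smul_add, add_smul, mul_smul]
      abel
    simpa using e.trans hst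
  have h3 := Fintype.linearIndependent_iff.mp hli ![s * φ x1 + t * φ x2, s, t] hsum
  exact ⟨by simpa using h3 1, by simpa using h3 2⟩

theorem crit_rk [FiniteDimensional K V] (g : Module.End K V) (v : V) (φ : Module.Dual K V)
    (h1 : φ v = 1) (h2 : φ (g v) = 1) (x1 x2 : V) (hx1 : φ (g x1) = 0) (hx2 : φ (g x2) = 0)
    (hli : LinearIndependent K ![v, (g - 1) x1, (g - 1) x2]) :
    2 ≤ finrank K (LinearMap.range (schur g v φ h2 - 1)) := by
  classical
  have hy : ∀ x : V, x - φ x • v ∈ LinearMap.ker φ := by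
    intro x
    rw [LinearMap.mem_ker, map_sub, map_smul, h1, smul_eq_mul, mul_one, sub_self]
  obtain ⟨y1, hy1⟩ : ∃ y1 : LinearMap.ker φ, (y1 : V) = x1 - φ x1 • v := ⟨⟨_, hy x1⟩, rfl⟩
  obtain ⟨y2, hy2⟩ : ∃ y2 : LinearMap.ker φ, (y2 : V) = x2 - φ x2 • v := ⟨⟨_, hy x2⟩, rfl⟩
  have hwli : LinearIndependent K (fun i : Fin 2 =>
      (⟨(schur g v φ h2 - 1) ((![y1, y2] : Fin 2 → LinearMap.ker φ) i),
        LinearMap.mem_range_self _ _⟩ : LinearMap.range (schur g v φ h2 - 1))) := by
    apply LinearIndependent.of_comp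
      ((LinearMap.ker φ).subtype.comp (LinearMap.range (schur g v φ h2 - 1)).subtype)
    have hfun : (⇑((LinearMap.ker φ).subtype.comp
        (LinearMap.range (schur g v φ h2 - 1)).subtype) ∘ fun i : Fin 2 =>
          (⟨(schur g v φ h2 - 1) ((![y1, y2] : Fin 2 → LinearMap.ker φ) i),
            LinearMap.mem_range_self _ _⟩ : LinearMap.range (schur g v φ h2 - 1))) =
        ![(g - 1) x1 + φ x1 • v, (g - 1) x2 + φ x2 • v] := by
      funext i
      fin_cases i
      · exact levcritrk_key g v φ h2 x1 y1 hx1 hy1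
      · exact levcritrk_key g v φ h2 x2 y2 hx2 hy2
    rw [hfun]
    exact levcritrk_li g v φ x1 x2 hli
  have h := hwli.fintype_card_le_finrank
  simpa using h

end Cfsg.Agent.Lib.Helper49.Lev
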