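import Mathlib
import Cfsg.Agent.Lib.Helper49.LevDefs
import Cfsg.Agent.Lib.Helper49.LevXCOMP

/-!
# S2522 project LEV (helper49), piece DET (filled by helper31)

The determinant of the Schur complement: in a basis of `ker φ` extended by `v`, the matrix of `g`
is a block matrix with lower right block `1`, and the matrix of `schur g v φ h2` is its Schur
complement.
-/

set_option autoImplicit false

namespace Cfsg.Agent.Lib.Helper49.Lev

open Module

variable {K : Type*} [Field K] {V : Type*} [AddCommGroup V] [Module K V]

/-- the splitting `V ≃ ker φ × K` given by `v` with `φ v = 1` -/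
noncomputable def levdet_equiv (v : V) (φ : Module.Dual K V) (h1 : φ v = 1) :
    V ≃ₗ[K] (LinearMap.ker φ) × K :=
  LinearEquiv.ofLinearMap ((proj v φ h1).prod φ)
    ((LinearMap.ker φ).subtype.coprod (LinearMap.toSpanSingleton K V v))
    (by
      apply LinearMap.ext
      rintro ⟨y, t⟩
      have hy : φ (y : V) = 0 := LinearMap.mem_ker.1 y.2
      apply Prod.ext
      · apply Subtype.ext
        simp [proj_apply, LinearMap.toSpanSingleton_apply, hy, h1]
      · simp [LinearMap.toSpanSingleton_apply, hy, h1])
    (by
      apply LinearMap.ext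
      intro x
      simp [proj_apply, LinearMap.toSpanSingleton_apply])

theorem levdet_equiv_apply (v : V) (φ : Module.Dual K V) (h1 : φ v = 1) (x : V) :
    levdet_equiv v φ h1 x = (proj v φ h1 x, φ x) := rfl

theorem levdet_equiv_symm_apply (v : V) (φ : Module.Dual K V) (h1 : φ v = 1)
    (y : LinearMap.ker φ) (t : K) :
    (levdet_equiv v φ h1).symm (y, t) = (y : V) + t • v := by
  simp [levdet_equiv, LinearMap.toSpanSingleton_apply]

theorem det_schur [FiniteDimensional K V] (g : Module.End K V) (v : V) (φ : Module.Dual K V)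
    (h1 : φ v = 1) (h2 : φ (g v) = 1) : LinearMap.det (schur g v φ h2) = LinearMap.det g := by
  classical
  let b : Basis (Module.Free.ChooseBasisIndex K (LinearMap.ker φ)) K (LinearMap.ker φ) :=
    Module.Free.chooseBasis K (LinearMap.ker φ)
  let B' : Basis (Module.Free.ChooseBasisIndex K (LinearMap.ker φ) ⊕ Unit) K V :=
    (b.prod (Basis.singleton Unit K)).map (levdet_equiv v φ h1).symm
  have hBl : ∀ j, B' (Sum.inl j) = (b j : V) := by
    intro j
    have h : (b.prod (Basis.singleton Unit K)) (Sum.inl j) = (b j, (0 : K)) := by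
      rw [Basis.prod_apply]; rfl
    show (levdet_equiv v φ h1).symm ((b.prod (Basis.singleton Unit K)) (Sum.inl j)) = _
    rw [h, levdet_equiv_symm_apply, zero_smul, add_zero]
  have hBr : ∀ u, B' (Sum.inr u) = v := by
    intro u
    have h : (b.prod (Basis.singleton Unit K)) (Sum.inr u) = ((0 : LinearMap.ker φ), (1 : K)) := by
      rw [Basis.prod_apply]
      simp
    show (levdet_equiv v φ h1).symm ((b.prod (Basis.singleton Unit K)) (Sum.inr u)) = _
    rw [h, levdet_equiv_symm_apply, one_smul]
    simp
  have hrl : ∀ x i, B'.repr x (Sum.inl i) = b.repr (proj v φ h1 x) i := fun x i => rfl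
  have hrr : ∀ x u, B'.repr x (Sum.inr u) = φ x := by
    intro x u
    show (Basis.singleton Unit K).repr (φ x) u = φ x
    simp
  rw [← LinearMap.det_toMatrix B' g, ← LinearMap.det_toMatrix b (schur g v φ h2)]
  have hM : LinearMap.toMatrix B' B' g =
      Matrix.fromBlocks (Matrix.of fun i j => b.repr (proj v φ h1 (g (b j))) i)
        (Matrix.of fun i (_ : Unit) => b.repr (proj v φ h1 (g v)) i)
        (Matrix.of fun (_ : Unit) j => φ (g (b j))) 1 := by
    ext (i | i) (j | j)
    · rw [LinearMap.toMatrix_apply, hBl, hrl]; rfl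
    · rw [LinearMap.toMatrix_apply, hBr, hrl]; rfl
    · rw [LinearMap.toMatrix_apply, hBl, hrr]; rfl
    · rw [LinearMap.toMatrix_apply, hBr, hrr, h2]; simp
  rw [hM, Matrix.det_fromBlocks_one₂₂]
  congr 1
  ext i j
  rw [LinearMap.toMatrix_apply, Matrix.sub_apply, Matrix.mul_apply]
  simp only [Matrix.of_apply, Finset.univ_unique, Finset.sum_singleton]
  have hS : schur g v φ h2 (b j) =
      proj v φ h1 (g (b j)) - φ (g (b j)) • proj v φ h1 (g v) := by
    apply Subtype.ext
    rw [schur_apply, Submodule.coe_sub, Submodule.coe_smul, proj_apply, proj_apply, h2]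
    module
  rw [hS, map_sub, map_smul]
  simp [mul_comm]

end Cfsg.Agent.Lib.Helper49.Lev
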