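import Mathlib
import Cfsg.Agent.Lib.Helper49.LevDefs
import Cfsg.Agent.Lib.Helper49.LevXVEX
import Cfsg.Agent.Lib.Helper49.LevXDET
import Cfsg.Agent.Lib.Helper49.LevXFUNC
import Cfsg.Agent.Lib.Helper49.LevXKER

/-!
# S2522 project LEV (helper49), piece EX2

PLACEHOLDER: replace the `sorry` (keep the statement and the namespace exactly; auxiliary lemmas
with fresh names prefixed `levex2_` are fine).  Paper proof: see the job note.
-/

set_option autoImplicit false

namespace Cfsg.Agent.Lib.Helper49.Lev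

open Module

variable {K : Type*} [Field K] {V : Type*} [AddCommGroup V] [Module K V]

theorem ex2 [FiniteDimensional K V] (g : Module.End K V) (hV : finrank K V = 2) (hg : Adm g)
    (c : V) (hc : c ≠ 0) (r : Module.Dual K V) (hr : r ≠ 0) (hK : 4 ≤ Cardinal.mk K) :
    ∃ v φ, StepData g c r v φ := by
  have hdet : LinearMap.det g = 1 := hg.1
  have hns : ¬ ∃ a : K, g = a • (1 : Module.End K V) := (hg.2 (by omega)).1
  have hrk : 2 ≤ finrank K (LinearMap.range (g - 1)) := (hg.2 (by omega)).2
  have hU1 : LinearMap.ker r ≠ ⊤ := by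
    rw [Ne, LinearMap.ker_eq_top]
    exact hr
  have hU2 : Submodule.comap (g - 1) (Submodule.span K {c}) ≠ ⊤ := by
    intro htop
    have hle : LinearMap.range (g - 1) ≤ Submodule.span K {c} := by
      rintro _ ⟨x, rfl⟩
      have hx : x ∈ Submodule.comap (g - 1) (Submodule.span K {c}) := by
        rw [htop]
        trivial
      exact hx
    have h1 := Submodule.finrank_mono hle
    rw [finrank_span_singleton hc] at h1
    omega
  obtain ⟨v, hv1, hv2, hv3⟩ := vex g hns _ _ hU1 hU2 hK
  have hrv : r v ≠ 0 := fun h => hv1 (LinearMap.mem_ker.mpr h)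
  obtain ⟨z, hz⟩ : ∃ z : V, z = (g - 1) v := ⟨_, rfl⟩
  have hzc : z ∉ Submodule.span K {c} := by
    rw [hz]
    exact fun h => hv2 h
  have hgv : g v = v + z := by
    rw [hz, LinearMap.sub_apply, Module.End.one_apply]
    abel
  have hvT : v ∉ Submodule.span K {z} := by
    intro hmem
    obtain ⟨t, ht⟩ := Submodule.mem_span_singleton.mp hmem
    by_cases ht0 : t = 0
    · apply hv3
      refine ⟨0, ?_⟩
      rw [← ht, ht0]
      simp
    · apply hv3
      refine ⟨1 + t⁻¹, ?_⟩
      have hz' : z = t⁻¹ • v := by rw [← ht, smul_smul, inv_mul_cancel₀ ht0, one_smul]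
      rw [hgv, add_smul, one_smul, ← hz']
  obtain ⟨φ, hφT, hφv, -, -⟩ := func (Submodule.span K {z}) v v v hvT hvT hvT hK
  have hφz : φ z = 0 := hφT z (Submodule.mem_span_singleton_self z)
  have h2 : φ (g v) = 1 := by rw [hgv, map_add, hφv, hφz, add_zero]
  have hker := finrank_ker_add_one v φ hφv
  have hker1 : finrank K (LinearMap.ker φ) = 1 := by omega
  have hz0 : z ≠ 0 := by
    intro h0
    apply hv3
    exact ⟨1, by rw [hgv, h0, add_zero, one_smul]⟩
  have hline : ∀ x : V, φ x = 0 → ∃ t : K, t • z = x := by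
    intro x hx
    have h3 := (finrank_eq_one_iff_of_nonzero'
      (⟨z, LinearMap.mem_ker.mpr hφz⟩ : LinearMap.ker φ)
      (by
        intro h
        exact hz0 (congrArg Subtype.val h))).mp hker1 ⟨x, LinearMap.mem_ker.mpr hx⟩
    obtain ⟨t, ht⟩ := h3
    exact ⟨t, congrArg Subtype.val ht⟩
  have hφc : φ c ≠ 0 := by
    intro h0
    obtain ⟨t, ht⟩ := hline c h0
    have ht0 : t ≠ 0 := by
      rintro rfl
      rw [zero_smul] at ht
      exact hc ht.symm
    apply hzc
    rw [Submodule.mem_span_singleton]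
    exact ⟨t⁻¹, by rw [← ht, smul_smul, inv_mul_cancel₀ ht0, one_smul]⟩
  have hgv' : g v ≠ v := by
    intro h
    apply hv3
    exact ⟨1, by rw [h, one_smul]⟩
  have hinj : Function.Injective ⇑(g - 1 : Module.End K V) := by
    have htop : LinearMap.range (g - 1) = ⊤ :=
      Submodule.eq_top_of_finrank_eq (by
        have := Submodule.finrank_le (LinearMap.range (g - 1))
        omega)
    exact LinearMap.injective_iff_surjective.mpr (LinearMap.range_eq_top.mp htop)
  have hrres : rres g φ ≠ 0 := by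
    intro h0
    have h1 : φ (g z) = 0 := by
      have h3 := rres_apply g φ (⟨z, LinearMap.mem_ker.mpr hφz⟩ : LinearMap.ker φ)
      rw [h0] at h3
      exact h3.symm
    obtain ⟨t, ht⟩ := hline (g z) h1
    have h3 : (g - 1) z = (g - 1) ((t - 1) • v) := by
      rw [map_smul, ← hz, LinearMap.sub_apply, ← ht, Module.End.one_apply, sub_smul, one_smul]
    have h4 := hinj h3
    apply hv3
    exact ⟨t, by rw [hgv, h4, sub_smul, one_smul]; abel⟩
  refine ⟨v, φ, hφv, h2, hrv, hφc, hgv', hrres, ?_, ?_⟩
  · rw [det_schur g v φ hφv h2]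
    exact hdet
  · intro h
    omega

end Cfsg.Agent.Lib.Helper49.Lev
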