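import Mathlib
import Cfsg.Agent.Lib.Helper49.LevDefs
import Cfsg.Agent.Lib.Helper49.LevXVEX

/-!
# S2522 project LEV (helper49), piece HA (proved by helper5)

Regime `g + g⁻¹ = τ`, `n ≥ 4`: choice of `v`, `x2`, `x3`, `w'` by `vex` / `cover4`.
-/

set_option autoImplicit false

namespace Cfsg.Agent.Lib.Helper49.Lev

open Module

variable {K : Type*} [Field K] {V : Type*} [AddCommGroup V] [Module K V]

theorem levha_span3 (a b c : V) : finrank K (Submodule.span K ({a, b, c} : Set V)) ≤ 3 := by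
  classical
  have h := finrank_span_finset_le_card (R := K) ({a, b, c} : Finset V)
  have h2 : ((({a, b, c} : Finset V) : Set V)) = {a, b, c} := by simp
  rw [h2] at h
  exact h.trans Finset.card_le_three

theorem levha_span2 (a b : V) : finrank K (Submodule.span K ({a, b} : Set V)) ≤ 2 := by
  classical
  have h := finrank_span_finset_le_card (R := K) ({a, b} : Finset V)
  have h2 : ((({a, b} : Finset V) : Set V)) = {a, b} := by simp
  rw [h2] at h
  exact h.trans Finset.card_le_two

theorem levha_span1 (a : V) : finrank K (Submodule.span K ({a} : Set V)) ≤ 1 := by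
  classical
  have h := finrank_span_finset_le_card (R := K) ({a} : Finset V)
  have h2 : ((({a} : Finset V) : Set V)) = {a} := by simp
  rw [h2] at h
  exact h.trans (le_of_eq (Finset.card_singleton a))

theorem levha_span3_ne_top [FiniteDimensional K V] (hV : 4 ≤ finrank K V) (a b c : V) :
    Submodule.span K ({a, b, c} : Set V) ≠ ⊤ := by
  intro h
  have h1 := levha_span3 (K := K) a b c
  rw [h, finrank_top] at h1
  omega

theorem levha_comap1_ne_top [FiniteDimensional K V] (N : Module.End K V)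
    (hrk : 2 ≤ finrank K (LinearMap.range N)) (a : V) :
    Submodule.comap N (Submodule.span K ({a} : Set V)) ≠ ⊤ := by
  intro h
  have h1 : LinearMap.range N ≤ Submodule.span K ({a} : Set V) :=
    LinearMap.range_le_iff_comap.mpr h
  have h2 := Submodule.finrank_mono h1
  have h3 := levha_span1 (K := K) a
  omega

theorem levha_key [FiniteDimensional K V] (g f : Module.End K V) (hgf : g * f = 1)
    (hV : 4 ≤ finrank K V) (hrk : 2 ≤ finrank K (LinearMap.range (g - 1))) (τ : K)
    (hτ : g + f = τ • (1 : Module.End K V)) (a b : V)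
    (h : LinearMap.range (g - 1) ≤ Submodule.span K ({a, b} : Set V)) :
    (g - 1) * (g - 1) = 0 ∧ LinearMap.range (g - 1) = Submodule.span K ({a, b} : Set V) := by
  have hN2 : (g - 1) * (g - 1) = (τ - 2) • g := by
    have h1 : g * (g + f) = g * (τ • (1 : Module.End K V)) := by rw [hτ]
    rw [mul_add, hgf, mul_smul_comm, mul_one] at h1
    have h2 : g * g = τ • g - 1 := by rw [← h1]; abel
    calc (g - 1) * (g - 1) = g * g - g - g + 1 := by noncomm_ring
      _ = (τ - 2) • g := by rw [h2, sub_smul, two_smul]; abel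
  have hs2 := levha_span2 (K := K) a b
  by_cases ht : τ = 2
  · constructor
    · rw [hN2, ht, sub_self, zero_smul]
    · exact Submodule.eq_of_le_of_finrank_le h (by omega)
  · exfalso
    have hsurj : LinearMap.range (g - 1) = ⊤ := by
      rw [LinearMap.range_eq_top]
      intro y
      refine ⟨(g - 1) (f ((τ - 2)⁻¹ • y)), ?_⟩
      have h3 : (g - 1) ((g - 1) (f ((τ - 2)⁻¹ • y)))
          = ((g - 1) * (g - 1)) (f ((τ - 2)⁻¹ • y)) := rfl
      rw [h3, hN2, LinearMap.smul_apply]
      have h4 : g (f ((τ - 2)⁻¹ • y)) = (g * f) ((τ - 2)⁻¹ • y) := rfl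
      rw [h4, hgf, Module.End.one_apply, smul_smul, mul_inv_cancel₀ (sub_ne_zero.mpr ht),
        one_smul]
    rw [hsurj] at h
    have h5 := Submodule.finrank_mono h
    rw [finrank_top] at h5
    omega

theorem hA [FiniteDimensional K V] (g f : Module.End K V) (hfg : f * g = 1) (hgf : g * f = 1)
    (hV : 4 ≤ finrank K V) (hg : Adm g) (τ : K) (hτ : g + f = τ • (1 : Module.End K V))
    (c : V) (hc : c ≠ 0) (r : Module.Dual K V) (hr : r ≠ 0) (hK : 4 ≤ Cardinal.mk K) :
    ∃ v x2 x3 w' : V, r v ≠ 0 ∧ (¬ ∃ a : K, g v = a • v) ∧ (¬ ∃ a : K, (g - 1) v = a • c) ∧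
      (¬ ∃ a : K, (g - 1) x2 = a • v) ∧
      x2 ∉ Submodule.span K ({v, v - f v, f c} : Set V) ∧
      w' ∈ LinearMap.range (g - 1) ∧ w' ∉ Submodule.span K ({v - f v, x2} : Set V) ∧
      (g - 1) x3 ∉ Submodule.span K ({v, (g - 1) x2} : Set V) ∧
      x3 ∉ Submodule.span K ({v, v - f v, x2} : Set V) ∧
      x3 ∉ Submodule.span K ({f c, v - f v, x2} : Set V) ∧
      x3 ∉ Submodule.span K ({v - f v, x2, w'} : Set V) := by
  obtain ⟨hns, hrk⟩ := hg.2 (by omega)
  -- the vector `v`
  have hU1 : LinearMap.ker r ≠ ⊤ := by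
    intro h
    exact hr (LinearMap.ker_eq_top.mp h)
  have hU2 := levha_comap1_ne_top (g - 1) hrk c
  obtain ⟨v, hv1, hv2, hv3⟩ := vex g hns _ _ hU1 hU2 hK
  have hrv : r v ≠ 0 := fun h => hv1 (LinearMap.mem_ker.mpr h)
  have hvc : ¬ ∃ a : K, (g - 1) v = a • c := by
    rintro ⟨a, ha⟩
    exact hv2 (Submodule.mem_comap.mpr (Submodule.mem_span_singleton.mpr ⟨a, ha.symm⟩))
  -- the vector `x2`
  have hX1 := levha_comap1_ne_top (g - 1) hrk v
  have hX2 := levha_span3_ne_top (K := K) hV v (v - f v) (f c)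
  obtain ⟨x2, hx21, hx22, -, -⟩ := cover4 _ _ _ _ hX1 hX2 hX1 hX1 hK
  have hx2v : ¬ ∃ a : K, (g - 1) x2 = a • v := by
    rintro ⟨a, ha⟩
    exact hx21 (Submodule.mem_comap.mpr (Submodule.mem_span_singleton.mpr ⟨a, ha.symm⟩))
  -- the vector `w'`
  have hw : ∃ w' : V, w' ∈ LinearMap.range (g - 1) ∧
      w' ∉ Submodule.span K ({v - f v, x2} : Set V) := by
    by_contra hcon
    have hle : LinearMap.range (g - 1) ≤ Submodule.span K ({v - f v, x2} : Set V) := by
      intro w hw
      by_contra hw2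
      exact hcon ⟨w, hw, hw2⟩
    obtain ⟨hN0, heq⟩ := levha_key g f hgf hV hrk τ hτ _ _ hle
    have hx2m : x2 ∈ LinearMap.range (g - 1) := by
      rw [heq]; exact Submodule.subset_span (by simp)
    obtain ⟨z, hz⟩ := hx2m
    apply hx2v
    refine ⟨0, ?_⟩
    rw [← hz, zero_smul]
    have h3 : (g - 1) ((g - 1) z) = ((g - 1) * (g - 1)) z := rfl
    rw [h3, hN0, LinearMap.zero_apply]
  obtain ⟨w', hw1, hw2⟩ := hw
  -- the vector `x3`
  have hY1 : Submodule.comap (g - 1) (Submodule.span K ({v, (g - 1) x2} : Set V)) ≠ ⊤ := by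
    intro h
    have hle : LinearMap.range (g - 1) ≤ Submodule.span K ({v, (g - 1) x2} : Set V) :=
      LinearMap.range_le_iff_comap.mpr h
    obtain ⟨hN0, heq⟩ := levha_key g f hgf hV hrk τ hτ _ _ hle
    have hvm : v ∈ LinearMap.range (g - 1) := by
      rw [heq]; exact Submodule.subset_span (by simp)
    obtain ⟨z, hz⟩ := hvm
    apply hv3
    refine ⟨1, ?_⟩
    have h0 : (g - 1) v = 0 := by
      rw [← hz]
      have h3 : (g - 1) ((g - 1) z) = ((g - 1) * (g - 1)) z := rfl
      rw [h3, hN0, LinearMap.zero_apply]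
    rw [LinearMap.sub_apply, Module.End.one_apply, sub_eq_zero] at h0
    rw [h0, one_smul]
  have hY2 := levha_span3_ne_top (K := K) hV v (v - f v) x2
  have hY3 := levha_span3_ne_top (K := K) hV (f c) (v - f v) x2
  have hY4 := levha_span3_ne_top (K := K) hV (v - f v) x2 w'
  obtain ⟨x3, hx31, hx32, hx33, hx34⟩ := cover4 _ _ _ _ hY1 hY2 hY3 hY4 hK
  exact ⟨v, x2, x3, w', hrv, hv3, hvc, hx2v, hx22, hw1, hw2,
    fun h => hx31 (Submodule.mem_comap.mpr h), hx32, hx33, hx34⟩

end Cfsg.Agent.Lib.Helper49.Lev
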