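import Mathlib
import Cfsg.Agent.Lib.Helper49.LevDefs
import Cfsg.Agent.Lib.Helper49.LevXFUNC

/-!
# S2522 project LEV (helper49), piece HB

PLACEHOLDER: replace the `sorry` (keep the statement and the namespace exactly; auxiliary lemmas
with fresh names prefixed `levhb_` are fine).  Paper proof: see the job note.
-/

set_option autoImplicit false

namespace Cfsg.Agent.Lib.Helper49.Lev

open Module

variable {K : Type*} [Field K] {V : Type*} [AddCommGroup V] [Module K V]

theorem levhb_zero_of_smul_mem (S : Submodule K V) {γ : K} {x y : V} (hy : y ∈ S)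
    (h : γ • x = y) (hx : x ∉ S) : γ = 0 := by
  by_contra hγ
  exact hx ((S.smul_mem_iff hγ).mp (h ▸ hy))

theorem hB [FiniteDimensional K V] (g f : Module.End K V) (hfg : f * g = 1) (hgf : g * f = 1)
    (τ : K) (hτ : g + f = τ • (1 : Module.End K V))
    (c : V) (hc : c ≠ 0) (r : Module.Dual K V) (hK : 4 ≤ Cardinal.mk K) (v x2 x3 w' : V)
    (h1 : r v ≠ 0) (h2 : ¬ ∃ a : K, g v = a • v) (h3 : ¬ ∃ a : K, (g - 1) v = a • c)
    (h4 : ¬ ∃ a : K, (g - 1) x2 = a • v)
    (h5 : x2 ∉ Submodule.span K ({v, v - f v, f c} : Set V))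
    (h6 : w' ∈ LinearMap.range (g - 1)) (h6' : w' ∉ Submodule.span K ({v - f v, x2} : Set V))
    (h7 : (g - 1) x3 ∉ Submodule.span K ({v, (g - 1) x2} : Set V))
    (h8 : x3 ∉ Submodule.span K ({v, v - f v, x2} : Set V))
    (h9 : x3 ∉ Submodule.span K ({f c, v - f v, x2} : Set V))
    (h10 : x3 ∉ Submodule.span K ({v - f v, x2, w'} : Set V)) :
    ∃ ψ : Module.Dual K V, Wit g f c r v ψ := by
  classical
  have hfv : f v = τ • v - g v := by
    have := LinearMap.congr_fun hτ v
    rw [LinearMap.add_apply, LinearMap.smul_apply, Module.End.one_apply] at this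
    rw [← this]; abel
  have hgf' : ∀ x, g (f x) = x := fun x => by
    have := LinearMap.congr_fun hgf x
    rwa [Module.End.mul_apply, Module.End.one_apply] at this
  have hv0 : v ≠ 0 := by
    rintro rfl
    exact h2 ⟨0, by rw [map_zero, smul_zero]⟩
  have hg1 : ∀ x, (g - 1) x = g x - x := fun x => by
    rw [LinearMap.sub_apply, Module.End.one_apply]
  set x0 : V := v - f v with hx0
  have hx0' : x0 = (1 - τ) • v + g v := by
    rw [hx0, hfv, sub_smul, one_smul]; abel
  have hgx0 : g x0 = g v - v := by rw [hx0, map_sub, hgf']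
  -- claim A
  have hA : v ∉ Submodule.span K ({x0, x2, x3} : Set V) := by
    intro hmem
    obtain ⟨α, β, γ, h⟩ := Submodule.mem_span_triple.mp hmem
    have hγ : γ = 0 := levhb_zero_of_smul_mem (Submodule.span K ({v, x0, x2} : Set V))
      (y := v - α • x0 - β • x2)
      (Submodule.sub_mem _ (Submodule.sub_mem _ (Submodule.subset_span (by simp))
        (Submodule.smul_mem _ _ (Submodule.subset_span (by simp))))
        (Submodule.smul_mem _ _ (Submodule.subset_span (by simp))))
      (by rw [← h]; abel) h8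
    have hβ : β = 0 := levhb_zero_of_smul_mem (Submodule.span K ({v, x0, f c} : Set V))
      (y := v - α • x0)
      (Submodule.sub_mem _ (Submodule.subset_span (by simp))
        (Submodule.smul_mem _ _ (Submodule.subset_span (by simp))))
      (by rw [← h, hγ, zero_smul]; abel) h5
    rw [hγ, hβ, zero_smul, zero_smul, add_zero, add_zero] at h
    by_cases hα : α = 0
    · rw [hα, zero_smul] at h
      exact hv0 h.symm
    · apply h2
      refine ⟨α⁻¹ - (1 - τ), ?_⟩
      have h' : x0 = α⁻¹ • v := by rw [← h, smul_smul, inv_mul_cancel₀ hα, one_smul]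
      rw [hx0'] at h'
      rw [sub_smul, ← h']; abel
  -- claim B
  have hB' : f c ∉ Submodule.span K ({x0, x2, x3} : Set V) := by
    intro hmem
    obtain ⟨α, β, γ, h⟩ := Submodule.mem_span_triple.mp hmem
    have hγ : γ = 0 := levhb_zero_of_smul_mem (Submodule.span K ({f c, x0, x2} : Set V))
      (y := f c - α • x0 - β • x2)
      (Submodule.sub_mem _ (Submodule.sub_mem _ (Submodule.subset_span (by simp))
        (Submodule.smul_mem _ _ (Submodule.subset_span (by simp))))
        (Submodule.smul_mem _ _ (Submodule.subset_span (by simp))))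
      (by rw [← h]; abel) h9
    have hβ : β = 0 := levhb_zero_of_smul_mem (Submodule.span K ({v, x0, f c} : Set V))
      (y := f c - α • x0)
      (Submodule.sub_mem _ (Submodule.subset_span (by simp))
        (Submodule.smul_mem _ _ (Submodule.subset_span (by simp))))
      (by rw [← h, hγ, zero_smul]; abel) h5
    rw [hγ, hβ, zero_smul, zero_smul, add_zero, add_zero] at h
    have hc' : c = α • (g v - v) := by
      have := congrArg g h
      rw [map_smul, hgx0, hgf'] at this
      exact this.symm
    by_cases hα : α = 0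
    · rw [hα, zero_smul] at hc'
      exact hc hc'
    · apply h3
      refine ⟨α⁻¹, ?_⟩
      rw [hg1, hc', smul_smul, inv_mul_cancel₀ hα, one_smul]
  -- claim C
  have hC : w' ∉ Submodule.span K ({x0, x2, x3} : Set V) := by
    intro hmem
    obtain ⟨α, β, γ, h⟩ := Submodule.mem_span_triple.mp hmem
    have hγ : γ = 0 := levhb_zero_of_smul_mem (Submodule.span K ({x0, x2, w'} : Set V))
      (y := w' - α • x0 - β • x2)
      (Submodule.sub_mem _ (Submodule.sub_mem _ (Submodule.subset_span (by simp))
        (Submodule.smul_mem _ _ (Submodule.subset_span (by simp))))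
        (Submodule.smul_mem _ _ (Submodule.subset_span (by simp))))
      (by rw [← h]; abel) h10
    apply h6'
    rw [← h, hγ, zero_smul, add_zero]
    exact Submodule.add_mem _ (Submodule.smul_mem _ _ (Submodule.subset_span (by simp)))
      (Submodule.smul_mem _ _ (Submodule.subset_span (by simp)))
  obtain ⟨ψ, hψT, hψv, hψc, hψw⟩ :=
    func (Submodule.span K ({x0, x2, x3} : Set V)) v (f c) w' hA hB' hC hK
  have hψ0 : ψ x0 = 0 := hψT _ (Submodule.subset_span (by simp))
  have hψ2 : ψ x2 = 0 := hψT _ (Submodule.subset_span (by simp))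
  have hψ3 : ψ x3 = 0 := hψT _ (Submodule.subset_span (by simp))
  refine ⟨ψ, hψv, ?_, h1, hψc, ?_, ?_, ?_, ?_⟩
  · have e : f v = v - x0 := by rw [hx0]; abel
    rw [e, map_sub, hψv, hψ0, sub_zero]
  · intro e
    exact h2 ⟨1, by rw [e, one_smul]⟩
  · obtain ⟨w, hw⟩ := h6
    exact ⟨w, by rw [hw]; exact hψw⟩
  · refine ⟨x0, x2, hψ0, hψ2, ?_⟩
    rintro ⟨ζ, a, a', e1, e2⟩
    have hζ : ζ = 1 := by
      by_contra hζ
      have hζ' : (1 - ζ) ≠ 0 := sub_ne_zero.mpr (Ne.symm hζ)
      apply h2
      refine ⟨(1 - ζ)⁻¹ * (a + 1 + ζ * (1 - τ)), ?_⟩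
      have e3 : (1 - ζ) • g v = (a + 1 + ζ * (1 - τ)) • v := by
        rw [hgx0, hx0'] at e1
        have e4 : (1 - ζ) • g v
            = (g v - v - ζ • ((1 - τ) • v + g v)) + (1 + ζ * (1 - τ)) • v := by
          module
        rw [e4, e1]
        module
      rw [← smul_smul, ← e3, smul_smul, inv_mul_cancel₀ hζ', one_smul]
    apply h4
    refine ⟨a', ?_⟩
    rw [hg1, ← e2, hζ, one_smul]
  · refine ⟨x2, x3, hψ2, hψ3, ?_⟩
    rw [Fintype.linearIndependent_iff]
    intro cc hcc
    rw [Fin.sum_univ_three] at hcc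
    have hcc' : cc 0 • v + cc 1 • (g - 1) x2 + cc 2 • (g - 1) x3 = 0 := hcc
    have h2' : cc 2 = 0 := levhb_zero_of_smul_mem
      (Submodule.span K ({v, (g - 1) x2} : Set V))
      (y := -(cc 0 • v) - cc 1 • (g - 1) x2)
      (Submodule.sub_mem _ (Submodule.neg_mem _
        (Submodule.smul_mem _ _ (Submodule.subset_span (by simp))))
        (Submodule.smul_mem _ _ (Submodule.subset_span (by simp))))
      (by rw [← sub_eq_zero, ← hcc']; abel) h7
    rw [h2', zero_smul, add_zero] at hcc'
    have h4' : (g - 1) x2 ∉ Submodule.span K ({v} : Set V) := by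
      intro hm
      obtain ⟨a, ha⟩ := Submodule.mem_span_singleton.mp hm
      exact h4 ⟨a, ha.symm⟩
    have h1' : cc 1 = 0 := levhb_zero_of_smul_mem (Submodule.span K ({v} : Set V))
      (y := -(cc 0 • v))
      (Submodule.neg_mem _ (Submodule.smul_mem _ _ (Submodule.subset_span (by simp))))
      (by rw [← sub_eq_zero, ← hcc']; abel) h4'
    rw [h1', zero_smul, add_zero] at hcc'
    have h0' : cc 0 = 0 := (smul_eq_zero.mp hcc').resolve_right hv0
    intro i
    fin_cases i
    · exact h0'
    · exact h1'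
    · exact h2'

end Cfsg.Agent.Lib.Helper49.Lev
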