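import Mathlib
import Cfsg.Agent.Lib.Helper49.LevDefs
import Cfsg.Agent.Lib.Helper49.LevXNILBASIS

/-!
# S2522 project LEV (helper49), piece NILA

PLACEHOLDER: replace the `sorry` (keep the statement and the namespace exactly; auxiliary lemmas
with fresh names prefixed `levnila_` are fine).  Paper proof: see the job note.
-/

set_option autoImplicit false

namespace Cfsg.Agent.Lib.Helper49.Lev

open Module

variable {K : Type*} [Field K] {V : Type*} [AddCommGroup V] [Module K V]

theorem nil_ker_le_range [FiniteDimensional K V] (N : Module.End K V) (h0 : N ^ (finrank K V) = 0)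
    (h1 : N ^ (finrank K V - 1) ≠ 0) (x : V) (hx : (N ^ (finrank K V - 1)) x = 0) :
    x ∈ LinearMap.range N := by
  obtain ⟨w, hw, hli⟩ := nil_basis N h0 h1
  have hw0 : w ≠ 0 := by
    rintro rfl
    exact hw (map_zero _)
  have hpos : 0 < finrank K V := Module.finrank_pos_iff_exists_ne_zero.mpr ⟨w, hw0⟩
  set n := finrank K V with hn
  have : Nonempty (Fin n) := Fin.pos_iff_nonempty.mp hpos
  let B : Basis (Fin n) K V :=
    basisOfLinearIndependentOfCardEqFinrank hli (by rw [Fintype.card_fin])
  have hB : ∀ i : Fin n, B i = (N ^ (i : ℕ)) w := fun i => by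
    simp only [B, coe_basisOfLinearIndependentOfCardEqFinrank]
  have hsum : x = ∑ i : Fin n, B.repr x i • (N ^ (i : ℕ)) w := by
    conv_lhs => rw [← B.sum_repr x]
    exact Finset.sum_congr rfl (fun i _ => by rw [hB i])
  -- the coefficient of `w` vanishes
  have hzero : ∀ i : Fin n, (i : ℕ) = 0 → B.repr x i = 0 := by
    intro i hi
    have h2 : (N ^ (n - 1)) x = B.repr x i • (N ^ (n - 1)) w := by
      conv_lhs => rw [hsum]
      rw [map_sum]
      rw [Finset.sum_eq_single i]
      · rw [map_smul, hi, pow_zero, Module.End.one_apply]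
      · intro j _ hji
        have hj : (j : ℕ) ≠ 0 := fun h => hji (Fin.ext (h.trans hi.symm))
        rw [map_smul, ← Module.End.mul_apply, ← pow_add]
        have h3 : n - 1 + (j : ℕ) = n + ((j : ℕ) - 1) := by
          have := j.2
          omega
        rw [h3, pow_add, h0, zero_mul, LinearMap.zero_apply, smul_zero]
      · intro h
        exact absurd (Finset.mem_univ i) h
    rw [hx] at h2
    rcases smul_eq_zero.mp h2.symm with h | h
    · exact h
    · exact absurd h hw
  refine ⟨∑ i : Fin n, (if (i : ℕ) = 0 then 0 else B.repr x i • (N ^ ((i : ℕ) - 1)) w), ?_⟩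
  rw [map_sum]
  conv_rhs => rw [hsum]
  apply Finset.sum_congr rfl
  intro i _
  by_cases hi : (i : ℕ) = 0
  · rw [if_pos hi, map_zero, hzero i hi, zero_smul]
  · rw [if_neg hi, map_smul, ← Module.End.mul_apply, ← pow_succ']
    have h4 : (i : ℕ) - 1 + 1 = (i : ℕ) := by omega
    rw [h4]

end Cfsg.Agent.Lib.Helper49.Lev
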