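import Mathlib
import Cfsg.Agent.Lib.Helper49.LevDefs
import Cfsg.Agent.Lib.Helper49.LevXNILBASIS

/-!
# S2522 project LEV (helper49), piece NILC

PLACEHOLDER: replace the `sorry` (keep the statement and the namespace exactly; auxiliary lemmas
with fresh names prefixed `levnilc_` are fine).  Paper proof: see the job note.
-/

set_option autoImplicit false

namespace Cfsg.Agent.Lib.Helper49.Lev

open Module

variable {K : Type*} [Field K] {V : Type*} [AddCommGroup V] [Module K V]

theorem nil_rank [FiniteDimensional K V] (N : Module.End K V) (h0 : N ^ (finrank K V) = 0)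
    (h1 : N ^ (finrank K V - 1) ≠ 0) : finrank K (LinearMap.range N) + 1 = finrank K V := by
  obtain ⟨w, hw, hli⟩ := nil_basis N h0 h1
  have hlt : finrank K (LinearMap.range N) < finrank K V := by
    apply Submodule.finrank_lt
    intro htop
    have hsurj : Function.Surjective N := LinearMap.range_eq_top.mp htop
    have hs2 : Function.Surjective (N ^ (finrank K V)) := by
      rw [Module.End.coe_pow]
      exact hsurj.iterate _
    have hall : ∀ x : V, x = 0 := by
      intro x
      obtain ⟨y, rfl⟩ := hs2 x
      rw [h0]
      rfl
    apply h1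
    apply LinearMap.ext
    intro v
    exact (hall _).trans (hall _).symm
  have hge : finrank K V - 1 ≤ finrank K (LinearMap.range N) := by
    have hφ : Function.Injective
        (fun i : Fin (finrank K V - 1) => (⟨i.1 + 1, by omega⟩ : Fin (finrank K V))) := by
      intro a b h
      apply Fin.ext
      have h' := congrArg Fin.val h
      simpa using h'
    have hli2 := hli.comp _ hφ
    have hspan : Submodule.span K (Set.range ((fun i : Fin (finrank K V) => (N ^ (i : ℕ)) w) ∘
        (fun i : Fin (finrank K V - 1) => (⟨i.1 + 1, by omega⟩ : Fin (finrank K V))))) ≤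
        LinearMap.range N := by
      rw [Submodule.span_le]
      rintro _ ⟨i, rfl⟩
      refine ⟨(N ^ (i : ℕ)) w, ?_⟩
      show N ((N ^ (i : ℕ)) w) = (N ^ (i.1 + 1)) w
      rw [pow_succ']
      rfl
    have h2 := Submodule.finrank_mono hspan
    rw [finrank_span_eq_card hli2, Fintype.card_fin] at h2
    exact h2
  omega

end Cfsg.Agent.Lib.Helper49.Lev
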