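import Mathlib
import Cfsg.Agent.Lib.Helper49.LevDefs
import Cfsg.Agent.Lib.Helper49.LevXNILA
import Cfsg.Agent.Lib.Helper49.LevXNILC
import Cfsg.Agent.Lib.Helper49.LevXKER

/-!
# S2522 project LEV (helper49), piece LIFTL

PLACEHOLDER: replace the `sorry` (keep the statement and the namespace exactly; auxiliary lemmas
with fresh names prefixed `levliftl_` are fine).  Paper proof: see the job note.
-/

set_option autoImplicit false

namespace Cfsg.Agent.Lib.Helper49.Lev

open Module

variable {K : Type*} [Field K] {V : Type*} [AddCommGroup V] [Module K V]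

theorem liftL [FiniteDimensional K V] (v : V) (φ : Module.Dual K V) (h1 : φ v = 1)
    (u : Module.End K (LinearMap.ker φ)) (hu : RegUnip u) (a : V)
    (c' : LinearMap.ker φ) (hc' : (c' : V) = a - v) (hc'' : c' ∉ LinearMap.range (u - 1)) :
    RegUnip (lift v φ h1 u a 0) ∧ LinearMap.range (lift v φ h1 u a 0 - 1) = LinearMap.ker φ := by
  -- the map `T x = φ x • c' + (u - 1) (proj x)` into `ker φ`
  obtain ⟨T, hT⟩ : ∃ T : V →ₗ[K] LinearMap.ker φ,
      ∀ x, T x = φ x • c' + (u - 1) (proj v φ h1 x) :=
    ⟨(LinearMap.toSpanSingleton K (LinearMap.ker φ) c').comp φ + (u - 1).comp (proj v φ h1),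
      fun x => by simp [LinearMap.toSpanSingleton_apply]⟩
  have hN : ∀ x, (lift v φ h1 u a 0 - 1) x = ((T x : LinearMap.ker φ) : V) := by
    intro x
    rw [LinearMap.sub_apply, lift_apply, hT]
    simp only [LinearMap.zero_apply, zero_smul, add_zero, Module.End.one_apply,
      Submodule.coe_add, Submodule.coe_smul, LinearMap.sub_apply, Submodule.coe_sub, hc',
      proj_apply]
    module
  have hTι : ∀ z : LinearMap.ker φ, T (z : V) = (u - 1) z := by
    intro z
    have hz : φ (z : V) = 0 := LinearMap.mem_ker.mp z.2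
    have hp : proj v φ h1 (z : V) = z := by
      apply Subtype.ext
      rw [proj_apply, hz, zero_smul, sub_zero]
    rw [hT, hz, zero_smul, zero_add, hp]
  have hpv : proj v φ h1 v = 0 := by
    apply Subtype.ext
    rw [proj_apply, h1, one_smul, sub_self]
    rfl
  have hTv : T v = c' := by
    rw [hT, h1, one_smul, hpv, map_zero, add_zero]
  have hpow : ∀ (k : ℕ) (x : V), ((lift v φ h1 u a 0 - 1) ^ (k + 1)) x =
      ((((u - 1) ^ k) (T x) : LinearMap.ker φ) : V) := by
    intro k
    induction k with
    | zero =>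
      intro x
      rw [zero_add, pow_one, pow_zero, Module.End.one_apply, hN]
    | succ k ih =>
      intro x
      rw [pow_succ, Module.End.mul_apply, hN, ih, hTι, ← Module.End.mul_apply, ← pow_succ]
  have hker := finrank_ker_add_one v φ h1
  obtain ⟨hu0, hu1⟩ := hu
  -- `ker φ` is not trivial
  have hc0 : c' ≠ 0 := by
    rintro rfl
    exact hc'' (Submodule.zero_mem _)
  have hm : 0 < finrank K (LinearMap.ker φ) :=
    Module.finrank_pos_iff_exists_ne_zero.mpr ⟨c', hc0⟩
  have hcpow : ((u - 1) ^ (finrank K (LinearMap.ker φ) - 1)) c' ≠ 0 := fun h =>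
    hc'' (nil_ker_le_range (u - 1) hu0 hu1 c' h)
  refine ⟨⟨?_, ?_⟩, ?_⟩
  · rw [← hker]
    apply LinearMap.ext
    intro x
    rw [hpow, hu0, LinearMap.zero_apply, LinearMap.zero_apply]
    rfl
  · rw [← hker, Nat.add_sub_cancel]
    intro h
    have h2 := hpow (finrank K (LinearMap.ker φ) - 1) v
    rw [Nat.sub_add_cancel hm, h, LinearMap.zero_apply, hTv] at h2
    exact hcpow (Subtype.ext h2.symm)
  · apply le_antisymm
    · rintro _ ⟨x, rfl⟩
      rw [hN]
      exact (T x).2
    · -- `T` is onto
      have h1' : LinearMap.range (u - 1) < LinearMap.range T := by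
        refine lt_of_le_of_ne ?_ ?_
        · rintro _ ⟨z, rfl⟩
          exact ⟨(z : V), hTι z⟩
        · intro h
          apply hc''
          rw [h]
          exact ⟨v, hTv⟩
      have h2 := Submodule.finrank_lt_finrank_of_lt h1'
      have h3 := nil_rank (u - 1) hu0 hu1
      have h4 : finrank K (LinearMap.range T) ≤ finrank K (LinearMap.ker φ) :=
        Submodule.finrank_le _
      have h5 : LinearMap.range T = ⊤ := Submodule.eq_top_of_finrank_eq (by omega)
      intro z hz
      have h6 : (⟨z, hz⟩ : LinearMap.ker φ) ∈ LinearMap.range T := by rw [h5]; trivial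
      obtain ⟨x, hx⟩ := h6
      refine ⟨x, ?_⟩
      rw [hN, hx]

end Cfsg.Agent.Lib.Helper49.Lev
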