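import Mathlib
import Cfsg.Agent.Lib.Helper49.LevDefs
import Cfsg.Agent.Lib.Helper49.LevXVEX

/-!
# S2522 project LEV (helper49), piece REGH3

In dimension `3` an admissible `g` cannot satisfy `g + g⁻¹ = τ`: the minimal polynomial of `g`
is `X² - τ X + 1`, the characteristic polynomial is `(X² - τ X + 1)(X - ν)` with `ν = det g = 1`
an eigenvalue, hence a root of the minimal polynomial, so `τ = 2`, `(g - 1)² = 0` and
`rank (g - 1) ≤ 1` (filled in by helper17).
-/

set_option autoImplicit false

namespace Cfsg.Agent.Lib.Helper49.Lev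

open Module

variable {K : Type*} [Field K] {V : Type*} [AddCommGroup V] [Module K V]

open Polynomial in
theorem regH3 [FiniteDimensional K V] (g f : Module.End K V) (hfg : f * g = 1) (hgf : g * f = 1)
    (hV : finrank K V = 3) (hg : Adm g) (τ : K) (hτ : g + f = τ • (1 : Module.End K V)) :
    False := by
  obtain ⟨hdet, h2⟩ := hg
  obtain ⟨hns, hrk⟩ := h2 (by omega)
  have hgg : g * g = τ • g - 1 := by
    have h1 : g * (g + f) = g * (τ • (1 : Module.End K V)) := by rw [hτ]
    rw [mul_add, hgf, mul_smul_comm, mul_one] at h1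
    exact eq_sub_of_add_eq h1
  have hqm : (X ^ 2 - C τ * X + 1 : K[X]).Monic := by
    have h1 : (X ^ 2 - C τ * X + 1 : K[X]) = X ^ 2 + (C (-τ) * X + C 1) := by
      rw [C_neg, C_1]; ring
    rw [h1]
    apply Polynomial.monic_X_pow_add
    refine lt_of_le_of_lt (degree_linear_le) ?_
    norm_num
  have hqd : (X ^ 2 - C τ * X + 1 : K[X]).natDegree = 2 := by
    have h1 : (X ^ 2 - C τ * X + 1 : K[X]) = C 1 * X ^ 2 + C (-τ) * X + C 1 := by
      rw [C_neg, C_1]; ring
    rw [h1]
    exact natDegree_quadratic one_ne_zero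
  have hqg : aeval g (X ^ 2 - C τ * X + 1 : K[X]) = 0 := by
    simp only [map_add, map_sub, map_mul, map_pow, aeval_X, aeval_C, map_one]
    rw [pow_two, hgg, Algebra.algebraMap_eq_smul_one, smul_mul_assoc, one_mul]
    abel
  haveI hnt : Nontrivial (Module.End K V) := by
    refine ⟨⟨0, 1, fun h01 => hns ⟨0, ?_⟩⟩⟩
    rw [zero_smul, ← mul_one g, ← h01, mul_zero]
  have hint : IsIntegral K g := Algebra.IsIntegral.isIntegral g
  have hmin : minpoly K g = (X ^ 2 - C τ * X + 1 : K[X]) := by
    have hdvd : minpoly K g ∣ (X ^ 2 - C τ * X + 1 : K[X]) := minpoly.dvd K g hqg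
    have h2le : 2 ≤ (minpoly K g).natDegree := by
      rw [minpoly.two_le_natDegree_iff hint]
      rintro ⟨a, ha⟩
      exact hns ⟨a, by rw [← ha, Algebra.algebraMap_eq_smul_one]⟩
    exact (Polynomial.eq_of_monic_of_dvd_of_natDegree_le (minpoly.monic hint) hqm hdvd
      (by rw [hqd]; exact h2le)).symm
  have hchar : (X ^ 2 - C τ * X + 1 : K[X]) ∣ g.charpoly := by
    rw [← hmin]; exact LinearMap.minpoly_dvd_charpoly g
  obtain ⟨r, hr⟩ := hchar
  have hcm : g.charpoly.Monic := LinearMap.charpoly_monic g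
  have hcd : g.charpoly.natDegree = 3 := by rw [LinearMap.charpoly_natDegree, hV]
  have hrm : r.Monic := hqm.of_mul_monic_left (hr ▸ hcm)
  have hrd : r.natDegree = 1 := by
    have h1 := congrArg natDegree hr
    rw [hcd, hqm.natDegree_mul hrm, hqd] at h1
    omega
  have hr' : r = X + C (r.coeff 0) := hrm.eq_X_add_C hrd
  have hdet' : LinearMap.det g = (-1) ^ finrank K V * g.charpoly.coeff 0 :=
    LinearMap.det_eq_sign_charpoly_coeff g
  have hc0 : g.charpoly.coeff 0 = r.coeff 0 := by
    rw [hr, mul_coeff_zero]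
    simp
  have hc : r.coeff 0 = -1 := by
    rw [hdet, hV, hc0] at hdet'
    linear_combination hdet'
  have hroot : g.charpoly.IsRoot 1 := by
    rw [hr, hr', hc]
    simp [IsRoot]
  have hev : g.HasEigenvalue 1 := (Module.End.hasEigenvalue_iff_isRoot_charpoly g 1).2 hroot
  have hq1 : (X ^ 2 - C τ * X + 1 : K[X]).IsRoot 1 := by
    rw [← hmin]; exact Module.End.isRoot_of_hasEigenvalue hev
  have hτ2 : τ = 2 := by
    simp [IsRoot] at hq1
    linear_combination -hq1
  have hsq : (g - 1) * (g - 1) = 0 := by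
    rw [hτ2] at hgg
    have h1 : (g - 1) * (g - 1) = g * g - (2 : K) • g + 1 := by
      rw [sub_mul, mul_sub, mul_sub, mul_one, one_mul, one_mul, two_smul]; abel
    rw [h1, hgg]; abel
  have hle : LinearMap.range (g - 1) ≤ LinearMap.ker (g - 1) := by
    rintro _ ⟨x, rfl⟩
    rw [LinearMap.mem_ker, ← Module.End.mul_apply, hsq]; rfl
  have hrn := LinearMap.finrank_range_add_finrank_ker (g - 1)
  have hmono := Submodule.finrank_mono hle
  omega

end Cfsg.Agent.Lib.Helper49.Lev
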