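import Mathlib
import Cfsg.Agent.Lib.Helper49.LevDefs

/-!
# S2522 project LEV (helper49), piece T2

`transv_root`: for `a ≠ 0`, `β ≠ 0`, `β a = 0` there is a nilpotent `N` with `N ^ n = 0` and
`N ^ (n - 1) = a ⊗ β` (shift along a basis starting at a vector `y` with `β y = 1`, running
through `ker β` and ending at `a`).
-/

set_option autoImplicit false

namespace Cfsg.Agent.Lib.Helper49.Lev

open Module

variable {K : Type*} [Field K] {V : Type*} [AddCommGroup V] [Module K V]

/-- the shift along a basis indexed by `Fin (M + 1)` -/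
theorem levt2_shift {M : ℕ} (e : Basis (Fin (M + 1)) K V) :
    ∃ N : Module.End K V, ∀ (t : ℕ) (j : Fin (M + 1)),
      (N ^ t) (e j) = if h : (j : ℕ) + t < M + 1 then e ⟨(j : ℕ) + t, h⟩ else 0 := by
  classical
  obtain ⟨N, hN⟩ : ∃ N : Module.End K V, ∀ j : Fin (M + 1),
      N (e j) = if h : (j : ℕ) + 1 < M + 1 then e ⟨(j : ℕ) + 1, h⟩ else 0 :=
    ⟨e.constr K (fun j => if h : (j : ℕ) + 1 < M + 1 then e ⟨(j : ℕ) + 1, h⟩ else 0),
      fun j => Basis.constr_basis e K _ j⟩
  refine ⟨N, ?_⟩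
  intro t
  induction t with
  | zero =>
    intro j
    rw [pow_zero, Module.End.one_apply, dif_pos (by simpa using j.2)]
    rfl
  | succ t ih =>
    intro j
    rw [pow_succ', Module.End.mul_apply, ih j]
    by_cases h : (j : ℕ) + t < M + 1
    · rw [dif_pos h, hN]
      by_cases h' : (j : ℕ) + (t + 1) < M + 1
      · rw [dif_pos h', dif_pos (by simpa [add_assoc] using h')]
        rfl
      · rw [dif_neg h', dif_neg (by simpa [add_assoc] using h')]
    · rw [dif_neg h, map_zero, dif_neg (by omega)]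

theorem transv_root [FiniteDimensional K V] (hV : 2 ≤ finrank K V) (a : V) (β : Module.Dual K V)
    (ha : a ≠ 0) (hβ : β ≠ 0) (hβa : β a = 0) :
    ∃ N : Module.End K V, N ^ (finrank K V) = 0 ∧
      ∀ x, (N ^ (finrank K V - 1)) x = β x • a := by
  classical
  -- a vector with `β y = 1`
  obtain ⟨y, hy⟩ : ∃ y : V, β y = 1 := by
    have h1 : ∃ y₀ : V, β y₀ ≠ 0 := by
      by_contra hcon
      push Not at hcon
      exact hβ (LinearMap.ext hcon)
    obtain ⟨y₀, hy₀⟩ := h1
    exact ⟨(β y₀)⁻¹ • y₀, by rw [map_smul, smul_eq_mul, inv_mul_cancel₀ hy₀]⟩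
  -- a basis of `ker β` starting with `a`
  obtain ⟨a', ha'⟩ : ∃ a' : LinearMap.ker β, (a' : V) = a := ⟨⟨a, hβa⟩, rfl⟩
  have ha'0 : a' ≠ 0 := by
    intro h0
    apply ha
    rw [← ha', h0]
    rfl
  obtain ⟨N', hN'⟩ := Submodule.exists_isCompl (K ∙ a' : Submodule K (LinearMap.ker β))
  have hli1 : ∀ (c : K), ∀ x ∈ N', c • a' + x = 0 → c = 0 := by
    intro c x hx hc
    have h1 : c • a' ∈ (K ∙ a' : Submodule K (LinearMap.ker β)) ⊓ N' := by
      refine ⟨Submodule.smul_mem _ _ (Submodule.mem_span_singleton_self a'), ?_⟩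
      have h2 : c • a' = -x := eq_neg_of_add_eq_zero_left hc
      rw [h2]
      exact N'.neg_mem hx
    rw [hN'.inf_eq_bot, Submodule.mem_bot] at h1
    exact (smul_eq_zero.mp h1).resolve_right ha'0
  have hsp1 : ∀ z : LinearMap.ker β, ∃ c : K, z + c • a' ∈ N' := by
    intro z
    have hz : z ∈ (K ∙ a' : Submodule K (LinearMap.ker β)) ⊔ N' := by
      rw [hN'.sup_eq_top]
      exact Submodule.mem_top
    obtain ⟨u, hu, x, hx, rfl⟩ := Submodule.mem_sup.mp hz
    obtain ⟨s, rfl⟩ := Submodule.mem_span_singleton.mp hu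
    refine ⟨-s, ?_⟩
    have h1 : s • a' + x + -s • a' = x := by
      rw [neg_smul]
      abel
    rw [h1]
    exact hx
  obtain ⟨k, b', -⟩ : ∃ (k : ℕ) (b' : Basis (Fin k) K N'), True :=
    ⟨_, Module.finBasis K N', trivial⟩
  obtain ⟨b₁, hb₁⟩ : ∃ b₁ : Basis (Fin (k + 1)) K (LinearMap.ker β), b₁ 0 = a' :=
    ⟨Basis.mkFinCons a' b' hli1 hsp1, by rw [Basis.coe_mkFinCons, Fin.cons_zero]⟩
  -- the basis of `V`
  have hli2 : ∀ (c : K), ∀ x ∈ LinearMap.ker β, c • y + x = 0 → c = 0 := by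
    intro c x hx hc
    have h1 := congrArg β hc
    rw [map_add, map_smul, hy, LinearMap.mem_ker.mp hx, map_zero, smul_eq_mul, mul_one,
      add_zero] at h1
    exact h1
  have hsp2 : ∀ z : V, ∃ c : K, z + c • y ∈ LinearMap.ker β := by
    intro z
    refine ⟨-β z, ?_⟩
    rw [LinearMap.mem_ker, map_add, map_smul, hy, smul_eq_mul, mul_one, add_neg_cancel]
  obtain ⟨e, he0, hes⟩ : ∃ e : Basis (Fin (k + 1 + 1)) K V, e 0 = y ∧
      ∀ j : Fin (k + 1), e j.succ = ((b₁.reindex Fin.revPerm) j : V) :=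
    ⟨Basis.mkFinCons y (b₁.reindex Fin.revPerm) hli2 hsp2,
      by rw [Basis.coe_mkFinCons, Fin.cons_zero],
      fun j => by rw [Basis.coe_mkFinCons, Fin.cons_succ]; rfl⟩
  have helast : e (Fin.last (k + 1)) = a := by
    rw [← Fin.succ_last, hes, Basis.reindex_apply, Fin.revPerm_symm, Fin.revPerm_apply,
      Fin.rev_last, hb₁, ha']
  have hβ0 : β (e 0) = 1 := by rw [he0, hy]
  have hβs : ∀ j : Fin (k + 1), β (e j.succ) = 0 := by
    intro j
    rw [hes]
    exact LinearMap.mem_ker.mp ((b₁.reindex Fin.revPerm) j).2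
  have hn : finrank K V = k + 1 + 1 := by
    rw [Module.finrank_eq_card_basis e, Fintype.card_fin]
  obtain ⟨N, hN⟩ := levt2_shift e
  refine ⟨N, ?_, ?_⟩
  · rw [hn]
    apply e.ext
    intro j
    rw [hN, dif_neg (by omega), LinearMap.zero_apply]
  · rw [hn, Nat.add_sub_cancel]
    have key : N ^ (k + 1) = (LinearMap.toSpanSingleton K V a).comp β := by
      apply e.ext
      intro j
      rw [hN, LinearMap.comp_apply, LinearMap.toSpanSingleton_apply]
      rcases Fin.eq_zero_or_eq_succ j with rfl | ⟨j', rfl⟩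
      · rw [dif_pos (by simp), hβ0, one_smul, ← helast]
        congr 1
        apply Fin.ext
        simp
      · rw [dif_neg (by simp), hβs, zero_smul]
    intro x
    rw [key, LinearMap.comp_apply, LinearMap.toSpanSingleton_apply]

end Cfsg.Agent.Lib.Helper49.Lev
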