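import Mathlib
import Cfsg.Agent.Lib.Helper49.LevDefs

/-!
# S2522 project LEV (helper49), piece T3

PLACEHOLDER: replace the `sorry` (keep the statement and the namespace exactly; auxiliary lemmas
with fresh names prefixed `levt3_` are fine).  Paper proof: see the job note.
-/

set_option autoImplicit false

namespace Cfsg.Agent.Lib.Helper49.Lev

open Module

variable {K : Type*} [Field K] {V : Type*} [AddCommGroup V] [Module K V]

theorem levt3_mul_pow_eq {R : Type*} [Monoid R] (a b : R) (h : a * b = a) (j : ℕ) :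
    a * b ^ j = a := by
  induction j with
  | zero => rw [pow_zero, mul_one]
  | succ j ih => rw [pow_succ, ← mul_assoc, ih, h]

theorem transv_alg [FiniteDimensional K V] (hV : 3 ≤ finrank K V) (g N : Module.End K V)
    (h0 : N ^ (finrank K V) = 0) (h1 : N ^ (finrank K V - 1) ≠ 0)
    (hg : g = 1 + N ^ (finrank K V - 1)) :
    ∃ u1 u2 : Module.End K V, g = u1 * u2 ∧ RegUnip u1 ∧ RegUnip u2 := by
  obtain ⟨l, hl⟩ : ∃ l, finrank K V = l + 1 + 1 := ⟨finrank K V - 2, by omega⟩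
  have hl1 : 1 ≤ l := by omega
  unfold RegUnip
  rw [hl] at h0 h1 hg ⊢
  simp only [Nat.add_sub_cancel] at h1 hg ⊢
  -- notation: m = l + 1, N ^ (m + 1) = 0, N ^ m ≠ 0
  have hneg : (-N) ^ (l + 1 + 1) = 0 := by rw [neg_pow, h0, mul_zero]
  have hne : (-N) ^ (l + 1) ≠ 0 := by
    intro h
    apply h1
    have h2 := neg_pow (-N) (l + 1)
    rw [neg_neg, h, mul_zero] at h2
    exact h2
  obtain ⟨u1, hu1⟩ : ∃ u1 : Module.End K V, u1 = ∑ i ∈ Finset.range (l + 1 + 1), (-N) ^ i :=
    ⟨_, rfl⟩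
  have hA : (1 + N) * u1 = 1 := by
    have h2 := mul_neg_geom_sum (-N) (l + 1 + 1)
    rw [hneg, sub_zero, sub_neg_eq_add, ← hu1] at h2
    exact h2
  have hB : u1 * (1 + N) = 1 := by
    have h2 := geom_sum_mul_neg (-N) (l + 1 + 1)
    rw [hneg, sub_zero, sub_neg_eq_add, ← hu1] at h2
    exact h2
  have hc : Commute N u1 := by
    rw [hu1]
    apply Commute.sum_right
    intro i _
    exact ((Commute.refl N).neg_right).pow_right i
  have hu1' : u1 - 1 = (-N) * u1 := by
    have h2 : u1 + N * u1 = 1 := by rw [← hA, add_mul, one_mul]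
    rw [neg_mul, sub_eq_iff_eq_add, ← h2]
    abel
  have hu1'' : u1 = 1 + (-N) * u1 := by rw [← hu1']; abel
  have hk1 : (-N) ^ (l + 1) * u1 = (-N) ^ (l + 1) := by
    conv_lhs => rw [hu1'']
    rw [mul_add, mul_one, ← mul_assoc, ← pow_succ, hneg, zero_mul, add_zero]
  refine ⟨u1, 1 + N + N ^ (l + 1), ?_, ⟨?_, ?_⟩, ⟨?_, ?_⟩⟩
  · have h2 : 1 + N + N ^ (l + 1) = (1 + N) * (1 + N ^ (l + 1)) := by
      rw [mul_add, mul_one, add_mul, one_mul, ← pow_succ', h0, add_zero]
    rw [h2, ← mul_assoc, hB, one_mul, hg]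
  · rw [hu1', (hc.neg_left).mul_pow, hneg, zero_mul]
  · rw [hu1', (hc.neg_left).mul_pow, levt3_mul_pow_eq _ _ hk1]
    exact hne
  · have h2 : 1 + N + N ^ (l + 1) - 1 = N * (1 + N ^ l) := by
      rw [mul_add, mul_one, ← pow_succ']
      abel
    have hc2 : Commute N (1 + N ^ l) :=
      (Commute.one_right N).add_right ((Commute.refl N).pow_right l)
    rw [h2, hc2.mul_pow, h0, zero_mul]
  · have h2 : 1 + N + N ^ (l + 1) - 1 = N * (1 + N ^ l) := by
      rw [mul_add, mul_one, ← pow_succ']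
      abel
    have hc2 : Commute N (1 + N ^ l) :=
      (Commute.one_right N).add_right ((Commute.refl N).pow_right l)
    have hk2 : N ^ (l + 1) * (1 + N ^ l) = N ^ (l + 1) := by
      obtain ⟨l', rfl⟩ : ∃ l', l = l' + 1 := ⟨l - 1, by omega⟩
      have h3 : N ^ (l' + 1 + 1) * N ^ (l' + 1) = 0 := by
        rw [pow_succ N l', ← mul_assoc, ← pow_add]
        have h4 : l' + 1 + 1 + l' = l' + (l' + 1 + 1) := by omega
        rw [h4, pow_add, mul_assoc (N ^ l'), ← pow_succ, h0, mul_zero]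
      rw [mul_add, mul_one, h3, add_zero]
    rw [h2, hc2.mul_pow, levt3_mul_pow_eq _ _ hk2]
    exact h1

end Cfsg.Agent.Lib.Helper49.Lev
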