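import Mathlib
import Cfsg.Agent.Lib.Helper49.LevDefs
import Cfsg.Agent.Lib.Helper49.LevXBASE1
import Cfsg.Agent.Lib.Helper49.LevXNILBASIS
import Cfsg.Agent.Lib.Helper49.LevXNILA
import Cfsg.Agent.Lib.Helper49.LevXNILB
import Cfsg.Agent.Lib.Helper49.LevXNILC
import Cfsg.Agent.Lib.Helper49.LevXKER
import Cfsg.Agent.Lib.Helper49.LevXLIFTL
import Cfsg.Agent.Lib.Helper49.LevLiftU
import Cfsg.Agent.Lib.Helper49.LevXCOMP
import Cfsg.Agent.Lib.Helper49.LevXDET
import Cfsg.Agent.Lib.Helper49.LevXCOVER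
import Cfsg.Agent.Lib.Helper49.LevXFUNC
import Cfsg.Agent.Lib.Helper49.LevXVEX
import Cfsg.Agent.Lib.Helper49.LevXCRITNS
import Cfsg.Agent.Lib.Helper49.LevXCRITRK
import Cfsg.Agent.Lib.Helper49.LevXEX2
import Cfsg.Agent.Lib.Helper49.LevXREGH3
import Cfsg.Agent.Lib.Helper49.LevXHA
import Cfsg.Agent.Lib.Helper49.LevXHB
import Cfsg.Agent.Lib.Helper49.LevXAV
import Cfsg.Agent.Lib.Helper49.LevXAX
import Cfsg.Agent.Lib.Helper49.LevXAW
import Cfsg.Agent.Lib.Helper49.LevJordan
import Cfsg.Agent.Lib.Helper49.LevXT1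
import Cfsg.Agent.Lib.Helper49.LevXT2
import Cfsg.Agent.Lib.Helper49.LevXT3

/-!
# S2522 project LEV (helper49): assembly

`step` (one LU-step), `crit` (witnesses give step data), `exn` (existence lemma, `dim ≥ 3`),
`main` (induction on the dimension), `lev_top` (the matrix statement).
-/

set_option autoImplicit false

namespace Cfsg.Agent.Lib.Helper49.Lev

open Module

universe u

variable {K : Type*} [Field K] {V : Type*} [AddCommGroup V] [Module K V]

theorem step [FiniteDimensional K V] (g : Module.End K V) (v : V) (φ : Module.Dual K V)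
    (h1 : φ v = 1) (h2 : φ (g v) = 1) (c' : LinearMap.ker φ) (hc' : (c' : V) = g v - v)
    (hgood : Good (schur g v φ h2) c' (rres g φ))
    (c : V) (hc : φ c ≠ 0) (r : Module.Dual K V) (hr : r v ≠ 0) : Good g c r := by
  obtain ⟨u1, u2, hprod, hu1, hu2, hc1, w, hw, hrw⟩ := hgood
  have hL := liftL v φ h1 u1 hu1 (g v) c' hc' hc1
  have hU := liftU_mine v φ h1 u2 hu2 (rres g φ) w hw hrw
  refine ⟨lift v φ h1 u1 (g v) 0, lift v φ h1 u2 v (rres g φ),
    lift_comp g v φ h1 h2 u1 u2 hprod, hL.1, hU.1, ?_, v, hU.2, hr⟩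
  rw [hL.2, LinearMap.mem_ker]
  exact hc

theorem crit [FiniteDimensional K V] (g f : Module.End K V) (hfg : f * g = 1) (hgf : g * f = 1)
    (hdet : LinearMap.det g = 1) (hV : 3 ≤ finrank K V)
    (c : V) (r : Module.Dual K V) (v : V) (ψ : Module.Dual K V) (hW : Wit g f c r v ψ) :
    StepData g c r v (ψ.comp f) := by
  obtain ⟨hψv, hψfv, hrv, hψc, hgv, ⟨w, hw⟩, ⟨x, x', hx, hx', hns⟩, ⟨x1, x2, hx1, hx2, hli⟩⟩ := hW
  have hfg' : ∀ z, f (g z) = z := fun z => by
    have := congrArg (fun t : Module.End K V => t z) hfg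
    simpa using this
  have hgf' : ∀ z, g (f z) = z := fun z => by
    have := congrArg (fun t : Module.End K V => t z) hgf
    simpa using this
  have h1 : (ψ.comp f) v = 1 := by simpa using hψfv
  have h2 : (ψ.comp f) (g v) = 1 := by
    simp only [LinearMap.comp_apply, hfg']
    exact hψv
  refine ⟨h1, h2, hrv, by simpa using hψc, hgv, ?_, ?_⟩
  · intro h0
    -- witness: z = g (w - ψ w • f v)
    have hz : (ψ.comp f) (g (w - ψ w • f v)) = 0 := by
      simp only [LinearMap.comp_apply, hfg', map_sub, map_smul, hψfv, smul_eq_mul, mul_one, sub_self]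
    have := congrArg (fun t : Module.Dual K (LinearMap.ker (ψ.comp f)) =>
      t ⟨g (w - ψ w • f v), hz⟩) h0
    simp only [rres_apply, LinearMap.comp_apply, hfg', LinearMap.zero_apply] at this
    apply hw
    have e : ψ ((g - 1) w) = ψ (g (w - ψ w • f v)) := by
      simp only [LinearMap.sub_apply, Module.End.one_apply, map_sub, map_smul, hgf', hψv,
        smul_eq_mul, mul_one]
    rw [e]
    exact this
  · refine ⟨by rw [det_schur g v (ψ.comp f) h1 h2]; exact hdet, fun _ => ⟨?_, ?_⟩⟩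
    · exact crit_ns g v (ψ.comp f) h1 h2 x x' (by simpa [hfg'] using hx) (by simpa [hfg'] using hx')
        hns
    · exact crit_rk g v (ψ.comp f) h1 h2 x1 x2 (by simpa [hfg'] using hx1)
        (by simpa [hfg'] using hx2) hli

theorem exn [FiniteDimensional K V] (g : Module.End K V) (hV : 3 ≤ finrank K V) (hg : Adm g)
    (c : V) (hc : c ≠ 0) (r : Module.Dual K V) (hr : r ≠ 0) (hK : 4 ≤ Cardinal.mk K) :
    ∃ v φ, StepData g c r v φ := by
  obtain ⟨f, hfg, hgf⟩ : ∃ f : Module.End K V, f * g = 1 ∧ g * f = 1 := by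
    have hu : IsUnit (LinearMap.det g) := by rw [hg.1]; exact isUnit_one
    have hg' : IsUnit g := (LinearMap.isUnit_iff_isUnit_det g).mpr hu
    obtain ⟨u, rfl⟩ := hg'
    exact ⟨((u⁻¹ : (Module.End K V)ˣ) : Module.End K V), by simp, by simp⟩
  obtain ⟨v, ψ, hW⟩ : ∃ v ψ, Wit g f c r v ψ := by
    by_cases hh : ∃ τ : K, g + f = τ • (1 : Module.End K V)
    · obtain ⟨τ, hτ⟩ := hh
      rcases Nat.lt_or_ge (finrank K V) 4 with h | h
      · exact (regH3 g f hfg hgf (by omega) hg τ hτ).elim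
      · obtain ⟨v, x2, x3, w', h1, h2, h3, h4, h5, h6, h6', h7, h8, h9, h10⟩ :=
          hA g f hfg hgf h hg τ hτ c hc r hr hK
        obtain ⟨ψ, hψ⟩ := hB g f hfg hgf τ hτ c hc r hK v x2 x3 w' h1 h2 h3 h4 h5 h6 h6' h7 h8 h9 h10
        exact ⟨v, ψ, hψ⟩
    · obtain ⟨v, hv0, hv1, hv2, hv3⟩ := aV g f hfg hgf hV hg hh c hc r hr hK
      obtain ⟨x2, ha, hb, hc', hd, he⟩ := aX g f hfg hgf hV hg c v hv2 hv3 hK
      obtain ⟨ψ, hψ⟩ := aW g f hfg hgf hV hg c hc r v x2 hv0 hv1 hv2 ha hb hc' hd he hK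
      exact ⟨v, ψ, hψ⟩
  exact ⟨v, ψ.comp f, crit g f hfg hgf hg.1 hV c r v ψ hW⟩

theorem main {K : Type*} [Field K] (hK : 4 ≤ Cardinal.mk K) : ∀ (n : ℕ) (V : Type u) [AddCommGroup V] [Module K V]
    [FiniteDimensional K V], finrank K V = n + 1 → ∀ g : Module.End K V, Adm g →
    ∀ c : V, c ≠ 0 → ∀ r : Module.Dual K V, r ≠ 0 → Good g c r := by
  intro n
  induction n with
  | zero =>
    intro V _ _ _ hV g hg c hc r hr
    exact base1 g (by simpa using hV) hg.1 c hc r hr
  | succ n ih =>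
    intro V _ _ _ hV g hg c hc r hr
    obtain ⟨v, φ, h1, h2, hrv, hφc, hgv, hrres, hadm⟩ : ∃ v φ, StepData g c r v φ := by
      rcases Nat.eq_zero_or_pos n with h0 | h0
      · exact ex2 g (by omega) hg c hc r hr hK
      · exact exn g (by omega) hg c hc r hr hK
    have hker : finrank K (LinearMap.ker φ) = n + 1 := by
      have := finrank_ker_add_one v φ h1
      omega
    have hmem : g v - v ∈ LinearMap.ker φ := by
      rw [LinearMap.mem_ker, map_sub, h2, h1, sub_self]
    have hc'0 : (⟨g v - v, hmem⟩ : LinearMap.ker φ) ≠ 0 := by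
      intro h
      apply hgv
      have := congrArg Subtype.val h
      simpa [sub_eq_zero] using this
    have hgood := ih (LinearMap.ker φ) hker (schur g v φ h2) hadm ⟨g v - v, hmem⟩ hc'0
      (rres g φ) hrres
    exact step g v φ h1 h2 ⟨g v - v, hmem⟩ rfl hgood c hφc r hrv


theorem lev_top {K : Type*} [Field K] (hK : 4 ≤ Cardinal.mk K) (n : ℕ) (hn : 3 ≤ n)
    (J g : GL (Fin n) K)
    (hJ : ∀ i j : Fin n, (J : Matrix (Fin n) (Fin n) K) i j =
      if i = j then 1 else if j.val = i.val + 1 then 1 else 0)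
    (hg : ¬ ∃ c : K, (g : Matrix (Fin n) (Fin n) K) = c • (1 : Matrix (Fin n) (Fin n) K))
    (hdet : (g : Matrix (Fin n) (Fin n) K).det = 1) :
    ∃ x y : GL (Fin n) K, g = (x * J * x⁻¹) * (y * J * y⁻¹) := by
  classical
  obtain ⟨G, hG⟩ : ∃ G : Module.End K (Fin n → K),
      G = Matrix.toLin' (g : Matrix (Fin n) (Fin n) K) := ⟨_, rfl⟩
  have hfr : finrank K (Fin n → K) = n := Module.finrank_fin_fun K
  have hdetG : LinearMap.det G = 1 := by
    rw [hG, LinearMap.det_toLin']
    exact hdet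
  have hGns : ¬ ∃ a : K, G = a • (1 : Module.End K (Fin n → K)) := by
    rintro ⟨a, ha⟩
    apply hg
    refine ⟨a, ?_⟩
    apply Matrix.toLin'.injective
    rw [← hG, ha, map_smul, Matrix.toLin'_one]
    rfl
  obtain ⟨u1, u2, hprod, hu1, hu2⟩ : ∃ u1 u2 : Module.End K (Fin n → K),
      G = u1 * u2 ∧ RegUnip u1 ∧ RegUnip u2 := by
    by_cases hrk : 2 ≤ finrank K (LinearMap.range (G - 1))
    · have hadm : Adm G := ⟨hdetG, fun _ => ⟨hGns, hrk⟩⟩
      have hc : (Pi.single (⟨0, by omega⟩ : Fin n) (1 : K) : Fin n → K) ≠ 0 := by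
        intro h
        have := congrFun h ⟨0, by omega⟩
        simp at this
      have hr : (LinearMap.proj (⟨0, by omega⟩ : Fin n) : Module.Dual K (Fin n → K)) ≠ 0 := by
        intro h
        have := congrArg (fun t : Module.Dual K (Fin n → K) =>
          t (Pi.single (⟨0, by omega⟩ : Fin n) (1 : K))) h
        simp at this
      obtain ⟨u1, u2, h, h1, h2, -, -⟩ := main hK (n - 1) (Fin n → K) (by rw [hfr]; omega) G hadm
        _ hc _ hr
      exact ⟨u1, u2, h, h1, h2⟩
    · have h01 : finrank K (LinearMap.range (G - 1)) = 0 ∨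
          finrank K (LinearMap.range (G - 1)) = 1 := by omega
      rcases h01 with h0 | h1
      · exfalso
        apply hGns
        refine ⟨1, ?_⟩
        have hb : LinearMap.range (G - 1) = ⊥ := Submodule.finrank_eq_zero.mp h0
        have hz : G - 1 = 0 := LinearMap.range_eq_bot.mp hb
        rw [one_smul]
        exact sub_eq_zero.mp hz
      · obtain ⟨a, β, ha, hβ, hβa, hgx⟩ := transv_struct G hdetG h1
        obtain ⟨N, hN0, hN1⟩ := transv_root (K := K) (V := Fin n → K) (by rw [hfr]; omega) a β ha hβ hβa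
        have hN1' : N ^ (finrank K (Fin n → K) - 1) ≠ 0 := by
          intro h
          obtain ⟨x, hx⟩ : ∃ x, β x ≠ 0 := by
            by_contra hcon
            push Not at hcon
            exact hβ (LinearMap.ext hcon)
          have h' := hN1 x
          rw [h, LinearMap.zero_apply] at h'
          rcases smul_eq_zero.mp h'.symm with h'' | h''
          · exact hx h''
          · exact ha h''
        have hGe : G = 1 + N ^ (finrank K (Fin n → K) - 1) := by
          apply LinearMap.ext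
          intro x
          rw [hgx x, LinearMap.add_apply, hN1 x]
          rfl
        exact transv_alg (by rw [hfr]; omega) G N hN0 hN1' hGe
  have hm : (g : Matrix (Fin n) (Fin n) K) = LinearMap.toMatrix' u1 * LinearMap.toMatrix' u2 := by
    have h := congrArg LinearMap.toMatrix' hprod
    rw [hG, LinearMap.toMatrix'_toLin', Module.End.mul_eq_comp, LinearMap.toMatrix'_comp] at h
    exact h
  have key : ∀ u : Module.End K (Fin n → K), RegUnip u →
      (LinearMap.toMatrix' u - 1) ^ n = 0 ∧ (LinearMap.toMatrix' u - 1) ^ (n - 1) ≠ 0 := by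
    intro u hu
    obtain ⟨h0, h1⟩ := hu
    rw [hfr] at h0 h1
    have e : ∀ k : ℕ, (LinearMap.toMatrix' u - 1) ^ k = LinearMap.toMatrix' ((u - 1) ^ k) := by
      intro k
      have e1 : LinearMap.toMatrix' u - 1 = LinearMap.toMatrixAlgEquiv' (u - 1) := by
        rw [map_sub, map_one]
        rfl
      rw [e1, ← map_pow]
      rfl
    refine ⟨by rw [e, h0, map_zero], fun h => h1 ?_⟩
    rw [e] at h
    exact LinearMap.toMatrix'.injective (by rw [h, map_zero])
  obtain ⟨x, hx⟩ := jordan_mine n (J : Matrix (Fin n) (Fin n) K) hJ (LinearMap.toMatrix' u1) (key u1 hu1).1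
    (key u1 hu1).2
  obtain ⟨y, hy⟩ := jordan_mine n (J : Matrix (Fin n) (Fin n) K) hJ (LinearMap.toMatrix' u2) (key u2 hu2).1
    (key u2 hu2).2
  refine ⟨x, y, ?_⟩
  apply Units.ext
  rw [hm, hx, hy]
  simp [Units.val_mul]

end Cfsg.Agent.Lib.Helper49.Lev
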