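import Mathlib
import Cfsg.Agent.Lib.Helper49.LevDefs

/-!
# S2522 project LEV (helper49), piece T1

`g - 1` of rank one and `det g = 1`: `g` is a transvection `x ↦ x + β x • a` with `β a = 0`
(proved by helper88 via `LinearMap.transvection.det`).
-/

set_option autoImplicit false

namespace Cfsg.Agent.Lib.Helper49.Lev

open Module

variable {K : Type*} [Field K] {V : Type*} [AddCommGroup V] [Module K V]

theorem transv_struct [FiniteDimensional K V] (g : Module.End K V) (hdet : LinearMap.det g = 1)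
    (hrk : finrank K (LinearMap.range (g - 1)) = 1) :
    ∃ (a : V) (β : Module.Dual K V), a ≠ 0 ∧ β ≠ 0 ∧ β a = 0 ∧ ∀ x, g x = x + β x • a := by
  obtain ⟨a', ha'0, ha'⟩ := finrank_eq_one_iff'.mp hrk
  obtain ⟨a, ha⟩ : ∃ a : V, a = (a' : V) := ⟨_, rfl⟩
  have ha0 : a ≠ 0 := by
    rw [ha]
    intro h
    exact ha'0 (Subtype.ext h)
  obtain ⟨x₀, hx₀⟩ : ∃ x₀, (g - 1) x₀ = a := by
    rw [ha]
    exact a'.2
  obtain ⟨φ, hφ⟩ : ∃ φ : Module.Dual K V, φ a ≠ 0 := by
    by_contra h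
    push Not at h
    exact ha0 ((Module.forall_dual_apply_eq_zero_iff K a).mp h)
  have hM : ∀ x, ∃ c : K, c • a = (g - 1) x := by
    intro x
    obtain ⟨c, hc⟩ := ha' ⟨(g - 1) x, LinearMap.mem_range_self _ x⟩
    refine ⟨c, ?_⟩
    have h1 := congrArg Subtype.val hc
    rw [ha]
    simpa using h1
  obtain ⟨β, hβ⟩ : ∃ β : Module.Dual K V, ∀ x, β x = (φ a)⁻¹ * φ ((g - 1) x) :=
    ⟨(φ a)⁻¹ • φ.comp (g - 1), fun x => rfl⟩
  have hβa : ∀ x, (g - 1) x = β x • a := by
    intro x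
    obtain ⟨c, hc⟩ := hM x
    rw [hβ, ← hc, map_smul, smul_eq_mul, mul_comm c, ← mul_assoc, inv_mul_cancel₀ hφ, one_mul]
  have hg : ∀ x, g x = x + β x • a := by
    intro x
    rw [← hβa x, LinearMap.sub_apply, Module.End.one_apply]
    abel
  refine ⟨a, β, ha0, ?_, ?_, hg⟩
  · intro h0
    have h1 := hβa x₀
    rw [hx₀, h0, LinearMap.zero_apply, zero_smul] at h1
    exact ha0 h1
  · have hgt : g = LinearMap.transvection β a := by
      ext x
      rw [hg x, LinearMap.transvection.apply]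
    rw [hgt, LinearMap.transvection.det] at hdet
    exact add_eq_left.mp hdet

end Cfsg.Agent.Lib.Helper49.Lev
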