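import Mathlib

set_option autoImplicit false

/-!
Orthogonal groups over the field with two elements: basic objects used for the statement
"two Sylow 2-subgroups of O⁺(2m,2) always meet".  Everything lives inside the group
`V ≃ₗ[F] V`; `U` is a submodule fixed pointwise, `perp Q U` its orthogonal complement.
-/

namespace Cfsg.Agent.Lib.Helper49.O2Syl

variable {F : Type*} [Field F] {V : Type*} [AddCommGroup V] [Module F V]

theorem one_app (x : V) : (1 : V ≃ₗ[F] V) x = x := rfl

theorem inv_app_app (g : V ≃ₗ[F] V) (x : V) : g⁻¹ (g x) = x := by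
  rw [← LinearEquiv.mul_apply, inv_mul_cancel, one_app]

theorem app_inv_app (g : V ≃ₗ[F] V) (x : V) : g (g⁻¹ x) = x := by
  rw [← LinearEquiv.mul_apply, mul_inv_cancel, one_app]

/-- the isometries of `Q` fixing the submodule `U` pointwise -/
def GU (Q : QuadraticForm F V) (U : Submodule F V) : Subgroup (V ≃ₗ[F] V) where
  carrier := {g | (∀ x, Q (g x) = Q x) ∧ ∀ u ∈ U, g u = u}
  mul_mem' := by
    rintro a b ⟨ha, ha'⟩ ⟨hb, hb'⟩
    refine ⟨fun x => ?_, fun u hu => ?_⟩
    · rw [LinearEquiv.mul_apply, ha, hb]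
    · rw [LinearEquiv.mul_apply, hb' u hu, ha' u hu]
  one_mem' := ⟨fun _ => rfl, fun _ _ => rfl⟩
  inv_mem' := by
    rintro a ⟨ha, ha'⟩
    refine ⟨fun x => ?_, fun u hu => ?_⟩
    · have h := ha (a⁻¹ x)
      rw [app_inv_app] at h
      exact h.symm
    · have h : a⁻¹ (a u) = u := inv_app_app a u
      rw [ha' u hu] at h
      exact h

theorem mem_GU {Q : QuadraticForm F V} {U : Submodule F V} {g : V ≃ₗ[F] V} :
    g ∈ GU Q U ↔ (∀ x, Q (g x) = Q x) ∧ ∀ u ∈ U, g u = u := Iff.rfl

/-- orthogonal complement of `U` with respect to the polar form of `Q` -/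
def perp (Q : QuadraticForm F V) (U : Submodule F V) : Submodule F V where
  carrier := {x | ∀ u ∈ U, QuadraticMap.polar Q x u = 0}
  add_mem' := by
    intro a b ha hb u hu
    rw [QuadraticMap.polar_add_left, ha u hu, hb u hu, add_zero]
  zero_mem' := by
    intro u _
    simp
  smul_mem' := by
    intro c x hx u hu
    rw [QuadraticMap.polar_smul_left, hx u hu, smul_zero]

theorem mem_perp {Q : QuadraticForm F V} {U : Submodule F V} {x : V} :
    x ∈ perp Q U ↔ ∀ u ∈ U, QuadraticMap.polar Q x u = 0 := Iff.rfl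

/-- an isometry preserves the polar form -/
theorem polar_map {Q : QuadraticForm F V} {g : V ≃ₗ[F] V} (hg : ∀ x, Q (g x) = Q x) (x y : V) :
    QuadraticMap.polar Q (g x) (g y) = QuadraticMap.polar Q x y := by
  unfold QuadraticMap.polar
  rw [← map_add, hg, hg, hg]

/-- elements of `GU Q U` preserve `perp Q U` -/
theorem map_mem_perp {Q : QuadraticForm F V} {U : Submodule F V} {g : V ≃ₗ[F] V}
    (hg : g ∈ GU Q U) {x : V} (hx : x ∈ perp Q U) : g x ∈ perp Q U := by
  intro u hu
  have h := polar_map hg.1 x u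
  rw [hg.2 u hu] at h
  rw [h]
  exact hx u hu

/-- the stabiliser of the vector `e` in `GU Q U` -/
def Sgrp (Q : QuadraticForm F V) (U : Submodule F V) (e : V) : Subgroup (V ≃ₗ[F] V) where
  carrier := {g | g ∈ GU Q U ∧ g e = e}
  mul_mem' := by
    rintro a b ⟨ha, ha'⟩ ⟨hb, hb'⟩
    refine ⟨mul_mem ha hb, ?_⟩
    rw [LinearEquiv.mul_apply, hb', ha']
  one_mem' := ⟨one_mem _, rfl⟩
  inv_mem' := by
    rintro a ⟨ha, ha'⟩
    refine ⟨inv_mem ha, ?_⟩
    have h : a⁻¹ (a e) = e := inv_app_app a e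
    rw [ha'] at h
    exact h

theorem mem_Sgrp {Q : QuadraticForm F V} {U : Submodule F V} {e : V} {g : V ≃ₗ[F] V} :
    g ∈ Sgrp Q U e ↔ g ∈ GU Q U ∧ g e = e := Iff.rfl

/-- the elements of `GU Q U` fixing `e` and acting trivially on `e^⊥ / e` inside `perp Q U` -/
def Kgrp (Q : QuadraticForm F V) (U : Submodule F V) (e : V) : Subgroup (V ≃ₗ[F] V) where
  carrier := {g | g ∈ GU Q U ∧ g e = e ∧
    ∀ x ∈ perp Q U, QuadraticMap.polar Q x e = 0 → ∃ a : F, g x = x + a • e}
  mul_mem' := by
    rintro a b ⟨ha, ha', ha''⟩ ⟨hb, hb', hb''⟩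
    refine ⟨mul_mem ha hb, ?_, ?_⟩
    · rw [LinearEquiv.mul_apply, hb', ha']
    · intro x hx hxe
      obtain ⟨c, hc⟩ := hb'' x hx hxe
      obtain ⟨d, hd⟩ := ha'' x hx hxe
      refine ⟨d + c, ?_⟩
      rw [LinearEquiv.mul_apply, hc, map_add, map_smul, ha', hd, add_smul, add_assoc]
  one_mem' := ⟨one_mem _, rfl, fun x _ _ => ⟨0, by simp⟩⟩
  inv_mem' := by
    rintro a ⟨ha, ha', ha''⟩
    have hinv : ∀ y, a⁻¹ (a y) = y := inv_app_app a
    have hae : a⁻¹ e = e := by
      have h := hinv e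
      rw [ha'] at h
      exact h
    refine ⟨inv_mem ha, hae, ?_⟩
    intro x hx hxe
    obtain ⟨c, hc⟩ := ha'' x hx hxe
    refine ⟨-c, ?_⟩
    have h := hinv x
    rw [hc, map_add, map_smul, hae] at h
    rw [neg_smul, ← sub_eq_add_neg, eq_sub_iff_add_eq]
    exact h

theorem mem_Kgrp {Q : QuadraticForm F V} {U : Submodule F V} {e : V} {g : V ≃ₗ[F] V} :
    g ∈ Kgrp Q U e ↔ g ∈ GU Q U ∧ g e = e ∧
      ∀ x ∈ perp Q U, QuadraticMap.polar Q x e = 0 → ∃ a : F, g x = x + a • e := Iff.rfl

theorem Kgrp_le_Sgrp (Q : QuadraticForm F V) (U : Submodule F V) (e : V) :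
    Kgrp Q U e ≤ Sgrp Q U e := fun _ hg => ⟨hg.1, hg.2.1⟩

theorem Sgrp_le_GU (Q : QuadraticForm F V) (U : Submodule F V) (e : V) :
    Sgrp Q U e ≤ GU Q U := fun _ hg => hg.1

/-- the hypotheses carried along the induction -/
structure Good (Q : QuadraticForm F V) (U : Submodule F V) : Prop where
  split : ∀ v, ∃ u ∈ U, ∃ w ∈ perp Q U, v = u + w
  nondeg : ∀ w ∈ perp Q U, w ≠ 0 → ∃ w' ∈ perp Q U, QuadraticMap.polar Q w w' ≠ 0

/-- number of vectors of `perp Q U` -/
noncomputable def nW (Q : QuadraticForm F V) (U : Submodule F V) : ℕ :=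
  Set.ncard {x : V | x ∈ perp Q U}

/-- number of singular vectors of `perp Q U` (zero included) -/
noncomputable def nS (Q : QuadraticForm F V) (U : Submodule F V) : ℕ :=
  Set.ncard {x : V | x ∈ perp Q U ∧ Q x = 0}

/-- `U` enlarged by the two vectors `e`, `f` -/
def Uef (U : Submodule F V) (e f : V) : Submodule F V := U ⊔ Submodule.span F {e, f}

theorem mem_perp_Uef {Q : QuadraticForm F V} {U : Submodule F V} {e f x : V} :
    x ∈ perp Q (Uef U e f) ↔
      x ∈ perp Q U ∧ QuadraticMap.polar Q x e = 0 ∧ QuadraticMap.polar Q x f = 0 := by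
  constructor
  · intro h
    refine ⟨fun u hu => h u (Submodule.mem_sup_left hu), ?_, ?_⟩
    · exact h e (Submodule.mem_sup_right (Submodule.subset_span (by simp)))
    · exact h f (Submodule.mem_sup_right (Submodule.subset_span (by simp)))
  · rintro ⟨h1, h2, h3⟩ u hu
    obtain ⟨u1, hu1, u2, hu2, rfl⟩ := Submodule.mem_sup.mp hu
    obtain ⟨a, b, rfl⟩ := Submodule.mem_span_pair.mp hu2
    rw [QuadraticMap.polar_add_right, QuadraticMap.polar_add_right, QuadraticMap.polar_smul_right,
      QuadraticMap.polar_smul_right, h1 u1 hu1, h2, h3]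
    simp

theorem mem_GU_Uef {Q : QuadraticForm F V} {U : Submodule F V} {e f : V} {g : V ≃ₗ[F] V} :
    g ∈ GU Q (Uef U e f) ↔ g ∈ GU Q U ∧ g e = e ∧ g f = f := by
  constructor
  · intro h
    refine ⟨⟨h.1, fun u hu => h.2 u (Submodule.mem_sup_left hu)⟩, ?_, ?_⟩
    · exact h.2 e (Submodule.mem_sup_right (Submodule.subset_span (by simp)))
    · exact h.2 f (Submodule.mem_sup_right (Submodule.subset_span (by simp)))
  · rintro ⟨h1, h2, h3⟩
    refine ⟨h1.1, fun u hu => ?_⟩
    obtain ⟨u1, hu1, u2, hu2, rfl⟩ := Submodule.mem_sup.mp hu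
    obtain ⟨a, b, rfl⟩ := Submodule.mem_span_pair.mp hu2
    rw [map_add, map_add, map_smul, map_smul, h1.2 u1 hu1, h2, h3]

theorem Uef_comm (U : Submodule F V) (e f : V) : Uef U e f = Uef U f e := by
  unfold Uef
  rw [Set.pair_comm]

/-- field with two elements: every element is `0` or `1` -/
theorem zero_or_one [Fintype F] (hF : Fintype.card F = 2) (a : F) : a = 0 ∨ a = 1 := by
  classical
  by_contra h
  rw [not_or] at h
  have h3 : ({0, 1, a} : Finset F).card = 3 := by
    rw [Finset.card_insert_of_notMem, Finset.card_insert_of_notMem, Finset.card_singleton]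
    · simpa using Ne.symm h.2
    · simp only [Finset.mem_insert, Finset.mem_singleton, not_or]
      exact ⟨zero_ne_one, Ne.symm h.1⟩
  have := Finset.card_le_univ ({0, 1, a} : Finset F)
  omega

theorem add_self_F [Fintype F] (hF : Fintype.card F = 2) (a : F) : a + a = 0 := by
  have h11 : (1 : F) + 1 = 0 := by
    rcases zero_or_one hF ((1 : F) + 1) with h | h
    · exact h
    · exfalso
      have : (1 : F) = 0 := by
        have h' : (1 : F) + 1 = 1 + 0 := by rw [h, add_zero]
        exact add_left_cancel h'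
      exact one_ne_zero this
  have : a + a = a * (1 + 1) := by ring
  rw [this, h11, mul_zero]

theorem add_self_V [Fintype F] (hF : Fintype.card F = 2) (v : V) : v + v = 0 := by
  have : v + v = ((1 : F) + 1) • v := by rw [add_smul, one_smul]
  rw [this, add_self_F hF, zero_smul]

theorem neg_eq_self_F [Fintype F] (hF : Fintype.card F = 2) (a : F) : -a = a := by
  rw [neg_eq_iff_add_eq_zero]
  exact add_self_F hF a

theorem mul_self_F [Fintype F] (hF : Fintype.card F = 2) (a : F) : a * a = a := by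
  rcases zero_or_one hF a with h | h <;> simp [h]

end Cfsg.Agent.Lib.Helper49.O2Syl
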