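import Mathlib
import Cfsg.Agent.Lib.Helper49.O2Base

set_option autoImplicit false

namespace Cfsg.Agent.Lib.Helper49.O2Syl

variable {F : Type*} [Field F] [Fintype F] {V : Type*} [AddCommGroup V] [Module F V]

theorem two_eq_zero_F (hF : Fintype.card F = 2) : (2 : F) = 0 := by
  rw [← one_add_one_eq_two]
  exact add_self_F hF 1

theorem polar_self_F (hF : Fintype.card F = 2) (Q : QuadraticForm F V) (x : V) :
    QuadraticMap.polar Q x x = 0 := by
  rw [QuadraticMap.polar_self, two_smul]
  exact add_self_F hF _

/-- SIEGEL -/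
theorem exists_siegel (hF : Fintype.card F = 2) (Q : QuadraticForm F V) (e w : V)
    (he : Q e = 0) (hew : QuadraticMap.polar Q e w = 0) :
    ∃ g : V ≃ₗ[F] V,
      (∀ x, g x = x + QuadraticMap.polar Q x w • e + QuadraticMap.polar Q x e • w
        + (Q w * QuadraticMap.polar Q x e) • e) ∧ (∀ x, Q (g x) = Q x) := by
  have h2 := two_eq_zero_F hF
  have hwe : QuadraticMap.polar Q w e = 0 := by rw [QuadraticMap.polar_comm]; exact hew
  have hee : QuadraticMap.polar Q e e = 0 := polar_self_F hF Q e
  have hww : QuadraticMap.polar Q w w = 0 := polar_self_F hF Q w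
  let φ : V →ₗ[F] V :=
    { toFun := fun x => x + QuadraticMap.polar Q x w • e + QuadraticMap.polar Q x e • w
        + (Q w * QuadraticMap.polar Q x e) • e
      map_add' := by
        intro x y
        simp only [QuadraticMap.polar_add_left, add_smul, mul_add]
        abel
      map_smul' := by
        intro c x
        simp only [QuadraticMap.polar_smul_left, RingHom.id_apply, smul_add, smul_smul,
          smul_eq_mul]
        congr 2
        rw [mul_left_comm] }
  have hφ : ∀ x, φ x = x + QuadraticMap.polar Q x w • e + QuadraticMap.polar Q x e • w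
        + (Q w * QuadraticMap.polar Q x e) • e := fun _ => rfl
  have hpe : ∀ x, QuadraticMap.polar Q (φ x) e = QuadraticMap.polar Q x e := by
    intro x
    rw [hφ]
    simp only [QuadraticMap.polar_add_left, QuadraticMap.polar_smul_left, hee, hwe, smul_zero,
      add_zero]
  have hpw : ∀ x, QuadraticMap.polar Q (φ x) w = QuadraticMap.polar Q x w := by
    intro x
    rw [hφ]
    simp only [QuadraticMap.polar_add_left, QuadraticMap.polar_smul_left, hew, hww, smul_zero,
      add_zero]
  have hinv : Function.Involutive φ := by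
    intro x
    rw [hφ (φ x), hpe, hpw, hφ x]
    have h1 := add_self_V hF (QuadraticMap.polar Q x w • e + QuadraticMap.polar Q x e • w
        + (Q w * QuadraticMap.polar Q x e) • e : V)
    have : x + QuadraticMap.polar Q x w • e + QuadraticMap.polar Q x e • w
        + (Q w * QuadraticMap.polar Q x e) • e + QuadraticMap.polar Q x w • e
        + QuadraticMap.polar Q x e • w + (Q w * QuadraticMap.polar Q x e) • e
        = x + ((QuadraticMap.polar Q x w • e + QuadraticMap.polar Q x e • w
        + (Q w * QuadraticMap.polar Q x e) • e) + (QuadraticMap.polar Q x w • e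
        + QuadraticMap.polar Q x e • w + (Q w * QuadraticMap.polar Q x e) • e)) := by abel
    rw [this, h1, add_zero]
  refine ⟨LinearEquiv.ofInvolutive φ hinv, fun x => rfl, fun x => ?_⟩
  change Q (φ x) = Q x
  rw [hφ]
  have hxw : ∀ a b c : F, x + a • e + b • w + (c * b) • e = x + ((a + c * b) • e + b • w) := by
    intro a b c
    rw [add_smul]
    abel
  rw [hxw, QuadraticMap.map_add Q x, QuadraticMap.map_add Q, QuadraticMap.map_smul,
    QuadraticMap.map_smul, he, QuadraticMap.polar_add_right, QuadraticMap.polar_smul_right,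
    QuadraticMap.polar_smul_right, QuadraticMap.polar_smul_left, QuadraticMap.polar_smul_right,
    hew]
  simp only [smul_eq_mul]
  linear_combination (QuadraticMap.polar Q x e * QuadraticMap.polar Q x e * Q w
    + QuadraticMap.polar Q x w * QuadraticMap.polar Q x e) * h2

/-- REFL -/
theorem exists_refl (hF : Fintype.card F = 2) (Q : QuadraticForm F V) (u : V) (hu : Q u = 1) :
    ∃ g : V ≃ₗ[F] V, (∀ x, g x = x + QuadraticMap.polar Q x u • u) ∧ (∀ x, Q (g x) = Q x) := by
  have h2 := two_eq_zero_F hF
  have huu : QuadraticMap.polar Q u u = 0 := polar_self_F hF Q u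
  let φ : V →ₗ[F] V :=
    { toFun := fun x => x + QuadraticMap.polar Q x u • u
      map_add' := by
        intro x y
        simp only [QuadraticMap.polar_add_left, add_smul]
        abel
      map_smul' := by
        intro c x
        simp only [QuadraticMap.polar_smul_left, RingHom.id_apply, smul_add, smul_smul,
          smul_eq_mul] }
  have hφ : ∀ x, φ x = x + QuadraticMap.polar Q x u • u := fun _ => rfl
  have hinv : Function.Involutive φ := by
    intro x
    have hp : QuadraticMap.polar Q (φ x) u = QuadraticMap.polar Q x u := by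
      rw [hφ]
      simp only [QuadraticMap.polar_add_left, QuadraticMap.polar_smul_left, huu, smul_zero,
        add_zero]
    rw [hφ (φ x), hp, hφ x, add_assoc, add_self_V hF, add_zero]
  refine ⟨LinearEquiv.ofInvolutive φ hinv, fun x => rfl, fun x => ?_⟩
  change Q (φ x) = Q x
  rw [hφ, QuadraticMap.map_add Q, QuadraticMap.map_smul, hu, QuadraticMap.polar_smul_right]
  simp only [smul_eq_mul]
  linear_combination (QuadraticMap.polar Q x u * QuadraticMap.polar Q x u) * h2

/-- SIEGK -/
theorem siegel_mem_Kgrp (Q : QuadraticForm F V)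
    (U : Submodule F V) (e w : V) (he : e ∈ perp Q U) (hw : w ∈ perp Q U)
    (hQe : Q e = 0) (hew : QuadraticMap.polar Q e w = 0) (g : V ≃ₗ[F] V)
    (hg : ∀ x, g x = x + QuadraticMap.polar Q x w • e + QuadraticMap.polar Q x e • w
        + (Q w * QuadraticMap.polar Q x e) • e)
    (hgQ : ∀ x, Q (g x) = Q x) : g ∈ Kgrp Q U e := by
  have hee : QuadraticMap.polar Q e e = 0 := by
    rw [QuadraticMap.polar_self, hQe, smul_zero]
  refine ⟨⟨hgQ, fun u hu => ?_⟩, ?_, ?_⟩
  · have h1 : QuadraticMap.polar Q u w = 0 := by
      rw [QuadraticMap.polar_comm]; exact hw u hu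
    have h2 : QuadraticMap.polar Q u e = 0 := by
      rw [QuadraticMap.polar_comm]; exact he u hu
    rw [hg, h1, h2]
    simp
  · rw [hg, hew, hee]
    simp
  · intro x _ hxe
    refine ⟨QuadraticMap.polar Q x w, ?_⟩
    rw [hg, hxe]
    simp

/-- SIEGNE1 -/
theorem siegel_ne_one (Q : QuadraticForm F V)
    (e f w : V) (hef : QuadraticMap.polar Q e f = 1)
    (hwe : QuadraticMap.polar Q w e = 0) (hwf : QuadraticMap.polar Q w f = 0) (hw0 : w ≠ 0)
    (g : V ≃ₗ[F] V)
    (hg : ∀ x, g x = x + QuadraticMap.polar Q x w • e + QuadraticMap.polar Q x e • w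
        + (Q w * QuadraticMap.polar Q x e) • e) : g ≠ 1 := by
  intro h1
  have hf := hg f
  rw [h1, one_app] at hf
  have hfw : QuadraticMap.polar Q f w = 0 := by rw [QuadraticMap.polar_comm]; exact hwf
  have hfe : QuadraticMap.polar Q f e = 1 := by rw [QuadraticMap.polar_comm]; exact hef
  rw [hfw, hfe, zero_smul, add_zero, one_smul, mul_one] at hf
  -- f = f + w + Q w • e
  have hw : w = -(Q w • e) := by
    have : f + (w + Q w • e) = f + 0 := by rw [add_zero, ← add_assoc]; exact hf.symm
    exact eq_neg_of_add_eq_zero_left (add_left_cancel this)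
  have hQw : Q w = 0 := by
    have h := hwf
    rw [hw, QuadraticMap.polar_neg_left, QuadraticMap.polar_smul_left, hef, smul_eq_mul,
      mul_one, neg_eq_zero] at h
    exact h
  rw [hQw, zero_smul, neg_zero] at hw
  exact hw0 hw

/-- SIEGNE2 -/
theorem siegel_ne_one' (hF : Fintype.card F = 2) (Q : QuadraticForm F V)
    (U : Submodule F V) (hU : Good Q U) (e e' : V) (he : e ∈ perp Q U) (he' : e' ∈ perp Q U)
    (he0 : e ≠ 0) (he'0 : e' ≠ 0) (hne : e ≠ e') (hQe' : Q e' = 0)
    (g : V ≃ₗ[F] V)
    (hg : ∀ x, g x = x + QuadraticMap.polar Q x e' • e + QuadraticMap.polar Q x e • e'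
        + (Q e' * QuadraticMap.polar Q x e) • e) : g ≠ 1 := by
  intro h1
  obtain ⟨x, _, hx⟩ := hU.nondeg e he he0
  have hxe : QuadraticMap.polar Q x e = 1 := by
    rcases zero_or_one hF (QuadraticMap.polar Q x e) with h | h
    · exfalso
      apply hx
      rw [QuadraticMap.polar_comm]
      exact h
    · exact h
  have hgx := hg x
  rw [h1, one_app, hxe, hQe', zero_mul, zero_smul, add_zero, one_smul] at hgx
  have hz : QuadraticMap.polar Q x e' • e + e' = 0 := by
    have : x + (QuadraticMap.polar Q x e' • e + e') = x + 0 := by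
      rw [add_zero, ← add_assoc]; exact hgx.symm
    exact add_left_cancel this
  rcases zero_or_one hF (QuadraticMap.polar Q x e') with h | h
  · rw [h, zero_smul, zero_add] at hz
    exact he'0 hz
  · rw [h, one_smul] at hz
    apply hne
    have := add_self_V hF e'
    have h3 : e + e' = e' + e' := by rw [hz, this]
    exact add_right_cancel h3

/-- HYP -/
theorem exists_partner (hF : Fintype.card F = 2) (Q : QuadraticForm F V)
    (U : Submodule F V) (hU : Good Q U) (e : V) (he : e ∈ perp Q U) (he0 : e ≠ 0)
    (hQe : Q e = 0) : ∃ f ∈ perp Q U, Q f = 0 ∧ QuadraticMap.polar Q e f = 1 := by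
  obtain ⟨y, hy, hey⟩ := hU.nondeg e he he0
  have hey1 : QuadraticMap.polar Q e y = 1 := by
    rcases zero_or_one hF (QuadraticMap.polar Q e y) with h | h
    · exact absurd h hey
    · exact h
  have hee : QuadraticMap.polar Q e e = 0 := polar_self_F hF Q e
  refine ⟨y + Q y • e, (perp Q U).add_mem hy ((perp Q U).smul_mem _ he), ?_, ?_⟩
  · rw [QuadraticMap.map_add Q, QuadraticMap.map_smul, hQe, QuadraticMap.polar_smul_right,
      QuadraticMap.polar_comm, hey1]
    simp only [smul_eq_mul, mul_zero, add_zero, mul_one]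
    exact add_self_F hF _
  · rw [QuadraticMap.polar_add_right, QuadraticMap.polar_smul_right, hee, hey1]
    simp

end Cfsg.Agent.Lib.Helper49.O2Syl
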