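import Mathlib
import Cfsg.Agent.Lib.Helper49.O2Base
import Cfsg.Agent.Lib.Helper49.O2Sieg

set_option autoImplicit false

namespace Cfsg.Agent.Lib.Helper49.O2Syl

variable {F : Type*} [Field F] [Fintype F] {V : Type*} [AddCommGroup V] [Module F V]

/-- EVEN -/
theorem even_nW [Finite V] (hF : Fintype.card F = 2) (Q : QuadraticForm F V)
    (U : Submodule F V) (hne : ∃ w ∈ perp Q U, w ≠ 0) : Even (nW Q U) := by
  obtain ⟨w, hw, hw0⟩ := hne
  have h1 : nW Q U = Nat.card (perp Q U) := by
    unfold nW
    rw [← Nat.card_coe_set_eq]
    rfl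
  rw [h1]
  have h2 : addOrderOf (⟨w, hw⟩ : perp Q U) = 2 := by
    apply addOrderOf_eq_prime
    · rw [two_nsmul]
      apply Subtype.ext
      simp only [Submodule.coe_add, Submodule.coe_zero]
      exact add_self_V hF w
    · intro h
      apply hw0
      exact congrArg Subtype.val h
  have h3 := addOrderOf_dvd_natCard (⟨w, hw⟩ : perp Q U)
  rw [h2] at h3
  exact even_iff_two_dvd.mpr h3

/-- BASE -/
theorem base_case (hF : Fintype.card F = 2) (Q : QuadraticForm F V)
    (U : Submodule F V) (hU : Good Q U) (e f : V) (he : e ∈ perp Q U) (hf : f ∈ perp Q U)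
    (hQe : Q e = 0) (hQf : Q f = 0) (hef : QuadraticMap.polar Q e f = 1)
    (hW' : ∀ x ∈ perp Q (Uef U e f), x = 0) :
    (∀ g ∈ GU Q U, g ^ 4 = 1) ∧ ∃ r ∈ GU Q U, r ≠ 1 := by
  have h2 := two_eq_zero_F hF
  have hfe : QuadraticMap.polar Q f e = 1 := by rw [QuadraticMap.polar_comm]; exact hef
  have hee := polar_self_F hF Q e
  have hff := polar_self_F hF Q f
  have hne : e ≠ f := by
    intro h
    rw [← h, hee] at hef
    exact zero_ne_one hef
  -- every vector of the complement is a combination of e and f
  have hspan : ∀ x ∈ perp Q U, x = QuadraticMap.polar Q x f • e + QuadraticMap.polar Q x e • f := by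
    intro x hx
    have hmem : x + QuadraticMap.polar Q x f • e + QuadraticMap.polar Q x e • f
        ∈ perp Q (Uef U e f) := by
      rw [mem_perp_Uef]
      refine ⟨(perp Q U).add_mem ((perp Q U).add_mem hx ((perp Q U).smul_mem _ he))
        ((perp Q U).smul_mem _ hf), ?_, ?_⟩
      · rw [QuadraticMap.polar_add_left, QuadraticMap.polar_add_left,
          QuadraticMap.polar_smul_left, QuadraticMap.polar_smul_left, hee, hfe]
        simp only [smul_eq_mul, mul_zero, add_zero, mul_one]
        exact add_self_F hF _
      · rw [QuadraticMap.polar_add_left, QuadraticMap.polar_add_left,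
          QuadraticMap.polar_smul_left, QuadraticMap.polar_smul_left, hef, hff]
        simp only [smul_eq_mul, mul_zero, add_zero, mul_one]
        exact add_self_F hF _
    have h0 := hW' _ hmem
    have h1 := add_self_V hF (QuadraticMap.polar Q x f • e + QuadraticMap.polar Q x e • f)
    have h3 : x + (QuadraticMap.polar Q x f • e + QuadraticMap.polar Q x e • f)
        = (QuadraticMap.polar Q x f • e + QuadraticMap.polar Q x e • f)
          + (QuadraticMap.polar Q x f • e + QuadraticMap.polar Q x e • f) := by
      rw [h1, ← add_assoc]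
      exact h0
    exact add_right_cancel h3
  -- a nonzero singular vector of the complement is e or f
  have hsing : ∀ x ∈ perp Q U, x ≠ 0 → Q x = 0 → x = e ∨ x = f := by
    intro x hx hx0 hQx
    have hx' := hspan x hx
    obtain ⟨a, ha⟩ : ∃ a, a = QuadraticMap.polar Q x f := ⟨_, rfl⟩
    obtain ⟨b, hb⟩ : ∃ b, b = QuadraticMap.polar Q x e := ⟨_, rfl⟩
    rw [← ha, ← hb] at hx'
    have hQ : a * b = 0 := by
      have h := hQx
      rw [hx', QuadraticMap.map_add Q, QuadraticMap.map_smul, QuadraticMap.map_smul, hQe, hQf,
        QuadraticMap.polar_smul_left, QuadraticMap.polar_smul_right, hef] at h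
      simpa using h
    rcases zero_or_one hF a with ha0 | ha1
    · rcases zero_or_one hF b with hb0 | hb1
      · exfalso
        apply hx0
        rw [hx', ha0, hb0]
        simp
      · right
        rw [hx', ha0, hb1]
        simp
    · rcases zero_or_one hF b with hb0 | hb1
      · left
        rw [hx', ha1, hb0]
        simp
      · exfalso
        rw [ha1, hb1, mul_one] at hQ
        exact one_ne_zero hQ
  have he0 : e ≠ 0 := by
    intro h
    rw [h] at hef
    simp at hef
  have hf0 : f ≠ 0 := by
    intro h
    rw [h] at hef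
    simp at hef
  constructor
  · intro g hg
    have hge : g e = e ∨ g e = f := by
      apply hsing _ (map_mem_perp hg he)
      · intro h
        exact he0 ((LinearEquiv.map_eq_zero_iff g).mp h)
      · rw [hg.1]
        exact hQe
    have hgf : g f = e ∨ g f = f := by
      apply hsing _ (map_mem_perp hg hf)
      · intro h
        exact hf0 ((LinearEquiv.map_eq_zero_iff g).mp h)
      · rw [hg.1]
        exact hQf
    have hinj : g e ≠ g f := fun h => hne (g.injective h)
    have hsq : g (g e) = e ∧ g (g f) = f := by
      rcases hge with h1 | h1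
      · rcases hgf with h3 | h3
        · exfalso
          exact hinj (by rw [h1, h3])
        · exact ⟨by rw [h1, h1], by rw [h3, h3]⟩
      · rcases hgf with h3 | h3
        · exact ⟨by rw [h1, h3], by rw [h3, h1]⟩
        · exfalso
          exact hinj (by rw [h1, h3])
    have hg2 : ∀ v, g (g v) = v := by
      intro v
      obtain ⟨u, hu, w, hw, rfl⟩ := hU.split v
      rw [hspan w hw]
      simp only [map_add, map_smul, hg.2 u hu, hsq.1, hsq.2]
    apply LinearEquiv.ext
    intro v
    have hpow : (g ^ 4) v = g (g (g (g v))) := by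
      rw [show (4 : ℕ) = 1 + 1 + 1 + 1 from rfl, pow_add, pow_add, pow_add, pow_one]
      rfl
    rw [hpow, hg2, hg2, one_app]
  · have hQu : Q (e + f) = 1 := by
      rw [QuadraticMap.map_add Q, hQe, hQf, hef]
      simp
    obtain ⟨r, hr, hrQ⟩ := exists_refl hF Q (e + f) hQu
    refine ⟨r, ⟨hrQ, fun u hu => ?_⟩, ?_⟩
    · have h1 : QuadraticMap.polar Q u e = 0 := by
        rw [QuadraticMap.polar_comm]; exact he u hu
      have h3 : QuadraticMap.polar Q u f = 0 := by
        rw [QuadraticMap.polar_comm]; exact hf u hu
      rw [hr, QuadraticMap.polar_add_right, h1, h3]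
      simp
    · intro h1
      have h := hr e
      rw [h1, one_app, QuadraticMap.polar_add_right, hee, hef, zero_add, one_smul] at h
      -- e = e + (e + f)
      have h3 : e + (e + f) = e + 0 := by rw [add_zero]; exact h.symm
      have h4 : e + f = 0 := add_left_cancel h3
      have h5 := add_self_V hF f
      have h6 : e + f = f + f := by rw [h4, h5]
      exact hne (add_right_cancel h6)

end Cfsg.Agent.Lib.Helper49.O2Syl
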