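import Mathlib
import Cfsg.Prelude
import Cfsg.Agent.Lib.Helper49.O2Base

set_option autoImplicit false

namespace Cfsg.Agent.Lib.Helper49.O2Syl

/-- `quadFormPlus` as a quadratic form -/
noncomputable def QP (m : ℕ) (F : Type*) [Field F] : QuadraticForm F (Fin m ⊕ Fin m → F) :=
  ∑ i : Fin m, QuadraticMap.proj (Sum.inl i) (Sum.inr i)

theorem coe_QP (m : ℕ) (F : Type*) [Field F] : ⇑(QP m F) = Cfsg.quadFormPlus m F := by
  funext v
  simp [QP, Cfsg.quadFormPlus]

theorem QP_apply (m : ℕ) (F : Type*) [Field F] (v : Fin m ⊕ Fin m → F) :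
    QP m F v = ∑ i : Fin m, v (Sum.inl i) * v (Sum.inr i) := by
  rw [coe_QP]
  rfl

theorem polar_QP (m : ℕ) (F : Type*) [Field F] (u x : Fin m ⊕ Fin m → F) :
    QuadraticMap.polar ⇑(QP m F) u x
      = ∑ i : Fin m, (u (Sum.inl i) * x (Sum.inr i) + x (Sum.inl i) * u (Sum.inr i)) := by
  simp only [QuadraticMap.polar, QP_apply, Pi.add_apply]
  rw [← Finset.sum_sub_distrib, ← Finset.sum_sub_distrib]
  apply Finset.sum_congr rfl
  intro i _
  ring

theorem mem_perp_bot {F : Type*} [Field F] {V : Type*} [AddCommGroup V] [Module F V]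
    (Q : QuadraticForm F V) (x : V) : x ∈ perp Q ⊥ := by
  intro u hu
  rw [Submodule.mem_bot] at hu
  rw [hu]
  simp

theorem good_QP (m : ℕ) (F : Type*) [Field F] : Good (QP m F) ⊥ := by
  classical
  constructor
  · intro v
    exact ⟨0, Submodule.zero_mem _, v, mem_perp_bot _ v, (zero_add v).symm⟩
  · intro w _ hw0
    by_contra hcon
    apply hw0
    have hall : ∀ w' : Fin m ⊕ Fin m → F, QuadraticMap.polar (QP m F) w w' = 0 := by
      intro w'
      by_contra h
      exact hcon ⟨w', mem_perp_bot _ w', h⟩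
    funext c
    rcases c with i | i
    · have := hall (Pi.single (Sum.inr i) 1)
      rw [polar_QP] at this
      simpa [Pi.single_apply] using this
    · have := hall (Pi.single (Sum.inl i) 1)
      rw [polar_QP] at this
      simpa [Pi.single_apply] using this

theorem ne_QP (m : ℕ) (hm : 1 ≤ m) (F : Type*) [Field F] :
    ∃ w ∈ perp (QP m F) ⊥, w ≠ 0 := by
  classical
  refine ⟨Pi.single (Sum.inl ⟨0, hm⟩) 1, mem_perp_bot _ _, ?_⟩
  intro h
  have := congrFun h (Sum.inl ⟨0, hm⟩)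
  simp at this

theorem plus_QP_of_count (m : ℕ) (F : Type*) [Field F] [Fintype F]
    (hcount : Nat.card (Fin m ⊕ Fin m → F) <
      2 * Set.ncard {x : Fin m ⊕ Fin m → F | ∑ i : Fin m, x (Sum.inl i) * x (Sum.inr i) = 0}) :
    nW (QP m F) ⊥ < 2 * nS (QP m F) ⊥ := by
  have h1 : nW (QP m F) ⊥ = Nat.card (Fin m ⊕ Fin m → F) := by
    unfold nW
    have : {x : Fin m ⊕ Fin m → F | x ∈ perp (QP m F) ⊥} = Set.univ := by
      ext x
      simp [mem_perp_bot]
    rw [this, Set.ncard_univ]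
  have h2 : nS (QP m F) ⊥
      = Set.ncard {x : Fin m ⊕ Fin m → F | ∑ i : Fin m, x (Sum.inl i) * x (Sum.inr i) = 0} := by
    unfold nS
    congr 1
    ext x
    simp [mem_perp_bot, QP_apply]
  rw [h1, h2]
  exact hcount

end Cfsg.Agent.Lib.Helper49.O2Syl
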