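import Mathlib
import Cfsg.Agent.Lib.Helper49.O2Base
import Cfsg.Agent.Lib.Helper49.O2Sieg

set_option autoImplicit false

namespace Cfsg.Agent.Lib.Helper49.O2Syl

variable {F : Type*} [Field F] [Fintype F] {V : Type*} [AddCommGroup V] [Module F V]

/-- KNORM -/
theorem Kgrp_normal (Q : QuadraticForm F V) (U : Submodule F V) (e : V) :
    ∀ s ∈ Sgrp Q U e, ∀ k ∈ Kgrp Q U e, s * k * s⁻¹ ∈ Kgrp Q U e := by
  intro s hs k hk
  have hsi : s⁻¹ ∈ Sgrp Q U e := inv_mem hs
  refine ⟨mul_mem (mul_mem hs.1 hk.1) (inv_mem hs.1), ?_, ?_⟩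
  · rw [LinearEquiv.mul_apply, LinearEquiv.mul_apply, hsi.2, hk.2.1, hs.2]
  · intro x hx hxe
    have h1 : s⁻¹ x ∈ perp Q U := map_mem_perp hsi.1 hx
    have h2 : QuadraticMap.polar Q (s⁻¹ x) e = 0 := by
      have h := polar_map hsi.1.1 x e
      rw [hsi.2] at h
      rw [h]
      exact hxe
    obtain ⟨a, ha⟩ := hk.2.2 (s⁻¹ x) h1 h2
    refine ⟨a, ?_⟩
    rw [LinearEquiv.mul_apply, LinearEquiv.mul_apply, ha, map_add, map_smul, hs.2, app_inv_app]

/-- POW4 -/
theorem pow_four_of_mem_Kgrp (hF : Fintype.card F = 2) (Q : QuadraticForm F V)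
    (U : Submodule F V) (hU : Good Q U) (e : V) (k : V ≃ₗ[F] V) (hk : k ∈ Kgrp Q U e) :
    k ^ 4 = 1 := by
  obtain ⟨hkG, hke, hkK⟩ := hk
  have hsq : ∀ x ∈ perp Q U, ∃ a : F, k (k x) = x + a • e := by
    intro x hx
    have hy : k x + x ∈ perp Q U := (perp Q U).add_mem (map_mem_perp hkG hx) hx
    have hye : QuadraticMap.polar Q (k x + x) e = 0 := by
      rw [QuadraticMap.polar_add_left]
      have h := polar_map hkG.1 x e
      rw [hke] at h
      rw [h]
      exact add_self_F hF _
    obtain ⟨a, ha⟩ := hkK (k x + x) hy hye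
    refine ⟨a, ?_⟩
    rw [map_add] at ha
    -- k (k x) + k x = k x + x + a • e
    have h3 : k (k x) + (k x + k x) = x + a • e + (k x + k x) := by
      rw [← add_assoc, ha]
      abel
    exact add_right_cancel h3
  have h4 : ∀ x ∈ perp Q U, k (k (k (k x))) = x := by
    intro x hx
    obtain ⟨a, ha⟩ := hsq x hx
    rw [ha, map_add, map_smul, hke, map_add, map_smul, hke, ha, add_assoc, add_self_V hF,
      add_zero]
  apply LinearEquiv.ext
  intro v
  obtain ⟨u, hu, w, hw, rfl⟩ := hU.split v
  have hpow : ∀ y, (k ^ 4) y = k (k (k (k y))) := by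
    intro y
    rw [show (4 : ℕ) = 1 + 1 + 1 + 1 from rfl, pow_add, pow_add, pow_add, pow_one]
    rfl
  rw [hpow, one_app, map_add, map_add, map_add, map_add, h4 w hw, hkG.2 u hu, hkG.2 u hu,
    hkG.2 u hu, hkG.2 u hu]

/-- GOOD -/
theorem good_Uef (hF : Fintype.card F = 2) (Q : QuadraticForm F V)
    (U : Submodule F V) (hU : Good Q U) (e f : V) (he : e ∈ perp Q U) (hf : f ∈ perp Q U)
    (hef : QuadraticMap.polar Q e f = 1) :
    Good Q (Uef U e f) := by
  have hfe : QuadraticMap.polar Q f e = 1 := by rw [QuadraticMap.polar_comm]; exact hef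
  have hee := polar_self_F hF Q e
  have hff := polar_self_F hF Q f
  -- projection to the smaller complement
  have hproj : ∀ w ∈ perp Q U, w + QuadraticMap.polar Q w f • e + QuadraticMap.polar Q w e • f
      ∈ perp Q (Uef U e f) := by
    intro w hw
    rw [mem_perp_Uef]
    refine ⟨(perp Q U).add_mem ((perp Q U).add_mem hw ((perp Q U).smul_mem _ he))
      ((perp Q U).smul_mem _ hf), ?_, ?_⟩
    · rw [QuadraticMap.polar_add_left, QuadraticMap.polar_add_left, QuadraticMap.polar_smul_left,
        QuadraticMap.polar_smul_left, hee, hfe]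
      simp only [smul_eq_mul, mul_zero, add_zero, mul_one]
      exact add_self_F hF _
    · rw [QuadraticMap.polar_add_left, QuadraticMap.polar_add_left, QuadraticMap.polar_smul_left,
        QuadraticMap.polar_smul_left, hef, hff]
      simp only [smul_eq_mul, mul_zero, add_zero, mul_one]
      exact add_self_F hF _
  constructor
  · intro v
    obtain ⟨u, hu, w, hw, rfl⟩ := hU.split v
    refine ⟨u + (QuadraticMap.polar Q w f • e + QuadraticMap.polar Q w e • f), ?_,
      w + QuadraticMap.polar Q w f • e + QuadraticMap.polar Q w e • f, hproj w hw, ?_⟩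
    · refine Submodule.add_mem _ (Submodule.mem_sup_left hu) (Submodule.mem_sup_right ?_)
      exact Submodule.mem_span_pair.mpr ⟨_, _, rfl⟩
    · have h := add_self_V hF (QuadraticMap.polar Q w f • e + QuadraticMap.polar Q w e • f)
      have : u + (QuadraticMap.polar Q w f • e + QuadraticMap.polar Q w e • f)
          + (w + QuadraticMap.polar Q w f • e + QuadraticMap.polar Q w e • f)
          = u + w + ((QuadraticMap.polar Q w f • e + QuadraticMap.polar Q w e • f)
            + (QuadraticMap.polar Q w f • e + QuadraticMap.polar Q w e • f)) := by abel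
      rw [this, h, add_zero]
  · intro x hx hx0
    have hx' := mem_perp_Uef.mp hx
    obtain ⟨y, hy, hxy⟩ := hU.nondeg x hx'.1 hx0
    refine ⟨_, hproj y hy, ?_⟩
    rw [QuadraticMap.polar_add_right, QuadraticMap.polar_add_right, QuadraticMap.polar_smul_right,
      QuadraticMap.polar_smul_right, hx'.2.1, hx'.2.2]
    simpa using hxy

/-- DECOMP -/
theorem decomp (hF : Fintype.card F = 2) (Q : QuadraticForm F V)
    (U : Submodule F V) (e f : V) (he : e ∈ perp Q U) (hf : f ∈ perp Q U)
    (hQe : Q e = 0) (hQf : Q f = 0) (hef : QuadraticMap.polar Q e f = 1) :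
    ∀ s ∈ Sgrp Q U e, ∃ k ∈ Kgrp Q U e, ∃ l ∈ GU Q (Uef U e f), s = k * l := by
  intro s hs
  have h2 := two_eq_zero_F hF
  have hfe : QuadraticMap.polar Q f e = 1 := by rw [QuadraticMap.polar_comm]; exact hef
  have hee := polar_self_F hF Q e
  have hff := polar_self_F hF Q f
  obtain ⟨f', hf'⟩ : ∃ f', f' = s f := ⟨_, rfl⟩
  have hf'W : f' ∈ perp Q U := by rw [hf']; exact map_mem_perp hs.1 hf
  have hQf' : Q f' = 0 := by rw [hf', hs.1.1]; exact hQf
  have hef' : QuadraticMap.polar Q e f' = 1 := by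
    have h := polar_map hs.1.1 e f
    rw [hs.2, ← hf'] at h
    rw [h]
    exact hef
  have hf'e : QuadraticMap.polar Q f' e = 1 := by rw [QuadraticMap.polar_comm]; exact hef'
  obtain ⟨a, ha⟩ : ∃ a, a = QuadraticMap.polar Q f' f := ⟨_, rfl⟩
  have hfa : QuadraticMap.polar Q f f' = a := by rw [QuadraticMap.polar_comm]; exact ha.symm
  obtain ⟨w, hw⟩ : ∃ w, w = f' + f + a • e := ⟨_, rfl⟩
  have hwW : w ∈ perp Q U := by
    rw [hw]
    exact (perp Q U).add_mem ((perp Q U).add_mem hf'W hf) ((perp Q U).smul_mem _ he)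
  have hew : QuadraticMap.polar Q e w = 0 := by
    rw [hw, QuadraticMap.polar_add_right, QuadraticMap.polar_add_right,
      QuadraticMap.polar_smul_right, hef', hef, hee]
    simp only [smul_eq_mul, mul_zero, add_zero]
    exact add_self_F hF _
  have hfw : QuadraticMap.polar Q f w = 0 := by
    rw [hw, QuadraticMap.polar_add_right, QuadraticMap.polar_add_right,
      QuadraticMap.polar_smul_right, hfa, hff, hfe]
    simp only [smul_eq_mul, mul_one, add_zero]
    exact add_self_F hF _
  have hQw : Q w = a := by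
    rw [hw, QuadraticMap.map_add Q, QuadraticMap.map_add Q, QuadraticMap.map_smul, hQf', hQf, hQe,
      QuadraticMap.polar_smul_right, QuadraticMap.polar_add_left, hf'e, hfe, ← ha]
    simp only [smul_eq_mul]
    linear_combination a * h2
  obtain ⟨k, hk, hkQ⟩ := exists_siegel hF Q e w hQe hew
  have hkK := siegel_mem_Kgrp Q U e w he hwW hQe hew k hk hkQ
  have hkf : k f = f' := by
    rw [hk, hfw, hfe, hQw, hw]
    simp only [zero_smul, add_zero, one_smul, mul_one]
    have h1 := add_self_V hF f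
    have h3 := add_self_V hF (a • e)
    have : f + (f' + f + a • e) + a • e = f' + (f + f) + (a • e + a • e) := by abel
    rw [this, h1, h3, add_zero, add_zero]
  refine ⟨k, hkK, k⁻¹ * s, ?_, ?_⟩
  · rw [mem_GU_Uef]
    refine ⟨mul_mem (inv_mem hkK.1) hs.1, ?_, ?_⟩
    · rw [LinearEquiv.mul_apply, hs.2]
      have h := inv_app_app k e
      rw [hkK.2.1] at h
      exact h
    · rw [LinearEquiv.mul_apply, ← hf', ← hkf]
      exact inv_app_app k f
  · rw [mul_inv_cancel_left]

end Cfsg.Agent.Lib.Helper49.O2Syl
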