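import Mathlib
import Cfsg.Agent.Lib.Helper49.O2Base
import Cfsg.Agent.Lib.Helper49.O2Sieg
import Cfsg.Agent.Lib.Helper49.O2Str
import Cfsg.Agent.Lib.Helper49.O2BaseCase
import Cfsg.Agent.Lib.Helper78.O2NORM2
import Cfsg.Agent.Lib.Helper78.O2TRANSFER
import Cfsg.Agent.Lib.Helper78.O2FIXPT
import Cfsg.Agent.Lib.Helper78.O2SING
import Cfsg.Agent.Lib.Helper78.O2COUNT

set_option autoImplicit false
set_option linter.unusedSectionVars false

namespace Cfsg.Agent.Lib.Helper49.O2Syl

open Cfsg.Agent.Lib.Helper78.O2Syl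

variable {F : Type*} [Field F] [Fintype F] {V : Type*} [AddCommGroup V] [Module F V]

theorem nW_pos [Finite V] (Q : QuadraticForm F V) (U : Submodule F V) : 0 < nW Q U := by
  unfold nW
  rw [Set.ncard_pos (Set.toFinite _)]
  exact ⟨0, (perp Q U).zero_mem⟩

theorem nS_pos [Finite V] (Q : QuadraticForm F V) (U : Submodule F V) : 0 < nS Q U := by
  unfold nS
  rw [Set.ncard_pos (Set.toFinite _)]
  exact ⟨0, (perp Q U).zero_mem, by simp⟩

theorem exists_ne_zero_of_two_le [Finite V] (Q : QuadraticForm F V) (U : Submodule F V)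
    (h : 2 ≤ nW Q U) : ∃ w ∈ perp Q U, w ≠ 0 := by
  unfold nW at h
  obtain ⟨a, b, ha, hb, hab⟩ := (Set.one_lt_ncard_iff (Set.toFinite _)).mp h
  by_cases ha0 : a = 0
  · refine ⟨b, hb, ?_⟩
    intro hb0
    exact hab (by rw [ha0, hb0])
  · exact ⟨a, ha, ha0⟩

theorem two_le_of_exists_ne_zero [Finite V] (hF : Fintype.card F = 2) (Q : QuadraticForm F V)
    (U : Submodule F V) (h : ∃ w ∈ perp Q U, w ≠ 0) : 2 ≤ nW Q U := by
  have h1 := even_nW hF Q U h
  have h2 := nW_pos Q U
  obtain ⟨k, hk⟩ := h1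
  omega

theorem main [Finite V] (hF : Fintype.card F = 2) (Q : QuadraticForm F V) :
    ∀ (n : ℕ) (U : Submodule F V), nW Q U ≤ n → Good Q U → nW Q U < 2 * nS Q U →
      (∃ w ∈ perp Q U, w ≠ 0) →
      ∀ P P' : Subgroup (V ≃ₗ[F] V), IsPGroup 2 P → IsPGroup 2 P' → P ≤ GU Q U → P' ≤ GU Q U →
        Odd (P.relIndex (GU Q U)) → Odd (P'.relIndex (GU Q U)) →
        ∃ g, g ∈ P ∧ g ∈ P' ∧ g ≠ 1 := by
  have : Finite (V ≃ₗ[F] V) :=
    Finite.of_injective (fun g => (g : V → V)) DFunLike.coe_injective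
  intro n
  induction n with
  | zero =>
    intro U hn
    have := nW_pos Q U
    omega
  | succ n ih =>
    intro U hn hU hplus hne P P' hP hP' hPG hP'G hoddP hoddP'
    obtain ⟨e0, he0, he0ne, hQe0⟩ := exists_singular Q U hplus hne
    obtain ⟨f0, hf0, hQf0, hef0⟩ := exists_partner hF Q U hU e0 he0 he0ne hQe0
    obtain ⟨hc1, hc2⟩ := count_split hF Q U e0 f0 he0 hf0 hQe0 hQf0 hef0
    by_cases hW0 : ∀ x ∈ perp Q (Uef U e0 f0), x = 0
    · obtain ⟨h4, r, hr, hr1⟩ := base_case hF Q U hU e0 f0 he0 hf0 hQe0 hQf0 hef0 hW0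
      have hnorm : ∀ s ∈ GU Q U, ∀ k ∈ GU Q U, s * k * s⁻¹ ∈ GU Q U :=
        fun s hs k hk => mul_mem (mul_mem hs hk) (inv_mem hs)
      have h1 := le_of_normal_two_group P (GU Q U) (GU Q U) hP hPG le_rfl hnorm h4 hoddP
      have h2 := le_of_normal_two_group P' (GU Q U) (GU Q U) hP' hP'G le_rfl hnorm h4 hoddP'
      exact ⟨r, h1 hr, h2 hr, hr1⟩
    · have hW0' : ∃ x ∈ perp Q (Uef U e0 f0), x ≠ 0 := by
        by_contra hcon
        apply hW0
        intro x hx
        by_contra hx0
        exact hcon ⟨x, hx, hx0⟩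
      have h2le : 2 ≤ nW Q (Uef U e0 f0) := two_le_of_exists_ne_zero hF Q _ hW0'
      have hev : Even (nW Q (Uef U e0 f0)) := even_nW hF Q _ hW0'
      have hSeven : Even (nS Q U) := by
        rw [hc2]
        exact (even_two_mul _).add hev
      -- the set of nonzero singular vectors
      obtain ⟨X, hX⟩ : ∃ X : Set V, X = {x | x ∈ perp Q U ∧ x ≠ 0 ∧ Q x = 0} := ⟨_, rfl⟩
      have hXodd : Odd X.ncard := by
        have hXeq : X = {x : V | x ∈ perp Q U ∧ Q x = 0} \ {0} := by
          rw [hX]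
          ext x
          simp only [Set.mem_ofPred_eq, Set.mem_sdiff, Set.mem_singleton_iff]
          tauto
        have h0mem : (0 : V) ∈ {x : V | x ∈ perp Q U ∧ Q x = 0} :=
          ⟨(perp Q U).zero_mem, by simp⟩
        rw [hXeq, Set.ncard_sdiff_singleton_of_mem h0mem]
        have hpos := nS_pos Q U
        obtain ⟨k, hk⟩ := hSeven
        have : Set.ncard {x : V | x ∈ perp Q U ∧ Q x = 0} = nS Q U := rfl
        rw [this, hk]
        exact ⟨k - 1, by omega⟩
      have hXstab : ∀ (R : Subgroup (V ≃ₗ[F] V)), R ≤ GU Q U → ∀ g ∈ R, ∀ x ∈ X, g x ∈ X := by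
        intro R hR g hg x hx
        rw [hX] at hx ⊢
        obtain ⟨hx1, hx2, hx3⟩ := hx
        have hgG := hR hg
        refine ⟨map_mem_perp hgG hx1, ?_, ?_⟩
        · intro h0
          exact hx2 ((LinearEquiv.map_eq_zero_iff g).mp h0)
        · rw [hgG.1]
          exact hx3
      obtain ⟨e, heX, hPe⟩ :=
        exists_fixed_of_odd P hP X (Set.toFinite X) (hXstab P hPG) hXodd
      obtain ⟨e', he'X, hP'e⟩ :=
        exists_fixed_of_odd P' hP' X (Set.toFinite X) (hXstab P' hP'G) hXodd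
      rw [hX] at heX he'X
      obtain ⟨heW, hene, hQe⟩ := heX
      obtain ⟨he'W, he'ne, hQe'⟩ := he'X
      have hoddS : ∀ (R : Subgroup (V ≃ₗ[F] V)) (v : V), R ≤ GU Q U →
          Odd (R.relIndex (GU Q U)) → (∀ g ∈ R, g v = v) → Odd (R.relIndex (Sgrp Q U v)) := by
        intro R v hRG hRodd hRv
        have hRS : R ≤ Sgrp Q U v := fun g hg => ⟨hRG hg, hRv g hg⟩
        have := Subgroup.relIndex_mul_relIndex R (Sgrp Q U v) (GU Q U) hRS (Sgrp_le_GU Q U v)
        rw [← this] at hRodd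
        exact (Nat.odd_mul.mp hRodd).1
      have hKP : ∀ (R : Subgroup (V ≃ₗ[F] V)) (v : V), IsPGroup 2 R → R ≤ GU Q U →
          Odd (R.relIndex (GU Q U)) → (∀ g ∈ R, g v = v) → Kgrp Q U v ≤ R := by
        intro R v hR hRG hRodd hRv
        have hRS : R ≤ Sgrp Q U v := fun g hg => ⟨hRG hg, hRv g hg⟩
        exact le_of_normal_two_group R (Sgrp Q U v) (Kgrp Q U v) hR hRS (Kgrp_le_Sgrp Q U v)
          (Kgrp_normal Q U v) (fun k hk => pow_four_of_mem_Kgrp hF Q U hU v k hk)
          (hoddS R v hRG hRodd hRv)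
      have hK1 := hKP P e hP hPG hoddP hPe
      have hK2 := hKP P' e' hP' hP'G hoddP' hP'e
      rcases zero_or_one hF (QuadraticMap.polar Q e e') with h0 | h1
      · by_cases hee : e = e'
        · subst hee
          obtain ⟨f, hf, hQf, hef⟩ := exists_partner hF Q U hU e heW hene hQe
          obtain ⟨hd1, hd2⟩ := count_split hF Q U e f heW hf hQe hQf hef
          have h2le' : 2 ≤ nW Q (Uef U e f) := by omega
          obtain ⟨w, hw, hw0⟩ := exists_ne_zero_of_two_le Q _ h2le'
          rw [mem_perp_Uef] at hw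
          have hew : QuadraticMap.polar Q e w = 0 := by
            rw [QuadraticMap.polar_comm]
            exact hw.2.1
          obtain ⟨g, hg, hgQ⟩ := exists_siegel hF Q e w hQe hew
          have hgK := siegel_mem_Kgrp Q U e w heW hw.1 hQe hew g hg hgQ
          exact ⟨g, hK1 hgK, hK2 hgK, siegel_ne_one Q e f w hef hw.2.1 hw.2.2 hw0 g hg⟩
        · obtain ⟨g, hg, hgQ⟩ := exists_siegel hF Q e e' hQe h0
          have hgK := siegel_mem_Kgrp Q U e e' heW he'W hQe h0 g hg hgQ
          have h0' : QuadraticMap.polar Q e' e = 0 := by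
            rw [QuadraticMap.polar_comm]
            exact h0
          have hg' : ∀ x, g x = x + QuadraticMap.polar Q x e • e' + QuadraticMap.polar Q x e' • e
              + (Q e * QuadraticMap.polar Q x e') • e' := by
            intro x
            rw [hg x, hQe, hQe', zero_mul, zero_mul, zero_smul, zero_smul, add_zero, add_zero]
            abel
          have hgK' := siegel_mem_Kgrp Q U e' e he'W heW hQe' h0' g hg' hgQ
          exact ⟨g, hK1 hgK, hK2 hgK',
            siegel_ne_one' hF Q U hU e e' heW he'W hene he'ne hee hQe' g hg⟩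
      · obtain ⟨hd1, hd2⟩ := count_split hF Q U e e' heW he'W hQe hQe' h1
        have hgood' := good_Uef hF Q U hU e e' heW he'W h1
        have h2le' : 2 ≤ nW Q (Uef U e e') := by omega
        have hne' := exists_ne_zero_of_two_le Q _ h2le'
        have hplus' : nW Q (Uef U e e') < 2 * nS Q (Uef U e e') := by omega
        have hn' : nW Q (Uef U e e') ≤ n := by omega
        have hL1 : GU Q (Uef U e e') ≤ Sgrp Q U e := by
          intro g hg
          rw [mem_GU_Uef] at hg
          exact ⟨hg.1, hg.2.1⟩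
        have hL2 : GU Q (Uef U e e') ≤ Sgrp Q U e' := by
          intro g hg
          rw [mem_GU_Uef] at hg
          exact ⟨hg.1, hg.2.2⟩
        have hr1 : P.relIndex (GU Q (Uef U e e')) = P.relIndex (Sgrp Q U e) :=
          relIndex_transfer P (Kgrp Q U e) (GU Q (Uef U e e')) (Sgrp Q U e) hK1 hL1
            (decomp hF Q U e e' heW he'W hQe hQe' h1)
        have h1' : QuadraticMap.polar Q e' e = 1 := by
          rw [QuadraticMap.polar_comm]
          exact h1
        have hr2 : P'.relIndex (GU Q (Uef U e e')) = P'.relIndex (Sgrp Q U e') := by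
          have hdec := decomp hF Q U e' e he'W heW hQe' hQe h1'
          rw [← Uef_comm] at hdec
          exact relIndex_transfer P' (Kgrp Q U e') (GU Q (Uef U e e')) (Sgrp Q U e') hK2 hL2 hdec
        have ho1 : Odd ((P ⊓ GU Q (Uef U e e')).relIndex (GU Q (Uef U e e'))) := by
          rw [Subgroup.inf_relIndex_right, hr1]
          exact hoddS P e hPG hoddP hPe
        have ho2 : Odd ((P' ⊓ GU Q (Uef U e e')).relIndex (GU Q (Uef U e e'))) := by
          rw [Subgroup.inf_relIndex_right, hr2]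
          exact hoddS P' e' hP'G hoddP' hP'e
        obtain ⟨g, hg1, hg2, hg3⟩ := ih (Uef U e e') hn' hgood' hplus' hne'
          (P ⊓ GU Q (Uef U e e')) (P' ⊓ GU Q (Uef U e e')) (hP.to_le inf_le_left)
          (hP'.to_le inf_le_left) inf_le_right inf_le_right ho1 ho2
        exact ⟨g, hg1.1, hg2.1, hg3⟩

end Cfsg.Agent.Lib.Helper49.O2Syl
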