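import Mathlib
import Cfsg.Prelude
import Cfsg.Agent.Lib.Helper49.O2Base

set_option autoImplicit false
open scoped Pointwise

namespace Cfsg.Agent.Lib.Helper49.O2Syl

/-- MATTRANS: transfer from the linear-equivalence picture to the matrix group of the
statement. -/
theorem sylow_meet_transfer {F : Type*} [Field F] [Fintype F] {ι : Type} [Fintype ι]
    [DecidableEq ι] (Qf : (ι → F) → F) (Q : QuadraticForm F (ι → F)) (hQ : Qf = ⇑Q)
    (hmain : ∀ P P' : Subgroup ((ι → F) ≃ₗ[F] (ι → F)), IsPGroup 2 P → IsPGroup 2 P' →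
      P ≤ GU Q ⊥ → P' ≤ GU Q ⊥ → Odd (P.relIndex (GU Q ⊥)) → Odd (P'.relIndex (GU Q ⊥)) →
      ∃ g, g ∈ P ∧ g ∈ P' ∧ g ≠ 1)
    (H : Sylow 2 (Cfsg.isometryGroup F Qf)) (x : Cfsg.isometryGroup F Qf) :
    (H : Subgroup (Cfsg.isometryGroup F Qf)) ⊓
      MulAut.conj x • (H : Subgroup (Cfsg.isometryGroup F Qf)) ≠ ⊥ := by
  subst hQ
  classical
  obtain ⟨H', hH'⟩ : ∃ H' : Sylow 2 (Cfsg.isometryGroup F ⇑Q), H' = x • H := ⟨_, rfl⟩
  have hcoe : (H' : Subgroup (Cfsg.isometryGroup F ⇑Q))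
      = MulAut.conj x • (H : Subgroup (Cfsg.isometryGroup F ⇑Q)) := by
    rw [hH']
    exact Sylow.coe_subgroup_smul
  rw [← hcoe]
  clear hcoe hH' x
  -- the isomorphism GL ≃ linear equivalences
  let Φ0 : Matrix.GeneralLinearGroup ι F ≃* ((ι → F) ≃ₗ[F] (ι → F)) :=
    Matrix.GeneralLinearGroup.toLin.trans
      (LinearMap.GeneralLinearGroup.generalLinearEquiv F (ι → F))
  have hΦ0 : ∀ (g : Matrix.GeneralLinearGroup ι F) (v : ι → F),
      Φ0 g v = (g : Matrix ι ι F).mulVec v := by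
    intro g v
    simp [Φ0]
  have hmemI : ∀ g : Matrix.GeneralLinearGroup ι F,
      g ∈ Cfsg.isometryGroup F ⇑Q ↔ ∀ u : ι → F, Q ((g : Matrix ι ι F).mulVec u) = Q u :=
    fun g => ⟨fun h u => h u u, fun h u _ => h u⟩
  let Φ : ↥(Cfsg.isometryGroup F ⇑Q) →* ((ι → F) ≃ₗ[F] (ι → F)) :=
    Φ0.toMonoidHom.comp (Subgroup.subtype _)
  have hΦ : ∀ g : ↥(Cfsg.isometryGroup F ⇑Q), Φ g = Φ0 (g : Matrix.GeneralLinearGroup ι F) :=
    fun _ => rfl
  have hΦinj : Function.Injective Φ := by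
    intro a b hab
    rw [hΦ, hΦ] at hab
    exact Subtype.ext (Φ0.injective hab)
  have hrange : GU Q ⊥ = (⊤ : Subgroup ↥(Cfsg.isometryGroup F ⇑Q)).map Φ := by
    ext h
    constructor
    · intro hh
      have hg : Φ0.symm h ∈ Cfsg.isometryGroup F ⇑Q := by
        rw [hmemI]
        intro u
        rw [← hΦ0, MulEquiv.apply_symm_apply]
        exact hh.1 u
      exact ⟨⟨Φ0.symm h, hg⟩, Subgroup.mem_top _, by rw [hΦ]; exact MulEquiv.apply_symm_apply _ _⟩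
    · rintro ⟨g, _, rfl⟩
      refine ⟨fun u => ?_, fun u hu => ?_⟩
      · rw [hΦ, hΦ0]
        exact (hmemI _).mp g.2 u
      · rw [Submodule.mem_bot] at hu
        rw [hu, map_zero]
  have : Fact (Nat.Prime 2) := ⟨Nat.prime_two⟩
  have hodd : ∀ K : Sylow 2 (Cfsg.isometryGroup F ⇑Q),
      Odd (((K : Subgroup _).map Φ).relIndex (GU Q ⊥)) := by
    intro K
    rw [hrange, Subgroup.relIndex_map_map_of_injective _ _ hΦinj, Subgroup.relIndex_top_right]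
    have h := Sylow.not_dvd_index K
    exact Nat.not_even_iff_odd.mp (fun he => h (even_iff_two_dvd.mp he))
  have hle : ∀ K : Subgroup (Cfsg.isometryGroup F ⇑Q), K.map Φ ≤ GU Q ⊥ := by
    intro K
    rw [hrange]
    exact Subgroup.map_mono le_top
  have hp1 : IsPGroup 2 ↥((H : Subgroup (Cfsg.isometryGroup F ⇑Q)).map Φ) :=
    IsPGroup.map H.isPGroup' Φ
  have hp2 : IsPGroup 2 ↥((H' : Subgroup (Cfsg.isometryGroup F ⇑Q)).map Φ) :=
    IsPGroup.map H'.isPGroup' Φ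
  have hl1 := hle (H : Subgroup (Cfsg.isometryGroup F ⇑Q))
  have hl2 := hle (H' : Subgroup (Cfsg.isometryGroup F ⇑Q))
  have ho1 := hodd H
  have ho2 := hodd H'
  obtain ⟨g, hg1, hg2, hg3⟩ := hmain _ _ hp1 hp2 hl1 hl2 ho1 ho2
  obtain ⟨a, ha, rfl⟩ := hg1
  obtain ⟨b, hb, hab⟩ := hg2
  have hba : b = a := hΦinj hab
  rw [hba] at hb
  intro hbot
  have hmem : a ∈ (H : Subgroup (Cfsg.isometryGroup F ⇑Q)) ⊓ (H' : Subgroup _) := ⟨ha, hb⟩
  rw [hbot, Subgroup.mem_bot] at hmem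
  apply hg3
  rw [hmem, map_one]

end Cfsg.Agent.Lib.Helper49.O2Syl
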