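import Mathlib

set_option autoImplicit false
set_option linter.style.haveILetI false

/-!
Elements of prime power order `r ^ (e+1)` (with `r` not the characteristic) in `GL_n(q)`:
`r ^ (e+1)` divides `q ^ d - 1` for some `1 ≤ d ≤ n`. Proof by counting free orbits.
-/

namespace Cfsg.Agent.Lib.Helper49

/-- A permutation with `π ^ (r^(e+1)) = 1` such that `π ^ (r^e)` has no fixed point acts
with all orbits of size `r^(e+1)`. -/
theorem perm_ppow_dvd {X : Type*} [Finite X] (π : Equiv.Perm X) (r e : ℕ) (hr : r.Prime)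
    (hπ : π ^ (r ^ (e + 1)) = 1) (hfix : ∀ x, (π ^ (r ^ e)) x ≠ x) :
    r ^ (e + 1) ∣ Nat.card X := by
  haveI : Fact r.Prime := ⟨hr⟩
  rcases isEmpty_or_nonempty X with hX | ⟨⟨x0⟩⟩
  · simp
  have hord : orderOf π = r ^ (e + 1) := by
    apply orderOf_eq_prime_pow _ hπ
    intro h
    exact hfix x0 (by rw [h]; rfl)
  have hstab : ∀ b : X, MulAction.stabilizer (Subgroup.zpowers π) b = ⊥ := by
    intro b
    rw [Subgroup.eq_bot_iff_forall]
    rintro ⟨g, hg⟩ hgb
    rw [MulAction.mem_stabilizer_iff] at hgb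
    obtain ⟨k, rfl⟩ := mem_powers_iff_mem_zpowers.mpr hg
    have hk : (π ^ k) b = b := hgb
    by_contra hne
    have hnd : ¬ r ^ (e + 1) ∣ k := by
      intro hd
      apply hne
      apply Subtype.ext
      rw [← hord] at hd
      exact orderOf_dvd_iff_pow_eq_one.mp hd
    have h1 : Function.IsPeriodicPt π k b := by
      rw [Function.IsPeriodicPt, Function.IsFixedPt, Equiv.Perm.iterate_eq_pow]
      exact hk
    have h2 : Function.IsPeriodicPt π (r ^ (e + 1)) b := by
      rw [Function.IsPeriodicPt, Function.IsFixedPt, Equiv.Perm.iterate_eq_pow, hπ]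
      rfl
    have h3 := h1.gcd h2
    obtain ⟨j, hj, hjeq⟩ := (Nat.dvd_prime_pow hr).mp (Nat.gcd_dvd_right k (r ^ (e + 1)))
    have hj' : j ≤ e := by
      by_contra hcon
      have hje : j = e + 1 := by omega
      rw [hje] at hjeq
      exact hnd (hjeq ▸ Nat.gcd_dvd_left k _)
    rw [hjeq] at h3
    have h4 := h3.mul_const (r ^ (e - j))
    rw [← pow_add, Nat.add_sub_cancel' hj'] at h4
    apply hfix b
    rw [Function.IsPeriodicPt, Function.IsFixedPt, Equiv.Perm.iterate_eq_pow] at h4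
    exact h4
  have e1 := MulAction.selfEquivOrbitsQuotientProd hstab
  rw [Nat.card_congr e1, Nat.card_prod, Nat.card_zpowers, hord]
  exact Dvd.intro_left _ rfl

/-- Version on the set of points moved by `f ^ (r^e)`. -/
theorem perm_ppow_dvd' {V : Type*} [Finite V] (f : Equiv.Perm V) (r e : ℕ) (hr : r.Prime)
    (hf : f ^ (r ^ (e + 1)) = 1) :
    r ^ (e + 1) ∣ Nat.card {x : V // (f ^ (r ^ e)) x ≠ x} := by
  have hcomm : ∀ x, (f ^ (r ^ e)) (f x) = f ((f ^ (r ^ e)) x) := by
    intro x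
    rw [← Equiv.Perm.mul_apply, ← Equiv.Perm.mul_apply, ← pow_succ, ← pow_succ']
  have h : ∀ x, (f ^ (r ^ e)) (f x) ≠ f x ↔ (f ^ (r ^ e)) x ≠ x := by
    intro x
    rw [hcomm, Ne, Ne, f.injective.eq_iff]
  apply perm_ppow_dvd (f.subtypePerm h) r e hr
  · rw [Equiv.Perm.subtypePerm_pow]
    ext x
    rw [Equiv.Perm.subtypePerm_apply]
    simp only [hf, Equiv.Perm.coe_one, id_eq]
  · intro x hx
    rw [Equiv.Perm.subtypePerm_pow] at hx
    have hx' := congrArg Subtype.val hx
    rw [Equiv.Perm.subtypePerm_apply] at hx'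
    exact x.2 hx'

/-- An `n × n` matrix over a finite field with `q` elements, of order `r ^ (e+1)` for a prime
`r` not dividing `q`: then `r ^ (e+1) ∣ q ^ d - 1` for some `1 ≤ d ≤ n`. -/
theorem ppow_dvd {F : Type*} [Field F] [Fintype F] {n : ℕ} (B : Matrix (Fin n) (Fin n) F)
    (r e : ℕ) (hr : r.Prime) (hrq : ¬ r ∣ Fintype.card F)
    (hB : B ^ (r ^ (e + 1)) = 1) (hB' : B ^ (r ^ e) ≠ 1) :
    ∃ d, 1 ≤ d ∧ d ≤ n ∧ r ^ (e + 1) ∣ Fintype.card F ^ d - 1 := by
  classical
  have hrpos : 0 < r ^ (e + 1) := pos_of_ne_zero (pow_ne_zero _ hr.ne_zero)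
  obtain ⟨Binv, hBinv⟩ : ∃ Binv : Matrix (Fin n) (Fin n) F, Binv = B ^ (r ^ (e + 1) - 1) :=
    ⟨_, rfl⟩
  have hinv1 : Binv * B = 1 := by
    rw [hBinv, ← pow_succ, Nat.sub_add_cancel hrpos, hB]
  have hinv2 : B * Binv = 1 := by
    rw [hBinv, ← pow_succ', Nat.sub_add_cancel hrpos, hB]
  let f : Equiv.Perm (Fin n → F) :=
    ⟨B.mulVec, Binv.mulVec,
      fun v => by rw [Matrix.mulVec_mulVec, hinv1, Matrix.one_mulVec],
      fun v => by rw [Matrix.mulVec_mulVec, hinv2, Matrix.one_mulVec]⟩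
  have hfpow : ∀ (k : ℕ) (v : Fin n → F), (f ^ k) v = (B ^ k).mulVec v := by
    intro k
    induction k with
    | zero => intro v; simp
    | succ k ih =>
      intro v
      rw [pow_succ, Equiv.Perm.mul_apply, ih, pow_succ, ← Matrix.mulVec_mulVec]
      rfl
  have hf : f ^ (r ^ (e + 1)) = 1 := by
    ext1 v
    rw [hfpow, hB, Matrix.one_mulVec]
    rfl
  have hdvd := perm_ppow_dvd' f r e hr hf
  let W : Submodule F (Fin n → F) := LinearMap.ker (Matrix.toLin' (B ^ (r ^ e)) - 1)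
  have hW : ∀ v, v ∈ W ↔ (B ^ (r ^ e)).mulVec v = v := by
    intro v
    simp only [W, LinearMap.mem_ker, LinearMap.sub_apply, Matrix.toLin'_apply,
      Module.End.one_apply, sub_eq_zero]
  have hWtop : W ≠ ⊤ := by
    intro h
    apply hB'
    apply Matrix.toLin'.injective
    apply LinearMap.ext
    intro v
    rw [Matrix.toLin'_apply, Matrix.toLin'_one, LinearMap.id_apply]
    exact (hW v).mp (h ▸ Submodule.mem_top)
  have hlt : Module.finrank F W < n := by
    have h1 := Submodule.finrank_lt hWtop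
    rwa [Module.finrank_fin_fun] at h1
  have hcardV : Nat.card (Fin n → F) = Fintype.card F ^ n := by
    rw [Nat.card_eq_fintype_card, Fintype.card_fun, Fintype.card_fin]
  have hcardW : Nat.card W = Fintype.card F ^ Module.finrank F W := by
    rw [Module.natCard_eq_pow_finrank (K := F) (V := W), Nat.card_eq_fintype_card]
  have hsplit : Nat.card (Fin n → F) = Nat.card {v // v ∈ W} + Nat.card {v // ¬ v ∈ W} := by
    rw [← Nat.card_sum]
    exact Nat.card_congr (Equiv.sumCompl (· ∈ W)).symm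
  have hX : Nat.card {x : Fin n → F // (f ^ (r ^ e)) x ≠ x} = Nat.card {v // ¬ v ∈ W} := by
    apply Nat.card_congr
    apply Equiv.subtypeEquivRight
    intro v
    rw [hfpow, Ne, hW]
  rw [hX] at hdvd
  obtain ⟨N, hN⟩ : ∃ N, N = Nat.card {v // ¬ v ∈ W} := ⟨_, rfl⟩
  rw [← hN] at hdvd hsplit
  have hW' : Nat.card {v // v ∈ W} = Fintype.card F ^ Module.finrank F W := hcardW
  rw [hcardV, hW'] at hsplit
  obtain ⟨fW, hfW⟩ : ∃ fW, fW = Module.finrank F W := ⟨_, rfl⟩
  rw [← hfW] at hsplit hlt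
  refine ⟨n - fW, by omega, by omega, ?_⟩
  have hq1 : 1 ≤ Fintype.card F ^ (n - fW) := Nat.one_le_pow _ _ Fintype.card_pos
  have hpow : Fintype.card F ^ n = Fintype.card F ^ fW * Fintype.card F ^ (n - fW) := by
    rw [← pow_add]
    congr 1
    omega
  have hNeq : N = Fintype.card F ^ fW * (Fintype.card F ^ (n - fW) - 1) := by
    rw [Nat.mul_sub_one, ← hpow, hsplit]
    omega
  rw [hNeq] at hdvd
  have hcop : Nat.Coprime (r ^ (e + 1)) (Fintype.card F ^ fW) :=
    Nat.Coprime.pow _ _ ((Nat.Prime.coprime_iff_not_dvd hr).mpr hrq)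
  exact hcop.dvd_of_dvd_mul_left hdvd

end Cfsg.Agent.Lib.Helper49
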