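import Mathlib

set_option autoImplicit false

namespace Cfsg.Agent.Lib.Helper49

variable {F : Type*} [Field F]

/-- Similarity of `3 × 3` matrices, witnessed by a pair of mutually inverse matrices. -/
def Sim3 (A B : Matrix (Fin 3) (Fin 3) F) : Prop :=
  ∃ P Q : Matrix (Fin 3) (Fin 3) F, P * Q = 1 ∧ B = Q * A * P

theorem Sim3.refl (A : Matrix (Fin 3) (Fin 3) F) : Sim3 A A := ⟨1, 1, by simp, by simp⟩

theorem Sim3.symm {A B : Matrix (Fin 3) (Fin 3) F} (h : Sim3 A B) : Sim3 B A := by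
  obtain ⟨P, Q, hPQ, rfl⟩ := h
  have hQP : Q * P = 1 := mul_eq_one_comm.mp hPQ
  refine ⟨Q, P, hQP, ?_⟩
  calc A = (P * Q) * A * (P * Q) := by rw [hPQ]; simp
    _ = P * (Q * A * P) * Q := by simp only [Matrix.mul_assoc]

theorem Sim3.trans {A B C : Matrix (Fin 3) (Fin 3) F} (h1 : Sim3 A B) (h2 : Sim3 B C) :
    Sim3 A C := by
  obtain ⟨P, Q, hPQ, rfl⟩ := h1
  obtain ⟨P', Q', hPQ', rfl⟩ := h2
  refine ⟨P * P', Q' * Q, ?_, by simp only [Matrix.mul_assoc]⟩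
  calc P * P' * (Q' * Q) = P * (P' * Q') * Q := by simp only [Matrix.mul_assoc]
    _ = 1 := by rw [hPQ', Matrix.mul_one, hPQ]

theorem Sim3.det_eq {A B : Matrix (Fin 3) (Fin 3) F} (h : Sim3 A B) : B.det = A.det := by
  obtain ⟨P, Q, hPQ, rfl⟩ := h
  have : P.det * Q.det = 1 := by rw [← Matrix.det_mul, hPQ, Matrix.det_one]
  rw [Matrix.det_mul, Matrix.det_mul]
  linear_combination A.det * this

theorem Sim3.transpose {A B : Matrix (Fin 3) (Fin 3) F} (h : Sim3 A B) :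
    Sim3 A.transpose B.transpose := by
  obtain ⟨P, Q, hPQ, rfl⟩ := h
  refine ⟨Q.transpose, P.transpose, ?_, ?_⟩
  · rw [← Matrix.transpose_mul, hPQ, Matrix.transpose_one]
  · simp only [Matrix.transpose_mul, Matrix.mul_assoc]

/-- If `G` is similar to a product, it is a product of matrices similar to the factors. -/
theorem Sim3.factor {G E L U : Matrix (Fin 3) (Fin 3) F} (h : Sim3 G E) (hE : E = L * U) :
    ∃ Y Z : Matrix (Fin 3) (Fin 3) F, G = Y * Z ∧ Sim3 L Y ∧ Sim3 U Z := by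
  obtain ⟨P, Q, hPQ, rfl⟩ := h
  have hQP : Q * P = 1 := mul_eq_one_comm.mp hPQ
  refine ⟨P * L * Q, P * U * Q, ?_, ⟨Q, P, hQP, rfl⟩, ⟨Q, P, hQP, rfl⟩⟩
  calc G = (P * Q) * G * (P * Q) := by rw [hPQ]; simp
    _ = P * (Q * G * P) * Q := by simp only [Matrix.mul_assoc]
    _ = P * (L * U) * Q := by rw [hE]
    _ = P * L * (Q * P) * U * Q := by rw [hQP]; simp only [Matrix.mul_assoc, Matrix.mul_one]
    _ = P * L * Q * (P * U * Q) := by simp only [Matrix.mul_assoc]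

/-- Similarity from an intertwining invertible matrix. -/
theorem sim3_of_mul_eq {A B P : Matrix (Fin 3) (Fin 3) F} (h : A * P = P * B) (hdet : P.det ≠ 0) :
    Sim3 A B := by
  have hu : IsUnit P.det := isUnit_iff_ne_zero.mpr hdet
  refine ⟨P, P⁻¹, Matrix.mul_nonsing_inv P hu, ?_⟩
  rw [Matrix.mul_assoc, h, ← Matrix.mul_assoc, Matrix.nonsing_inv_mul P hu, Matrix.one_mul]

/-- Moving a prescribed value into the corner. -/
theorem sim3_first_col (B : Matrix (Fin 3) (Fin 3) F) (h : B 1 0 ≠ 0) (d : F) :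
    ∃ C : Matrix (Fin 3) (Fin 3) F, Sim3 B C ∧ C 0 0 = d ∧ C 1 0 = 1 ∧ C 2 0 = 0 := by
  refine ⟨_, ⟨!![1, B 0 0 - d, 0; 0, B 1 0, 0; 0, B 2 0, 1],
    !![1, -(B 0 0 - d) / B 1 0, 0; 0, 1 / B 1 0, 0; 0, -B 2 0 / B 1 0, 1], ?_, rfl⟩, ?_, ?_, ?_⟩
  · ext i j
    fin_cases i <;> fin_cases j <;> simp [Matrix.mul_apply, Fin.sum_univ_three] <;> field_simp <;> ring
  · simp [Matrix.mul_apply, Fin.sum_univ_three, Matrix.vecMul, dotProduct]
    field_simp
    ring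
  · simp [Matrix.mul_apply, Fin.sum_univ_three, Matrix.vecMul, dotProduct]
    field_simp
  · simp [Matrix.mul_apply, Fin.sum_univ_three, Matrix.vecMul, dotProduct]
    field_simp
    ring

/-- Adjusting the leading `2 × 2` minor, first case. -/
theorem sim3_minor_a (C : Matrix (Fin 3) (Fin 3) F) (h10 : C 1 0 = 1) (h20 : C 2 0 = 0)
    (h21 : C 2 1 ≠ 0) (m : F) :
    ∃ E : Matrix (Fin 3) (Fin 3) F, Sim3 C E ∧ E 0 0 = C 0 0 ∧
      E 0 0 * E 1 1 - E 0 1 * E 1 0 = m := by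
  obtain ⟨α, hα⟩ : ∃ α : F, α * C 2 1 = m - (C 0 0 * C 1 1 - C 0 1) :=
    ⟨(m - (C 0 0 * C 1 1 - C 0 1)) / C 2 1, by field_simp⟩
  refine ⟨_, ⟨!![1, 0, α; 0, 1, 0; 0, 0, 1], !![1, 0, -α; 0, 1, 0; 0, 0, 1], ?_, rfl⟩, ?_, ?_⟩
  · ext i j
    fin_cases i <;> fin_cases j <;> simp [Matrix.mul_apply, Fin.sum_univ_three]
  · simp [Matrix.mul_apply, Fin.sum_univ_three, Matrix.vecMul, dotProduct, h20]
  · simp [Matrix.mul_apply, Fin.sum_univ_three, Matrix.vecMul, dotProduct, h10, h20]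
    linear_combination hα

/-- Adjusting the leading `2 × 2` minor, second case. -/
theorem sim3_minor_b (C : Matrix (Fin 3) (Fin 3) F) (h10 : C 1 0 = 1)
    (hδ : C 0 0 * C 1 2 - C 0 2 ≠ 0) (m : F) :
    ∃ E : Matrix (Fin 3) (Fin 3) F, Sim3 C E ∧ E 0 0 = C 0 0 ∧
      E 0 0 * E 1 1 - E 0 1 * E 1 0 = m := by
  obtain ⟨μ, hμ⟩ : ∃ μ : F, μ * (C 0 0 * C 1 2 - C 0 2) = m - (C 0 0 * C 1 1 - C 0 1) :=
    ⟨(m - (C 0 0 * C 1 1 - C 0 1)) / (C 0 0 * C 1 2 - C 0 2), by field_simp⟩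
  refine ⟨_, ⟨!![1, 0, 0; 0, 1, 0; 0, μ, 1], !![1, 0, 0; 0, 1, 0; 0, -μ, 1], ?_, rfl⟩, ?_, ?_⟩
  · ext i j
    fin_cases i <;> fin_cases j <;> simp [Matrix.mul_apply, Fin.sum_univ_three]
  · simp [Matrix.mul_apply, Fin.sum_univ_three, Matrix.vecMul, dotProduct]
  · simp [Matrix.mul_apply, Fin.sum_univ_three, Matrix.vecMul, dotProduct, h10]
    linear_combination hμ

/-- Adjusting the leading `2 × 2` minor. -/
theorem sim3_minor (C : Matrix (Fin 3) (Fin 3) F) (h10 : C 1 0 = 1) (h20 : C 2 0 = 0)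
    (hdet : C.det ≠ 0) (m : F) :
    ∃ E : Matrix (Fin 3) (Fin 3) F, Sim3 C E ∧ E 0 0 = C 0 0 ∧
      E 0 0 * E 1 1 - E 0 1 * E 1 0 = m := by
  by_cases h21 : C 2 1 = 0
  · have h22 : C 2 2 ≠ 0 := by
      intro h22
      apply hdet
      rw [Matrix.det_fin_three, h20, h21, h22]
      ring
    by_cases hδ : C 0 0 * C 1 2 - C 0 2 = 0
    · -- first conjugate by a transvection
      have hS : Sim3 C (!![1, 0, -1; 0, 1, 0; 0, 0, 1] * C * !![1, 0, 1; 0, 1, 0; 0, 0, 1]) := by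
        refine ⟨!![1, 0, 1; 0, 1, 0; 0, 0, 1], !![1, 0, -1; 0, 1, 0; 0, 0, 1], ?_, rfl⟩
        ext i j
        fin_cases i <;> fin_cases j <;> simp [Matrix.mul_apply, Fin.sum_univ_three]
      obtain ⟨E, hE, h00, hm⟩ := sim3_minor_b
        (!![1, 0, -1; 0, 1, 0; 0, 0, 1] * C * !![1, 0, 1; 0, 1, 0; 0, 0, 1])
        (by simp [Matrix.mul_apply, Fin.sum_univ_three, Matrix.vecMul, dotProduct, h10])
        (by
          simp [Matrix.mul_apply, Fin.sum_univ_three, Matrix.vecMul, dotProduct, h10, h20, h21]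
          intro h
          apply h22
          linear_combination h - hδ) m
      refine ⟨E, hS.trans hE, ?_, hm⟩
      rw [h00]
      simp [Matrix.mul_apply, Fin.sum_univ_three, Matrix.vecMul, dotProduct, h20]
    · exact sim3_minor_b C h10 hδ m
  · exact sim3_minor_a C h10 h20 h21 m

/-- The `LU` decomposition with prescribed diagonals. -/
theorem ldu3 (E : Matrix (Fin 3) (Fin 3) F) (l1 l2 l3 m1 m2 m3 : F)
    (hl1 : l1 ≠ 0) (hl2 : l2 ≠ 0) (hm1 : m1 ≠ 0) (hm2 : m2 ≠ 0)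
    (h00 : E 0 0 = l1 * m1) (hminor : E 0 0 * E 1 1 - E 0 1 * E 1 0 = l1 * m1 * l2 * m2)
    (hdet : E.det = 1) (hprod : l1 * l2 * l3 * m1 * m2 * m3 = 1) :
    ∃ a b c x y z : F,
      E = !![l1, 0, 0; a, l2, 0; b, c, l3] * !![m1, x, y; 0, m2, z; 0, 0, m3] := by
  obtain ⟨x, hx⟩ : ∃ x, E 0 1 = l1 * x := ⟨E 0 1 / l1, by field_simp⟩
  obtain ⟨y, hy⟩ : ∃ y, E 0 2 = l1 * y := ⟨E 0 2 / l1, by field_simp⟩
  obtain ⟨a, ha⟩ : ∃ a, E 1 0 = a * m1 := ⟨E 1 0 / m1, by field_simp⟩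
  obtain ⟨b, hb⟩ : ∃ b, E 2 0 = b * m1 := ⟨E 2 0 / m1, by field_simp⟩
  have h11 : E 1 1 = a * x + l2 * m2 := by
    have h : l1 * m1 * (E 1 1 - (a * x + l2 * m2)) = 0 := by
      rw [h00, hx, ha] at hminor
      linear_combination hminor
    have h' : E 1 1 - (a * x + l2 * m2) = 0 := by
      rcases mul_eq_zero.mp h with h | h
      · exact absurd h (mul_ne_zero hl1 hm1)
      · exact h
    linear_combination h'
  obtain ⟨z, hz⟩ : ∃ z, E 1 2 = a * y + l2 * z := ⟨(E 1 2 - a * y) / l2, by field_simp; ring⟩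
  obtain ⟨c, hc⟩ : ∃ c, E 2 1 = b * x + c * m2 := ⟨(E 2 1 - b * x) / m2, by field_simp; ring⟩
  have h22 : E 2 2 = b * y + c * z + l3 * m3 := by
    rw [Matrix.det_fin_three] at hdet
    rw [h00, hx, hy, ha, hb, h11, hz, hc] at hdet
    have h : (l1 * m1 * l2 * m2) * (E 2 2 - (b * y + c * z + l3 * m3)) = 0 := by
      linear_combination hdet - hprod
    have h' : E 2 2 - (b * y + c * z + l3 * m3) = 0 := by
      rcases mul_eq_zero.mp h with h | h
      · exact absurd h (mul_ne_zero (mul_ne_zero (mul_ne_zero hl1 hm1) hl2) hm2)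
      · exact h
    linear_combination h'
  refine ⟨a, b, c, x, y, z, ?_⟩
  ext i j
  fin_cases i <;> fin_cases j <;>
    simp [Matrix.mul_apply, Fin.sum_univ_three, h00, hx, hy, ha, hb, h11, hz, hc, h22]

theorem sim3_lower_aux (l1 l2 l3 x y z : F) :
    Sim3 !![l1, 0, 0; x * (l1 - l2), l2, 0; y * (l1 - l3) - z * (l2 - l3) * x, z * (l2 - l3), l3]
      (Matrix.diagonal ![l1, l2, l3]) := by
  refine ⟨!![1, 0, 0; x, 1, 0; y, z, 1], !![1, 0, 0; -x, 1, 0; x * z - y, -z, 1], ?_, ?_⟩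
  · ext i j
    fin_cases i <;> fin_cases j <;> simp [Matrix.mul_apply, Fin.sum_univ_three] <;> ring
  · ext i j
    fin_cases i <;> fin_cases j <;>
      simp [Matrix.mul_apply, Fin.sum_univ_three] <;> ring

/-- A lower triangular matrix with distinct diagonal entries is diagonalisable. -/
theorem sim3_lower (l1 l2 l3 a b c : F) (h12 : l1 ≠ l2) (h13 : l1 ≠ l3) (h23 : l2 ≠ l3) :
    Sim3 !![l1, 0, 0; a, l2, 0; b, c, l3] (Matrix.diagonal ![l1, l2, l3]) := by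
  have e12 : l1 - l2 ≠ 0 := sub_ne_zero.mpr h12
  have e13 : l1 - l3 ≠ 0 := sub_ne_zero.mpr h13
  have e23 : l2 - l3 ≠ 0 := sub_ne_zero.mpr h23
  obtain ⟨x, rfl⟩ : ∃ x, a = x * (l1 - l2) := ⟨a / (l1 - l2), by field_simp⟩
  obtain ⟨z, rfl⟩ : ∃ z, c = z * (l2 - l3) := ⟨c / (l2 - l3), by field_simp⟩
  obtain ⟨y, rfl⟩ : ∃ y, b = y * (l1 - l3) - z * (l2 - l3) * x :=
    ⟨(b + z * (l2 - l3) * x) / (l1 - l3), by field_simp; ring⟩
  exact sim3_lower_aux l1 l2 l3 x y z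

/-- An upper triangular matrix with distinct diagonal entries is diagonalisable. -/
theorem sim3_upper (l1 l2 l3 a b c : F) (h12 : l1 ≠ l2) (h13 : l1 ≠ l3) (h23 : l2 ≠ l3) :
    Sim3 !![l1, a, b; 0, l2, c; 0, 0, l3] (Matrix.diagonal ![l1, l2, l3]) := by
  have h := (sim3_lower l1 l2 l3 a b c h12 h13 h23).transpose
  rw [Matrix.diagonal_transpose] at h
  have e : (!![l1, 0, 0; a, l2, 0; b, c, l3] : Matrix (Fin 3) (Fin 3) F).transpose
      = !![l1, a, b; 0, l2, c; 0, 0, l3] := by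
    ext i j
    fin_cases i <;> fin_cases j <;> rfl
  rwa [e] at h

theorem sim3_perm (A : Matrix (Fin 3) (Fin 3) F) (σ : Equiv.Perm (Fin 3)) :
    Sim3 A (A.submatrix σ σ) := by
  refine ⟨(1 : Matrix (Fin 3) (Fin 3) F).submatrix id σ,
    (1 : Matrix (Fin 3) (Fin 3) F).submatrix σ id, ?_, ?_⟩
  · rw [Matrix.submatrix_mul_equiv]
    simp
  · ext i j
    simp [Matrix.mul_apply, Matrix.one_apply]

theorem exists_perm3 : ∀ i j : Fin 3, i ≠ j → ∃ σ : Equiv.Perm (Fin 3), σ 1 = i ∧ σ 0 = j := by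
  decide

theorem exists_sim3_entry_aux (A : Matrix (Fin 3) (Fin 3) F)
    (h : ∃ i j, i ≠ j ∧ A i j ≠ 0) :
    ∃ B : Matrix (Fin 3) (Fin 3) F, Sim3 A B ∧ B 1 0 ≠ 0 := by
  obtain ⟨i, j, hij, h⟩ := h
  obtain ⟨σ, h1, h0⟩ := exists_perm3 i j hij
  exact ⟨_, sim3_perm A σ, by simpa [h1, h0] using h⟩

/-- A non-scalar matrix is similar to one with non-zero `(1,0)` entry. -/
theorem exists_sim3_entry (A : Matrix (Fin 3) (Fin 3) F)
    (hA : ∀ c : F, A ≠ Matrix.scalar (Fin 3) c) :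
    ∃ B : Matrix (Fin 3) (Fin 3) F, Sim3 A B ∧ B 1 0 ≠ 0 := by
  by_cases hoff : ∃ i j, i ≠ j ∧ A i j ≠ 0
  · exact exists_sim3_entry_aux A hoff
  · push Not at hoff
    have hd : ∃ i j, i ≠ j ∧ A i i ≠ A j j := by
      by_contra hcon
      push Not at hcon
      apply hA (A 0 0)
      ext i j
      by_cases hij : i = j
      · subst hij
        by_cases hi : i = 0
        · subst hi
          simp
        · simpa using hcon i 0 hi
      · simp [hij, hoff i j hij]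
    obtain ⟨i, j, hij, hne⟩ := hd
    have hS : Sim3 A (Matrix.transvection i j (-1) * A * Matrix.transvection i j 1) := by
      refine ⟨Matrix.transvection i j 1, Matrix.transvection i j (-1), ?_, rfl⟩
      rw [Matrix.transvection_mul_transvection_same i j hij]
      simp
    have hentry : (Matrix.transvection i j (-1) * A * Matrix.transvection i j 1 :
        Matrix (Fin 3) (Fin 3) F) i j ≠ 0 := by
      rw [Matrix.mul_transvection_apply_same, Matrix.transvection_mul_apply_same,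
        Matrix.transvection_mul_apply_same, hoff i j hij, hoff j i hij.symm]
      intro h
      apply hne
      linear_combination h
    obtain ⟨B, hB, hB10⟩ := exists_sim3_entry_aux _ ⟨i, j, hij, hentry⟩
    exact ⟨B, hS.trans hB, hB10⟩

/-- Sourour's factorisation for `3 × 3` matrices: a non-scalar matrix of determinant one is a
product of two matrices similar to `diag(1, a, a⁻¹)`. -/
theorem sourour3 (a : F) (ha0 : a ≠ 0) (ha1 : a ≠ 1) (ha2 : a ≠ -1)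
    (G : Matrix (Fin 3) (Fin 3) F) (hdet : G.det = 1)
    (hG : ∀ c : F, G ≠ Matrix.scalar (Fin 3) c) :
    ∃ Y Z : Matrix (Fin 3) (Fin 3) F, G = Y * Z ∧ Sim3 (Matrix.diagonal ![1, a, a⁻¹]) Y ∧
      Sim3 (Matrix.diagonal ![1, a, a⁻¹]) Z := by
  obtain ⟨B, hB, hB10⟩ := exists_sim3_entry G hG
  obtain ⟨C, hC, hC00, hC10, hC20⟩ := sim3_first_col B hB10 1
  have hCdet : C.det = 1 := by rw [hC.det_eq, hB.det_eq, hdet]
  obtain ⟨E, hE, hE00, hEm⟩ := sim3_minor C hC10 hC20 (by rw [hCdet]; exact one_ne_zero) (a * a)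
  have hEdet : E.det = 1 := by rw [hE.det_eq, hCdet]
  obtain ⟨a', b, c, x, y, z, hLU⟩ := ldu3 E 1 a a⁻¹ 1 a a⁻¹ one_ne_zero ha0 one_ne_zero ha0
    (by rw [hE00, hC00]; ring) (by rw [hEm]; ring) hEdet (by field_simp)
  obtain ⟨Y, Z, hYZ, hY, hZ⟩ := ((hB.trans hC).trans hE).factor hLU
  have h1a : (1 : F) ≠ a := fun h => ha1 h.symm
  have h1i : (1 : F) ≠ a⁻¹ := by
    intro h
    apply ha1
    field_simp at h
    exact h
  have hai : a ≠ a⁻¹ := by
    intro h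
    field_simp at h
    have h' : (a - 1) * (a + 1) = 0 := by linear_combination h
    rcases mul_eq_zero.mp h' with h' | h'
    · exact ha1 (by linear_combination h')
    · exact ha2 (by linear_combination h')
  exact ⟨Y, Z, hYZ, (sim3_lower 1 a a⁻¹ a' b c h1a h1i hai).symm.trans hY,
    (sim3_upper 1 a a⁻¹ x y z h1a h1i hai).symm.trans hZ⟩

/-- Passing from similarity to conjugacy in `SL`. -/
theorem exists_sl_conj (X : Matrix.SpecialLinearGroup (Fin 3) F)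
    (hcent : ∀ δ : F, δ ≠ 0 → ∃ W W' : Matrix (Fin 3) (Fin 3) F, W * W' = 1 ∧ W.det = δ ∧
      W * (X : Matrix (Fin 3) (Fin 3) F) = (X : Matrix (Fin 3) (Fin 3) F) * W)
    (Y : Matrix (Fin 3) (Fin 3) F) (hY : Sim3 (X : Matrix (Fin 3) (Fin 3) F) Y) :
    ∃ u : Matrix.SpecialLinearGroup (Fin 3) F,
      Y = ((u * X * u⁻¹ : Matrix.SpecialLinearGroup (Fin 3) F) : Matrix (Fin 3) (Fin 3) F) := by
  obtain ⟨P, Q, hPQ, rfl⟩ := hY
  have hQP : Q * P = 1 := mul_eq_one_comm.mp hPQ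
  have hdet : P.det * Q.det = 1 := by rw [← Matrix.det_mul, hPQ, Matrix.det_one]
  have hP0 : P.det ≠ 0 := left_ne_zero_of_mul_eq_one hdet
  obtain ⟨W, W', hWW', hWdet, hWX⟩ := hcent P.det hP0
  have hdet' : W.det * W'.det = 1 := by rw [← Matrix.det_mul, hWW', Matrix.det_one]
  obtain ⟨u, hu⟩ : ∃ u : Matrix.SpecialLinearGroup (Fin 3) F,
      (u : Matrix (Fin 3) (Fin 3) F) = Q * W :=
    ⟨⟨Q * W, by rw [Matrix.det_mul, hWdet]; linear_combination hdet⟩, rfl⟩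
  obtain ⟨u', hu'⟩ : ∃ u' : Matrix.SpecialLinearGroup (Fin 3) F,
      (u' : Matrix (Fin 3) (Fin 3) F) = W' * P :=
    ⟨⟨W' * P, by rw [Matrix.det_mul, ← hWdet]; linear_combination hdet'⟩, rfl⟩
  have huu' : u * u' = 1 := by
    apply Subtype.ext
    rw [Matrix.SpecialLinearGroup.coe_mul, hu, hu', Matrix.SpecialLinearGroup.coe_one]
    calc Q * W * (W' * P) = Q * (W * W') * P := by simp only [Matrix.mul_assoc]
      _ = 1 := by rw [hWW', Matrix.mul_one, hQP]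
  have hinv : u⁻¹ = u' := inv_eq_of_mul_eq_one_right huu'
  refine ⟨u, ?_⟩
  rw [hinv, Matrix.SpecialLinearGroup.coe_mul, Matrix.SpecialLinearGroup.coe_mul, hu, hu']
  calc Q * (X : Matrix (Fin 3) (Fin 3) F) * P
      = Q * ((X : Matrix (Fin 3) (Fin 3) F) * (W * W')) * P := by rw [hWW', Matrix.mul_one]
    _ = Q * (W * (X : Matrix (Fin 3) (Fin 3) F) * W') * P := by
        rw [hWX]; simp only [Matrix.mul_assoc]
    _ = Q * W * (X : Matrix (Fin 3) (Fin 3) F) * (W' * P) := by simp only [Matrix.mul_assoc]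

/-- The covering statement in `PSL(3, F)` from a matrix factorisation statement. -/
theorem psl3_cover (X : Matrix.SpecialLinearGroup (Fin 3) F)
    (hcent : ∀ δ : F, δ ≠ 0 → ∃ W W' : Matrix (Fin 3) (Fin 3) F, W * W' = 1 ∧ W.det = δ ∧
      W * (X : Matrix (Fin 3) (Fin 3) F) = (X : Matrix (Fin 3) (Fin 3) F) * W)
    (hfac : ∀ G : Matrix (Fin 3) (Fin 3) F, G.det = 1 →
      (∀ c : F, G ≠ Matrix.scalar (Fin 3) c) →
      ∃ Y Z : Matrix (Fin 3) (Fin 3) F, G = Y * Z ∧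
        Sim3 (X : Matrix (Fin 3) (Fin 3) F) Y ∧ Sim3 (X : Matrix (Fin 3) (Fin 3) F) Z)
    (g : Matrix.ProjectiveSpecialLinearGroup (Fin 3) F) (hg : g ≠ 1) :
    ∃ u v : Matrix.ProjectiveSpecialLinearGroup (Fin 3) F,
      g = (u * QuotientGroup.mk X * u⁻¹) * (v * QuotientGroup.mk X * v⁻¹) := by
  obtain ⟨G, rfl⟩ := QuotientGroup.mk_surjective g
  have hG : ∀ c : F, (G : Matrix (Fin 3) (Fin 3) F) ≠ Matrix.scalar (Fin 3) c := by
    intro c hc
    apply hg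
    rw [QuotientGroup.eq_one_iff, Matrix.SpecialLinearGroup.mem_center_iff]
    refine ⟨c, ?_, hc.symm⟩
    have h := G.det_coe
    rw [hc] at h
    simpa using h
  obtain ⟨Y, Z, hYZ, hY, hZ⟩ := hfac G G.det_coe hG
  obtain ⟨u, hu⟩ := exists_sl_conj X hcent Y hY
  obtain ⟨v, hv⟩ := exists_sl_conj X hcent Z hZ
  refine ⟨QuotientGroup.mk u, QuotientGroup.mk v, ?_⟩
  have h : G = (u * X * u⁻¹) * (v * X * v⁻¹) := by
    apply Subtype.ext
    rw [Matrix.SpecialLinearGroup.coe_mul, ← hu, ← hv, hYZ]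
  rw [h]
  rfl

end Cfsg.Agent.Lib.Helper49
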