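import Mathlib
import Cfsg.Agent.Lib.Helper49.Sourour3
import Cfsg.Agent.Lib.Helper49.SL33

set_option autoImplicit false

namespace Cfsg.Agent.Lib.Helper49

/-- The companion matrix of `X³ - X - 1`. -/
def comp33 (R : Type*) [CommRing R] : Matrix (Fin 3) (Fin 3) R := !![0, 0, 1; 1, 0, 1; 0, 1, 0]

theorem comp33_det (R : Type*) [CommRing R] : (comp33 R).det = 1 := by
  simp [comp33, Matrix.det_fin_three]

theorem comp33_map {R S : Type*} [CommRing R] [CommRing S] (φ : R →+* S) :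
    (comp33 R).map φ = comp33 S := by
  ext i j
  fin_cases i <;> fin_cases j <;> simp [comp33]

theorem comp33_pow : (comp33 (ZMod 3)) ^ 13 = 1 := by
  decide +kernel

/-- Over `ZMod 3`, a matrix with characteristic polynomial `X³ - X - 1` is similar to the
companion matrix. -/
theorem sim3_comp33 (M : Matrix (Fin 3) (Fin 3) (ZMod 3))
    (h : Inv33 (M 0 0) (M 0 1) (M 0 2) (M 1 0) (M 1 1) (M 1 2) (M 2 0) (M 2 1) (M 2 2)) :
    Sim3 (comp33 (ZMod 3)) M := by
  have h1 := bf1_33 _ _ _ _ _ _ _ _ _ h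
  obtain ⟨e0, e1, e2⟩ := bf3_33 _ _ _ _ _ _ _ _ _ h
  apply Sim3.symm
  apply sim3_of_mul_eq (P := !![1, M 0 0, M 0 0 * M 0 0 + M 0 1 * M 1 0 + M 0 2 * M 2 0;
    0, M 1 0, M 1 0 * M 0 0 + M 1 1 * M 1 0 + M 1 2 * M 2 0;
    0, M 2 0, M 2 0 * M 0 0 + M 2 1 * M 1 0 + M 2 2 * M 2 0])
  · ext i j
    fin_cases i <;> fin_cases j <;>
      simp [comp33, Matrix.mul_apply, Fin.sum_univ_three] <;>
      first | exact e0 | exact e1 | exact e2
  · rw [Matrix.det_fin_three]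
    simp only [Matrix.of_apply, Matrix.cons_val', Matrix.cons_val_zero, Matrix.cons_val_one,
      Matrix.cons_val_two, Matrix.empty_val', Matrix.cons_val_fin_one]
    intro h0
    apply h1
    simp at h0
    linear_combination h0

/-- Over `ZMod 3`, a matrix of determinant one with first column `(0,1,0)` is a product of two
matrices similar to the companion matrix of `X³ - X - 1`. -/
theorem sl33_factor (C : Matrix (Fin 3) (Fin 3) (ZMod 3)) (h00 : C 0 0 = 0) (h10 : C 1 0 = 1)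
    (h20 : C 2 0 = 0) (hdet : C.det = 1) :
    ∃ Y Z : Matrix (Fin 3) (Fin 3) (ZMod 3), C = Y * Z ∧ Sim3 (comp33 (ZMod 3)) Y ∧
      Sim3 (comp33 (ZMod 3)) Z := by
  have hd : C 0 2 * C 2 1 - C 0 1 * C 2 2 = 1 := by
    rw [Matrix.det_fin_three, h00, h10, h20] at hdet
    linear_combination hdet
  obtain ⟨n, hn⟩ : ∃ n, n = tbl33.getD (idx33 (C 0 1) (C 0 2) (C 1 1) (C 1 2) (C 2 1) (C 2 2)) 0 :=
    ⟨_, rfl⟩
  have hg := bf2_33 (C 0 1) (C 0 2) (C 1 1) (C 1 2) (C 2 1) (C 2 2) hd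
  rw [← hn] at hg
  obtain ⟨⟨a0, a1, a2⟩, ⟨b0, b1, b2⟩, ⟨c0, c1, c2⟩, hY, hZ⟩ := hg
  refine ⟨!![dig33 n 0, dig33 n 1, dig33 n 2; dig33 n 3, dig33 n 4, dig33 n 5;
      dig33 n 6, dig33 n 7, dig33 n 8],
    !![dig33 n 9, dig33 n 10, dig33 n 11; dig33 n 12, dig33 n 13, dig33 n 14;
      dig33 n 15, dig33 n 16, dig33 n 17], ?_, sim3_comp33 _ hY, sim3_comp33 _ hZ⟩
  ext i j
  fin_cases i <;> fin_cases j <;>
    simp [Matrix.mul_apply, Fin.sum_univ_three, h00, h10, h20, a0, a1, a2, b0, b1, b2, c0, c1, c2]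

theorem Sim3.map {K F : Type*} [Field K] [Field F] (φ : K →+* F)
    {A B : Matrix (Fin 3) (Fin 3) K} (h : Sim3 A B) : Sim3 (A.map φ) (B.map φ) := by
  obtain ⟨P, Q, hPQ, rfl⟩ := h
  refine ⟨P.map φ, Q.map φ, ?_, ?_⟩
  · rw [← Matrix.map_mul, hPQ, Matrix.map_one _ (map_zero φ) (map_one φ)]
  · rw [Matrix.map_mul, Matrix.map_mul]

/-- Over a field with three elements, a non-scalar matrix of determinant one is a product of
two matrices similar to the companion matrix of `X³ - X - 1`. -/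
theorem sl33_factor_field {F : Type*} [Field F] [Fintype F] (hF : Fintype.card F = 3)
    (G : Matrix (Fin 3) (Fin 3) F) (hdet : G.det = 1)
    (hG : ∀ c : F, G ≠ Matrix.scalar (Fin 3) c) :
    ∃ Y Z : Matrix (Fin 3) (Fin 3) F, G = Y * Z ∧ Sim3 (comp33 F) Y ∧ Sim3 (comp33 F) Z := by
  obtain ⟨B, hB, hB10⟩ := exists_sim3_entry G hG
  obtain ⟨C, hC, hC00, hC10, hC20⟩ := sim3_first_col B hB10 0
  have hCdet : C.det = 1 := by rw [hC.det_eq, hB.det_eq, hdet]
  let φ : ZMod 3 ≃+* F := ZMod.ringEquivOfPrime F Nat.prime_three hF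
  obtain ⟨Y₀, Z₀, hYZ, hY, hZ⟩ := sl33_factor (C.map φ.symm) (by simp [hC00]) (by simp [hC10])
    (by simp [hC20]) (by
      have := RingHom.map_det (φ.symm : F →+* ZMod 3) C
      rw [hCdet, map_one] at this
      exact this.symm)
  have hC' : C = (Y₀.map φ) * (Z₀.map φ) := by
    rw [← Matrix.map_mul, ← hYZ, Matrix.map_map]
    ext i j
    simp
  obtain ⟨Y, Z, hYZ', hY', hZ'⟩ := (hB.trans hC).factor hC'
  refine ⟨Y, Z, hYZ', ?_, ?_⟩
  · have := (hY.map (φ : ZMod 3 →+* F)).trans hY'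
    rwa [comp33_map] at this
  · have := (hZ.map (φ : ZMod 3 →+* F)).trans hZ'
    rwa [comp33_map] at this

theorem comp33_pow_field {F : Type*} [Field F] [Fintype F] (hF : Fintype.card F = 3) :
    (comp33 F) ^ 13 = 1 := by
  let φ : ZMod 3 ≃+* F := ZMod.ringEquivOfPrime F Nat.prime_three hF
  have h := congrArg (fun M => (φ : ZMod 3 →+* F).mapMatrix M) comp33_pow
  simp only [map_pow, map_one, RingHom.mapMatrix_apply] at h
  rwa [comp33_map] at h

end Cfsg.Agent.Lib.Helper49
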