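import Mathlib

set_option autoImplicit false
set_option linter.style.haveILetI false

/-!
Element orders in a semidirect product `V ⋊ G` for a representation of `G` on a vector space
`V` of characteristic `p`.
-/

namespace Cfsg.Agent.Lib.Helper49

open Classical in
/-- Order of `(v, g)` in `V ⋊ G`: it is `orderOf g` if `(1 + ρ g + ⋯ + ρ g ^ (k-1)) v = 0`
and `p * orderOf g` otherwise. -/
theorem semi_orderOf {F : Type*} [Field F] (p : ℕ) [Fact p.Prime] [CharP F p] {V : Type*}
    [AddCommGroup V] [Module F V] {G : Type*} [Group G] (ρ : Representation F G V) (g : G)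
    (v : V) :
    orderOf (⟨Multiplicative.ofAdd v, g⟩ :
        Multiplicative V ⋊[(MulAutMultiplicative V).symm.toMonoidHom.comp
        ((DistribMulAction.toAddAut ((V →ₗ[F] V)ˣ) V).comp ρ.asGroupHom)] G) =
      if (∑ i ∈ Finset.range (orderOf g), ρ g ^ i) v = 0 then orderOf g else p * orderOf g := by
  set φ : G →* MulAut (Multiplicative V) := (MulAutMultiplicative V).symm.toMonoidHom.comp
        ((DistribMulAction.toAddAut ((V →ₗ[F] V)ˣ) V).comp ρ.asGroupHom) with hφ
  have hact : ∀ (h : G) (w : V), φ h (Multiplicative.ofAdd w) = Multiplicative.ofAdd (ρ h w) :=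
    fun h w => rfl
  have hpow : ∀ (v : V) (n : ℕ), (⟨Multiplicative.ofAdd v, g⟩ : Multiplicative V ⋊[φ] G) ^ n =
      ⟨Multiplicative.ofAdd (∑ i ∈ Finset.range n, (ρ g ^ i) v), g ^ n⟩ := by
    intro v n
    induction n with
    | zero =>
      simp only [pow_zero, Finset.range_zero, Finset.sum_empty, ofAdd_zero]
      rfl
    | succ n ih =>
      rw [pow_succ, ih]
      refine SemidirectProduct.ext ?_ ?_
      · simp only [SemidirectProduct.mul_left]
        rw [hact, Finset.sum_range_succ, ofAdd_add, map_pow]
      · simp only [SemidirectProduct.mul_right, pow_succ]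
  have hz : ∀ (w : V) (j : ℕ), (⟨Multiplicative.ofAdd w, 1⟩ : Multiplicative V ⋊[φ] G) ^ j =
      ⟨Multiplicative.ofAdd (j • w), 1⟩ := by
    intro w j
    induction j with
    | zero =>
      simp only [pow_zero, zero_smul, ofAdd_zero]
      rfl
    | succ j ih =>
      rw [pow_succ, ih]
      refine SemidirectProduct.ext ?_ ?_
      · simp only [SemidirectProduct.mul_left, map_one, MulAut.one_apply, add_smul, one_smul,
          ofAdd_add]
      · simp only [SemidirectProduct.mul_right, mul_one]
  set k := orderOf g with hk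
  set N : V →ₗ[F] V := ∑ i ∈ Finset.range k, ρ g ^ i with hN
  set x : Multiplicative V ⋊[φ] G := ⟨Multiplicative.ofAdd v, g⟩ with hx
  have hxk : x ^ k = ⟨Multiplicative.ofAdd (N v), 1⟩ := by
    rw [hx, hpow, hk, pow_orderOf_eq_one, hN, LinearMap.sum_apply]
  have hdiv : k ∣ orderOf x := by
    rw [hk, orderOf_dvd_iff_pow_eq_one]
    have h1 : x ^ orderOf x = 1 := pow_orderOf_eq_one x
    rw [hx, hpow] at h1
    exact congrArg SemidirectProduct.right h1
  split_ifs with h0
  · apply Nat.dvd_antisymm _ hdiv
    rw [orderOf_dvd_iff_pow_eq_one, hxk, h0, ofAdd_zero]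
    rfl
  · have hkj : ∀ j : ℕ, x ^ (k * j) = ⟨Multiplicative.ofAdd (j • N v), 1⟩ := by
      intro j
      rw [pow_mul, hxk, hz]
    apply Nat.dvd_antisymm
    · rw [orderOf_dvd_iff_pow_eq_one, mul_comm, hkj]
      have : p • N v = 0 := by
        rw [← Nat.cast_smul_eq_nsmul F p (N v), CharP.cast_eq_zero F p, zero_smul]
      rw [this, ofAdd_zero]
      rfl
    · obtain ⟨j, hj⟩ := hdiv
      have h1 : x ^ (k * j) = 1 := by rw [← hj]; exact pow_orderOf_eq_one x
      rw [hkj] at h1
      have h2 : Multiplicative.ofAdd (j • N v) = 1 := congrArg SemidirectProduct.left h1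
      have h3 : j • N v = 0 := by
        rw [← ofAdd_zero] at h2
        exact Multiplicative.ofAdd.injective h2
      rw [← Nat.cast_smul_eq_nsmul F j (N v), smul_eq_zero] at h3
      have h4 : (j : F) = 0 := h3.resolve_right h0
      rw [CharP.cast_eq_zero_iff F p j] at h4
      rw [hj, mul_comm]
      exact Nat.mul_dvd_mul_left k h4

open Classical in
/-- If `(v, g)` does not have the order of `g`, then `ρ g` has a non-zero fixed vector. -/
theorem semi_orderOf_cases {F : Type*} [Field F] (p : ℕ) [Fact p.Prime] [CharP F p] {V : Type*}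
    [AddCommGroup V] [Module F V] {G : Type*} [Group G] (ρ : Representation F G V)
    (x : Multiplicative V ⋊[(MulAutMultiplicative V).symm.toMonoidHom.comp
        ((DistribMulAction.toAddAut ((V →ₗ[F] V)ˣ) V).comp ρ.asGroupHom)] G) :
    orderOf x = orderOf x.right ∨
      (orderOf x = p * orderOf x.right ∧ ∃ w : V, w ≠ 0 ∧ ρ x.right w = w) := by
  have hx : x = ⟨Multiplicative.ofAdd (Multiplicative.toAdd x.left), x.right⟩ := by
    refine SemidirectProduct.ext ?_ ?_
    · simp
    · rfl
  have h := semi_orderOf p ρ x.right (Multiplicative.toAdd x.left)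
  rw [← hx] at h
  split_ifs at h with h0
  · exact Or.inl h
  · refine Or.inr ⟨h, _, h0, ?_⟩
    by_cases hfin : orderOf x.right = 0
    · rw [hfin] at h0
      simp at h0
    have h1 : (ρ x.right - 1) * (∑ i ∈ Finset.range (orderOf x.right), ρ x.right ^ i) = 0 := by
      rw [mul_geom_sum, ← map_pow, pow_orderOf_eq_one, map_one, sub_self]
    have h2 := congrArg (fun f : V →ₗ[F] V => f (Multiplicative.toAdd x.left)) h1
    simp only [Module.End.mul_apply, LinearMap.sub_apply, Module.End.one_apply,
      LinearMap.zero_apply] at h2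
    exact sub_eq_zero.mp h2

end Cfsg.Agent.Lib.Helper49
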