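import Mathlib
import Cfsg.Prelude.Def_Classical
import Cfsg.Agent.Lib.Helper49.Sp4Base
import Cfsg.Agent.Lib.Helper1.Sp4CONJX
import Cfsg.Agent.Lib.Helper26.Sp4CONJY

set_option autoImplicit false
set_option linter.style.haveILetI false
set_option linter.unusedSectionVars false
set_option linter.unusedVariables false

/-! Elements of `Sp4` with upper-left block `1` are products of two conjugates of `sMat A0` (S2460). -/

namespace Cfsg.Agent.Lib.Helper49.Sp4T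

open Matrix
open Cfsg.Agent.Lib.Helper1.Sp4T
open Cfsg.Agent.Lib.Helper26.Sp4T

section concrete

variable {F : Type*} [Field F]

theorem sMat_mem (A : M2 F) (hA : IsUnit A.det) : sMat A ∈ Matrix.symplecticGroup (Fin 2) F := by
  unfold sMat
  rw [SymplecticGroup.fromBlocks_mem_iff]
  refine ⟨by simp, by simp, ?_⟩
  rw [← Matrix.transpose_mul, Matrix.nonsing_inv_mul _ hA]
  simp

theorem sMat_mul (A B : M2 F) (hA : IsUnit A.det) (hB : IsUnit B.det) :
    sMat A * sMat B = sMat (A * B) := by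
  unfold sMat
  rw [Matrix.fromBlocks_multiply, Matrix.mul_inv_rev, Matrix.transpose_mul]
  simp

theorem sMat_one : sMat (1 : M2 F) = 1 := by
  unfold sMat
  simp

theorem sMat_pow (A : M2 F) (hA : IsUnit A.det) (N : ℕ) : sMat A ^ N = sMat (A ^ N) := by
  induction N with
  | zero => rw [pow_zero, pow_zero, sMat_one]
  | succ N ih =>
    rw [pow_succ, pow_succ, ih, sMat_mul _ _ _ hA]
    rw [Matrix.det_pow]
    exact hA.pow N

/-- FACT1 -/
theorem factor_one (A0 : M2 F) (hA : Good A0) (x0 : Sp4 F) (hx0 : (x0 : M4 F) = sMat A0)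
    (H : Sp4 F) (hH : (H : M4 F).toBlocks₁₁ = 1) :
    ∃ u v : Sp4 F, H = (u * x0 * u⁻¹) * (v * x0 * v⁻¹) := by
  obtain ⟨Q, hQ⟩ : ∃ Q : M2 F, Q = (H : M4 F).toBlocks₁₂ := ⟨_, rfl⟩
  obtain ⟨R, hR⟩ : ∃ R : M2 F, R = (H : M4 F).toBlocks₂₁ := ⟨_, rfl⟩
  obtain ⟨S, hS⟩ : ∃ S : M2 F, S = (H : M4 F).toBlocks₂₂ := ⟨_, rfl⟩
  have hHb : (H : M4 F) = Matrix.fromBlocks 1 Q R S := by
    rw [← hH, hQ, hR, hS]
    exact (Matrix.fromBlocks_toBlocks _).symm
  have hmem : Matrix.fromBlocks (1 : M2 F) Q R S ∈ Matrix.symplecticGroup (Fin 2) F := by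
    rw [← hHb]
    exact H.2
  obtain ⟨h1, h2, h3⟩ := SymplecticGroup.fromBlocks_mem_iff.mp hmem
  have hRs : Rᵀ = R := by simpa using h1.symm
  have hSe : S = 1 + R * Q := by
    have h3' : S - Rᵀ * Q = 1 := by simpa using h3
    rw [hRs] at h3'
    rw [← h3']
    abel
  have hQs : Qᵀ = Q := by
    rw [hSe] at h2
    rw [Matrix.mul_add, Matrix.mul_one, Matrix.transpose_add, Matrix.transpose_one,
      Matrix.transpose_mul, hRs, Matrix.add_mul, Matrix.one_mul, Matrix.mul_assoc,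
      ← Matrix.mul_assoc Qᵀ R Q] at h2
    exact add_right_cancel h2
  have hdet : IsUnit A0.det := hA.1
  have hxm : Matrix.fromBlocks A0 0 (R * A0) (A0⁻¹)ᵀ ∈ Matrix.symplecticGroup (Fin 2) F := by
    rw [SymplecticGroup.fromBlocks_mem_iff]
    refine ⟨?_, by simp, ?_⟩
    · rw [Matrix.transpose_mul, hRs, Matrix.mul_assoc]
    · rw [← Matrix.transpose_mul, Matrix.nonsing_inv_mul _ hdet]
      simp
  have hym : Matrix.fromBlocks A0⁻¹ (A0⁻¹ * Q) 0 A0ᵀ ∈ Matrix.symplecticGroup (Fin 2) F := by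
    rw [SymplecticGroup.fromBlocks_mem_iff]
    refine ⟨by simp, ?_, ?_⟩
    · rw [Matrix.transpose_mul, Matrix.transpose_transpose, hQs, Matrix.mul_assoc,
        ← Matrix.transpose_mul, Matrix.mul_nonsing_inv _ hdet, ← Matrix.mul_assoc,
        Matrix.mul_nonsing_inv _ hdet]
      simp
    · rw [← Matrix.transpose_mul, Matrix.mul_nonsing_inv _ hdet]
      simp
  obtain ⟨u, hu⟩ := conj_lower A0 hA x0 hx0 A0 1 (R * A0) (by simp) (by simp) ⟨_, hxm⟩ rfl
  obtain ⟨v, hv⟩ := conj_upper A0 hA x0 hx0 A0 1 (A0⁻¹ * Q) (by simp) (by simp) ⟨_, hym⟩ rfl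
  refine ⟨u, v, ?_⟩
  rw [← hu, ← hv]
  apply Subtype.ext
  change (H : M4 F) = Matrix.fromBlocks A0 0 (R * A0) (A0⁻¹)ᵀ *
    Matrix.fromBlocks A0⁻¹ (A0⁻¹ * Q) 0 A0ᵀ
  rw [hHb, Matrix.fromBlocks_multiply, hSe]
  congr 1
  · simp [Matrix.mul_nonsing_inv _ hdet]
  · rw [← Matrix.mul_assoc, Matrix.mul_nonsing_inv _ hdet]
    simp
  · rw [Matrix.mul_assoc, Matrix.mul_nonsing_inv _ hdet]
    simp
  · rw [Matrix.mul_assoc, ← Matrix.mul_assoc A0, Matrix.mul_nonsing_inv _ hdet,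
      ← Matrix.transpose_mul, Matrix.mul_nonsing_inv _ hdet]
    simp [add_comm]

end concrete

end Cfsg.Agent.Lib.Helper49.Sp4T
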