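import Mathlib
import Cfsg.Prelude.Def_Classical
import Cfsg.Agent.Lib.Helper49.Sp4Base

set_option autoImplicit false
set_option linter.style.haveILetI false
set_option linter.unusedSectionVars false
set_option linter.unusedVariables false

/-! From a tame Lagrangian to a symplectic frame. -/

namespace Cfsg.Agent.Lib.Helper49.Sp4T

section frame

variable {F : Type*} [Field F] {V : Type*} [AddCommGroup V] [Module F V]
  (ω : LinearMap.BilinForm F V)

theorem Symp.finite (hω : Symp ω) : FiniteDimensional F V := by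
  apply FiniteDimensional.of_finrank_pos
  rw [hω.dim]
  norm_num

theorem Symp.nd (hω : Symp ω) : ω.Nondegenerate := by
  refine ⟨hω.nondeg, ?_⟩
  intro y hy
  apply hω.nondeg
  intro x
  rw [hω.swap, hy x, neg_zero]

/-- a vector pairing to `1` with `a` and to `0` with `b` -/
theorem Symp.exists_dual (hω : Symp ω) (a b : V) (hab : a ∉ Submodule.span F {b}) :
    ∃ u : V, ω u a = 1 ∧ ω u b = 0 := by
  haveI := hω.finite
  obtain ⟨f, hfa, hfb⟩ := Submodule.exists_dual_map_eq_bot_of_notMem hab inferInstance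
  have hfb' : f b = 0 := by
    have : f b ∈ (Submodule.span F {b}).map f :=
      Submodule.mem_map_of_mem (Submodule.mem_span_singleton_self b)
    rw [hfb] at this
    simpa using this
  obtain ⟨u0, hu0⟩ : ∃ u0 : V, ∀ y, ω u0 y = f y := by
    refine ⟨(ω.toDual hω.nd).symm f, fun y => ?_⟩
    rw [← LinearMap.BilinForm.toDual_def hω.nd, LinearEquiv.apply_symm_apply]
  refine ⟨(f a)⁻¹ • u0, ?_, ?_⟩
  · rw [map_smul, LinearMap.smul_apply, hu0, smul_eq_mul, inv_mul_cancel₀ hfa]
  · rw [map_smul, LinearMap.smul_apply, hu0, hfb', smul_zero]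

theorem Symp.dual_pair (hω : Symp ω) (v1 v2 : V) (hli : LinearIndependent F ![v1, v2]) :
    ∃ u1 u2 : V, ω u1 v1 = 1 ∧ ω u1 v2 = 0 ∧ ω u2 v1 = 0 ∧ ω u2 v2 = 1 := by
  rw [LinearIndependent.pair_iff] at hli
  have h1 : v1 ∉ Submodule.span F {v2} := by
    intro h
    obtain ⟨c, hc⟩ := Submodule.mem_span_singleton.mp h
    have := (hli 1 (-c) (by rw [one_smul, neg_smul, hc]; abel)).1
    exact one_ne_zero this
  have h2 : v2 ∉ Submodule.span F {v1} := by
    intro h
    obtain ⟨c, hc⟩ := Submodule.mem_span_singleton.mp h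
    have := (hli (-c) 1 (by rw [one_smul, neg_smul, hc]; abel)).2
    exact one_ne_zero this
  obtain ⟨u1, hu1, hu1'⟩ := hω.exists_dual ω v1 v2 h1
  obtain ⟨u2, hu2, hu2'⟩ := hω.exists_dual ω v2 v1 h2
  exact ⟨u1, u2, hu1, hu1', hu2', hu2⟩

/-- `⟨v1, v2⟩^⊥ ⊆ ⟨v1, v2⟩` for a Lagrangian pair -/
theorem Symp.perp_le (hω : Symp ω) (v1 v2 : V) (hli : LinearIndependent F ![v1, v2])
    (h12 : ω v1 v2 = 0) (z : V) (hz1 : ω z v1 = 0) (hz2 : ω z v2 = 0) :
    z ∈ Submodule.span F {v1, v2} := by
  haveI := hω.finite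
  obtain ⟨u1, u2, h11, h12', h21, h22⟩ := hω.dual_pair ω v1 v2 hli
  have h21' : ω v2 v1 = 0 := by rw [hω.swap, h12, neg_zero]
  have hli4 : LinearIndependent F ![v1, v2, u1, u2] := by
    rw [Fintype.linearIndependent_iff]
    intro c hc
    rw [Fin.sum_univ_four] at hc
    simp only [Matrix.cons_val_zero, Matrix.cons_val_one, Matrix.cons_val_two,
      Matrix.cons_val_three, Matrix.head_cons, Matrix.tail_cons] at hc
    have e1 := congrArg (fun x => ω x v1) hc
    have e2 := congrArg (fun x => ω x v2) hc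
    simp only [map_add, map_smul, LinearMap.add_apply, LinearMap.smul_apply, smul_eq_mul,
      hω.alt, h12, h21', h11, h12', h21, h22, map_zero, LinearMap.zero_apply, mul_zero, mul_one,
      zero_add, add_zero] at e1 e2
    rw [e1, e2, zero_smul, zero_smul, add_zero, add_zero] at hc
    rw [LinearIndependent.pair_iff] at hli
    obtain ⟨e3, e4⟩ := hli _ _ hc
    intro i
    fin_cases i
    · exact e3
    · exact e4
    · exact e1
    · exact e2
  have htop := hli4.span_eq_top_of_card_eq_finrank' (by rw [hω.dim]; rfl)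
  have hz : z ∈ Submodule.span F (Set.range ![v1, v2, u1, u2]) := by
    rw [htop]
    trivial
  obtain ⟨c, hc⟩ := (Submodule.mem_span_range_iff_exists_fun F).mp hz
  rw [Fin.sum_univ_four] at hc
  simp only [Matrix.cons_val_zero, Matrix.cons_val_one, Matrix.cons_val_two,
    Matrix.cons_val_three, Matrix.head_cons, Matrix.tail_cons] at hc
  have e1 := congrArg (fun x => ω x v1) hc
  have e2 := congrArg (fun x => ω x v2) hc
  simp only [map_add, map_smul, LinearMap.add_apply, LinearMap.smul_apply, smul_eq_mul,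
    hω.alt, h12, h21', h11, h12', h21, h22, map_zero, LinearMap.zero_apply, mul_zero, mul_one,
    zero_add, add_zero, hz1, hz2] at e1 e2
  rw [e1, e2, zero_smul, zero_smul, add_zero, add_zero] at hc
  rw [← hc]
  exact Submodule.add_mem _ (Submodule.smul_mem _ _ (Submodule.subset_span (by simp)))
    (Submodule.smul_mem _ _ (Submodule.subset_span (by simp)))

theorem span_pair_ne_top (hω : Symp ω) (v1 v2 : V) : ∃ m : V, m ∉ Submodule.span F {v1, v2} := by
  classical
  haveI := hω.finite
  by_contra hcon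
  have htop : Submodule.span F {v1, v2} = ⊤ := by
    rw [Submodule.eq_top_iff']
    intro x
    by_contra hx
    exact hcon ⟨x, hx⟩
  have h1 := finrank_span_finset_le_card (R := F) ({v1, v2} : Finset V)
  have h2 : (({v1, v2} : Finset V) : Set V) = {v1, v2} := by simp
  rw [Set.finrank, h2, htop, finrank_top, hω.dim] at h1
  have h3 : ({v1, v2} : Finset V).card ≤ 2 := Finset.card_le_two
  omega

theorem finrank_span_triple_le (hω : Symp ω) (a b c : V) :
    Module.finrank F (Submodule.span F {a, b, c}) ≤ 3 := by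
  classical
  have h1 := finrank_span_finset_le_card (R := F) ({a, b, c} : Finset V)
  have h2 : (({a, b, c} : Finset V) : Set V) = {a, b, c} := by simp
  rw [Set.finrank, h2] at h1
  have h3 : ({a, b, c} : Finset V).card ≤ 3 := Finset.card_le_three
  omega

theorem finrank_ker_of_ne (hω : Symp ω) (m : V) (hm : m ≠ 0) :
    Module.finrank F (LinearMap.ker (ω m)) = 3 := by
  haveI := hω.finite
  have hsurj : LinearMap.range (ω m) = ⊤ := by
    rw [LinearMap.range_eq_top]
    obtain ⟨y, hy⟩ : ∃ y, ω m y ≠ 0 := by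
      by_contra hcon
      apply hm
      apply hω.nondeg
      intro y
      by_contra hy
      exact hcon ⟨y, hy⟩
    intro c
    refine ⟨(c / ω m y) • y, ?_⟩
    rw [map_smul, smul_eq_mul, div_mul_cancel₀ _ hy]
  have := LinearMap.finrank_range_add_finrank_ker (ω m)
  rw [hsurj, finrank_top, Module.finrank_self, hω.dim] at this
  omega

/-- PIECE FRAME -/
theorem frame_of_tame (g : V ≃ₗ[F] V) (hω : Symp ω) (hg : Isom ω g) (ε : F) (hε : ε * ε = 1)
    (ht : TameE ω g ε) :
    ∃ v1 v2 w1 w2 : V, Frame ω v1 v2 w1 w2 ∧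
      g v1 - ε • v1 ∈ Submodule.span F {w1, w2} ∧ g v2 - ε • v2 ∈ Submodule.span F {w1, w2} := by
  classical
  haveI := hω.finite
  obtain ⟨v1, v2, hli, h12, h3, h4⟩ := ht
  obtain ⟨m1, hm1⟩ : ∃ m1 : V, m1 = g v1 - ε • v1 := ⟨_, rfl⟩
  obtain ⟨m2, hm2⟩ : ∃ m2 : V, m2 = g v2 - ε • v2 := ⟨_, rfl⟩
  have hv1L : v1 ∈ Submodule.span F {v1, v2} := Submodule.subset_span (by simp)
  have hv2L : v2 ∈ Submodule.span F {v1, v2} := Submodule.subset_span (by simp)
  have hmm : ω m1 m2 = 0 := by
    rw [hm1, hm2]
    simp only [map_sub, map_smul, LinearMap.sub_apply, LinearMap.smul_apply, smul_eq_mul]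
    rw [hg v1 v2, h12]
    linear_combination (-ε) * h3
  have hML : ∀ a b : F, a • m1 + b • m2 ∈ Submodule.span F {v1, v2} → a • m1 + b • m2 = 0 := by
    intro a b hab
    have e : a • m1 + b • m2 = g (a • v1 + b • v2) - ε • (a • v1 + b • v2) := by
      rw [hm1, hm2, map_add, map_smul, map_smul]
      module
    have hmem : g (a • v1 + b • v2) ∈ Submodule.span F {v1, v2} := by
      have e2 : g (a • v1 + b • v2) = (a • m1 + b • m2) + ε • (a • v1 + b • v2) := by
        rw [e]
        abel
      rw [e2]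
      exact Submodule.add_mem _ hab (Submodule.smul_mem _ _
        (Submodule.add_mem _ (Submodule.smul_mem _ _ hv1L) (Submodule.smul_mem _ _ hv2L)))
    rw [e, h4 a b hmem, sub_self]
  obtain ⟨p1, p2, hp1, hp2, hpp, hmp1, hmp2⟩ : ∃ p1 p2 : V, p1 ∉ Submodule.span F {v1, v2} ∧
      p2 ∉ Submodule.span F {p1, v1, v2} ∧ ω p1 p2 = 0 ∧ m1 ∈ Submodule.span F {p1, p2} ∧
      m2 ∈ Submodule.span F {p1, p2} := by
    by_cases hdep : ∀ a b : F, a • m1 + b • m2 = 0 → a = 0 ∧ b = 0
    · refine ⟨m1, m2, ?_, ?_, hmm, Submodule.subset_span (by simp),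
        Submodule.subset_span (by simp)⟩
      · intro h
        have h0 := hML 1 0 (by simpa using h)
        exact one_ne_zero (hdep 1 0 h0).1
      · intro h
        rw [Submodule.mem_span_insert] at h
        obtain ⟨c, l, hl, hcl⟩ := h
        have h0 := hML (-c) 1 (by
          have : (-c) • m1 + (1 : F) • m2 = l := by
            rw [hcl]
            module
          rw [this]
          exact hl)
        exact one_ne_zero (hdep (-c) 1 h0).2
    · obtain ⟨a, b, hab, hne⟩ : ∃ a b : F, a • m1 + b • m2 = 0 ∧ (a = 0 → b ≠ 0) := by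
        by_contra hcon
        apply hdep
        intro a b hab
        by_contra hne
        apply hcon
        refine ⟨a, b, hab, fun ha hb => hne ⟨ha, hb⟩⟩
      obtain ⟨m, hmL, hm1m, hm2m⟩ : ∃ m : V, m ∉ Submodule.span F {v1, v2} ∧
          m1 ∈ Submodule.span F {m} ∧ m2 ∈ Submodule.span F {m} := by
        by_cases h10 : m1 = 0
        · by_cases h20 : m2 = 0
          · obtain ⟨m, hm⟩ := span_pair_ne_top ω hω v1 v2
            exact ⟨m, hm, by rw [h10]; exact Submodule.zero_mem _,
              by rw [h20]; exact Submodule.zero_mem _⟩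
          · refine ⟨m2, ?_, by rw [h10]; exact Submodule.zero_mem _,
              Submodule.mem_span_singleton_self _⟩
            intro h
            exact h20 (by simpa using hML 0 1 (by simpa using h))
        · refine ⟨m1, ?_, Submodule.mem_span_singleton_self _, ?_⟩
          · intro h
            exact h10 (by simpa using hML 1 0 (by simpa using h))
          · have hb : b ≠ 0 := by
              intro hb0
              rw [hb0, zero_smul, add_zero] at hab
              rcases smul_eq_zero.mp hab with h | h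
              · exact hne h hb0
              · exact h10 h
            rw [Submodule.mem_span_singleton]
            refine ⟨-(a / b), ?_⟩
            have hbm : b • m2 = -(a • m1) := eq_neg_of_add_eq_zero_right hab
            calc (-(a / b)) • m1 = b⁻¹ • (-(a • m1)) := by
                  rw [neg_smul, smul_neg, div_eq_inv_mul, mul_smul]
              _ = b⁻¹ • (b • m2) := by rw [hbm]
              _ = m2 := by rw [smul_smul, inv_mul_cancel₀ hb, one_smul]
      have hm0 : m ≠ 0 := fun h => hmL (by rw [h]; exact Submodule.zero_mem _)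
      obtain ⟨m', hm', hm'S⟩ : ∃ m' : V, ω m m' = 0 ∧ m' ∉ Submodule.span F {m, v1, v2} := by
        by_contra hcon
        have hker : LinearMap.ker (ω m) ≤ Submodule.span F {m, v1, v2} := by
          intro x hx
          by_contra hxS
          exact hcon ⟨x, by simpa using hx, hxS⟩
        have hfk := finrank_ker_of_ne ω hω m hm0
        have hfS := finrank_span_triple_le ω hω m v1 v2
        have heq : LinearMap.ker (ω m) = Submodule.span F {m, v1, v2} :=
          Submodule.eq_of_le_of_finrank_le hker (by omega)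
        have hv1 : ω m v1 = 0 := by
          have : v1 ∈ LinearMap.ker (ω m) := by
            rw [heq]
            exact Submodule.subset_span (by simp)
          simpa using this
        have hv2 : ω m v2 = 0 := by
          have : v2 ∈ LinearMap.ker (ω m) := by
            rw [heq]
            exact Submodule.subset_span (by simp)
          simpa using this
        exact hmL (hω.perp_le ω v1 v2 hli h12 m hv1 hv2)
      have hle : Submodule.span F {m} ≤ Submodule.span F {m, m'} :=
        Submodule.span_mono (by simp)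
      exact ⟨m, m', hmL, hm'S, hm', hle hm1m, hle hm2m⟩
  -- the basis `p2, p1, v1, v2` and its dual basis
  have hli3 : LinearIndependent F ![p1, v1, v2] := by
    have : ![p1, v1, v2] = Fin.cons p1 ![v1, v2] := rfl
    rw [this, linearIndependent_finCons]
    refine ⟨hli, ?_⟩
    have hr : Set.range ![v1, v2] = {v1, v2} := by
      ext x
      simp only [Set.mem_range, Set.mem_insert_iff, Set.mem_singleton_iff]
      constructor
      · rintro ⟨i, rfl⟩
        fin_cases i <;> simp
      · rintro (rfl | rfl)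
        exacts [⟨0, rfl⟩, ⟨1, rfl⟩]
    rw [hr]
    exact hp1
  have hli4 : LinearIndependent F ![p2, p1, v1, v2] := by
    have : ![p2, p1, v1, v2] = Fin.cons p2 ![p1, v1, v2] := rfl
    rw [this, linearIndependent_finCons]
    refine ⟨hli3, ?_⟩
    have hr : Set.range ![p1, v1, v2] = {p1, v1, v2} := by
      ext x
      simp only [Set.mem_range, Set.mem_insert_iff, Set.mem_singleton_iff]
      constructor
      · rintro ⟨i, rfl⟩
        fin_cases i <;> simp
      · rintro (rfl | rfl | rfl)
        exacts [⟨0, rfl⟩, ⟨1, rfl⟩, ⟨2, rfl⟩]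
    rw [hr]
    exact hp2
  obtain ⟨b, hb⟩ : ∃ b : Module.Basis (Fin 4) F V, ⇑b = ![p2, p1, v1, v2] :=
    ⟨basisOfLinearIndependentOfCardEqFinrank hli4 (by rw [hω.dim]; rfl),
      coe_basisOfLinearIndependentOfCardEqFinrank _ _⟩
  obtain ⟨d, hd⟩ : ∃ d : Module.Basis (Fin 4) F V, d = ω.dualBasis hω.nd b := ⟨_, rfl⟩
  have hdb : ∀ i j, ω (d i) (b j) = if j = i then 1 else 0 := by
    intro i j
    rw [hd]
    exact LinearMap.BilinForm.apply_dualBasis_left hω.nd b i j
  have hexp : ∀ x : V, x = ω x p2 • d 0 + ω x p1 • d 1 + ω x v1 • d 2 + ω x v2 • d 3 := by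
    intro x
    have h0 := (d.sum_repr x).symm
    rw [Fin.sum_univ_four] at h0
    have hr : ∀ i, d.repr x i = ω x (b i) := by
      intro i
      rw [hd]
      exact LinearMap.BilinForm.dualBasis_repr_apply hω.nd b x i
    rw [hr, hr, hr, hr, hb] at h0
    exact h0
  have hpp' : ω p2 p1 = 0 := by rw [hω.swap, hpp, neg_zero]
  have e1 : p1 = ω p1 v1 • d 2 + ω p1 v2 • d 3 := by
    have h0 := hexp p1
    rw [hpp, hω.alt, zero_smul, zero_smul, zero_add, zero_add] at h0
    exact h0
  have e2 : p2 = ω p2 v1 • d 2 + ω p2 v2 • d 3 := by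
    have h0 := hexp p2
    rw [hpp', hω.alt, zero_smul, zero_smul, zero_add, zero_add] at h0
    exact h0
  have hb2 : b 2 = v1 := by rw [hb]; rfl
  have hb3 : b 3 = v2 := by rw [hb]; rfl
  have hw11 : ω (d 2) v1 = 1 := by
    have := hdb 2 2
    rwa [hb2, if_pos rfl] at this
  have hw12 : ω (d 2) v2 = 0 := by
    have := hdb 2 3
    rwa [hb3, if_neg (by decide)] at this
  have hw21 : ω (d 3) v1 = 0 := by
    have := hdb 3 2
    rwa [hb2, if_neg (by decide)] at this
  have hw22 : ω (d 3) v2 = 1 := by
    have := hdb 3 3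
    rwa [hb3, if_pos rfl] at this
  obtain ⟨α1, hα1⟩ : ∃ α1 : F, α1 = ω p1 v1 := ⟨_, rfl⟩
  obtain ⟨α2, hα2⟩ : ∃ α2 : F, α2 = ω p1 v2 := ⟨_, rfl⟩
  obtain ⟨β1, hβ1⟩ : ∃ β1 : F, β1 = ω p2 v1 := ⟨_, rfl⟩
  obtain ⟨β2, hβ2⟩ : ∃ β2 : F, β2 = ω p2 v2 := ⟨_, rfl⟩
  rw [← hα1, ← hα2] at e1
  rw [← hβ1, ← hβ2] at e2
  -- ω (d 2) (d 3) = 0
  have hdd : ω (d 2) (d 3) = 0 := by
    have h0 : ω p1 p2 = (α1 * β2 - α2 * β1) * ω (d 2) (d 3) := by
      conv_lhs => rw [e1, e2]
      simp only [map_add, map_smul, LinearMap.add_apply, LinearMap.smul_apply, smul_eq_mul,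
        hω.alt]
      rw [hω.swap (d 3) (d 2)]
      ring
    rw [hpp] at h0
    rcases mul_eq_zero.mp h0.symm with hdet | h
    · exfalso
      have hrel1 : β2 • p1 = α2 • p2 + (α1 * β2 - α2 * β1) • d 2 := by
        rw [e1, e2]
        module
      have hrel2 : β1 • p1 = α1 • p2 - (α1 * β2 - α2 * β1) • d 3 := by
        rw [e1, e2]
        module
      rw [hdet, zero_smul, add_zero] at hrel1
      rw [hdet, zero_smul, sub_zero] at hrel2
      have hc1 : α2 = 0 := by
        by_contra hne
        apply hp2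
        have : p2 = (α2⁻¹ * β2) • p1 := by
          rw [mul_smul, hrel1, smul_smul, inv_mul_cancel₀ hne, one_smul]
        rw [this]
        exact Submodule.smul_mem _ _ (Submodule.subset_span (by simp))
      have hc2 : α1 = 0 := by
        by_contra hne
        apply hp2
        have : p2 = (α1⁻¹ * β1) • p1 := by
          rw [mul_smul, hrel2, smul_smul, inv_mul_cancel₀ hne, one_smul]
        rw [this]
        exact Submodule.smul_mem _ _ (Submodule.subset_span (by simp))
      rw [hc1, hc2, zero_smul, zero_smul, add_zero] at e1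
      apply hp1
      rw [e1]
      exact Submodule.zero_mem _
    · exact h
  have hp1w : p1 ∈ Submodule.span F {d 2, d 3} := by
    rw [e1]
    exact Submodule.add_mem _ (Submodule.smul_mem _ _ (Submodule.subset_span (by simp)))
      (Submodule.smul_mem _ _ (Submodule.subset_span (by simp)))
  have hp2w : p2 ∈ Submodule.span F {d 2, d 3} := by
    rw [e2]
    exact Submodule.add_mem _ (Submodule.smul_mem _ _ (Submodule.subset_span (by simp)))
      (Submodule.smul_mem _ _ (Submodule.subset_span (by simp)))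
  have hle : Submodule.span F {p1, p2} ≤ Submodule.span F {d 2, d 3} := by
    rw [Submodule.span_le]
    intro x hx
    rcases hx with rfl | rfl
    · exact hp1w
    · exact hp2w
  refine ⟨v1, v2, d 2, d 3, ⟨h12, hdd, hw11, hw22, hw12, hw21⟩, ?_, ?_⟩
  · rw [← hm1]
    exact hle hmp1
  · rw [← hm2]
    exact hle hmp2

end frame

end Cfsg.Agent.Lib.Helper49.Sp4T
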