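import Mathlib
import Cfsg.Prelude.Def_Classical
import Cfsg.Agent.Lib.Helper49.Sp4Base
import Cfsg.Agent.Lib.Helper80.Sp4A
import Cfsg.Agent.Lib.Helper80.Sp4C
import Cfsg.Agent.Lib.Helper32.Sp4D1
import Cfsg.Agent.Lib.Helper88.Sp4D3
import Cfsg.Agent.Lib.Helper60.Sp4B
import Cfsg.Agent.Lib.Helper60.Sp4D2

set_option autoImplicit false
set_option linter.style.haveILetI false
set_option linter.unusedSectionVars false
set_option linter.unusedVariables false

/-! The trichotomy for isometries of a four-dimensional symplectic space (S2460). -/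

namespace Cfsg.Agent.Lib.Helper49.Sp4T

open Matrix
open Cfsg.Agent.Lib.Helper80.Sp4T Cfsg.Agent.Lib.Helper32.Sp4T Cfsg.Agent.Lib.Helper88.Sp4T
open Cfsg.Agent.Lib.Helper60.Sp4T

section abstract

variable {F : Type*} [Field F] {V : Type*} [AddCommGroup V] [Module F V]
  (ω : LinearMap.BilinForm F V) (g : V ≃ₗ[F] V)

/-- the trichotomy -/
theorem tame_tri (hω : Symp ω) (hg : Isom ω g)
    (hq : ∃ c1 c0 : F, ∀ v, hh g (hh g v) = c1 • hh g v - c0 • v)
    (hg1 : ∃ v, g v ≠ v) (hg2 : ∃ v, g v ≠ -v) :
    TameE ω g 1 ∨ TameE ω g (-1) ∨ ((2 : F) ≠ 0 ∧ ∀ v, g (g v) = v) := by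
  classical
  by_cases hsc : ∃ μ : F, ∀ v, hh g v = μ • v
  · obtain ⟨μ, hD⟩ := hsc
    by_cases hroot : ∃ a : F, a * a - μ * a + 1 = 0
    · obtain ⟨a, ha⟩ := hroot
      by_cases ha2 : a * a = 1
      · have hμa : μ * a = 2 := by linear_combination -ha + ha2
        have hμ : μ = a + a := by
          calc μ = μ * (a * a) := by rw [ha2, mul_one]
            _ = (μ * a) * a := by ring
            _ = 2 * a := by rw [hμa]
            _ = a + a := by ring
        have hD' : ∀ v, hh g v = (a + a) • v := by
          intro v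
          rw [← hμ]
          exact hD v
        have ha' : a = 1 ∨ a = -1 := by
          have h0 : (a - 1) * (a + 1) = 0 := by linear_combination ha2
          rcases mul_eq_zero.mp h0 with h | h
          · left
            linear_combination h
          · right
            linear_combination h
        rcases ha' with rfl | rfl
        · left
          apply tame_D3 ω g hω hg 1 ha2 hD'
          obtain ⟨v, hv⟩ := hg1
          exact ⟨v, by rwa [one_smul]⟩
        · right
          left
          apply tame_D3 ω g hω hg (-1) ha2 hD'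
          obtain ⟨v, hv⟩ := hg2
          exact ⟨v, by rwa [neg_one_smul]⟩
      · left
        exact tame_D2 ω g hω hg μ a hD ha ha2
    · left
      exact tame_D1 ω g hω hg μ hD (fun a h => hroot ⟨a, h⟩)
  · have hns : ∀ μ : F, ∃ v, hh g v ≠ μ • v := by
      intro μ
      by_contra hcon
      apply hsc
      refine ⟨μ, fun v => ?_⟩
      by_contra hv
      exact hcon ⟨v, hv⟩
    obtain ⟨c1, c0, hq'⟩ := hq
    by_cases hroot : ∃ μ : F, μ * μ - c1 * μ + c0 = 0
    · obtain ⟨μ1, hμ1⟩ := hroot
      obtain ⟨μ2, hμ2⟩ : ∃ μ2 : F, μ2 = c1 - μ1 := ⟨_, rfl⟩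
      have hsum : μ1 + μ2 = c1 := by rw [hμ2]; ring
      have hprod : μ1 * μ2 = c0 := by rw [hμ2]; linear_combination -hμ1
      by_cases hne : μ1 = μ2
      · left
        apply tame_C ω g hω hg μ1 _ (hns μ1)
        intro v
        have e1 : μ1 + μ1 = c1 := by rw [← hsum, ← hne]
        have e2 : μ1 * μ1 = c0 := by rw [← hprod, ← hne]
        rw [hq' v, e1, e2]
      · apply tame_B ω g hω hg μ1 μ2 hne _ (hns μ1) (hns μ2)
        intro v
        rw [hq' v, hsum, hprod]
    · left
      apply tame_A ω g hω hg ⟨c1, c0, hq'⟩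
      intro μ v hv
      by_contra hv0
      apply hroot
      refine ⟨μ, ?_⟩
      have h1 := hq' v
      rw [hv, hh_smul, hv] at h1
      have h2 : (μ * μ - c1 * μ + c0) • v = 0 := by
        rw [add_smul, sub_smul, mul_smul, mul_smul, h1]
        abel
      rcases smul_eq_zero.mp h2 with h | h
      · exact h
      · exact absurd h hv0

end abstract

end Cfsg.Agent.Lib.Helper49.Sp4T
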