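import Mathlib
import Cfsg.Prelude.Def_Classical
import Cfsg.Agent.Lib.Helper49.Sp4Base
import Cfsg.Agent.Lib.Helper49.Sp4Frame
import Cfsg.Agent.Lib.Helper49.Sp4Tri
import Cfsg.Agent.Lib.Helper49.Sp4Fact
import Cfsg.Agent.Lib.Helper88.Sp4INVA
import Cfsg.Agent.Lib.Helper88.Sp4PARAM
import Cfsg.Agent.Lib.Helper2.Sp4F2
import Cfsg.Agent.Lib.Helper26.Sp4KFRAME
import Cfsg.Agent.Lib.Helper1.Sp4BLOCK
import Cfsg.Agent.Lib.Helper60.Sp4GOOD
import Cfsg.Agent.Lib.Helper26.Sp4TDEC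

set_option autoImplicit false
set_option linter.style.haveILetI false
set_option linter.unusedSectionVars false
set_option linter.unusedVariables false

/-! S2460: a semisimple class of `PSp(4, q)`, `q ≥ 3`, whose square covers the non-identity elements. -/

namespace Cfsg.Agent.Lib.Helper49.Sp4T

open Matrix
open Cfsg.Agent.Lib.Helper88.Sp4T Cfsg.Agent.Lib.Helper2.Sp4T Cfsg.Agent.Lib.Helper26.Sp4T
open Cfsg.Agent.Lib.Helper1.Sp4T Cfsg.Agent.Lib.Helper60.Sp4T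

section concrete

variable {F : Type*} [Field F]

theorem negOne_mul_self : negOne F * negOne F = 1 := by
  apply Subtype.ext
  change (-1 : M4 F) * (-1) = 1
  simp

theorem negOne_comm (x : Sp4 F) : negOne F * x = x * negOne F := by
  apply Subtype.ext
  change (-1 : M4 F) * (x : M4 F) = (x : M4 F) * (-1)
  simp

theorem negOne_mem_center : negOne F ∈ Subgroup.center (Sp4 F) := by
  rw [Subgroup.mem_center_iff]
  intro x
  exact (negOne_comm x).symm

theorem exists_mulVec_ne (M N : M4 F) (h : M ≠ N) : ∃ v : V4 F, M *ᵥ v ≠ N *ᵥ v := by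
  by_contra hcon
  apply h
  ext i j
  have := congrFun (not_not.mp (not_exists.mp hcon (Pi.single j 1))) i
  simpa using this

/-- the core: every non-central element is, up to sign, a product of two conjugates of `x0` -/
theorem core (A0 : M2 F) (hA : Good A0) (x0 : Sp4 F) (hx0 : (x0 : M4 F) = sMat A0)
    (hinv : (2 : F) ≠ 0 → ∀ t0 : Sp4 F, (t0 : M4 F) = tMat F →
      ∃ u v : Sp4 F, t0 = (u * x0 * u⁻¹) * (v * x0 * v⁻¹))
    (G : Sp4 F) (hG1 : G ≠ 1) (hG2 : G ≠ negOne F) :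
    ∃ u v : Sp4 F, G = (u * x0 * u⁻¹) * (v * x0 * v⁻¹) ∨
      G = negOne F * ((u * x0 * u⁻¹) * (v * x0 * v⁻¹)) := by
  have hω : Symp (Om F) := symp_Om
  have hg : Isom (Om F) (lin G) := isom_lin G
  have hq : ∃ c1 c0 : F, ∀ v, hh (lin G) (hh (lin G) v) = c1 • hh (lin G) v - c0 • v := by
    obtain ⟨c1, c0, h⟩ := sp4_quadratic G
    refine ⟨c1, c0, fun v => ?_⟩
    have e : ∀ w : V4 F, hh (lin G) w = ((G : M4 F) + ((G⁻¹ : Sp4 F) : M4 F)) *ᵥ w := by
      intro w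
      unfold hh
      rw [lin_apply, lin_symm_apply, Matrix.add_mulVec]
    rw [e, e, Matrix.mulVec_mulVec, h, Matrix.sub_mulVec, Matrix.smul_mulVec, Matrix.smul_mulVec,
      Matrix.one_mulVec]
  have hg1 : ∃ v, lin G v ≠ v := by
    have hne : (G : M4 F) ≠ 1 := fun h => hG1 (Subtype.ext h)
    obtain ⟨v, hv⟩ := exists_mulVec_ne _ _ hne
    refine ⟨v, ?_⟩
    rw [lin_apply]
    rwa [Matrix.one_mulVec] at hv
  have hg2 : ∃ v, lin G v ≠ -v := by
    have hne : (G : M4 F) ≠ -1 := fun h => hG2 (Subtype.ext h)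
    obtain ⟨v, hv⟩ := exists_mulVec_ne _ _ hne
    refine ⟨v, ?_⟩
    rw [lin_apply]
    rwa [Matrix.neg_mulVec, Matrix.one_mulVec] at hv
  rcases tame_tri (Om F) (lin G) hω hg hq hg1 hg2 with ht | ht | ⟨h2, hgg⟩
  · obtain ⟨v1, v2, w1, w2, hf, hm1, hm2⟩ := frame_of_tame (Om F) (lin G) hω hg 1 (by ring) ht
    obtain ⟨k, hk1, hk2, hk3, hk4⟩ := frame_matrix v1 v2 w1 w2 hf
    have hb := block_of_cols G k 1 v1 v2 w1 w2 hk1 hk2 hk3 hk4 hm1 hm2
    rw [one_smul] at hb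
    obtain ⟨u, v, huv⟩ := factor_one A0 hA x0 hx0 (k⁻¹ * G * k) hb
    refine ⟨k * u, k * v, Or.inl ?_⟩
    have : G = k * (k⁻¹ * G * k) * k⁻¹ := by group
    rw [this, huv]
    group
  · obtain ⟨v1, v2, w1, w2, hf, hm1, hm2⟩ := frame_of_tame (Om F) (lin G) hω hg (-1) (by ring) ht
    obtain ⟨k, hk1, hk2, hk3, hk4⟩ := frame_matrix v1 v2 w1 w2 hf
    have hb := block_of_cols G k (-1) v1 v2 w1 w2 hk1 hk2 hk3 hk4 hm1 hm2
    have hb' : ((negOne F * (k⁻¹ * G * k) : Sp4 F) : M4 F).toBlocks₁₁ = 1 := by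
      change ((-1 : M4 F) * ((k⁻¹ * G * k : Sp4 F) : M4 F)).toBlocks₁₁ = 1
      rw [neg_one_mul]
      have : (-((k⁻¹ * G * k : Sp4 F) : M4 F)).toBlocks₁₁ =
          -(((k⁻¹ * G * k : Sp4 F) : M4 F).toBlocks₁₁) := by
        ext i j
        simp [Matrix.toBlocks₁₁]
      rw [this, hb]
      simp
    obtain ⟨u, v, huv⟩ := factor_one A0 hA x0 hx0 (negOne F * (k⁻¹ * G * k)) hb'
    refine ⟨k * u, k * v, Or.inr ?_⟩
    have h1 : k⁻¹ * G * k = negOne F * ((u * x0 * u⁻¹) * (v * x0 * v⁻¹)) := by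
      rw [← huv, ← mul_assoc, negOne_mul_self, one_mul]
    have h2 : G = k * (k⁻¹ * G * k) * k⁻¹ := by group
    rw [h2, h1, ← mul_assoc k (negOne F), ← negOne_comm k]
    group
  · obtain ⟨e1, e2, f1, f2, hf, he1, hf1, he2, hf2⟩ :=
      invol_frame (Om F) (lin G) hω hg h2 hgg hg1 hg2
    obtain ⟨k, hk1, hk2, hk3, hk4⟩ := frame_matrix e1 e2 f1 f2 hf
    have ht := invol_of_cols G k e1 e2 f1 f2 hk1 hk2 hk3 hk4 he1 hf1 he2 hf2
    obtain ⟨u, v, huv⟩ := hinv h2 (k⁻¹ * G * k) ht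
    refine ⟨k * u, k * v, Or.inl ?_⟩
    have : G = k * (k⁻¹ * G * k) * k⁻¹ := by group
    rw [this, huv]
    group

end concrete

section final

variable {F : Type*} [Field F] [Fintype F]

/-- transfer to `PSp` -/
theorem psp_of_core (p : ℕ) (A0 : M2 F) (hA : Good A0) (N : ℕ) (hN : ¬ p ∣ N) (hpow : A0 ^ N = 1)
    (hinv : (2 : F) ≠ 0 → ∀ (x0 t0 : Sp4 F), (x0 : M4 F) = sMat A0 → (t0 : M4 F) = tMat F →
      ∃ u v : Sp4 F, t0 = (u * x0 * u⁻¹) * (v * x0 * v⁻¹)) :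
    ∃ x : Cfsg.PSp 2 F, ¬ p ∣ orderOf x ∧ ∀ g : Cfsg.PSp 2 F, g ≠ 1 →
      ∃ u v : Cfsg.PSp 2 F, g = (u * x * u⁻¹) * (v * x * v⁻¹) := by
  obtain ⟨x0, hx0⟩ : ∃ x0 : Sp4 F, (x0 : M4 F) = sMat A0 := ⟨⟨sMat A0, sMat_mem A0 hA.1⟩, rfl⟩
  refine ⟨QuotientGroup.mk x0, ?_, ?_⟩
  · have h1 : x0 ^ N = 1 := by
      apply Subtype.ext
      change (x0 : M4 F) ^ N = 1
      rw [hx0, sMat_pow _ hA.1, hpow, sMat_one]
    have h2 : (QuotientGroup.mk x0 : Cfsg.PSp 2 F) ^ N = 1 := by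
      rw [← QuotientGroup.mk_pow, h1]
      rfl
    intro hdvd
    exact hN (dvd_trans hdvd (orderOf_dvd_of_pow_eq_one h2))
  · intro g hg
    obtain ⟨G, rfl⟩ := QuotientGroup.mk_surjective g
    have hG1 : G ≠ 1 := by
      rintro rfl
      exact hg rfl
    have hG2 : G ≠ negOne F := by
      rintro rfl
      exact hg ((QuotientGroup.eq_one_iff _).mpr negOne_mem_center)
    obtain ⟨u, v, h | h⟩ := core A0 hA x0 hx0 (fun h2 t0 ht0 => hinv h2 x0 t0 hx0 ht0) G hG1 hG2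
    · refine ⟨QuotientGroup.mk u, QuotientGroup.mk v, ?_⟩
      rw [h]
      rfl
    · refine ⟨QuotientGroup.mk u, QuotientGroup.mk v, ?_⟩
      rw [h, QuotientGroup.mk_mul, (QuotientGroup.eq_one_iff _).mpr negOne_mem_center, one_mul]
      rfl

/-- S2460 -/
theorem main_sp4 (p : ℕ) [Fact p.Prime] [CharP F p] (h3 : 3 ≤ Fintype.card F) :
    ∃ x : Cfsg.PSp 2 F, ¬ p ∣ orderOf x ∧ ∀ g : Cfsg.PSp 2 F, g ≠ 1 →
      ∃ u v : Cfsg.PSp 2 F, g = (u * x * u⁻¹) * (v * x * v⁻¹) := by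
  classical
  by_cases hp : p = 2
  · subst hp
    have h20 : (2 : F) = 0 := by
      have := CharP.cast_eq_zero F 2
      exact_mod_cast this
    -- an element outside {0, 1}
    obtain ⟨a, ha0, ha1⟩ : ∃ a : F, a ≠ 0 ∧ a ≠ 1 := by
      by_contra hcon
      have hsub : (Finset.univ : Finset F) ⊆ {0, 1} := by
        intro a _
        by_contra ha
        simp only [Finset.mem_insert, Finset.mem_singleton, not_or] at ha
        exact hcon ⟨a, ha.1, ha.2⟩
      have := Finset.card_le_card hsub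
      have h2 : ({0, 1} : Finset F).card ≤ 2 := Finset.card_le_two
      rw [Finset.card_univ] at this
      omega
    have haa : a * a ≠ 1 := by
      intro h
      apply ha1
      have h0 : (a + 1) * (a + 1) = 0 := by linear_combination h + (a + 1) * h20
      have h1 : a + 1 = 0 := by
        rcases mul_eq_zero.mp h0 with h | h <;> exact h
      linear_combination h1 - h20
    have hgood : Good (a • (1 : M2 F)) := good_scalar a ha0 haa
    have hpow : (a • (1 : M2 F)) ^ (Fintype.card F - 1) = 1 := by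
      rw [smul_pow, one_pow, FiniteField.pow_card_sub_one_eq_one a ha0, one_smul]
    have hN : ¬ 2 ∣ Fintype.card F - 1 := by
      obtain ⟨n, hn⟩ := FiniteField.card F 2
      have hn' : Fintype.card F = 2 ^ (n : ℕ) := hn.2
      have hpos : 0 < (n : ℕ) := n.pos
      have h2dvd : 2 ∣ Fintype.card F := by
        rw [hn']
        exact dvd_pow_self 2 hpos.ne'
      omega
    exact psp_of_core 2 _ hgood _ hN hpow (fun h2 => absurd h20 h2)
  · obtain ⟨s, n, hn0, hn1, hs1, hs2, ⟨N, hN, hpow⟩, a, c, hac⟩ := exists_param_odd (F := F) p hp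
    have hgood : Good (comp s n) := good_comp s n hn0 hn1 hs1 hs2
    exact psp_of_core p _ hgood N hN hpow
      (fun h2 x0 t0 hx0 ht0 => tMat_factor h2 s n hn0 hgood x0 hx0 a c hac t0 ht0)

end final

end Cfsg.Agent.Lib.Helper49.Sp4T
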