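import Mathlib
import Cfsg.Agent.Lib.Helper49.UDich
import Cfsg.Agent.Lib.Helper49.UCox

set_option autoImplicit false
set_option linter.style.haveILetI false
set_option linter.unusedSectionVars false

/-!
Unitary matrices of prime order `r`, where `r` is a "large" primitive prime divisor: such a
matrix in dimension `n ≤ 2 m` has no nonzero fixed vector, and commutes with no non-trivial
self-adjoint idempotent.
-/

namespace Cfsg.Agent.Lib.Helper49

open Polynomial Cfsg.Agent.Lib.Helper47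

section fix

variable {F : Type*} [Field F] [Fintype F]

/-- the root field of a monic irreducible `φ` whose root has prime order `r` -/
theorem ppd_dvd_of_root (φ : F[X]) (hmon : φ.Monic) [Fact (Irreducible φ)] (r : ℕ)
    (hr : r.Prime) (h1 : AdjoinRoot.root φ ^ r = 1) (h2 : AdjoinRoot.root φ ≠ 1) :
    r ∣ Fintype.card F ^ φ.natDegree - 1 := by
  classical
  have hne : φ ≠ 0 := hmon.ne_zero
  haveI : Module.Finite F (AdjoinRoot φ) := (AdjoinRoot.powerBasis hne).finite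
  haveI : Finite (AdjoinRoot φ) := Module.finite_of_finite F
  haveI : Fintype (AdjoinRoot φ) := Fintype.ofFinite _
  have hfr : Module.finrank F (AdjoinRoot φ) = φ.natDegree := by
    rw [(AdjoinRoot.powerBasis hne).finrank, AdjoinRoot.powerBasis_dim]
  have hcard : Fintype.card (AdjoinRoot φ) = Fintype.card F ^ φ.natDegree := by
    rw [← hfr]
    exact Module.card_eq_pow_finrank
  have h0 : AdjoinRoot.root φ ≠ 0 := by
    intro h
    rw [h, zero_pow hr.ne_zero] at h1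
    exact zero_ne_one h1
  haveI : Fact r.Prime := ⟨hr⟩
  have hord : orderOf (AdjoinRoot.root φ) = r := orderOf_eq_prime h1 h2
  have hu : orderOf (Units.mk0 _ h0) = r := by
    rw [← hord, ← orderOf_units]
    rfl
  have h3 := orderOf_dvd_card (x := Units.mk0 _ h0)
  rw [hu, Fintype.card_units, hcard] at h3
  exact h3

/-- Frobenius and evaluation. -/
theorem frob_aeval {K : Type*} [Field K] [Algebra F K] (p a q : ℕ) [Fact p.Prime] [CharP F p]
    (hq : q = p ^ a) (σ : F →+* F) (hσq : ∀ x, σ x = x ^ q) (P : F[X]) (y : K) :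
    (aeval y P) ^ q = aeval (y ^ q) (P.map σ) := by
  haveI : CharP K p := charP_of_injective_algebraMap (algebraMap F K).injective p
  haveI : ExpChar K p := ExpChar.prime Fact.out
  have h1 := Polynomial.hom_eval₂ P (algebraMap F K) (iterateFrobenius K p a) y
  rw [iterateFrobenius_def, iterateFrobenius_def, ← hq] at h1
  rw [aeval_def, h1, aeval_def, Polynomial.eval₂_map]
  congr 1
  ext c
  simp only [RingHom.comp_apply, iterateFrobenius_def, ← hq, hσq, map_pow]

/-- A unitary matrix of prime order `r` in dimension `n ≤ 2 m` has no nonzero fixed vector, when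
irreducible factors of `X ^ r - 1` other than `X - 1` have degree at least `m` and `r` divides
no `q ^ δ + 1` with `δ` odd. -/
theorem no_fixed_of_ppd (p a q : ℕ) [Fact p.Prime] [CharP F p] (hq : q = p ^ a)
    (hF : Fintype.card F = q ^ 2) (σ : F →+* F) (hσq : ∀ x, σ x = x ^ q) {n : ℕ} (m : ℕ)
    (hn : n ≤ 2 * m) (r : ℕ) (hr : r.Prime) (hrp : r ≠ p)
    (H1 : ∀ δ : ℕ, r ∣ (q ^ 2) ^ δ - 1 → δ ≠ 0 → m ≤ δ)
    (H2 : ∀ δ : ℕ, Odd δ → ¬ r ∣ q ^ δ + 1)
    (T : Matrix (Fin n) (Fin n) F) (hU : IsU σ T) (hT : T ^ r = 1) (hT1 : T ≠ 1)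
    (v : Fin n → F) (hv : v ≠ 0) (hTv : T.mulVec v = v) : False := by
  classical
  have hpp : p.Prime := Fact.out
  haveI : Fact r.Prime := ⟨hr⟩
  have hσσ := sigma_sigma q hF σ hσq
  have hint : IsIntegral F T := Matrix.isIntegral T
  obtain ⟨mp, hmp⟩ : ∃ mp : F[X], mp = minpoly F T := ⟨_, rfl⟩
  have hmon : mp.Monic := hmp ▸ minpoly.monic hint
  have hrp' : ¬ p ∣ r := fun h => hrp ((Nat.prime_dvd_prime_iff_eq hpp hr).mp h).symm
  have hsq : Squarefree mp := by
    have h1 := squarefree_minpoly_aeval p T r hrp' hT X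
    rwa [aeval_X, ← hmp] at h1
  have hmpT : aeval T mp = 0 := by
    rw [hmp]
    exact minpoly.aeval F T
  have hdvdr : mp ∣ (X ^ r - 1 : F[X]) := by
    rw [hmp]
    apply minpoly.dvd
    rw [map_sub, map_pow, aeval_X, map_one, hT, sub_self]
  have hX1 : (X - C 1 : F[X]) ∣ mp := by
    by_contra hnd
    obtain ⟨a', b', hab⟩ := (Polynomial.irreducible_X_sub_C (1 : F)).coprime_iff_not_dvd.mpr hnd
    have h1 := congrArg (aeval T) hab
    simp only [map_add, map_mul, map_sub, aeval_X, map_one, hmpT, mul_zero, add_zero] at h1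
    have h2 : (aeval T a' * (T - 1)).mulVec v = v := by rw [h1, Matrix.one_mulVec]
    rw [← Matrix.mulVec_mulVec, Matrix.sub_mulVec, hTv, Matrix.one_mulVec, sub_self,
      Matrix.mulVec_zero] at h2
    exact hv h2.symm
  obtain ⟨c, hc⟩ := hX1
  have hc0 : c ≠ 0 := by
    rintro rfl
    rw [mul_zero] at hc
    exact hmon.ne_zero hc
  have hcunit : ¬ IsUnit c := by
    intro hu
    obtain ⟨k, hk0, hk⟩ := Polynomial.isUnit_iff.mp hu
    rw [hc, ← hk, map_mul, map_sub, aeval_X, aeval_C, aeval_C, map_one,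
      Algebra.algebraMap_eq_smul_one, mul_smul_comm, mul_one] at hmpT
    have h1 := (smul_eq_zero.mp hmpT).resolve_left hk0.ne_zero
    exact hT1 (sub_eq_zero.mp h1)
  obtain ⟨f, hfirr, hfdvd⟩ := WfDvdMonoid.exists_irreducible_factor hcunit hc0
  obtain ⟨f₀, hf₀⟩ : ∃ f₀ : F[X], f₀ = normalize f := ⟨_, rfl⟩
  have hf₀mon : f₀.Monic := hf₀ ▸ Polynomial.monic_normalize hfirr.ne_zero
  have hf₀irr : Irreducible f₀ := by
    rw [hf₀]
    exact (normalize_associated f).symm.irreducible hfirr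
  have hf₀dvd : f₀ ∣ c := by
    rw [hf₀]
    exact normalize_dvd_iff.mpr hfdvd
  obtain ⟨c', hc'⟩ := hf₀dvd
  have hc'0 : c' ≠ 0 := by
    rintro rfl
    rw [mul_zero] at hc'
    exact hc0 hc'
  haveI : Fact (Irreducible f₀) := ⟨hf₀irr⟩
  have hf₀mp : f₀ ∣ mp := ⟨(X - C 1) * c', by rw [hc, hc']; ring⟩
  obtain ⟨lam, hlam⟩ : ∃ lam : AdjoinRoot f₀, lam = AdjoinRoot.root f₀ := ⟨_, rfl⟩
  have hlamr : lam ^ r = 1 := by
    have h2 := AdjoinRoot.mk_eq_zero.mpr (hf₀mp.trans hdvdr)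
    rw [map_sub, map_pow, AdjoinRoot.mk_X, map_one, sub_eq_zero] at h2
    rw [hlam]
    exact h2
  have hlam1 : lam ≠ 1 := by
    intro h
    have h1 : AdjoinRoot.mk f₀ (X - C 1) = 0 := by
      rw [map_sub, AdjoinRoot.mk_X, AdjoinRoot.mk_C, map_one, ← hlam, h, sub_self]
    obtain ⟨u, hu⟩ := AdjoinRoot.mk_eq_zero.mp h1
    have h3 : f₀ * f₀ ∣ mp := ⟨u * c', by rw [hc, hc', hu]; ring⟩
    exact hf₀irr.not_isUnit (hsq f₀ h3)
  obtain ⟨ρ, hρdef⟩ : ∃ ρ : AdjoinRoot f₀, ρ = lam ^ (r - 1) := ⟨_, rfl⟩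
  have hρ : ρ * lam = 1 := by
    rw [hρdef, ← pow_succ, Nat.sub_add_cancel hr.pos, hlamr]
  have hρ1 : ρ ≠ 1 := by
    intro h
    rw [h, one_mul] at hρ
    exact hlam1 hρ
  have hρr : ρ ^ r = 1 := by
    rw [hρdef, ← pow_mul, mul_comm, pow_mul, hlamr, one_pow]
  have hρmp : aeval ρ (mp.map σ) = 0 := by
    have hadj : adjM σ T = T ^ (r - 1) := hU.adj_eq_pow σ hr.ne_zero hT
    have h1 : aeval T ((mp.map σ).comp (X ^ (r - 1))) = 0 := by
      rw [aeval_comp, map_pow, aeval_X, ← hadj, ← adjM_aeval, hmpT, adjM_zero]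
    have h2 : mp ∣ (mp.map σ).comp (X ^ (r - 1)) := by
      rw [hmp] at h1 ⊢
      exact minpoly.dvd F T h1
    have h3 : AdjoinRoot.mk f₀ ((mp.map σ).comp (X ^ (r - 1))) = 0 :=
      AdjoinRoot.mk_eq_zero.mpr (hf₀mp.trans h2)
    rw [← AdjoinRoot.aeval_eq, aeval_comp, map_pow, aeval_X, ← hlam, ← hρdef] at h3
    exact h3
  have hfac : mp.map σ = (X - C 1) * (f₀.map σ * c'.map σ) := by
    rw [hc, hc', Polynomial.map_mul, Polynomial.map_mul, Polynomial.map_sub, Polynomial.map_X,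
      Polynomial.map_C, map_one]
  rw [hfac, map_mul, map_mul, map_sub, aeval_X, aeval_C, map_one] at hρmp
  have hordlam : orderOf lam = r := orderOf_eq_prime hlamr hlam1
  have hdeg₀ : m ≤ f₀.natDegree := by
    apply H1
    · have h1 := ppd_dvd_of_root f₀ hf₀mon r hr (hlam ▸ hlamr) (hlam ▸ hlam1)
      rw [hF] at h1
      exact h1
    · exact (Irreducible.natDegree_pos hf₀irr).ne'
  rcases mul_eq_zero.mp hρmp with h | h
  · exact hρ1 (sub_eq_zero.mp h)
  rcases mul_eq_zero.mp h with h | h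
  · -- self-dual factor
    obtain ⟨hodd, hpw⟩ := root_pow_of_selfdual p a q hq hF σ hσq f₀ hf₀mon ρ (hlam ▸ hρ) h
    rw [← hlam] at hpw
    have h1 := orderOf_dvd_of_pow_eq_one hpw
    rw [hordlam] at h1
    exact H2 _ hodd h1
  · -- a second factor
    have hne : f₀ ≠ 0 := hf₀mon.ne_zero
    haveI : Module.Finite F (AdjoinRoot f₀) := (AdjoinRoot.powerBasis hne).finite
    have h1 : aeval (ρ ^ q) c' = 0 := by
      have h2 := frob_aeval (K := AdjoinRoot f₀) p a q hq σ hσq (c'.map σ) ρ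
      rw [h, Polynomial.map_map] at h2
      have h3 : σ.comp σ = RingHom.id F := RingHom.ext hσσ
      rw [h3, Polynomial.map_id] at h2
      have hq0 : q ≠ 0 := by
        rw [hq]
        exact pow_ne_zero _ hpp.ne_zero
      rw [zero_pow hq0] at h2
      exact h2.symm
    have hintρ : IsIntegral F (ρ ^ q) := Algebra.IsIntegral.isIntegral _
    obtain ⟨f₂, hf₂⟩ : ∃ f₂ : F[X], f₂ = minpoly F (ρ ^ q) := ⟨_, rfl⟩
    have hf₂irr : Irreducible f₂ := hf₂ ▸ minpoly.irreducible hintρ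
    have hf₂mon : f₂.Monic := hf₂ ▸ minpoly.monic hintρ
    have hf₂dvd : f₂ ∣ c' := by
      rw [hf₂]
      exact minpoly.dvd F _ h1
    haveI : Fact (Irreducible f₂) := ⟨hf₂irr⟩
    have hcop : Nat.Coprime r q := by
      rw [hq]
      exact Nat.Coprime.pow_right a ((Nat.coprime_primes hr hpp).mpr hrp)
    have hρq1 : ρ ^ q ≠ 1 := by
      intro h2
      have h3 : orderOf ρ ∣ q := orderOf_dvd_of_pow_eq_one h2
      have h4 : orderOf ρ ∣ r := orderOf_dvd_of_pow_eq_one hρr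
      have h5 : orderOf ρ = 1 := Nat.eq_one_of_dvd_coprimes hcop h4 h3
      exact hρ1 (orderOf_eq_one_iff.mp h5)
    have hy2r : AdjoinRoot.root f₂ ^ r = 1 := by
      have h2 : f₂ ∣ (X ^ r - 1 : F[X]) := by
        rw [hf₂]
        apply minpoly.dvd
        rw [map_sub, map_pow, aeval_X, map_one, ← pow_mul, mul_comm, pow_mul, hρr, one_pow,
          sub_self]
      have h3 := AdjoinRoot.mk_eq_zero.mpr h2
      rw [map_sub, map_pow, AdjoinRoot.mk_X, map_one, sub_eq_zero] at h3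
      exact h3
    have hy21 : AdjoinRoot.root f₂ ≠ 1 := by
      intro h2
      have h3 : AdjoinRoot.mk f₂ (X - C 1) = 0 := by
        rw [map_sub, AdjoinRoot.mk_X, AdjoinRoot.mk_C, map_one, h2, sub_self]
      obtain ⟨u, hu⟩ := AdjoinRoot.mk_eq_zero.mp h3
      have h4 : aeval (ρ ^ q) (X - C 1 : F[X]) = 0 := by
        rw [hu, map_mul, hf₂, minpoly.aeval, zero_mul]
      rw [map_sub, aeval_X, aeval_C, map_one] at h4
      exact hρq1 (sub_eq_zero.mp h4)
    have hdeg₂ : m ≤ f₂.natDegree := by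
      apply H1
      · have h2 := ppd_dvd_of_root f₂ hf₂mon r hr hy2r hy21
        rw [hF] at h2
        exact h2
      · exact (Irreducible.natDegree_pos hf₂irr).ne'
    have hdegc' : f₂.natDegree ≤ c'.natDegree := natDegree_le_of_dvd hf₂dvd hc'0
    have hdegmp : mp.natDegree = 1 + (f₀.natDegree + c'.natDegree) := by
      rw [hc, hc', natDegree_mul (X_sub_C_ne_zero 1) (mul_ne_zero hne hc'0),
        natDegree_mul hne hc'0, natDegree_X_sub_C]
    have hdegle : mp.natDegree ≤ n := by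
      have h2 : mp ∣ T.charpoly := hmp ▸ Matrix.minpoly_dvd_charpoly T
      have h3 := natDegree_le_of_dvd h2 (Matrix.charpoly_monic T).ne_zero
      rw [Matrix.charpoly_natDegree_eq_dim, Fintype.card_fin] at h3
      exact h3
    omega

/-- A unitary matrix of prime order `r` (as above) commutes with no pair of complementary
non-trivial self-adjoint idempotents on one of which it acts non-trivially. -/
theorem no_idem_of_ppd (p a q : ℕ) [Fact p.Prime] [CharP F p] (hq : q = p ^ a)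
    (hF : Fintype.card F = q ^ 2) (σ : F →+* F) (hσq : ∀ x, σ x = x ^ q) {n : ℕ} (m : ℕ)
    (hn : n ≤ 2 * m) (r : ℕ) (hr : r.Prime) (hrp : r ≠ p)
    (H1 : ∀ δ : ℕ, r ∣ (q ^ 2) ^ δ - 1 → δ ≠ 0 → m ≤ δ)
    (H2 : ∀ δ : ℕ, Odd δ → ¬ r ∣ q ^ δ + 1)
    (T : Matrix (Fin n) (Fin n) F) (hU : IsU σ T) (hT : T ^ r = 1)
    (e₁ e₂ : Matrix (Fin n) (Fin n) F) (h11 : e₁ * e₁ = e₁) (h22 : e₂ * e₂ = e₂)
    (h12 : e₁ * e₂ = 0) (h21 : e₂ * e₁ = 0) (hsum : e₁ + e₂ = 1) (ha1 : adjM σ e₁ = e₁)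
    (ha2 : adjM σ e₂ = e₂) (hT1 : T * e₁ = e₁ * T) (hT2 : T * e₂ = e₂ * T) (he2 : e₂ ≠ 0)
    (hne : T * e₁ ≠ e₁) : False := by
  classical
  have hσσ := sigma_sigma q hF σ hσq
  obtain ⟨T', hT'⟩ : ∃ T' : Matrix (Fin n) (Fin n) F, T' = adjM σ T := ⟨_, rfl⟩
  have hT'T : T' * T = 1 := by
    rw [hT']
    exact hU
  have hT'2 : T' * e₂ = e₂ * T' := by
    have h1 := congrArg (adjM σ) hT2
    rw [adjM_mul, adjM_mul, ha2, ← hT'] at h1
    exact h1.symm
  obtain ⟨S, hS⟩ : ∃ S : Matrix (Fin n) (Fin n) F, S = T * e₁ + e₂ := ⟨_, rfl⟩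
  have hSU : IsU σ S := by
    unfold IsU
    rw [hS, adjM_add, adjM_mul, ha1, ha2, ← hT']
    have h1 : e₁ * T' * (T * e₁) = e₁ := by
      rw [mul_assoc, ← mul_assoc T', hT'T, one_mul, h11]
    have h2 : e₁ * T' * e₂ = 0 := by
      rw [mul_assoc, hT'2, ← mul_assoc, h12, zero_mul]
    have h3 : e₂ * (T * e₁) = 0 := by
      rw [hT1, ← mul_assoc, h21, zero_mul]
    rw [add_mul, mul_add, mul_add, h1, h2, h3, h22, add_zero, zero_add, hsum]
  have hSpow : ∀ j : ℕ, S ^ j = T ^ j * e₁ + e₂ := by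
    intro j
    induction j with
    | zero => rw [pow_zero, pow_zero, one_mul, hsum]
    | succ j ih =>
      rw [pow_succ, ih, hS]
      have h1 : T ^ j * e₁ * (T * e₁) = T ^ (j + 1) * e₁ := by
        rw [hT1, mul_assoc, ← mul_assoc e₁, h11, ← hT1, ← mul_assoc, ← pow_succ]
      have h2 : T ^ j * e₁ * e₂ = 0 := by rw [mul_assoc, h12, mul_zero]
      have h3 : e₂ * (T * e₁) = 0 := by
        rw [hT1, ← mul_assoc, h21, zero_mul]
      rw [add_mul, mul_add, mul_add, h1, h2, h3, h22, add_zero, zero_add]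
  have hSr : S ^ r = 1 := by rw [hSpow, hT, one_mul, hsum]
  have hS1 : S ≠ 1 := by
    intro h
    apply hne
    rw [hS, ← hsum] at h
    exact add_right_cancel h
  obtain ⟨w, hw⟩ : ∃ w : Fin n → F, e₂.mulVec w ≠ 0 := by
    by_contra hcon
    push Not at hcon
    apply he2
    apply Matrix.toLin'.injective
    apply LinearMap.ext
    intro w
    rw [Matrix.toLin'_apply, hcon w]
    simp
  refine no_fixed_of_ppd p a q hq hF σ hσq m hn r hr hrp H1 H2 S hSU hSr hS1 (e₂.mulVec w) hw ?_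
  rw [hS, Matrix.add_mulVec, Matrix.mulVec_mulVec, Matrix.mulVec_mulVec, mul_assoc, h12, mul_zero,
    h22, Matrix.zero_mulVec, zero_add]

end fix

end Cfsg.Agent.Lib.Helper49
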